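import Cfsg.Agent.Helper25.BlockFus2

set_option autoImplicit false
set_option linter.unusedSectionVars false

/-!
# Blocks with abelian defect groups: control of fusion by the inertial group (helper25)
-/

namespace Cfsg.Agent.Helper25

open Cfsg
open scoped ComplexConjugate

section AbelFus

variable {G : Type*} [Group G] [Fintype G] {p : ℕ} {M : Ideal AlgInt}

theorem stabilizes_inv (hM : M.IsPrime) (K : Subgroup G) (f : Set (IrrCharacter K))
    (hf : IsPBlock M f) (x : G) (h : StabilizesBlock K f x) : StabilizesBlock K f x⁻¹ := by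
  classical
  have : Fintype K := Fintype.ofFinite _
  have := Helper24.finite_irrCharacter (G := K)
  have : Fintype (IrrCharacter K) := Fintype.ofFinite _
  obtain ⟨hn, hc⟩ := h
  refine ⟨Subgroup.inv_mem _ hn, ?_⟩
  obtain ⟨χ₀, hχ₀⟩ := block_nonempty hM hf
  obtain ⟨χ₀', hχ₀', hconj₀⟩ := hc χ₀ hχ₀
  have e0 : nAct K ⟨x, hn⟩ χ₀' = χ₀ := by
    apply Subtype.ext
    funext k
    rw [nAct_apply]
    exact hconj₀ k _ (nMH_coe K ⟨x, hn⟩ k)
  intro χ hχ
  refine ⟨nAct K ⟨x, hn⟩ χ, ?_, ?_⟩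
  · have hs : SameBlock M (χ₀' : K → ℂ) (χ : K → ℂ) := sameBlock_of_mem_block hM hf hχ₀' hχ
    have hs2 := sameBlock_nAct K ⟨x, hn⟩ hs
    rw [e0] at hs2
    rw [block_eq_blockOf_of_mem hM hf hχ₀, mem_blockOf]
    exact hs2
  · intro k k' hk
    rw [nAct_apply]
    refine congrArg (χ : K → ℂ) (Subtype.ext ?_)
    rw [nMH_coe, hk]
    show x * (x⁻¹ * (k : G) * x⁻¹⁻¹) * x⁻¹ = (k : G)
    group

theorem map_conj_eq_of_mem_normalizer' (Q : Subgroup G) {x : G} (hx : x ∈ (Subgroup.normalizer (Q : Set G))) : (Q.map (MulAut.conj x).toMonoidHom) = Q := by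
  ext y
  rw [Helper12.mem_map_conj_iff]
  have h1 := Subgroup.mem_normalizer_iff.1 (Subgroup.inv_mem _ hx) y
  rw [inv_inv] at h1
  exact h1.symm

theorem mem_normalizer_of_map_conj_le' (P : Subgroup G) {y : G}
    (h : P.map (MulAut.conj y).toMonoidHom ≤ P) : y ∈ Subgroup.normalizer (P : Set G) := by
  have heq : P.map (MulAut.conj y).toMonoidHom = P :=
    Subgroup.eq_of_le_of_card_ge h
      (by rw [Subgroup.card_map_of_injective (MulEquiv.injective _)])
  rw [Subgroup.mem_normalizer_iff]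
  intro u
  constructor
  · intro hu
    exact h (Helper12.conj_mem_map_conj P y hu)
  · intro hu
    have h1 : y * u * y⁻¹ ∈ P.map (MulAut.conj y).toMonoidHom := by
      rw [heq]
      exact hu
    have h2 := (Helper12.mem_map_conj_iff P y _).1 h1
    have e : y⁻¹ * (y * u * y⁻¹) * y = u := by group
    rwa [e] at h2

/-- If `x` and `x⁻¹` stabilize `(Q, f)` then the conjugate pair is `(Q, f)` itself. -/
theorem pair_conj_eq_of_stab (Q : Subgroup G) (f : Set (IrrCharacter (Subgroup.centralizer (Q : Set G)))) (x : G)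
    (hx : x ∈ (Subgroup.normalizer (Q : Set G))) (hs : StabilizesBlock (Subgroup.centralizer (Q : Set G)) f x) (hs' : StabilizesBlock (Subgroup.centralizer (Q : Set G)) f x⁻¹) :
    (⟨(Q.map (MulAut.conj x).toMonoidHom), conjBlock Q x f⟩ : BrauerPairIdx G) = ⟨Q, f⟩ := by
  have hPP : (Q.map (MulAut.conj x).toMonoidHom) = Q := map_conj_eq_of_mem_normalizer' Q hx
  refine pair_eq Q _ hPP f _ ?_
  intro ξ'
  constructor
  · rintro ⟨ξ₀, hξ₀, hc⟩
    obtain ⟨χ', hχ', hconj⟩ := hs.2 ξ₀ hξ₀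
    refine ⟨χ', hχ', fun c c' hcc => ?_⟩
    have hc₀ : x⁻¹ * (c' : G) * x ∈ (Subgroup.centralizer (Q : Set G)) := mem_centralizer_of_conj_mem Q x c'.2
    have h1 := hc ⟨x⁻¹ * (c' : G) * x, hc₀⟩ c' (by
      show (c' : G) = x * (x⁻¹ * (c' : G) * x) * x⁻¹
      group)
    have h2 := hconj ⟨x⁻¹ * (c' : G) * x, hc₀⟩ c (by
      show (c : G) = x * (x⁻¹ * (c' : G) * x) * x⁻¹
      rw [← hcc]
      group)
    rw [h1, h2]
  · rintro ⟨ξ, hξ, hc⟩
    obtain ⟨χ', hχ', hconj⟩ := hs'.2 ξ hξ
    refine ⟨χ', hχ', fun c c' hcc => ?_⟩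
    have hc'Q : (c' : G) ∈ (Subgroup.centralizer (Q : Set G)) := coe_mem_of_eq Q _ hPP c'
    have h1 := hc ⟨(c' : G), hc'Q⟩ c' rfl
    have h2 := hconj ⟨(c' : G), hc'Q⟩ c (by
      show (c : G) = x⁻¹ * (c' : G) * x⁻¹⁻¹
      rw [hcc]
      group)
    rw [h1, h2]

theorem sigma_mem {K : Type*} [Group K] {a b : BrauerPairIdx K} (h : a = b) :
    a.1 = b.1 ∧ ∀ ξ' ∈ a.2, ∃ ξ ∈ b.2,
      ∀ (c : Subgroup.centralizer (b.1 : Set K)) (c' : Subgroup.centralizer (a.1 : Set K)),
        (c' : K) = (c : K) →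
        (ξ' : Subgroup.centralizer (a.1 : Set K) → ℂ) c'
          = (ξ : Subgroup.centralizer (b.1 : Set K) → ℂ) c := by
  subst h
  refine ⟨rfl, fun ξ' hξ' => ⟨ξ', hξ', fun c c' hcc => ?_⟩⟩
  rw [Subtype.ext hcc]

/-- If the conjugate pair of `(P, e)` by `y` is `(P, e)` then `y` stabilizes `(P, e)`. -/
theorem stab_of_pair_conj_eq (P : Subgroup G) (e : Set (IrrCharacter (Subgroup.centralizer (P : Set G)))) (y : G)
    (h : (⟨P.map (MulAut.conj y).toMonoidHom, conjBlock P y e⟩ : BrauerPairIdx G) = ⟨P, e⟩) :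
    y ∈ Subgroup.normalizer (P : Set G) ∧ StabilizesBlock (Subgroup.centralizer (P : Set G)) e y := by
  obtain ⟨h1, h2⟩ := sigma_mem h
  have hyN : y ∈ Subgroup.normalizer (P : Set G) :=
    mem_normalizer_of_map_conj_le' P (le_of_eq h1)
  refine ⟨hyN, normalizer_le_normalizer_centralizer' P hyN, fun χ hχ => ?_⟩
  have hξ' : (irrCongr (centConj P y)).symm χ ∈ conjBlock P y e := by
    rw [mem_conjBlock_iff, Equiv.apply_symm_apply]
    exact hχ
  obtain ⟨ξ, hξ, hc⟩ := h2 _ hξ'
  refine ⟨ξ, hξ, fun k k' hk => ?_⟩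
  have h3 := hc k' (centConj P y k) (by
    rw [centConj_coe, hk])
  rw [← h3, irrCongr_symm_apply, MulEquiv.symm_apply_apply]

theorem subpair_unique' [Fact p.Prime] (hpM : IsPModular p M) (P : Subgroup G)
    (e : Set (IrrCharacter (Subgroup.centralizer (P : Set G)))) (hPe : IsBrauerPair p M P e) :
    ∀ a b : BrauerPairIdx G, Relation.ReflTransGen (NormalSubpairRel p M) a ⟨P, e⟩ →
      Relation.ReflTransGen (NormalSubpairRel p M) b ⟨P, e⟩ → a.1 = b.1 → a = b := by
  rintro ⟨A, fa⟩ ⟨B', fb⟩ ha hb hab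
  have hab' : A = B' := hab
  subst hab'
  have h := subpair_unique hpM _ P e hPe rfl A fa fb ha hb
  rw [h]

/-- A Brauer pair of `f` whose subgroup has the order of a defect group is maximal. -/
theorem maximal_of_card {K : Type*} [Group K] [Fintype K] [Fact p.Prime]
    (hpM : IsPModular p M) (f : Set (IrrCharacter K)) (S : Subgroup K)
    (g : Set (IrrCharacter (Subgroup.centralizer (S : Set K))))
    (h : IsBrauerPairOf p M f S g) (hc : Nat.card S = p ^ blockDefect p f) :
    IsMaximalBrauerPair p M f S g := by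
  refine ⟨h, fun R g₁ hR hle => ?_⟩
  have h1 : S ≤ R := subpairLE_le hle
  obtain ⟨D, hD, hRD, -⟩ := pair_le_defect hpM f R g₁ hR
  have h2 : Nat.card D = p ^ blockDefect p f := card_defectGroup hpM h.2.1 D hD
  have h3 : Nat.card R ≤ Nat.card S := by
    rw [hc, ← h2]
    exact Subgroup.card_le_of_le hRD
  exact (Subgroup.eq_of_le_of_card_ge h1 h3).symm

theorem abelian_local_maximal [Fact p.Prime] (hpM : IsPModular p M)
    (Q : Subgroup G) (f : Set (IrrCharacter (Subgroup.centralizer (Q : Set G)))) (R : Subgroup G)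
    (g : Set (IrrCharacter (Subgroup.centralizer (R : Set G))))
    (hRH : R ≤ (Subgroup.centralizer (Q : Set G))) (hnorm : IsNormalSubpair p M Q f R g)
    (hcard : Nat.card R = p ^ blockDefect p f) :
    ∃ (ι : Subgroup.centralizer ((R.subgroupOf (Subgroup.centralizer (Q : Set G)) : Subgroup (Subgroup.centralizer (Q : Set G))) : Set (Subgroup.centralizer (Q : Set G))) ≃*
        Subgroup.centralizer (R : Set G)),
      (∀ c, ((ι c : Subgroup.centralizer (R : Set G)) : G) = ((c : (Subgroup.centralizer (Q : Set G))) : G)) ∧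
      IsMaximalBrauerPair p M f (R.subgroupOf (Subgroup.centralizer (Q : Set G))) {ψ | (irrCongr ι).symm ψ ∈ g} := by
  classical
  have hM := hpM.2.1.isPrime
  have : Fintype (Subgroup.centralizer (Q : Set G)) := Fintype.ofFinite _
  have hQR : Q ≤ R := hnorm.2.2.1
  have hS'map : (R.subgroupOf (Subgroup.centralizer (Q : Set G))).map (Subgroup.centralizer (Q : Set G)).subtype = R := Subgroup.map_subgroupOf_eq_of_le hRH
  have hR : R = Q ⊔ (R.subgroupOf (Subgroup.centralizer (Q : Set G))).map (Subgroup.centralizer (Q : Set G)).subtype := by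
    rw [hS'map]
    exact (sup_eq_right.2 hQR).symm
  obtain ⟨ι, hι⟩ := exists_centIso R (Subgroup.centralizer (Q : Set G)) (Subgroup.centralizer_le (SetLike.coe_subset_coe.2 hQR))
    (Subgroup.centralizer ((R.subgroupOf (Subgroup.centralizer (Q : Set G)) : Subgroup (Subgroup.centralizer (Q : Set G))) : Set (Subgroup.centralizer (Q : Set G))))
    (mem_cent_sup_iff Q _ R hR)
  refine ⟨ι, hι, ?_⟩
  have hgg : ∀ ξ : IrrCharacter (Subgroup.centralizer (R : Set G)),
      irrCongr ι ξ ∈ {ψ | (irrCongr ι).symm ψ ∈ g} ↔ ξ ∈ g := by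
    intro ξ
    show (irrCongr ι).symm (irrCongr ι ξ) ∈ g ↔ ξ ∈ g
    rw [Equiv.symm_apply_apply]
  have hpair := centPair_of_normal hM Q (R.subgroupOf (Subgroup.centralizer (Q : Set G))) R hR ι hι f g _ hgg hnorm
  refine maximal_of_card hpM f _ _ hpair ?_
  rw [← hcard]
  exact Nat.card_congr (Subgroup.subgroupOfEquivOfLe hRH).toEquiv

/-- Control of fusion for a maximal Brauer pair with abelian subgroup. -/
theorem abelian_fusion_control [Fact p.Prime] (hpM : IsPModular p M) (B : Set (IrrCharacter G))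
    (P : Subgroup G) (e : Set (IrrCharacter (Subgroup.centralizer (P : Set G)))) (hmax : IsMaximalBrauerPair p M B P e)
    (hab : ∀ x ∈ P, ∀ y ∈ P, x * y = y * x)
    (Q : Subgroup G) (f : Set (IrrCharacter (Subgroup.centralizer (Q : Set G)))) (hQP : Q ≤ P) (hf : IsPBlock M f)
    (hle : SubpairLE p M Q f P e)
    (x : G) (hxN : x ∈ (Subgroup.normalizer (Q : Set G))) (hxs : StabilizesBlock (Subgroup.centralizer (Q : Set G)) f x) :
    ∃ y, y ∈ Subgroup.normalizer (P : Set G) ∧ StabilizesBlock (Subgroup.centralizer (P : Set G)) e y ∧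
      ∃ c ∈ (Subgroup.centralizer (Q : Set G)), x = y * c := by
  classical
  have hM := hpM.2.1.isPrime
  have hPe : IsBrauerPair p M P e := hmax.1.1
  have : Fintype (Subgroup.centralizer (Q : Set G)) := Fintype.ofFinite _
  have hcentP : ∀ R : Subgroup G, R ≤ P → P ≤ Subgroup.centralizer (R : Set G) := by
    intro R hR u hu
    rw [Subgroup.mem_centralizer_iff]
    intro q hq
    exact hab q (hR hq) u hu
  have hPH : P ≤ (Subgroup.centralizer (Q : Set G)) := hcentP Q hQP
  have hPN : P ≤ (Subgroup.normalizer (Q : Set G)) := hPH.trans (Subgroup.centralizer_le_normalizer _)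
  obtain ⟨f', hf', -⟩ := normalSubpair_existsUnique hpM P Q e hPe hQP hPN
  have hff : f' = f :=
    subpair_unique hpM _ P e hPe rfl Q f' f (Relation.ReflTransGen.single hf') hle
  rw [hff] at hf'
  -- the order of P
  obtain ⟨-, x₀, hle₀, hD₀⟩ := fully_centralized hpM B P Q e f hmax hQP hle
  have : Fintype (Subgroup.centralizer (((Q.map (MulAut.conj x₀).toMonoidHom) : Subgroup G) : Set G)) := Fintype.ofFinite _
  have hPH₀ : P ≤ Subgroup.centralizer (((Q.map (MulAut.conj x₀).toMonoidHom) : Subgroup G) : Set G) :=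
    hcentP _ (subpairLE_le hle₀)
  have hc₀ := card_defectGroup hpM (isPBlock_conjBlock hM Q x₀ hf) _ hD₀
  have hcard : Nat.card P = p ^ blockDefect p f := by
    rw [blockDefect_conjBlock Q x₀ f, ← hc₀, inf_eq_left.2 hPH₀]
    exact (Nat.card_congr (Subgroup.subgroupOfEquivOfLe hPH₀).toEquiv).symm
  obtain ⟨ι, hι, hmax'⟩ := abelian_local_maximal hpM Q f P e hPH hf' hcard
  -- the conjugate pair
  have hxs' := stabilizes_inv hM (Subgroup.centralizer (Q : Set G)) f hf x hxs
  have hpc := pair_conj_eq_of_stab Q f x hxN hxs hxs'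
  have hnx := normalSubpair_conj hM x hf'
  have hnx' : IsNormalSubpair p M Q f (P.map (MulAut.conj x).toMonoidHom) (conjBlock P x e) := by
    have hrel : NormalSubpairRel p M (⟨(Q.map (MulAut.conj x).toMonoidHom), conjBlock Q x f⟩ : BrauerPairIdx G)
        ⟨(P.map (MulAut.conj x).toMonoidHom), conjBlock P x e⟩ := hnx
    rw [hpc] at hrel
    exact hrel
  have hQPx : Q ≤ (P.map (MulAut.conj x).toMonoidHom) := hnx'.2.2.1
  have habx : ∀ u ∈ (P.map (MulAut.conj x).toMonoidHom), ∀ v ∈ (P.map (MulAut.conj x).toMonoidHom), u * v = v * u := by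
    intro u hu v hv
    have h1 := hab _ ((Helper12.mem_map_conj_iff P x u).1 hu) _
      ((Helper12.mem_map_conj_iff P x v).1 hv)
    have e1 : u * v = x * (x⁻¹ * u * x * (x⁻¹ * v * x)) * x⁻¹ := by group
    have e2 : v * u = x * (x⁻¹ * v * x * (x⁻¹ * u * x)) * x⁻¹ := by group
    rw [e1, e2, h1]
  have hPxH : (P.map (MulAut.conj x).toMonoidHom) ≤ (Subgroup.centralizer (Q : Set G)) := by
    intro u hu
    rw [Subgroup.mem_centralizer_iff]
    intro q hq
    exact habx q (hQPx hq) u hu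
  have hcardx : Nat.card (P.map (MulAut.conj x).toMonoidHom) = p ^ blockDefect p f := by
    rw [← hcard]
    exact Subgroup.card_map_of_injective (MulEquiv.injective _)
  obtain ⟨ιx, hιx, hmaxx⟩ := abelian_local_maximal hpM Q f (P.map (MulAut.conj x).toMonoidHom) (conjBlock P x e) hPxH hnx' hcardx
  obtain ⟨c, hz⟩ := maximal_pairs_conj hpM f _ _ _ _ hmax' hmaxx
  obtain ⟨hz1, hz2⟩ := sigma_mem hz
  have hz1' : ((P.map (MulAut.conj x).toMonoidHom).subgroupOf (Subgroup.centralizer (Q : Set G))).map (MulAut.conj c).toMonoidHom = P.subgroupOf (Subgroup.centralizer (Q : Set G)) := hz1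
  have hyP : ∀ u ∈ P, (c : G) * x * u * ((c : G) * x)⁻¹ ∈ P := by
    intro u hu
    have h1 : x * u * x⁻¹ ∈ (P.map (MulAut.conj x).toMonoidHom) := Helper12.conj_mem_map_conj P x hu
    have h2 : (⟨x * u * x⁻¹, hPxH h1⟩ : (Subgroup.centralizer (Q : Set G))) ∈ (P.map (MulAut.conj x).toMonoidHom).subgroupOf (Subgroup.centralizer (Q : Set G)) := by
      rw [Subgroup.mem_subgroupOf]
      exact h1
    have h3 := Helper12.conj_mem_map_conj ((P.map (MulAut.conj x).toMonoidHom).subgroupOf (Subgroup.centralizer (Q : Set G))) c h2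
    rw [hz1', Subgroup.mem_subgroupOf] at h3
    have e1 : (c : G) * x * u * ((c : G) * x)⁻¹
        = ((c * ⟨x * u * x⁻¹, hPxH h1⟩ * c⁻¹ : (Subgroup.centralizer (Q : Set G))) : G) := by
      rw [Subgroup.coe_mul, Subgroup.coe_mul, Subgroup.coe_inv]
      show (c : G) * x * u * ((c : G) * x)⁻¹ = (c : G) * (x * u * x⁻¹) * (c : G)⁻¹
      group
    rw [e1]
    exact h3
  have hyN : (c : G) * x ∈ Subgroup.normalizer (P : Set G) := by
    refine mem_normalizer_of_map_conj_le' P ?_
    intro v hv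
    have h1 := hyP _ ((Helper12.mem_map_conj_iff P _ v).1 hv)
    have e1 : (c : G) * x * (((c : G) * x)⁻¹ * v * ((c : G) * x)) * ((c : G) * x)⁻¹ = v := by
      group
    rwa [e1] at h1
  refine ⟨(c : G) * x, hyN, ⟨normalizer_le_normalizer_centralizer' P hyN, fun χ hχ => ?_⟩, ?_⟩
  · have hξ₁ : (irrCongr (centConj P x)).symm χ ∈ conjBlock P x e := by
      rw [mem_conjBlock_iff, Equiv.apply_symm_apply]
      exact hχ
    have hξ₂ : irrCongr ιx ((irrCongr (centConj P x)).symm χ)
        ∈ {ψ | (irrCongr ιx).symm ψ ∈ conjBlock P x e} := by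
      show (irrCongr ιx).symm (irrCongr ιx _) ∈ conjBlock P x e
      rw [Equiv.symm_apply_apply]
      exact hξ₁
    have hξ₃ : (irrCongr (centConj ((P.map (MulAut.conj x).toMonoidHom).subgroupOf (Subgroup.centralizer (Q : Set G))) c)).symm
        (irrCongr ιx ((irrCongr (centConj P x)).symm χ))
        ∈ conjBlock ((P.map (MulAut.conj x).toMonoidHom).subgroupOf (Subgroup.centralizer (Q : Set G))) c {ψ | (irrCongr ιx).symm ψ ∈ conjBlock P x e} := by
      rw [mem_conjBlock_iff, Equiv.apply_symm_apply]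
      exact hξ₂
    obtain ⟨ξ₄, hξ₄, hc4⟩ := hz2 _ hξ₃
    refine ⟨(irrCongr ι).symm ξ₄, hξ₄, fun k k' hk => ?_⟩
    rw [irrCongr_symm_apply]
    have hk4 : (((ι.symm k' : Subgroup.centralizer ((P.subgroupOf (Subgroup.centralizer (Q : Set G)) : Subgroup (Subgroup.centralizer (Q : Set G))) : Set (Subgroup.centralizer (Q : Set G))))
        : (Subgroup.centralizer (Q : Set G))) : G) = (k' : G) := by
      have h := hι (ι.symm k')
      rw [MulEquiv.apply_symm_apply] at h
      exact h.symm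
    have hk3mem : ((ι.symm k' : Subgroup.centralizer ((P.subgroupOf (Subgroup.centralizer (Q : Set G)) : Subgroup (Subgroup.centralizer (Q : Set G))) : Set (Subgroup.centralizer (Q : Set G))))
        : (Subgroup.centralizer (Q : Set G))) ∈ Subgroup.centralizer
          ((((P.map (MulAut.conj x).toMonoidHom).subgroupOf (Subgroup.centralizer (Q : Set G))).map (MulAut.conj c).toMonoidHom : Subgroup (Subgroup.centralizer (Q : Set G))) : Set (Subgroup.centralizer (Q : Set G))) :=
      coe_mem_of_eq _ _ hz1'.symm (ι.symm k')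
    have h4 := hc4 (ι.symm k') ⟨_, hk3mem⟩ rfl
    refine h4.symm.trans ?_
    rw [irrCongr_symm_apply, irrCongr_apply, irrCongr_symm_apply]
    refine congrArg (χ : (Subgroup.centralizer (P : Set G)) → ℂ) (Subtype.ext ?_)
    rw [centConj_symm_coe, hιx, centConj_symm_coe]
    rw [Subgroup.coe_mul, Subgroup.coe_mul, Subgroup.coe_inv]
    show x⁻¹ * ((c : G)⁻¹ * (((ι.symm k' :
      Subgroup.centralizer ((P.subgroupOf (Subgroup.centralizer (Q : Set G)) : Subgroup (Subgroup.centralizer (Q : Set G))) : Set (Subgroup.centralizer (Q : Set G)))) : (Subgroup.centralizer (Q : Set G))) : G) * (c : G)) * x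
        = (k : G)
    rw [hk4, hk]
    group
  · refine ⟨x⁻¹ * (c : G)⁻¹ * x, ?_, by group⟩
    have h1 := (Subgroup.mem_normalizer_iff.1 (Subgroup.inv_mem _ hxs.1) (c : G)⁻¹).1
      (Subgroup.inv_mem _ c.2)
    rwa [inv_inv] at h1

theorem stabilizes_one (K : Subgroup G) (f : Set (IrrCharacter K)) : StabilizesBlock K f 1 := by
  refine ⟨Subgroup.one_mem _, fun χ hχ => ⟨χ, hχ, fun k k' hk => ?_⟩⟩
  have e1 : k' = k := Subtype.ext (by
    rw [hk]
    group)
  rw [e1]

theorem stabilizes_mul (K : Subgroup G) (f : Set (IrrCharacter K)) (g h : G)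
    (hg : StabilizesBlock K f g) (hh : StabilizesBlock K f h) : StabilizesBlock K f (g * h) := by
  refine ⟨Subgroup.mul_mem _ hg.1 hh.1, fun χ hχ => ?_⟩
  obtain ⟨χ₁, hχ₁, h1⟩ := hh.2 χ hχ
  obtain ⟨χ₂, hχ₂, h2⟩ := hg.2 χ₁ hχ₁
  refine ⟨χ₂, hχ₂, fun k k' hk => ?_⟩
  have hmem : h * (k : G) * h⁻¹ ∈ K := (Subgroup.mem_normalizer_iff.1 hh.1 k).1 k.2
  have e1 : (k' : G) = g * ((⟨h * (k : G) * h⁻¹, hmem⟩ : K) : G) * g⁻¹ := by
    show (k' : G) = g * (h * (k : G) * h⁻¹) * g⁻¹
    rw [hk]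
    group
  rw [h2 ⟨_, hmem⟩ k' e1, h1 k ⟨_, hmem⟩ rfl]

theorem exists_stabSubgroup (hM : M.IsPrime) (Q : Subgroup G) (f : Set (IrrCharacter (Subgroup.centralizer (Q : Set G))))
    (hf : IsPBlock M f) :
    ∃ T : Subgroup G, ∀ y : G, y ∈ T ↔ y ∈ (Subgroup.normalizer (Q : Set G)) ∧ StabilizesBlock (Subgroup.centralizer (Q : Set G)) f y :=
  ⟨{ carrier := {y | y ∈ (Subgroup.normalizer (Q : Set G)) ∧ StabilizesBlock (Subgroup.centralizer (Q : Set G)) f y}
     mul_mem' := fun ha hb => ⟨Subgroup.mul_mem _ ha.1 hb.1, stabilizes_mul _ f _ _ ha.2 hb.2⟩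
     one_mem' := ⟨Subgroup.one_mem _, stabilizes_one _ f⟩
     inv_mem' := fun ha => ⟨Subgroup.inv_mem _ ha.1, stabilizes_inv hM _ f hf _ ha.2⟩ },
   fun y => Iff.rfl⟩

/-- A Brauer pair `(P, e)` of `B`: the block `e` of `C_G(P)` induces `B`. -/
theorem pair_induces [Fact p.Prime] (hpM : IsPModular p M) (B : Set (IrrCharacter G))
    (P : Subgroup G) (e : Set (IrrCharacter (Subgroup.centralizer (P : Set G)))) (hBe : IsBrauerPairOf p M B P e) :
    IsInducedBlock M (Subgroup.centralizer (P : Set G)) e B := by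
  classical
  have hM := hpM.2.1.isPrime
  have : Fintype (Subgroup.centralizer (P : Set G)) := Fintype.ofFinite _
  have := Helper24.finite_irrCharacter (G := G)
  have : Fintype (IrrCharacter G) := Fintype.ofFinite _
  by_contra hnot
  obtain ⟨ψ, hψ⟩ := block_nonempty hM hBe.1.2
  have h1 := brLam_mem_of_not_induced hpM P hBe.1.1 (Subgroup.centralizer (P : Set G)) rfl e hBe.1.2 B hBe.2.1 hnot ψ hψ
  have h2 := hBe.2.2 ψ hψ
  have h3 : brauerOmega P (blockCoeff B) (ψ : (Subgroup.centralizer (P : Set G)) → ℂ)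
      = brLam (Subgroup.centralizer (P : Set G)) ψ (fun χ : IrrCharacter G => if χ ∈ B then (1 : ℂ) else 0) := by
    rw [brauerOmega_eq_sum]
    unfold brLam
    refine Finset.sum_congr rfl fun c _ => ?_
    rw [blockCoeff_eq_coeffT]
  rw [h3] at h2
  have h4 := MemLocalIdeal.sub hM h1 h2
  rw [sub_sub_cancel] at h4
  exact not_memLocalIdeal_one h4

/-- The inertial index of a maximal Brauer pair with abelian subgroup is prime to `p`. -/
theorem abelian_inertial_index [Fact p.Prime] (hpM : IsPModular p M) (B : Set (IrrCharacter G))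
    (P : Subgroup G) (e : Set (IrrCharacter (Subgroup.centralizer (P : Set G)))) (hmax : IsMaximalBrauerPair p M B P e)
    (hab : ∀ x ∈ P, ∀ y ∈ P, x * y = y * x) (T : Subgroup G)
    (hT : ∀ y : G, y ∈ T ↔ y ∈ (Subgroup.normalizer (P : Set G)) ∧ StabilizesBlock (Subgroup.centralizer (P : Set G)) e y) :
    ¬ p ∣ (Subgroup.centralizer (P : Set G)).relIndex T := by
  classical
  have hM := hpM.2.1.isPrime
  have hBe := hmax.1
  have hP : IsPGroup p P := hBe.1.1
  have he : IsPBlock M e := hBe.1.2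
  have : Fintype (Subgroup.centralizer (P : Set G)) := Fintype.ofFinite _
  have : Fintype (Subgroup.normalizer (P : Set G)) := Fintype.ofFinite _
  have := Helper24.finite_irrCharacter (G := G)
  have : Fintype (IrrCharacter G) := Fintype.ofFinite _
  have := Helper24.finite_irrCharacter (G := (Subgroup.centralizer (P : Set G)))
  have : Fintype (IrrCharacter (Subgroup.centralizer (P : Set G))) := Fintype.ofFinite _
  have hPH : P ≤ (Subgroup.centralizer (P : Set G)) := by
    intro u hu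
    rw [Subgroup.mem_centralizer_iff]
    intro q hq
    exact hab q hq u hu
  have hD : IsDefectGroup p M B P := maximal_pair_defect hpM (Subgroup.normalizer (P : Set G)) P rfl B e hmax
  have hind : IsInducedBlock M (Subgroup.centralizer (P : Set G)) e B := pair_induces hpM B P e hBe
  have hbP : IsDefectGroup p M e (P.subgroupOf (Subgroup.centralizer (P : Set G))) :=
    defect_of_induced hpM P (Subgroup.centralizer (P : Set G)) hPH (Subgroup.centralizer_le_normalizer _) e B hind hD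
  refine (fr_stabilizer_index hpM P hP (Subgroup.centralizer (P : Set G)) (sup_eq_right.2 hPH).symm e he hbP B hind T ?_).1 hD
  intro g
  rw [hT]
  constructor
  · rintro ⟨hgN, hgs⟩
    refine ⟨hgN, fun θ hθ θ' hθ' => ?_⟩
    obtain ⟨χ', hχ', hc⟩ := hgs.2 θ hθ
    have e1 : θ' = χ' := by
      apply Subtype.ext
      funext h'
      have hmem : g⁻¹ * (h' : G) * g ∈ (Subgroup.centralizer (P : Set G)) := by
        have h1 := (Subgroup.mem_normalizer_iff.1 (Subgroup.inv_mem _ hgs.1) (h' : G)).1 h'.2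
        rwa [inv_inv] at h1
      have e2 : (h' : G) = g * ((⟨g⁻¹ * (h' : G) * g, hmem⟩ : (Subgroup.centralizer (P : Set G))) : G) * g⁻¹ := by
        show (h' : G) = g * (g⁻¹ * (h' : G) * g) * g⁻¹
        group
      rw [hθ' _ h' e2, hc _ h' e2]
    rw [e1]
    exact hχ'
  · rintro ⟨hgN, hg⟩
    have hgK : g ∈ Subgroup.normalizer ((Subgroup.centralizer (P : Set G)) : Set G) :=
      normalizer_le_normalizer_centralizer' P hgN
    refine ⟨hgN, hgK, fun χ hχ => ?_⟩
    have hc : IsConjCharOf (Subgroup.centralizer (P : Set G)) g (χ : (Subgroup.centralizer (P : Set G)) → ℂ)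
        (nAct (Subgroup.centralizer (P : Set G)) ⟨g⁻¹, Subgroup.inv_mem _ hgK⟩ χ : (Subgroup.centralizer (P : Set G)) → ℂ) := by
      intro k k' hk
      rw [nAct_apply]
      refine congrArg (χ : (Subgroup.centralizer (P : Set G)) → ℂ) (Subtype.ext ?_)
      rw [nMH_coe, hk]
      show g⁻¹ * (g * (k : G) * g⁻¹) * g⁻¹⁻¹ = (k : G)
      group
    exact ⟨_, hg χ hχ _ hc, hc⟩

end AbelFus

end Cfsg.Agent.Helper25
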