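import Cfsg.Agent.Helper25.FullNorm
import Cfsg.Prelude.Def_BlockFusion

set_option autoImplicit false
set_option linter.unusedSectionVars false

/-!
# The fusion system of a block: fully centralized, fully normalized, centric (helper25)
-/

namespace Cfsg.Agent.Helper25

open Cfsg
open scoped ComplexConjugate

section BlockFus

variable {G : Type*} [Group G] [Fintype G] {p : ℕ} {M : Ideal AlgInt}

/-- The conjugates of `Q` in the fusion system of a block. -/
theorem blockFusion_isConj_iff [Fact p.Prime] (hpM : IsPModular p M) (B : Set (IrrCharacter G))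
    (P : Subgroup G) (e : Set (IrrCharacter (Subgroup.centralizer (P : Set G))))
    (F : FusionSystem P) (hF : IsBlockFusionSystemOn p M B P e F) (Q : Subgroup G)
    (f : Set (IrrCharacter (Subgroup.centralizer (Q : Set G)))) (hle : SubpairLE p M Q f P e) (Q' : Subgroup G) :
    F.IsConj Q Q' ↔ ∃ x : G, Q' = (Q.map (MulAut.conj x).toMonoidHom) ∧ SubpairLE p M (Q.map (MulAut.conj x).toMonoidHom) (conjBlock Q x f) P e := by
  have hPe := hF.1.1.1
  have hQP : Q ≤ P := subpairLE_le hle
  constructor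
  · rintro ⟨φ, hφ, hrange⟩
    obtain ⟨-, x, hg, -, f₁, h1, h2⟩ := (hF.2 Q φ).1 hφ
    have hff : f₁ = f := subpair_unique hpM _ P e hPe rfl Q f₁ f h1 hle
    rw [hff] at h2
    refine ⟨x, ?_, h2⟩
    rw [← hrange]
    ext y
    rw [MonoidHom.mem_range, Subgroup.mem_map]
    constructor
    · rintro ⟨u, rfl⟩
      exact ⟨(u : G), u.2, (hg u).symm⟩
    · rintro ⟨u, hu, rfl⟩
      exact ⟨⟨u, hu⟩, hg ⟨u, hu⟩⟩
  · rintro ⟨x, rfl, h2⟩
    refine ⟨conjHom Q x, (hF.2 Q (conjHom Q x)).2
      ⟨hQP, x, fun u => rfl, subpairLE_le h2, f, hle, h2⟩, ?_⟩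
    ext y
    rw [MonoidHom.mem_range, Subgroup.mem_map]
    constructor
    · rintro ⟨u, rfl⟩
      exact ⟨(u : G), u.2, rfl⟩
    · rintro ⟨u, hu, rfl⟩
      exact ⟨⟨u, hu⟩, rfl⟩

theorem blockDefect_conjBlock (Q : Subgroup G) (x : G) (f : Set (IrrCharacter (Subgroup.centralizer (Q : Set G)))) :
    blockDefect p f = blockDefect p (conjBlock Q x f) :=
  blockDefect_irrCongr (centConj Q x) f (conjBlock Q x f)
    (fun ψ => (mem_conjBlock_iff Q x f ψ).symm)

theorem card_cent_le [Fact p.Prime] (hpM : IsPModular p M) (P Q : Subgroup G)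
    (e : Set (IrrCharacter (Subgroup.centralizer (P : Set G))))
    (f : Set (IrrCharacter (Subgroup.centralizer (Q : Set G)))) (hPe : IsBrauerPair p M P e) (hQP : Q ≤ P)
    (hle : SubpairLE p M Q f P e) :
    Nat.card ↥(P ⊓ (Subgroup.centralizer (Q : Set G))) ≤ p ^ blockDefect p f ∧
    (IsDefectGroup p M f ((P ⊓ (Subgroup.centralizer (Q : Set G))).subgroupOf (Subgroup.centralizer (Q : Set G)))
      ↔ Nat.card ↥(P ⊓ (Subgroup.centralizer (Q : Set G))) = p ^ blockDefect p f) ∧
    ∀ A : Subgroup G, A ≤ P ⊓ (Subgroup.centralizer (Q : Set G)) → Nat.card A = p ^ blockDefect p f →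
      IsDefectGroup p M f (A.subgroupOf (Subgroup.centralizer (Q : Set G))) := by
  classical
  have : Fintype (Subgroup.centralizer (Q : Set G)) := Fintype.ofFinite _
  obtain ⟨g', hg'⟩ := cent_pair hpM P Q e f hPe hQP hle
  obtain ⟨D, hD, hSD, -⟩ := pair_le_defect hpM f _ g' hg'
  have hf : IsPBlock M f := hg'.2.1
  have hc : Nat.card D = p ^ blockDefect p f := card_defectGroup hpM hf D hD
  have hcS : Nat.card ((P ⊓ (Subgroup.centralizer (Q : Set G))).subgroupOf (Subgroup.centralizer (Q : Set G))) = Nat.card ↥(P ⊓ (Subgroup.centralizer (Q : Set G))) :=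
    Nat.card_congr (Subgroup.subgroupOfEquivOfLe (inf_le_right : P ⊓ (Subgroup.centralizer (Q : Set G)) ≤ (Subgroup.centralizer (Q : Set G)))).toEquiv
  refine ⟨?_, ⟨?_, ?_⟩, ?_⟩
  · rw [← hc, ← hcS]
    exact Subgroup.card_le_of_le hSD
  · intro h
    rw [← hcS]
    exact card_defectGroup hpM hf _ h
  · intro h
    have heq : (P ⊓ (Subgroup.centralizer (Q : Set G))).subgroupOf (Subgroup.centralizer (Q : Set G)) = D :=
      Subgroup.eq_of_le_of_card_ge hSD (by rw [hc, hcS, h])
    rw [heq]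
    exact hD
  · intro A hA hcA
    have hAS : A.subgroupOf (Subgroup.centralizer (Q : Set G)) ≤ (P ⊓ (Subgroup.centralizer (Q : Set G))).subgroupOf (Subgroup.centralizer (Q : Set G)) := by
      intro c hc'
      exact Subgroup.mem_subgroupOf.2 (hA (Subgroup.mem_subgroupOf.1 hc'))
    have hcA' : Nat.card (A.subgroupOf (Subgroup.centralizer (Q : Set G))) = Nat.card A :=
      Nat.card_congr (Subgroup.subgroupOfEquivOfLe (le_trans hA inf_le_right)).toEquiv
    have heq : A.subgroupOf (Subgroup.centralizer (Q : Set G)) = D :=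
      Subgroup.eq_of_le_of_card_ge (le_trans hAS hSD) (by rw [hc, hcA', hcA])
    rw [heq]
    exact hD

/-- `Q` is fully centralized in the fusion system of `B` iff `C_P(Q)` is a defect group of
`f`. -/
theorem fullyCentralized_iff [Fact p.Prime] (hpM : IsPModular p M) (B : Set (IrrCharacter G))
    (P : Subgroup G) (e : Set (IrrCharacter (Subgroup.centralizer (P : Set G))))
    (hmax : IsMaximalBrauerPair p M B P e) (F : FusionSystem P)
    (hF : IsBlockFusionSystemOn p M B P e F) (Q : Subgroup G)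
    (f : Set (IrrCharacter (Subgroup.centralizer (Q : Set G)))) (hQP : Q ≤ P) (hle : SubpairLE p M Q f P e) :
    F.IsFullyCentralized Q ↔ IsDefectGroup p M f ((P ⊓ (Subgroup.centralizer (Q : Set G))).subgroupOf (Subgroup.centralizer (Q : Set G))) := by
  have hPe := hmax.1.1
  obtain ⟨hb, hiff, -⟩ := card_cent_le hpM P Q e f hPe hQP hle
  rw [hiff]
  constructor
  · rintro ⟨-, hfc⟩
    obtain ⟨-, x, hlex, hDx⟩ := fully_centralized hpM B P Q e f hmax hQP hle
    have h1 := (card_cent_le hpM P (Q.map (MulAut.conj x).toMonoidHom) e (conjBlock Q x f) hPe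
      (subpairLE_le hlex) hlex).2.1.1 hDx
    have h2 := hfc (Q.map (MulAut.conj x).toMonoidHom) ((blockFusion_isConj_iff hpM B P e F hF Q f hle _).2 ⟨x, rfl, hlex⟩)
    have h3 : Nat.card ↥(P ⊓ (Subgroup.centralizer ((Q.map (MulAut.conj x).toMonoidHom : Subgroup G) : Set G))) ≤ Nat.card ↥(P ⊓ (Subgroup.centralizer (Q : Set G))) := h2
    rw [h1, ← blockDefect_conjBlock Q x f] at h3
    exact le_antisymm hb h3
  · intro h
    refine ⟨hQP, fun Q' hQ' => ?_⟩
    obtain ⟨x, rfl, hlex⟩ := (blockFusion_isConj_iff hpM B P e F hF Q f hle Q').1 hQ'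
    have h1 := (card_cent_le hpM P (Q.map (MulAut.conj x).toMonoidHom) e (conjBlock Q x f) hPe (subpairLE_le hlex) hlex).1
    rw [← blockDefect_conjBlock Q x f, ← h] at h1
    exact h1

theorem center_map_conj (Q : Subgroup G) (x : G) :
    (Q ⊓ (Subgroup.centralizer (Q : Set G))).map (MulAut.conj x).toMonoidHom = (Q.map (MulAut.conj x).toMonoidHom) ⊓ (Subgroup.centralizer ((Q.map (MulAut.conj x).toMonoidHom : Subgroup G) : Set G)) := by
  ext y
  rw [Helper12.mem_map_conj_iff, Subgroup.mem_inf, Subgroup.mem_inf,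
    Helper12.mem_map_conj_iff, mem_centralizer_map_conj_iff]

/-- `Q` is centric in the fusion system of `B` iff `Z(Q)` is a defect group of `f`. -/
theorem centric_iff [Fact p.Prime] (hpM : IsPModular p M) (B : Set (IrrCharacter G))
    (P : Subgroup G) (e : Set (IrrCharacter (Subgroup.centralizer (P : Set G))))
    (hmax : IsMaximalBrauerPair p M B P e) (F : FusionSystem P)
    (hF : IsBlockFusionSystemOn p M B P e F) (Q : Subgroup G)
    (f : Set (IrrCharacter (Subgroup.centralizer (Q : Set G)))) (hQP : Q ≤ P) (hle : SubpairLE p M Q f P e) :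
    F.IsCentric Q ↔ IsDefectGroup p M f ((Q ⊓ (Subgroup.centralizer (Q : Set G))).subgroupOf (Subgroup.centralizer (Q : Set G))) := by
  classical
  have hPe := hmax.1.1
  have : Fintype (Subgroup.centralizer (Q : Set G)) := Fintype.ofFinite _
  obtain ⟨hb, hiff, hA⟩ := card_cent_le hpM P Q e f hPe hQP hle
  have hZP : Q ⊓ (Subgroup.centralizer (Q : Set G)) ≤ P ⊓ (Subgroup.centralizer (Q : Set G)) := inf_le_inf_right _ hQP
  have hcz : ∀ x : G, Nat.card ↥((Q.map (MulAut.conj x).toMonoidHom) ⊓ (Subgroup.centralizer ((Q.map (MulAut.conj x).toMonoidHom : Subgroup G) : Set G))) = Nat.card ↥(Q ⊓ (Subgroup.centralizer (Q : Set G))) := by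
    intro x
    rw [← center_map_conj Q x, Subgroup.card_map_of_injective (MulEquiv.injective _)]
  constructor
  · rintro ⟨-, hcen⟩
    obtain ⟨-, x, hlex, hDx⟩ := fully_centralized hpM B P Q e f hmax hQP hle
    have h1 := (card_cent_le hpM P (Q.map (MulAut.conj x).toMonoidHom) e (conjBlock Q x f) hPe
      (subpairLE_le hlex) hlex).2.1.1 hDx
    have h2 := hcen (Q.map (MulAut.conj x).toMonoidHom) ((blockFusion_isConj_iff hpM B P e F hF Q f hle _).2 ⟨x, rfl, hlex⟩)
    have h3 : P ⊓ (Subgroup.centralizer ((Q.map (MulAut.conj x).toMonoidHom : Subgroup G) : Set G)) ≤ (Q.map (MulAut.conj x).toMonoidHom) := h2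
    have h4 : P ⊓ (Subgroup.centralizer ((Q.map (MulAut.conj x).toMonoidHom : Subgroup G) : Set G)) = (Q.map (MulAut.conj x).toMonoidHom) ⊓ (Subgroup.centralizer ((Q.map (MulAut.conj x).toMonoidHom : Subgroup G) : Set G)) :=
      le_antisymm (le_inf h3 inf_le_right) (inf_le_inf_right _ (subpairLE_le hlex))
    rw [h4, hcz x, ← blockDefect_conjBlock Q x f] at h1
    exact hA (Q ⊓ (Subgroup.centralizer (Q : Set G))) hZP h1
  · intro h
    have hf : IsPBlock M f := by
      obtain ⟨g', hg'⟩ := cent_pair hpM P Q e f hPe hQP hle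
      exact hg'.2.1
    have hcZ' : Nat.card ((Q ⊓ (Subgroup.centralizer (Q : Set G))).subgroupOf (Subgroup.centralizer (Q : Set G))) = Nat.card ↥(Q ⊓ (Subgroup.centralizer (Q : Set G))) :=
      Nat.card_congr (Subgroup.subgroupOfEquivOfLe (inf_le_right : Q ⊓ (Subgroup.centralizer (Q : Set G)) ≤ (Subgroup.centralizer (Q : Set G)))).toEquiv
    have hcZ : Nat.card ↥(Q ⊓ (Subgroup.centralizer (Q : Set G))) = p ^ blockDefect p f := by
      rw [← hcZ']
      exact card_defectGroup hpM hf _ h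
    refine ⟨hQP, fun Q' hQ' => ?_⟩
    obtain ⟨x, rfl, hlex⟩ := (blockFusion_isConj_iff hpM B P e F hF Q f hle Q').1 hQ'
    have h1 := (card_cent_le hpM P (Q.map (MulAut.conj x).toMonoidHom) e (conjBlock Q x f) hPe (subpairLE_le hlex) hlex).1
    rw [← blockDefect_conjBlock Q x f, ← hcZ, ← hcz x] at h1
    have h5 : (Q.map (MulAut.conj x).toMonoidHom) ⊓ (Subgroup.centralizer ((Q.map (MulAut.conj x).toMonoidHom : Subgroup G) : Set G)) ≤ P ⊓ (Subgroup.centralizer ((Q.map (MulAut.conj x).toMonoidHom : Subgroup G) : Set G)) := inf_le_inf_right _ (subpairLE_le hlex)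
    have h6 : (Q.map (MulAut.conj x).toMonoidHom) ⊓ (Subgroup.centralizer ((Q.map (MulAut.conj x).toMonoidHom : Subgroup G) : Set G)) = P ⊓ (Subgroup.centralizer ((Q.map (MulAut.conj x).toMonoidHom : Subgroup G) : Set G)) := Subgroup.eq_of_le_of_card_ge h5 h1
    show P ⊓ (Subgroup.centralizer ((Q.map (MulAut.conj x).toMonoidHom : Subgroup G) : Set G)) ≤ (Q.map (MulAut.conj x).toMonoidHom)
    rw [← h6]
    exact inf_le_left

end BlockFus

end Cfsg.Agent.Helper25
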