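import Cfsg.Agent.Helper25.BlockFus

set_option autoImplicit false
set_option linter.unusedSectionVars false

/-!
# The fusion system of a block: fully normalized subgroups (helper25)
-/

namespace Cfsg.Agent.Helper25

open Cfsg
open scoped ComplexConjugate

section BlockFus2

variable {G : Type*} [Group G] [Fintype G] {p : ℕ} {M : Ideal AlgInt}

theorem stab_map_conj (Q : Subgroup G) (f : Set (IrrCharacter (Subgroup.centralizer (Q : Set G)))) (T : Subgroup G)
    (hT : ∀ y : G, y ∈ T ↔ y ∈ (Subgroup.normalizer (Q : Set G)) ∧ StabilizesBlock (Subgroup.centralizer (Q : Set G)) f y) (x : G) :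
    ∀ y : G, y ∈ T.map (MulAut.conj x).toMonoidHom
      ↔ y ∈ (Subgroup.normalizer ((Q.map (MulAut.conj x).toMonoidHom : Subgroup G) : Set G)) ∧ StabilizesBlock (Subgroup.centralizer ((Q.map (MulAut.conj x).toMonoidHom : Subgroup G) : Set G)) (conjBlock Q x f) y := by
  intro y
  rw [Helper12.mem_map_conj_iff, hT]
  have e1 : x * (x⁻¹ * y * x) * x⁻¹ = y := by group
  have h1 := mem_normalizer_map_conj_iff Q x (x⁻¹ * y * x)
  have h2 := stabilizes_conj_iff Q x f (x⁻¹ * y * x)
  rw [e1] at h1 h2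
  rw [h1, h2]

theorem stab_block_defect_conj (hM : M.IsPrime) (Q : Subgroup G) (f : Set (IrrCharacter (Subgroup.centralizer (Q : Set G))))
    (hf : IsPBlock M f) (T : Subgroup G) (F' : Set (IrrCharacter T)) (hF' : IsPBlock M F')
    (hF'c : ∀ t : T, blockCoeff F' t = subgroupBlockCoeff (Subgroup.centralizer (Q : Set G)) f (t : G))
    (x : G) (T' : Subgroup G) (hTT' : ∀ y : G, y ∈ T' ↔ x⁻¹ * y * x ∈ T)
    (F'' : Set (IrrCharacter T')) (hF'' : IsPBlock M F'')
    (hF''c : ∀ t : T', blockCoeff F'' t = subgroupBlockCoeff (Subgroup.centralizer ((Q.map (MulAut.conj x).toMonoidHom : Subgroup G) : Set G)) (conjBlock Q x f) (t : G)) :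
    blockDefect p F' = blockDefect p F'' := by
  classical
  have : Fintype T := Fintype.ofFinite _
  have : Fintype T' := Fintype.ofFinite _
  obtain ⟨τ, hτ⟩ := exists_conjIso T T' x hTT'
  obtain ⟨F₂, hF₂def⟩ : ∃ F₂ : Set (IrrCharacter T'),
      F₂ = {ψ | (irrCongr τ.symm).symm ψ ∈ F'} := ⟨_, rfl⟩
  have hF₂ : IsPBlock M F₂ := by
    rw [hF₂def]
    exact (irrCongr_preimage_props hM τ.symm F' hF').1
  have hF₂c : ∀ t' : T', blockCoeff F₂ t' = blockCoeff F' (τ.symm t') := by
    rw [hF₂def]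
    exact (irrCongr_preimage_props hM τ.symm F' hF').2
  have hFF : F₂ = F'' := by
    apply block_eq_of_coeff_congr hM hF₂ hF''
    intro t'
    have h1 : blockCoeff F₂ t' = blockCoeff F'' t' := by
      rw [hF₂c, hF'c, hF''c]
      have h2 := subgroupBlockCoeff_conjBlock hM Q x hf (((τ.symm t' : T)) : G)
      rw [← h2]
      congr 1
      have h3 := hτ (τ.symm t')
      rw [MulEquiv.apply_symm_apply] at h3
      exact h3.symm
    rw [h1, sub_self]
    exact MemLocalIdeal.zero hM.ne_top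
  rw [← hFF]
  apply blockDefect_irrCongr τ F' F₂
  intro ψ
  rw [hF₂def]
  show irrCongr τ ψ ∈ F' ↔ (irrCongr τ.symm).symm ψ ∈ F'
  rw [irrCongr_symm_symm_apply']

theorem card_norm_le [Fact p.Prime] (hpM : IsPModular p M) (P Q : Subgroup G)
    (e : Set (IrrCharacter (Subgroup.centralizer (P : Set G))))
    (f : Set (IrrCharacter (Subgroup.centralizer (Q : Set G)))) (hPe : IsBrauerPair p M P e) (hQP : Q ≤ P)
    (hf : IsPBlock M f) (hle : SubpairLE p M Q f P e) (T : Subgroup G)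
    (hT : ∀ y : G, y ∈ T ↔ y ∈ (Subgroup.normalizer (Q : Set G)) ∧ StabilizesBlock (Subgroup.centralizer (Q : Set G)) f y)
    (F' : Set (IrrCharacter T)) (hF' : IsPBlock M F')
    (hF'c : ∀ t : T, blockCoeff F' t = subgroupBlockCoeff (Subgroup.centralizer (Q : Set G)) f (t : G)) :
    Nat.card ↥(P ⊓ (Subgroup.normalizer (Q : Set G))) ≤ p ^ blockDefect p F' ∧
    (IsDefectGroup p M F' ((P ⊓ (Subgroup.normalizer (Q : Set G))).subgroupOf T)
      ↔ Nat.card ↥(P ⊓ (Subgroup.normalizer (Q : Set G))) = p ^ blockDefect p F') := by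
  classical
  have hM := hpM.2.1.isPrime
  have : Fintype T := Fintype.ofFinite _
  obtain ⟨F₀, hF₀, hF₀c, hRT, D, hD, hSD, -⟩ := stab_block hpM P Q e f hPe hQP hf hle T hT
  have hFF : F₀ = F' := by
    apply block_eq_of_coeff_congr hM hF₀ hF'
    intro t
    rw [hF₀c, hF'c, sub_self]
    exact MemLocalIdeal.zero hM.ne_top
  rw [hFF] at hD
  have hc : Nat.card D = p ^ blockDefect p F' := card_defectGroup hpM hF' D hD
  have hcS : Nat.card ((P ⊓ (Subgroup.normalizer (Q : Set G))).subgroupOf T) = Nat.card ↥(P ⊓ (Subgroup.normalizer (Q : Set G))) :=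
    Nat.card_congr (Subgroup.subgroupOfEquivOfLe hRT).toEquiv
  refine ⟨?_, ?_, ?_⟩
  · rw [← hc, ← hcS]
    exact Subgroup.card_le_of_le hSD
  · intro h
    rw [← hcS]
    exact card_defectGroup hpM hF' _ h
  · intro h
    have heq : (P ⊓ (Subgroup.normalizer (Q : Set G))).subgroupOf T = D :=
      Subgroup.eq_of_le_of_card_ge hSD (by rw [hc, hcS, h])
    rw [heq]
    exact hD

/-- `Q` is fully normalized in the fusion system of `B` iff `N_P(Q)` is a defect group of the
block of the stabilizer of `(Q, f)` with the idempotent of `f`. -/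
theorem fullyNormalized_iff [Fact p.Prime] (hpM : IsPModular p M) (B : Set (IrrCharacter G))
    (P : Subgroup G) (e : Set (IrrCharacter (Subgroup.centralizer (P : Set G))))
    (hmax : IsMaximalBrauerPair p M B P e) (F : FusionSystem P)
    (hF : IsBlockFusionSystemOn p M B P e F) (Q : Subgroup G)
    (f : Set (IrrCharacter (Subgroup.centralizer (Q : Set G)))) (hQP : Q ≤ P) (hf : IsPBlock M f)
    (hle : SubpairLE p M Q f P e) (T : Subgroup G)
    (hT : ∀ y : G, y ∈ T ↔ y ∈ (Subgroup.normalizer (Q : Set G)) ∧ StabilizesBlock (Subgroup.centralizer (Q : Set G)) f y) :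
    F.IsFullyNormalized Q ↔ ∃ F' : Set (IrrCharacter T), IsPBlock M F' ∧
      (∀ t : T, blockCoeff F' t = subgroupBlockCoeff (Subgroup.centralizer (Q : Set G)) f (t : G)) ∧
      IsDefectGroup p M F' ((P ⊓ (Subgroup.normalizer (Q : Set G))).subgroupOf T) := by
  have hM := hpM.2.1.isPrime
  have hPe := hmax.1.1
  constructor
  · rintro ⟨-, hfn⟩
    obtain ⟨F₀, hF₀, hF₀c, -⟩ := stab_block hpM P Q e f hPe hQP hf hle T hT
    obtain ⟨hb, hiff⟩ := card_norm_le hpM P Q e f hPe hQP hf hle T hT F₀ hF₀ hF₀c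
    refine ⟨F₀, hF₀, hF₀c, hiff.2 ?_⟩
    obtain ⟨-, x, hlex, hx'⟩ := fully_normalized hpM B P Q e f hmax hQP hf hle T hT
    obtain ⟨F'', hF'', hF''c, hD''⟩ :=
      hx' (T.map (MulAut.conj x).toMonoidHom) (stab_map_conj Q f T hT x)
    have hf₂ : IsPBlock M (conjBlock Q x f) := isPBlock_conjBlock hM Q x hf
    have h1 := (card_norm_le hpM P (Q.map (MulAut.conj x).toMonoidHom) e (conjBlock Q x f) hPe (subpairLE_le hlex) hf₂ hlex _
      (stab_map_conj Q f T hT x) F'' hF'' hF''c).2.1 hD''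
    have h2 := hfn (Q.map (MulAut.conj x).toMonoidHom) ((blockFusion_isConj_iff hpM B P e F hF Q f hle _).2 ⟨x, rfl, hlex⟩)
    have h3 : Nat.card ↥(P ⊓ (Subgroup.normalizer ((Q.map (MulAut.conj x).toMonoidHom : Subgroup G) : Set G))) ≤ Nat.card ↥(P ⊓ (Subgroup.normalizer (Q : Set G))) := h2
    rw [h1, ← stab_block_defect_conj hM Q f hf T F₀ hF₀ hF₀c x _
      (Helper12.mem_map_conj_iff T x) F'' hF'' hF''c] at h3
    exact le_antisymm hb h3
  · rintro ⟨F', hF', hF'c, hD'⟩
    have h := (card_norm_le hpM P Q e f hPe hQP hf hle T hT F' hF' hF'c).2.1 hD'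
    refine ⟨hQP, fun Q' hQ' => ?_⟩
    obtain ⟨x, rfl, hlex⟩ := (blockFusion_isConj_iff hpM B P e F hF Q f hle Q').1 hQ'
    have hf₂ : IsPBlock M (conjBlock Q x f) := isPBlock_conjBlock hM Q x hf
    obtain ⟨Fx, hFx, hFxc, -⟩ := stab_block hpM P (Q.map (MulAut.conj x).toMonoidHom) e (conjBlock Q x f) hPe
      (subpairLE_le hlex) hf₂ hlex (T.map (MulAut.conj x).toMonoidHom)
      (stab_map_conj Q f T hT x)
    have h1 := (card_norm_le hpM P (Q.map (MulAut.conj x).toMonoidHom) e (conjBlock Q x f) hPe (subpairLE_le hlex) hf₂ hlex _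
      (stab_map_conj Q f T hT x) Fx hFx hFxc).1
    rw [← stab_block_defect_conj hM Q f hf T F' hF' hF'c x _
      (Helper12.mem_map_conj_iff T x) Fx hFx hFxc, ← h] at h1
    exact h1

end BlockFus2

end Cfsg.Agent.Helper25
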