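import Cfsg.Agent.Helper25.BlockThird
import Cfsg.Agent.Helper25.BlockCover
import Cfsg.Agent.Helper25.BlockPPrime
import Cfsg.Agent.Helper25.BlockQuot
import Cfsg.Agent.Helper25.CliffordCC

set_option autoImplicit false

/-!
# Normal subgroups of odd index and the principal 2-block (helper25)
-/

namespace Cfsg.Agent.Helper25

open Cfsg
open scoped ComplexConjugate

/-- In a finite group of odd order no nonidentity element is inverted by conjugation. -/
theorem eq_one_of_conj_eq_inv_of_odd {Q : Type*} [Group Q] [Finite Q] (hQ : Odd (Nat.card Q))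
    (a b : Q) (h : a * b * a⁻¹ = b⁻¹) : b = 1 := by
  have h2 : (a * a) * b * (a * a)⁻¹ = b := by
    have e : (a * a) * b * (a * a)⁻¹ = a * (a * b * a⁻¹) * a⁻¹ := by group
    rw [e, h]
    have e2 : a * b⁻¹ * a⁻¹ = (a * b * a⁻¹)⁻¹ := by group
    rw [e2, h, inv_inv]
  have hc2 : Commute (a * a) b := by
    have := h2
    rw [mul_inv_eq_iff_eq_mul] at this
    exact this
  have hao : Odd (orderOf a) := Odd.of_dvd_nat hQ (orderOf_dvd_natCard a)
  obtain ⟨i, hi⟩ := hao
  have ha : (a * a) ^ (i + 1) = a := by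
    rw [← pow_two, ← pow_mul]
    have e : 2 * (i + 1) = orderOf a + 1 := by omega
    rw [e, pow_succ, pow_orderOf_eq_one, one_mul]
  have hc : Commute a b := by
    rw [← ha]
    exact hc2.pow_left _
  have h3 : b = b⁻¹ := by
    rw [← h, hc.eq, mul_inv_cancel_right]
  have h4 : b ^ 2 = 1 := by
    rw [pow_two]
    nth_rewrite 1 [h3]
    exact inv_mul_cancel b
  have h5 : orderOf b ∣ 2 := orderOf_dvd_of_pow_eq_one h4
  have hbo : Odd (orderOf b) := Odd.of_dvd_nat hQ (orderOf_dvd_natCard b)
  have h6 : orderOf b = 1 := by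
    rcases (Nat.dvd_prime Nat.prime_two).mp h5 with h | h
    · exact h
    · rw [h] at hbo
      exact absurd hbo (by decide)
  exact orderOf_eq_one_iff.mp h6

/-- Elements outside a normal subgroup of odd index are not conjugate to their inverses. -/
theorem not_isConj_inv_of_odd_index {G : Type*} [Group G] [Finite G] (N : Subgroup G) [N.Normal]
    (hidx : Odd N.index) (g : G) (hg : g ∉ N) : ¬ IsConj g g⁻¹ := by
  intro hc
  obtain ⟨c, hc⟩ := isConj_iff.mp hc
  have hQ : Odd (Nat.card (G ⧸ N)) := by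
    rw [← Subgroup.index_eq_card]
    exact hidx
  have h1 : (QuotientGroup.mk' N c) * (QuotientGroup.mk' N g) * (QuotientGroup.mk' N c)⁻¹
      = (QuotientGroup.mk' N g)⁻¹ := by
    rw [← map_inv, ← map_mul, ← map_mul, hc, map_inv]
  have h2 := eq_one_of_conj_eq_inv_of_odd hQ _ _ h1
  exact hg ((QuotientGroup.eq_one_iff g).mp h2)

end Cfsg.Agent.Helper25
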