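import Cfsg.Agent.Helper25.BlockRankZero
import Mathlib.LinearAlgebra.Trace

set_option autoImplicit false
set_option linter.unusedSectionVars false

/-!
# The `p`-regular rank of a block as a trace (helper25)
-/

namespace Cfsg.Agent.Helper25

open Cfsg
open scoped ComplexConjugate

section

variable {G : Type*} [Group G] [Fintype G] {M : Ideal AlgInt} {p : ℕ}

theorem classInner_add_left' (f g ψ : G → ℂ) :
    classInner (f + g) ψ = classInner f ψ + classInner g ψ := by
  unfold classInner
  rw [← mul_add, ← Finset.sum_add_distrib]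
  congr 1
  refine Finset.sum_congr rfl fun x _ => ?_
  rw [Pi.add_apply, add_mul]

theorem classInner_smul_left' (c : ℂ) (f ψ : G → ℂ) :
    classInner (c • f) ψ = c * classInner f ψ := by
  unfold classInner
  have h : ∑ x : G, (c • f) x * conj (ψ x) = c * ∑ x : G, f x * conj (ψ x) := by
    rw [Finset.mul_sum]
    refine Finset.sum_congr rfl fun x _ => ?_
    rw [Pi.smul_apply, smul_eq_mul, mul_assoc]
  rw [h]
  ring

/-- The projection `f ↦ ∑_{χ ∈ B} [f, χ] χ^reg`. -/
noncomputable def regProj (p : ℕ) (B : Set (IrrCharacter G)) [Fintype (IrrCharacter G)]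
    [DecidablePred (· ∈ B)] : (G → ℂ) →ₗ[ℂ] (G → ℂ) where
  toFun f := ∑ χ : IrrCharacter G, if χ ∈ B then
    classInner f (χ : G → ℂ) • pRegularPart p (χ : G → ℂ) else 0
  map_add' := by
    intro f g
    rw [← Finset.sum_add_distrib]
    refine Finset.sum_congr rfl fun χ _ => ?_
    split_ifs
    · rw [classInner_add_left', add_smul]
    · rw [add_zero]
  map_smul' := by
    intro c f
    rw [Finset.smul_sum]
    refine Finset.sum_congr rfl fun χ _ => ?_
    split_ifs
    · rw [classInner_smul_left', RingHom.id_apply, smul_smul]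
    · rw [smul_zero]

theorem regProj_apply (p : ℕ) (B : Set (IrrCharacter G)) [Fintype (IrrCharacter G)]
    [DecidablePred (· ∈ B)] (f : G → ℂ) :
    regProj p B f = ∑ χ : IrrCharacter G, if χ ∈ B then
      classInner f (χ : G → ℂ) • pRegularPart p (χ : G → ℂ) else 0 := rfl

theorem tildeFun_eq_smul (p : ℕ) (χ : G → ℂ) :
    tildeFun p χ = ((p ^ (Nat.card G).factorization p : ℕ) : ℂ) • pRegularPart p χ := by
  funext x
  unfold tildeFun
  by_cases hx : p ∣ orderOf x
  · rw [if_pos hx, Pi.smul_apply, pRegularPart_sing _ hx, smul_zero]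
  · rw [if_neg hx, Pi.smul_apply, pRegularPart_reg _ hx, smul_eq_mul]

/-- The `p`-regular part of a member of a block is fixed by the projection. -/
theorem regProj_pRegularPart [Fact p.Prime] (hpM : IsPModular p M) {B : Set (IrrCharacter G)}
    (hB : IsPBlock M B) [Fintype (IrrCharacter G)] [DecidablePred (· ∈ B)]
    (χ : IrrCharacter G) (hχ : χ ∈ B) :
    regProj p B (pRegularPart p (χ : G → ℂ)) = pRegularPart p (χ : G → ℂ) := by
  have hM := hpM.2.1.isPrime
  have hp := hpM.1
  have hpa : ((p ^ (Nat.card G).factorization p : ℕ) : ℂ) ≠ 0 :=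
    Nat.cast_ne_zero.mpr (pow_ne_zero _ hp.ne_zero)
  have hcoef : ∀ ψ : IrrCharacter G,
      (Cfsg.Agent.Helper10.irrCoeff (tildeFun p (χ : G → ℂ)) (ψ : G → ℂ) : ℂ)
        = ((p ^ (Nat.card G).factorization p : ℕ) : ℂ)
          * classInner (pRegularPart p (χ : G → ℂ)) (ψ : G → ℂ) := by
    intro ψ
    rw [← tildeFun_inner, tildeFun_eq_smul, classInner_smul_left']
  have hzero : ∀ ψ : IrrCharacter G, ψ ∉ B →
      classInner (pRegularPart p (χ : G → ℂ)) (ψ : G → ℂ) = 0 := by
    intro ψ hψ
    have hns : ¬ SameBlock M (χ : G → ℂ) (ψ : G → ℂ) :=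
      fun hs => hψ (mem_block_of_sameBlock hM hB hχ hs)
    have h1 := classInner_tildeFun_eq_zero hpM χ ψ hns
    rw [tildeFun_eq_smul, classInner_smul_left'] at h1
    rcases mul_eq_zero.1 h1 with h | h
    · exact absurd h hpa
    · exact h
  have hexp : ∀ x : G, ¬ p ∣ orderOf x → (χ : G → ℂ) x
      = ∑ ψ : IrrCharacter G, if ψ ∈ B then
        classInner (pRegularPart p (χ : G → ℂ)) (ψ : G → ℂ) * (ψ : G → ℂ) x else 0 := by
    intro x hx
    have h1 := congrFun (Cfsg.Agent.Helper10.gen_expansion (tildeFun_gen (p := p) χ)) x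
    rw [Finset.sum_apply] at h1
    have h2 : tildeFun p (χ : G → ℂ) x
        = ((p ^ (Nat.card G).factorization p : ℕ) : ℂ) * (χ : G → ℂ) x := by
      unfold tildeFun
      rw [if_neg hx]
    rw [h2] at h1
    have h3 : ((p ^ (Nat.card G).factorization p : ℕ) : ℂ) * (χ : G → ℂ) x
        = ((p ^ (Nat.card G).factorization p : ℕ) : ℂ) * ∑ ψ : IrrCharacter G, if ψ ∈ B then
          classInner (pRegularPart p (χ : G → ℂ)) (ψ : G → ℂ) * (ψ : G → ℂ) x else 0 := by
      rw [h1, Finset.mul_sum]
      refine Finset.sum_congr rfl fun ψ _ => ?_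
      rw [Pi.smul_apply, smul_eq_mul, hcoef ψ]
      by_cases hψ : ψ ∈ B
      · rw [if_pos hψ, mul_assoc]
      · rw [if_neg hψ, hzero ψ hψ, mul_zero, zero_mul]
    exact mul_left_cancel₀ hpa h3
  funext x
  rw [regProj_apply, Finset.sum_apply]
  by_cases hx : p ∣ orderOf x
  · rw [pRegularPart_sing _ hx]
    apply Finset.sum_eq_zero
    intro ψ _
    split_ifs
    · rw [Pi.smul_apply, pRegularPart_sing _ hx, smul_zero]
    · rfl
  · rw [pRegularPart_reg _ hx, hexp x hx]
    refine Finset.sum_congr rfl fun ψ _ => ?_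
    split_ifs
    · rw [Pi.smul_apply, pRegularPart_reg _ hx, smul_eq_mul]
    · rfl

/-- The projection is a projection onto the span of the `p`-regular parts. -/
theorem regProj_isProj [Fact p.Prime] (hpM : IsPModular p M) {B : Set (IrrCharacter G)}
    (hB : IsPBlock M B) [Fintype (IrrCharacter G)] [DecidablePred (· ∈ B)] :
    LinearMap.IsProj (Submodule.span ℂ
      ((fun χ : IrrCharacter G => pRegularPart p (χ : G → ℂ)) '' B)) (regProj p B) := by
  constructor
  · intro f
    rw [regProj_apply]
    refine Submodule.sum_mem _ fun χ _ => ?_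
    split_ifs with h
    · exact Submodule.smul_mem _ _ (Submodule.subset_span ⟨χ, h, rfl⟩)
    · exact Submodule.zero_mem _
  · intro v hv
    induction hv using Submodule.span_induction with
    | mem v hv =>
      obtain ⟨χ, hχ, rfl⟩ := hv
      exact regProj_pRegularPart hpM hB χ hχ
    | zero => exact map_zero _
    | add v w _ _ hv hw => rw [map_add, hv, hw]
    | smul c v _ hv => rw [map_smul, hv]

/-- The `p`-regular rank of a block as a sum over the group. -/
theorem blockRank_trace [Fact p.Prime] (hpM : IsPModular p M) {B : Set (IrrCharacter G)}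
    (hB : IsPBlock M B) [Fintype (IrrCharacter G)] [DecidablePred (· ∈ B)] :
    (Nat.card G : ℂ) * (blockRank p B : ℂ)
      = ∑ x : G, ∑ χ : IrrCharacter G, if χ ∈ B then
        pRegularPart p (χ : G → ℂ) x * (χ : G → ℂ) x⁻¹ else 0 := by
  classical
  have htr := (regProj_isProj hpM hB).trace
  have hG : (Nat.card G : ℂ) ≠ 0 := Nat.cast_ne_zero.mpr Nat.card_pos.ne'
  have hrk : (blockRank p B : ℂ) = LinearMap.trace ℂ (G → ℂ) (regProj p B) := by
    rw [htr]
    rfl
  rw [hrk, LinearMap.trace_eq_matrix_trace ℂ (Pi.basisFun ℂ G), Matrix.trace, Finset.mul_sum]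
  refine Finset.sum_congr rfl fun x _ => ?_
  rw [Matrix.diag_apply, LinearMap.toMatrix_apply, Pi.basisFun_repr, Pi.basisFun_apply,
    regProj_apply, Finset.sum_apply, Finset.mul_sum]
  refine Finset.sum_congr rfl fun χ _ => ?_
  split_ifs
  · rw [Pi.smul_apply, smul_eq_mul]
    have h1 : classInner (Pi.single x (1 : ℂ)) (χ : G → ℂ)
        = (Nat.card G : ℂ)⁻¹ * (χ : G → ℂ) x⁻¹ := by
      unfold classInner
      congr 1
      rw [Finset.sum_eq_single x]
      · rw [Pi.single_eq_same, one_mul, char_conj_eq_inv]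
      · intro y _ hy
        rw [Pi.single_eq_of_ne hy, zero_mul]
      · intro h
        exact absurd (Finset.mem_univ _) h
    rw [h1]
    field_simp
  · rw [Pi.zero_apply, mul_zero]

end

end Cfsg.Agent.Helper25
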