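import Cfsg.Agent.Helper25.BlockDegSq
import Cfsg.Agent.Helper25.InducedPart2
import Cfsg.Agent.Helper25.BlockOrth2
import Cfsg.Prelude.Def_BlockRank

set_option autoImplicit false
set_option linter.unusedSectionVars false

/-!
# The `p`-regular rank of a block and defect zero (helper25)
-/

namespace Cfsg.Agent.Helper25

open Cfsg
open scoped ComplexConjugate

theorem pRegularPart_reg {G : Type*} [Group G] {p : ℕ} (χ : G → ℂ) {g : G}
    (hg : ¬ p ∣ orderOf g) : pRegularPart p χ g = χ g := by
  unfold pRegularPart IsPRegular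
  rw [if_pos hg]

theorem pRegularPart_sing {G : Type*} [Group G] {p : ℕ} (χ : G → ℂ) {g : G}
    (hg : p ∣ orderOf g) : pRegularPart p χ g = 0 := by
  unfold pRegularPart IsPRegular
  rw [if_neg (not_not.2 hg)]

section

variable {G : Type*} [Group G] [Fintype G] {M : Ideal AlgInt} {p : ℕ}

theorem blockRank_le_card (p : ℕ) (B : Set (IrrCharacter G)) : blockRank p B ≤ Nat.card B := by
  classical
  have := Helper24.finite_irrCharacter (G := G)
  have : Fintype B := Fintype.ofFinite _
  unfold blockRank
  rw [Set.image_eq_range, Nat.card_eq_fintype_card]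
  exact finrank_range_le_card (R := ℂ)
    (fun χ : B => pRegularPart p ((χ : IrrCharacter G) : G → ℂ))

/-- A block whose `p`-regular rank is its number of characters has defect zero. -/
theorem defect_zero_of_card_eq_rank [Fact p.Prime] (hpM : IsPModular p M)
    {B : Set (IrrCharacter G)} (hB : IsPBlock M B) (h : Nat.card B = blockRank p B) :
    blockDefect p B = 0 := by
  classical
  have hM := hpM.2.1.isPrime
  have hp := hpM.1
  have := Helper24.finite_irrCharacter (G := G)
  have : Fintype (IrrCharacter G) := Fintype.ofFinite _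
  have : Fintype B := Fintype.ofFinite _
  have hli : LinearIndependent ℂ
      (fun χ : B => pRegularPart p ((χ : IrrCharacter G) : G → ℂ)) := by
    rw [linearIndependent_iff_card_eq_finrank_span, ← Nat.card_eq_fintype_card, h]
    unfold blockRank
    rw [Set.image_eq_range]
    rfl
  rw [Fintype.linearIndependent_iff] at hli
  have hvan : ∀ χ ∈ B, ∀ y : G, p ∣ orderOf y → (χ : G → ℂ) y = 0 := by
    intro χ hχ y hy
    have h0 : ∑ i : B, (fun i : B => conj (((i : IrrCharacter G) : G → ℂ) y)) i
        • (fun χ : B => pRegularPart p ((χ : IrrCharacter G) : G → ℂ)) i = 0 := by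
      funext x
      rw [Finset.sum_apply]
      simp only [Pi.smul_apply, smul_eq_mul, Pi.zero_apply]
      by_cases hx : p ∣ orderOf x
      · apply Finset.sum_eq_zero
        intro i _
        rw [pRegularPart_sing _ hx, mul_zero]
      · have h2 := block_orthogonality hpM hB x y hx hy
        rw [finsum_mem_eq_sum_ite, ← Finset.sum_filter] at h2
        refine Eq.trans ?_ h2
        rw [Finset.sum_subtype (Finset.univ.filter (· ∈ B)) (p := (· ∈ B))
          (fun x => by simp)]
        refine Finset.sum_congr rfl fun i _ => ?_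
        rw [pRegularPart_reg _ hx, mul_comm]
    have h1 := hli (fun i : B => conj (((i : IrrCharacter G) : G → ℂ) y)) h0 ⟨χ, hχ⟩
    simpa using h1
  have hge : ∀ χ ∈ B, (Nat.card G).factorization p
      ≤ (charDegree (χ : G → ℂ)).factorization p := by
    intro χ hχ
    obtain ⟨n, hn⟩ := gen_char_one_dvd (p := p) (χ : G → ℂ)
      (Cfsg.Agent.Helper10.isGeneralizedCharacter_of_irr χ.2) (hvan χ hχ)
    rw [Helper24.charDegree_spec (Helper24.isCharacter_of_irr χ.2)] at hn
    have h3 : ((charDegree (χ : G → ℂ) : ℕ) : ℤ)
        = ((p ^ (Nat.card G).factorization p : ℕ) : ℤ) * n := by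
      exact_mod_cast hn
    have h4 : p ^ (Nat.card G).factorization p ∣ charDegree (χ : G → ℂ) :=
      Int.natCast_dvd_natCast.1 ⟨n, h3⟩
    exact (Nat.Prime.pow_dvd_iff_le_factorization hp (charDegree_irr_ne_zero χ)).1 h4
  have hS : ((fun χ : IrrCharacter G => (charDegree (χ : G → ℂ)).factorization p) '' B).Nonempty :=
    (block_nonempty hM hB).image _
  obtain ⟨χ, hχ, hχe⟩ := Nat.sInf_mem hS
  unfold blockDefect
  have h5 := hge χ hχ
  have h6 : (charDegree (χ : G → ℂ)).factorization p
      = sInf ((fun χ : IrrCharacter G => (charDegree (χ : G → ℂ)).factorization p) '' B) := hχe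
  omega

/-- A block of defect zero has one character and `p`-regular rank one. -/
theorem card_rank_of_defect_zero [Fact p.Prime] (hpM : IsPModular p M)
    {B : Set (IrrCharacter G)} (hB : IsPBlock M B) (h : blockDefect p B = 0) :
    Nat.card B = 1 ∧ blockRank p B = 1 := by
  classical
  have hM := hpM.2.1.isPrime
  have hp := hpM.1
  obtain ⟨χ, hχ⟩ := block_nonempty hM hB
  have hle : (Nat.card G).factorization p ≤ (charDegree (χ : G → ℂ)).factorization p := by
    unfold blockDefect at h
    have h1 : sInf ((fun χ : IrrCharacter G => (charDegree (χ : G → ℂ)).factorization p) '' B)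
        ≤ (charDegree (χ : G → ℂ)).factorization p := Nat.sInf_le ⟨χ, hχ, rfl⟩
    omega
  have hD0 := charDegree_irr_ne_zero χ
  have hnd : ¬ p ∣ Nat.card G / charDegree (χ : G → ℂ) := by
    obtain ⟨q, hq⟩ := Helper2.irr_degree_dvd_card χ.2
    have hq0 : q ≠ 0 := by
      intro h0
      rw [h0, mul_zero] at hq
      exact Nat.card_pos.ne' hq
    rw [hq, Nat.mul_div_cancel_left _ (Nat.pos_of_ne_zero hD0)]
    intro hpq
    have h1 : (Nat.card G).factorization p
        = (charDegree (χ : G → ℂ)).factorization p + q.factorization p := by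
      rw [hq, Nat.factorization_mul hD0 hq0]
      rfl
    have h2 : 0 < q.factorization p := Nat.Prime.factorization_pos_of_dvd hp hq0 hpq
    omega
  have hBeq : B = {χ} := by
    have h1 := (defect_zero_iff hpM χ).1 hnd
    rw [← h1]
    ext ψ
    exact ⟨fun hψ => sameBlock_of_mem_block hM hB hχ hψ,
      fun hψ => mem_block_of_sameBlock hM hB hχ hψ⟩
  constructor
  · rw [hBeq]
    simp
  · unfold blockRank
    rw [hBeq, Set.image_singleton, finrank_span_singleton]
    intro h0
    have h1 := congrFun h0 1
    rw [pRegularPart_reg _ (by rw [orderOf_one]; exact hp.not_dvd_one)] at h1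
    exact Helper24.irr_one_ne_zero χ.2 h1

end

end Cfsg.Agent.Helper25
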