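import Cfsg.Agent.Helper25.StabX
import Cfsg.Agent.Helper26.FusionSat2

set_option autoImplicit false
set_option linter.unusedSectionVars false

/-!
# The fusion system of a block is saturated (helper25)
-/

namespace Cfsg.Agent.Helper25

open Cfsg Cfsg.FusionSystem
open scoped ComplexConjugate

section BlockSat

variable {G : Type*} [Group G] [Fintype G] {p : ℕ} {M : Ideal AlgInt}

theorem pushPair_pull (X : Subgroup G) (K : Subgroup G) (hKX : K ≤ X)
    (ι : Subgroup.centralizer ((K.subgroupOf X : Subgroup X) : Set X)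
      ≃* Subgroup.centralizer (K : Set G))
    (hι : ∀ c : Subgroup.centralizer ((K.subgroupOf X : Subgroup X) : Set X),
      ((ι c : Subgroup.centralizer (K : Set G)) : G) = ((c : X) : G))
    (g : Set (IrrCharacter (Subgroup.centralizer (K : Set G)))) :
    pushPair X (⟨K.subgroupOf X, {ψ | (irrCongr ι).symm ψ ∈ g}⟩ : BrauerPairIdx X)
      = (⟨K, g⟩ : BrauerPairIdx G) := by
  have hPP : (K.subgroupOf X).map X.subtype = K := Subgroup.map_subgroupOf_eq_of_le hKX
  refine pair_eq K _ hPP g _ ?_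
  intro ξ'
  constructor
  · rintro ⟨ψ, hψ, hc⟩
    refine ⟨(irrCongr ι).symm ψ, hψ, fun c c' hcc => ?_⟩
    rw [irrCongr_symm_apply]
    exact hc c' (ι.symm c) (by
      have h1 := hι (ι.symm c)
      rw [MulEquiv.apply_symm_apply] at h1
      rw [← h1, hcc])
  · rintro ⟨ξ, hξ, hc⟩
    refine ⟨irrCongr ι ξ, ?_, fun c₁ c₂ hcc => ?_⟩
    · show (irrCongr ι).symm (irrCongr ι ξ) ∈ g
      rw [Equiv.symm_apply_apply]
      exact hξ
    · rw [irrCongr_apply]
      exact hc (ι c₂) c₁ (by rw [hι, hcc])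

theorem pushPair_conj (X : Subgroup G) (m : X) (a : BrauerPairIdx X)
    (ι : Subgroup.centralizer (a.1 : Set X)
      ≃* Subgroup.centralizer ((a.1.map X.subtype : Subgroup G) : Set G))
    (hι : ∀ c : Subgroup.centralizer (a.1 : Set X),
      ((ι c : Subgroup.centralizer ((a.1.map X.subtype : Subgroup G) : Set G)) : G)
        = ((c : X) : G)) :
    pushPair X (conjPair m a) = conjPair (m : G) (pushPair X a) := by
  obtain ⟨A', g'⟩ := a
  have hPP : (A'.map (MulAut.conj m).toMonoidHom).map X.subtype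
      = (A'.map X.subtype).map (MulAut.conj (m : G)).toMonoidHom := by
    ext y
    constructor
    · rintro ⟨u, hu, rfl⟩
      obtain ⟨v, hv, rfl⟩ := Subgroup.mem_map.1 hu
      exact ⟨(v : G), ⟨v, hv, rfl⟩, rfl⟩
    · rintro ⟨u, hu, rfl⟩
      obtain ⟨v, hv, rfl⟩ := Subgroup.mem_map.1 hu
      exact ⟨m * v * m⁻¹, ⟨v, hv, rfl⟩, rfl⟩
  classical
  have : Fintype X := Fintype.ofFinite _
  obtain ⟨gP, hgP⟩ : ∃ gP : Set (IrrCharacter
      (Subgroup.centralizer ((A'.map X.subtype : Subgroup G) : Set G))),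
      gP = (pushPair X ⟨A', g'⟩).2 := ⟨_, rfl⟩
  have hgoal : (⟨(A'.map (MulAut.conj m).toMonoidHom).map X.subtype,
      (pushPair X (conjPair m ⟨A', g'⟩)).2⟩ : BrauerPairIdx G)
      = ⟨(A'.map X.subtype).map (MulAut.conj (m : G)).toMonoidHom,
        conjBlock (A'.map X.subtype) (m : G) gP⟩ := by
    refine pair_eq _ _ hPP (conjBlock (A'.map X.subtype) (m : G) gP)
      (pushPair X (conjPair m ⟨A', g'⟩)).2 ?_
    intro ξ'
    constructor
    · rintro ⟨ψ', ⟨ψ, hψ, hcψ⟩, hc'⟩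
      refine ⟨(irrCongr (centConj (A'.map X.subtype) (m : G))).symm ((irrCongr ι).symm ψ),
        ?_, fun c c' hcc => ?_⟩
      · refine (mem_conjBlock_iff (A'.map X.subtype) (m : G) gP _).2 ?_
        rw [Equiv.apply_symm_apply, hgP]
        refine (pushPair_mem_iff X ⟨A', g'⟩ ι hι _).1 ?_
        rw [Equiv.apply_symm_apply]
        exact hψ
      · rw [irrCongr_symm_apply, irrCongr_symm_apply]
        obtain ⟨d, hd⟩ : ∃ d : Subgroup.centralizer (A' : Set X),
            d = ι.symm ((centConj (A'.map X.subtype) (m : G)).symm c) := ⟨_, rfl⟩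
        rw [← hd]
        have hdG : ((d : X) : G) = (m : G)⁻¹ * (c : G) * (m : G) := by
          rw [hd, ← hι, MulEquiv.apply_symm_apply, centConj_symm_coe]
        have h1 := hc' c' (centConj A' m d) (by
          rw [centConj_coe, Subgroup.coe_mul, Subgroup.coe_mul, Subgroup.coe_inv, hdG, hcc]
          group)
        have h2 := hcψ d (centConj A' m d) (centConj_coe A' m d)
        rw [h1, h2]
    · rintro ⟨ξ, ⟨ξ₀, hξ₀, hcξ⟩, hc⟩
      rw [hgP] at hξ₀
      obtain ⟨ψ, hψ, hcξ₀⟩ := hξ₀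
      refine ⟨(irrCongr (centConj A' m)).symm ψ, ?_, fun c₁ c₂ hcc => ?_⟩
      · refine (mem_conjBlock_iff A' m g' _).2 ?_
        rw [Equiv.apply_symm_apply]
        exact hψ
      · obtain ⟨d, hd⟩ : ∃ d : Subgroup.centralizer (A' : Set X),
            d = (centConj A' m).symm c₂ := ⟨_, rfl⟩
        have h0 : (((irrCongr (centConj A' m)).symm ψ :
            IrrCharacter (Subgroup.centralizer
              ((A'.map (MulAut.conj m).toMonoidHom : Subgroup X) : Set X))) :
            Subgroup.centralizer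
              ((A'.map (MulAut.conj m).toMonoidHom : Subgroup X) : Set X) → ℂ) c₂
            = (ψ : Subgroup.centralizer (A' : Set X) → ℂ) d := by
          rw [hd]
          exact irrCongr_symm_apply (centConj A' m) ψ c₂
        have hdX : (d : X) = m⁻¹ * (c₂ : X) * m := by
          rw [hd]
          exact centConj_symm_coe A' m c₂
        have hcm : (c₁ : G) ∈ Subgroup.centralizer
            (((A'.map X.subtype).map (MulAut.conj (m : G)).toMonoidHom : Subgroup G) : Set G) :=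
          coe_mem_of_eq _ _ hPP c₁
        have h1 := hc ⟨_, hcm⟩ c₁ rfl
        have h2 := hcξ (ι d) ⟨_, hcm⟩ (by
          show (c₁ : G) = (m : G)
            * ((ι d : Subgroup.centralizer ((A'.map X.subtype : Subgroup G) : Set G)) : G)
            * (m : G)⁻¹
          rw [hι, hdX, Subgroup.coe_mul, Subgroup.coe_mul, Subgroup.coe_inv, hcc]
          group)
        have h3 := hcξ₀ (ι d) d (hι _).symm
        exact (h1.trans (h2.trans h3)).trans h0.symm
  rw [hgP] at hgoal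
  exact hgoal

theorem extender_le (P P' Q : Subgroup G) (φ : P' →* G) (k : G)
    (hk : ∀ x : P', φ x = k * (x : G) * k⁻¹) (hrange : φ.range = Q) :
    extender P P' φ ≤ (normalizerIn P P') ⊓
        (normalizerIn P Q ⊔ (Subgroup.centralizer (Q : Set G))).comap (MulAut.conj k).toMonoidHom := by
  unfold FusionSystem.extender
  rw [Subgroup.closure_le]
  rintro a ⟨haS, haN, h, hhS, hh⟩
  refine Subgroup.mem_inf.2 ⟨Subgroup.mem_inf.2 ⟨haS, haN⟩, ?_⟩
  rw [Subgroup.mem_comap]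
  show k * a * k⁻¹ ∈ _
  have hrel : ∀ x : G, x ∈ P' → k * (a * x * a⁻¹) * k⁻¹ = h * (k * x * k⁻¹) * h⁻¹ := by
    intro x hx
    have hx' : a * x * a⁻¹ ∈ P' := (Subgroup.mem_normalizer_iff.1 haN x).1 hx
    have h3 := hh ⟨x, hx⟩ hx'
    rw [hk, hk] at h3
    exact h3
  have hQmem : ∀ y : G, y ∈ Q ↔ ∃ x ∈ P', y = k * x * k⁻¹ := by
    intro y
    rw [← hrange]
    constructor
    · rintro ⟨x, rfl⟩
      exact ⟨x, x.2, hk x⟩
    · rintro ⟨x, hx, rfl⟩
      exact ⟨⟨x, hx⟩, hk ⟨x, hx⟩⟩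
  have hhN : h ∈ (Subgroup.normalizer (Q : Set G)) := by
    have h1 : ∀ y ∈ Q, h * y * h⁻¹ ∈ Q := by
      intro y hy
      obtain ⟨x, hx, rfl⟩ := (hQmem y).1 hy
      rw [← hrel x hx]
      exact (hQmem _).2 ⟨a * x * a⁻¹, (Subgroup.mem_normalizer_iff.1 haN x).1 hx, rfl⟩
    have h2 : ∀ y ∈ Q, h⁻¹ * y * h ∈ Q := by
      intro y hy
      obtain ⟨x, hx, rfl⟩ := (hQmem y).1 hy
      have hx' : a⁻¹ * x * a ∈ P' := (Subgroup.mem_normalizer_iff''.1 haN x).1 hx
      have h3 := hrel _ hx'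
      have e : h⁻¹ * (k * x * k⁻¹) * h = k * (a⁻¹ * x * a) * k⁻¹ := by
        have e1 : k * (a * (a⁻¹ * x * a) * a⁻¹) * k⁻¹ = k * x * k⁻¹ := by group
        rw [e1] at h3
        rw [h3]
        group
      rw [e]
      exact (hQmem _).2 ⟨_, hx', rfl⟩
    rw [Subgroup.mem_normalizer_iff]
    intro y
    constructor
    · exact h1 y
    · intro hy
      have h3 := h2 _ hy
      have e : h⁻¹ * (h * y * h⁻¹) * h = y := by group
      rwa [e] at h3
  have hc : h⁻¹ * (k * a * k⁻¹) ∈ (Subgroup.centralizer (Q : Set G)) := by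
    rw [Subgroup.mem_centralizer_iff]
    intro y hy
    obtain ⟨x, hx, rfl⟩ := (hQmem y).1 hy
    have h3 := hrel x hx
    calc k * x * k⁻¹ * (h⁻¹ * (k * a * k⁻¹))
        = h⁻¹ * (h * (k * x * k⁻¹) * h⁻¹) * (k * a * k⁻¹) := by group
      _ = h⁻¹ * (k * (a * x * a⁻¹) * k⁻¹) * (k * a * k⁻¹) := by rw [h3]
      _ = h⁻¹ * (k * a * k⁻¹) * (k * x * k⁻¹) := by group
  have e : k * a * k⁻¹ = h * (h⁻¹ * (k * a * k⁻¹)) := by group
  rw [e]
  exact Subgroup.mul_mem _
    ((le_sup_left : normalizerIn P Q ≤ normalizerIn P Q ⊔ (Subgroup.centralizer (Q : Set G)))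
      (Subgroup.mem_inf.2 ⟨hhS, hhN⟩))
    ((le_sup_right : (Subgroup.centralizer (Q : Set G)) ≤ normalizerIn P Q ⊔ (Subgroup.centralizer (Q : Set G))) hc)

/-- A fully normalized subgroup is receptive in the fusion system of a block. -/
theorem block_receptive [Fact p.Prime] (hpM : IsPModular p M) (B : Set (IrrCharacter G))
    (P : Subgroup G) (e : Set (IrrCharacter (Subgroup.centralizer (P : Set G)))) (hmax : IsMaximalBrauerPair p M B P e)
    (F : FusionSystem P) (hF : IsBlockFusionSystemOn p M B P e F)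
    (Q : Subgroup G) (hQn : F.IsFullyNormalized Q) : F.IsReceptive Q := by
  classical
  have hM := hpM.2.1.isPrime
  have hPe : IsBrauerPair p M P e := hmax.1.1
  have hQP : Q ≤ P := hQn.1
  have hQ : IsPGroup p Q := hPe.1.to_le hQP
  obtain ⟨f, hf, hle⟩ := subpair_exists hpM P e hPe _ Q hQP rfl
  obtain ⟨T, hT⟩ := exists_stabSubgroup hM Q f hf
  have : Fintype T := Fintype.ofFinite _
  obtain ⟨F', hF', hF'c, hD'⟩ :=
    (fullyNormalized_iff hpM B P e hmax F hF Q f hQP hf hle T hT).1 hQn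
  have hTN : T ≤ (Subgroup.normalizer (Q : Set G)) := fun y hy => ((hT y).1 hy).1
  have hCT : (Subgroup.centralizer (Q : Set G)) ≤ T := cent_le_stab Q f T hT
  obtain ⟨R, hRdef⟩ : ∃ R : Subgroup G, R = P ⊓ (Subgroup.normalizer (Q : Set G)) := ⟨_, rfl⟩
  rw [← hRdef] at hD'
  have hRP : R ≤ P := by
    rw [hRdef]
    exact inf_le_left
  have hQR : Q ≤ R := by
    rw [hRdef]
    exact le_inf hQP Subgroup.le_normalizer
  have hRN : R ≤ (Subgroup.normalizer (Q : Set G)) := by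
    rw [hRdef]
    exact inf_le_right
  have hRp : IsPGroup p R := hPe.1.to_le hRP
  obtain ⟨gR, hgR, hgRle⟩ := subpair_exists hpM P e hPe _ R hRP rfl
  obtain ⟨f', hf', -⟩ := normalSubpair_existsUnique hpM R Q gR ⟨hRp, hgR⟩ hQR hRN
  have hrel : NormalSubpairRel p M (⟨Q, f'⟩ : BrauerPairIdx G) ⟨R, gR⟩ := hf'
  have hle' : SubpairLE p M Q f' P e := Relation.ReflTransGen.head hrel hgRle
  have hff : f' = f := subpair_unique hpM _ P e hPe rfl Q f' f hle' hle
  rw [hff] at hf'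
  have hRT : R ≤ T := fun y hy => (hT y).2 ⟨hRN hy, hf'.2.2.2.2.1 y hy⟩
  obtain ⟨X, hXdef⟩ : ∃ X : Subgroup G, X = R ⊔ (Subgroup.centralizer (Q : Set G)) := ⟨_, rfl⟩
  have hRX : R ≤ X := by
    rw [hXdef]
    exact le_sup_left
  have hCX : (Subgroup.centralizer (Q : Set G)) ≤ X := by
    rw [hXdef]
    exact le_sup_right
  have hQX : Q ≤ X := hQR.trans hRX
  have hXT : X ≤ T := by
    rw [hXdef]
    exact sup_le hRT hCT
  have hXN : X ≤ (Subgroup.normalizer (Q : Set G)) := hXT.trans hTN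
  have hXs : ∀ x ∈ X, StabilizesBlock (Subgroup.centralizer (Q : Set G)) f x := fun x hx => ((hT x).1 (hXT hx)).2
  have : Fintype X := Fintype.ofFinite _
  obtain ⟨F'', hF'', hF''c, -⟩ := stabX_block hpM Q hQ f hf X hQX hCX hXN hXs
  have hCRX : Subgroup.centralizer (R : Set G) ≤ X :=
    (Subgroup.centralizer_le (SetLike.coe_subset_coe.2 hQR)).trans hCX
  obtain ⟨ιR, hιR⟩ := exists_centIso R X hCRX
    (Subgroup.centralizer ((R.subgroupOf X : Subgroup X) : Set X))
    (mem_centralizer_subgroupOf R X hRX)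
  have hggR : ∀ ξ : IrrCharacter (Subgroup.centralizer (R : Set G)),
      irrCongr ιR ξ ∈ {ψ | (irrCongr ιR).symm ψ ∈ gR} ↔ ξ ∈ gR := by
    intro ξ
    show (irrCongr ιR).symm (irrCongr ιR ξ) ∈ gR ↔ ξ ∈ gR
    rw [Equiv.symm_apply_apply]
  have hpR : IsBrauerPairOf p M F'' (R.subgroupOf X) {ψ | (irrCongr ιR).symm ψ ∈ gR} :=
    stabX_pair_of_normal hM Q f X F'' hF'' hF''c R gR hf' (R.subgroupOf X)
      hRp.comap_subtype ιR hιR _ hggR
  have hcardR : Nat.card (R.subgroupOf T) = p ^ blockDefect p F' :=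
    card_defectGroup hpM hF' _ hD'
  have hmaxR : IsMaximalBrauerPair p M F'' (R.subgroupOf X)
      {ψ | (irrCongr ιR).symm ψ ∈ gR} := by
    refine ⟨hpR, fun R₁ g₁ hR₁ hle₁ => ?_⟩
    have hRR₁ : R.subgroupOf X ≤ R₁ := subpairLE_le hle₁
    have hQR₁ : Q ≤ R₁.map X.subtype := by
      intro q hq
      exact Subgroup.mem_map.2
        ⟨⟨q, hQX hq⟩, hRR₁ (Subgroup.mem_subgroupOf.2 (hQR hq)), rfl⟩
    obtain ⟨ι₁, hι₁⟩ := exists_centIso (R₁.map X.subtype) X
      ((Subgroup.centralizer_le (SetLike.coe_subset_coe.2 hQR₁)).trans hCX)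
      (Subgroup.centralizer (R₁ : Set X)) (mem_centralizer_map_subtype X R₁)
    obtain ⟨g₁G, hg₁G⟩ : ∃ g₁G : Set (IrrCharacter
        (Subgroup.centralizer ((R₁.map X.subtype : Subgroup G) : Set G))),
        g₁G = (pushPair X ⟨R₁, g₁⟩).2 := ⟨_, rfl⟩
    have hgg₁ : ∀ ξ : IrrCharacter
        (Subgroup.centralizer ((R₁.map X.subtype : Subgroup G) : Set G)),
        irrCongr ι₁ ξ ∈ g₁ ↔ ξ ∈ g₁G := by
      rw [hg₁G]
      exact pushPair_mem_iff X ⟨R₁, g₁⟩ ι₁ hι₁
    have hn₁ : IsNormalSubpair p M Q f (R₁.map X.subtype) g₁G :=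
      stabX_normal_of_pair hM Q f ⟨hQ, hf⟩ X hXN hXs F'' hF''c R₁ (R₁.map X.subtype) rfl
        hQR₁ ι₁ hι₁ g₁ g₁G hgg₁ hR₁
    have hR₁T : R₁.map X.subtype ≤ T := by
      rintro _ ⟨r, -, rfl⟩
      exact hXT r.2
    obtain ⟨ι₁T, hι₁T⟩ := exists_centIso (R₁.map X.subtype) T
      ((Subgroup.centralizer_le (SetLike.coe_subset_coe.2 hQR₁)).trans hCT)
      (Subgroup.centralizer (((R₁.map X.subtype).subgroupOf T : Subgroup T) : Set T))
      (mem_centralizer_subgroupOf (R₁.map X.subtype) T hR₁T)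
    have hp₁T : IsBrauerPairOf p M F' ((R₁.map X.subtype).subgroupOf T)
        {ψ | (irrCongr ι₁T).symm ψ ∈ g₁G} :=
      stabX_pair_of_normal hM Q f T F' hF' hF'c (R₁.map X.subtype) g₁G hn₁
        ((R₁.map X.subtype).subgroupOf T) hn₁.2.1.1.comap_subtype ι₁T hι₁T _ (fun ξ => by
          show (irrCongr ι₁T).symm (irrCongr ι₁T ξ) ∈ g₁G ↔ ξ ∈ g₁G
          rw [Equiv.symm_apply_apply])
    obtain ⟨D₁, hD₁, hle₂, -⟩ := pair_le_defect hpM F' _ _ hp₁T
    have hc₁ : Nat.card D₁ = p ^ blockDefect p F' := card_defectGroup hpM hF' D₁ hD₁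
    have hcard : Nat.card R₁ ≤ Nat.card (R.subgroupOf X) := by
      have e1 : Nat.card (R₁.map X.subtype) = Nat.card R₁ :=
        Subgroup.card_map_of_injective X.subtype_injective
      have e2 : Nat.card ((R₁.map X.subtype).subgroupOf T) = Nat.card (R₁.map X.subtype) :=
        Nat.card_congr (Subgroup.subgroupOfEquivOfLe hR₁T).toEquiv
      have e3 : Nat.card (R.subgroupOf T) = Nat.card R :=
        Nat.card_congr (Subgroup.subgroupOfEquivOfLe hRT).toEquiv
      have e4 : Nat.card (R.subgroupOf X) = Nat.card R :=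
        Nat.card_congr (Subgroup.subgroupOfEquivOfLe hRX).toEquiv
      have e5 := Subgroup.card_le_of_le hle₂
      rw [e4, ← e3, hcardR, ← hc₁, ← e1, ← e2]
      exact e5
    exact (Subgroup.eq_of_le_of_card_ge hRR₁ hcard).symm
  refine ⟨hQP, fun P' φ hφ hrange => ?_⟩
  obtain ⟨hP'P, k, hk, hkP, fP', hfP', hfP'k⟩ := (hF.2 P' φ).1 hφ
  have hQeq : P'.map (MulAut.conj k).toMonoidHom = Q := by
    rw [← hrange]
    ext y
    constructor
    · intro hy
      obtain ⟨u, hu, rfl⟩ := Subgroup.mem_map.1 hy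
      exact ⟨⟨u, hu⟩, hk ⟨u, hu⟩⟩
    · rintro ⟨u, rfl⟩
      rw [hk]
      exact Helper12.conj_mem_map_conj P' k u.2
  have heqQ : conjPair k ⟨P', fP'⟩ = (⟨Q, f⟩ : BrauerPairIdx G) :=
    subpair_unique' hpM P e hPe (conjPair k ⟨P', fP'⟩) ⟨Q, f⟩ hfP'k hle hQeq
  have hext := extender_le P P' Q φ k hk hrange
  have hNleP : (extender P P' φ) ≤ P := fun y hy => (Subgroup.mem_inf.1 (Subgroup.mem_inf.1 (hext hy)).1).1
  have hNN : (extender P P' φ) ≤ Subgroup.normalizer (P' : Set G) :=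
    fun y hy => (Subgroup.mem_inf.1 (Subgroup.mem_inf.1 (hext hy)).1).2
  have hφP : ∀ x : P', φ x ∈ P := (F.le_of_mem hφ).2
  have hP'N : P' ≤ (extender P P' φ) := by
    intro g hg
    unfold FusionSystem.extender
    refine Subgroup.subset_closure
      ⟨hP'P hg, Subgroup.le_normalizer hg, φ ⟨g, hg⟩, hφP _, fun x hx => ?_⟩
    have e1 : (⟨g * (x : G) * g⁻¹, hx⟩ : P') = ⟨g, hg⟩ * x * ⟨g, hg⟩⁻¹ := Subtype.ext rfl
    rw [e1, map_mul, map_mul, map_inv]
  have hNp : IsPGroup p (extender P P' φ) := hPe.1.to_le hNleP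
  obtain ⟨fN, hfN, hfNle⟩ := subpair_exists hpM P e hPe _ (extender P P' φ) hNleP rfl
  obtain ⟨f'', hf'', -⟩ := normalSubpair_existsUnique hpM (extender P P' φ) P' fN ⟨hNp, hfN⟩ hP'N hNN
  have hrel' : NormalSubpairRel p M (⟨P', f''⟩ : BrauerPairIdx G) ⟨(extender P P' φ), fN⟩ := hf''
  have hle'' : SubpairLE p M P' f'' P e := Relation.ReflTransGen.head hrel' hfNle
  have hff' : f'' = fP' := subpair_unique hpM _ P e hPe rfl P' f'' fP' hle'' hfP'
  rw [hff'] at hrel'
  have hnK0 : NormalSubpairRel p M (conjPair k ⟨P', fP'⟩) (conjPair k ⟨(extender P P' φ), fN⟩) :=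
    normalSubpair_conj hM k hrel'
  rw [heqQ] at hnK0
  obtain ⟨aK, haK⟩ : ∃ aK : BrauerPairIdx G, aK = conjPair k ⟨(extender P P' φ), fN⟩ := ⟨_, rfl⟩
  rw [← haK] at hnK0
  have hnK : IsNormalSubpair p M Q f aK.1 aK.2 := hnK0
  have hQK : Q ≤ aK.1 := hnK.2.2.1
  have hKp : IsPGroup p aK.1 := hnK.2.1.1
  have hKX : aK.1 ≤ X := by
    intro y hy
    rw [haK] at hy
    have hy' : y ∈ (extender P P' φ).map (MulAut.conj k).toMonoidHom := hy
    obtain ⟨u, hu, rfl⟩ := Subgroup.mem_map.1 hy'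
    have h1 := (Subgroup.mem_inf.1 (hext hu)).2
    rw [hXdef, hRdef]
    exact Subgroup.mem_comap.1 h1
  have hCKX : Subgroup.centralizer (aK.1 : Set G) ≤ X :=
    (Subgroup.centralizer_le (SetLike.coe_subset_coe.2 hQK)).trans hCX
  obtain ⟨ιK, hιK⟩ := exists_centIso aK.1 X hCKX
    (Subgroup.centralizer ((aK.1.subgroupOf X : Subgroup X) : Set X))
    (mem_centralizer_subgroupOf aK.1 X hKX)
  have hpK : IsBrauerPairOf p M F'' (aK.1.subgroupOf X) {ψ | (irrCongr ιK).symm ψ ∈ aK.2} :=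
    stabX_pair_of_normal hM Q f X F'' hF'' hF''c aK.1 aK.2 hnK (aK.1.subgroupOf X)
      hKp.comap_subtype ιK hιK _ (fun ξ => by
        show (irrCongr ιK).symm (irrCongr ιK ξ) ∈ aK.2 ↔ ξ ∈ aK.2
        rw [Equiv.symm_apply_apply])
  obtain ⟨m, hm⟩ := conj_below_maximal hpM F'' (R.subgroupOf X) (aK.1.subgroupOf X) _ _
    hmaxR hpK
  obtain ⟨aK'', haK''⟩ : ∃ aK'' : BrauerPairIdx X,
      aK'' = ⟨aK.1.subgroupOf X, {ψ | (irrCongr ιK).symm ψ ∈ aK.2}⟩ := ⟨_, rfl⟩
  have hm' : Relation.ReflTransGen (NormalSubpairRel p M) (conjPair m aK'')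
      (⟨R.subgroupOf X, {ψ | (irrCongr ιR).symm ψ ∈ gR}⟩ : BrauerPairIdx X) := by
    rw [haK'']
    exact hm
  have hQa : Q ≤ (conjPair m aK'').1.map X.subtype := by
    intro q hq
    have hmq : (m : G)⁻¹ * q * (m : G) ∈ Q := by
      have h1 := (Subgroup.mem_normalizer_iff.1 (Subgroup.inv_mem _ (hXN m.2)) q).1 hq
      rwa [inv_inv] at h1
    have hq' : (⟨q, hQX hq⟩ : X) ∈ (conjPair m aK'').1 := by
      rw [haK'']
      show (⟨q, hQX hq⟩ : X) ∈ (aK.1.subgroupOf X).map (MulAut.conj m).toMonoidHom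
      rw [Helper12.mem_map_conj_iff, Subgroup.mem_subgroupOf]
      exact hQK hmq
    exact Subgroup.mem_map.2 ⟨⟨q, hQX hq⟩, hq', rfl⟩
  have h5 := pushPair_le hM X Q hCX (conjPair m aK'') hQa hm'
  have hCK2 : Subgroup.centralizer ((aK''.1.map X.subtype : Subgroup G) : Set G) ≤ X := by
    rw [haK'']
    show Subgroup.centralizer (((aK.1.subgroupOf X).map X.subtype : Subgroup G) : Set G) ≤ X
    rw [Subgroup.map_subgroupOf_eq_of_le hKX]
    exact hCKX
  obtain ⟨ι₂, hι₂⟩ := exists_centIso (aK''.1.map X.subtype) X hCK2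
    (Subgroup.centralizer (aK''.1 : Set X)) (mem_centralizer_map_subtype X aK''.1)
  have e1 : pushPair X (conjPair m aK'') = conjPair (m : G) aK := by
    rw [pushPair_conj X m aK'' ι₂ hι₂, haK'', pushPair_pull X aK.1 hKX ιK hιK aK.2]
  have e2 : pushPair X
      (⟨R.subgroupOf X, {ψ | (irrCongr ιR).symm ψ ∈ gR}⟩ : BrauerPairIdx X) = ⟨R, gR⟩ :=
    pushPair_pull X R hRX ιR hιR gR
  rw [e1, e2] at h5
  obtain ⟨s, hs, c, hc, hmsc⟩ := Helper26.mem_sup_of_le_normalizer
    (hRN.trans (normalizer_le_normalizer_centralizer' Q))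
    (show (m : G) ∈ R ⊔ (Subgroup.centralizer (Q : Set G)) by
      rw [← hXdef]
      exact m.2)
  have hsN := stab_of_mem hM R gR hgR (Subgroup.inv_mem _ hs)
  have h6 := conjPair_le hM s⁻¹ h5
  rw [conjPair_stab hM R gR hgR s⁻¹ hsN.1 hsN.2, conjPair_mul, hmsc, inv_mul_cancel_left, haK,
    conjPair_mul] at h6
  have h7 : Relation.ReflTransGen (NormalSubpairRel p M) (conjPair (c * k) ⟨(extender P P' φ), fN⟩)
      ⟨P, e⟩ := h6.trans hgRle
  refine ⟨conjHom (extender P P' φ) (c * k),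
    (hF.2 (extender P P' φ) _).2 ⟨hNleP, c * k, fun u => rfl, subpairLE_le h7, fN, hfNle, h7⟩,
    fun x hxP hxN => ?_⟩
  show c * k * x * (c * k)⁻¹ = φ ⟨x, hxP⟩
  rw [hk]
  have hy : k * x * k⁻¹ ∈ Q := by
    rw [← hQeq]
    exact Helper12.conj_mem_map_conj P' k hxP
  have hcomm := Subgroup.mem_centralizer_iff.1 hc _ hy
  calc c * k * x * (c * k)⁻¹ = c * (k * x * k⁻¹) * c⁻¹ := by group
    _ = (k * x * k⁻¹) * c * c⁻¹ := by rw [hcomm]
    _ = k * x * k⁻¹ := by group

/-- The top group is fully automized in the fusion system of a block. -/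
theorem block_fullyAutomized [Fact p.Prime] (hpM : IsPModular p M) (B : Set (IrrCharacter G))
    (P : Subgroup G) (e : Set (IrrCharacter (Subgroup.centralizer (P : Set G)))) (hmax : IsMaximalBrauerPair p M B P e)
    (F : FusionSystem P) (hF : IsBlockFusionSystemOn p M B P e F) :
    F.IsFullyAutomized p P := by
  classical
  have hM := hpM.2.1.isPrime
  have hPe : IsBrauerPair p M P e := hmax.1.1
  have he : IsPBlock M e := hPe.2
  have hPp : IsPGroup p P := hPe.1
  obtain ⟨T, hT⟩ := exists_stabSubgroup hM P e he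
  have : Fintype T := Fintype.ofFinite _
  have hTN : T ≤ (Subgroup.normalizer (P : Set G)) := fun y hy => ((hT y).1 hy).1
  have hCT : (Subgroup.centralizer (P : Set G)) ≤ T := cent_le_stab P e T hT
  have hPT : P ≤ T := self_le_stab P e T hT
  have hTs : ∀ x ∈ T, StabilizesBlock (Subgroup.centralizer (P : Set G)) e x := fun x hx => ((hT x).1 hx).2
  have hPn : F.IsFullyNormalized P := by
    refine ⟨le_rfl, fun Q' _ => ?_⟩
    have e1 : normalizerIn P P = P := inf_eq_left.2 Subgroup.le_normalizer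
    rw [e1]
    exact Subgroup.card_le_of_le (show P ⊓ Subgroup.normalizer (Q' : Set G) ≤ P from inf_le_left)
  obtain ⟨F', hF', hF'c, hD'⟩ :=
    (fullyNormalized_iff hpM B P e hmax F hF P e le_rfl he Relation.ReflTransGen.refl T hT).1 hPn
  rw [inf_eq_left.2 (Subgroup.le_normalizer : P ≤ (Subgroup.normalizer (P : Set G)))] at hD'
  obtain ⟨F₀, hF₀, hF₀c, hidx⟩ := stabX_block hpM P hPp e he T hPT hCT hTN hTs
  have hFF : F₀ = F' := by
    apply block_eq_of_coeff_congr hM hF₀ hF'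
    intro t
    rw [hF₀c, hF'c, sub_self]
    exact MemLocalIdeal.zero hM.ne_top
  rw [hFF] at hidx
  have hndvd := hidx _ hD'
  obtain ⟨Θ, hΘdef⟩ : ∃ Θ : T →* MulAut P,
      Θ = P.normalizerMonoidHom.comp (Subgroup.inclusion hTN) := ⟨_, rfl⟩
  have hΘ : ∀ (t : T) (x : P), ((Θ t x : P) : G) = (t : G) * (x : G) * (t : G)⁻¹ := by
    intro t x
    rw [hΘdef]
    rfl
  have hker : Θ.ker = (Subgroup.centralizer (P : Set G)).subgroupOf T := by
    ext t
    rw [MonoidHom.mem_ker, Subgroup.mem_subgroupOf, Subgroup.mem_centralizer_iff]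
    constructor
    · intro h u hu
      have h1 : ((Θ t ⟨u, hu⟩ : P) : G) = u := by
        rw [h]
        rfl
      rw [hΘ] at h1
      calc u * (t : G) = (t : G) * u * (t : G)⁻¹ * (t : G) := by rw [h1]
        _ = (t : G) * u := by group
    · intro h
      apply MulEquiv.ext
      intro x
      apply Subtype.ext
      rw [hΘ]
      show (t : G) * (x : G) * (t : G)⁻¹ = (x : G)
      rw [← h x x.2]
      group
  have hrefl : ∀ a : BrauerPairIdx G, a = ⟨P, e⟩ →
      Relation.ReflTransGen (NormalSubpairRel p M) a ⟨P, e⟩ := by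
    rintro a rfl
    exact Relation.ReflTransGen.refl
  have hAF : F.autGroup P = Θ.range := by
    ext α
    rw [Helper26.mem_autGroup_iff F le_rfl, hF.2 P]
    constructor
    · rintro ⟨-, g, hg, hgP, f₁, hf₁, hf₁g⟩
      have hfe : f₁ = e :=
        subpair_unique hpM _ P e hPe rfl P f₁ e hf₁ Relation.ReflTransGen.refl
      rw [hfe] at hf₁g
      have hPg : P.map (MulAut.conj g).toMonoidHom = P :=
        Subgroup.eq_of_le_of_card_ge hgP
          (by rw [Subgroup.card_map_of_injective (MulEquiv.injective _)])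
      have heq : conjPair g ⟨P, e⟩ = (⟨P, e⟩ : BrauerPairIdx G) :=
        subpair_unique' hpM P e hPe (conjPair g ⟨P, e⟩) ⟨P, e⟩ hf₁g
          Relation.ReflTransGen.refl hPg
      have hgT : g ∈ T := (hT g).2 (stab_of_pair_conj_eq P e g heq)
      refine ⟨⟨g, hgT⟩, ?_⟩
      apply MulEquiv.ext
      intro x
      apply Subtype.ext
      rw [hΘ]
      exact (hg x).symm
    · rintro ⟨t, rfl⟩
      obtain ⟨htN, hts⟩ := (hT t).1 t.2
      exact ⟨le_rfl, (t : G), fun u => hΘ t u,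
        le_of_eq (map_conj_eq_of_mem_normalizer' P htN), e, Relation.ReflTransGen.refl,
        hrefl _ (conjPair_stab hM P e he (t : G) htN hts)⟩
  have hAP : autInducedBy P P = (P.subgroupOf T).map Θ := by
    ext α
    rw [Helper26.mem_autInducedBy_iff]
    constructor
    · rintro ⟨g, hg, hα⟩
      refine ⟨⟨g, hPT hg⟩, Subgroup.mem_subgroupOf.2 hg, ?_⟩
      apply MulEquiv.ext
      intro x
      apply Subtype.ext
      rw [hΘ]
      exact (hα x).symm
    · rintro ⟨t, ht, rfl⟩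
      exact ⟨(t : G), Subgroup.mem_subgroupOf.1 ht, fun x => hΘ t x⟩
  have hpg : IsPGroup p ((autInducedBy P P).subgroupOf (F.autGroup P)) := by
    rw [hAP]
    exact ((hPp.comap_subtype (K := T)).map Θ).comap_subtype
  have hindex : ((autInducedBy P P).subgroupOf (F.autGroup P)).index
      = (P.subgroupOf T ⊔ (Subgroup.centralizer (P : Set G)).subgroupOf T).index := by
    show (autInducedBy P P).relIndex (F.autGroup P) = _
    rw [hAP, hAF, MonoidHom.range_eq_map, Subgroup.relIndex_map_map, hker, top_sup_eq,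
      Subgroup.relIndex_top_right]
  exact ⟨le_rfl, hpg.toSylow (by
    rw [hindex]
    exact hndvd), rfl⟩

/-- The fusion system of a block is saturated. -/
theorem block_saturated [Fact p.Prime] (hpM : IsPModular p M) (B : Set (IrrCharacter G))
    (P : Subgroup G) (e : Set (IrrCharacter (Subgroup.centralizer (P : Set G)))) (hmax : IsMaximalBrauerPair p M B P e)
    (F : FusionSystem P) (hF : IsBlockFusionSystemOn p M B P e F) : F.IsSaturated p :=
  (Helper26.saturated_iff' p hmax.1.1.1 F).2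
    ⟨block_fullyAutomized hpM B P e hmax F hF,
      fun Q hQ => block_receptive hpM B P e hmax F hF Q hQ⟩

end BlockSat

end Cfsg.Agent.Helper25
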