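import Cfsg.Agent.Helper25.NormalP
import Cfsg.Agent.Helper25.FirstMain3
import Cfsg.Agent.Helper25.HeightZero3
import Cfsg.Agent.Helper25.InducedGen
import Cfsg.Agent.Helper25.SecondMainIdem

set_option autoImplicit false
set_option linter.unusedSectionVars false

/-!
# The Brauer correspondence through block idempotents (helper25)

For a `p`-subgroup `Q` of `K`, a block `B` of `K` with defect group `Q` and its Brauer
correspondent `b` in `N_K(Q)` have idempotents that agree modulo the local ideal on `C_K(Q)`.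
-/

namespace Cfsg.Agent.Helper25

open Cfsg
open scoped ComplexConjugate

section BrauerCorr

variable {K : Type*} [Group K] [Fintype K] {p : ℕ} {M : Ideal AlgInt}

theorem specJ_value_mem [Fintype (IrrCharacter K)] (hM : M.IsPrime) {Φ : IrrCharacter K → ℂ}
    (hΦ : Φ ∈ specJ K M hM) (ξ : IrrCharacter K) : MemLocalIdeal M (Φ ξ) := by
  rw [spec_eq_sum Φ ξ]
  exact omega_mem_ideal hM ξ (coeffT Φ) (coeffT_isClassFunction Φ) (mem_specJ.1 hΦ)

/-- Two blocks whose idempotents are congruent modulo the local ideal are equal. -/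
theorem block_eq_of_coeff_congr (hM : M.IsPrime) {b b₁ : Set (IrrCharacter K)}
    (hb : IsPBlock M b) (hb₁ : IsPBlock M b₁)
    (h : ∀ k : K, MemLocalIdeal M (blockCoeff b k - blockCoeff b₁ k)) : b = b₁ := by
  classical
  have := Helper24.finite_irrCharacter (G := K)
  have : Fintype (IrrCharacter K) := Fintype.ofFinite _
  have hJ : (fun ξ : IrrCharacter K => if ξ ∈ b then (1 : ℂ) else 0)
      - (fun ξ : IrrCharacter K => if ξ ∈ b₁ then (1 : ℂ) else 0) ∈ specJ K M hM := by
    rw [mem_specJ]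
    intro k
    rw [coeffT_sub, ← blockCoeff_eq_coeffT, ← blockCoeff_eq_coeffT]
    exact h k
  obtain ⟨ξ, hξ⟩ := block_nonempty hM hb
  have hv := specJ_value_mem hM hJ ξ
  simp only [Pi.sub_apply] at hv
  rw [if_pos hξ] at hv
  by_cases hξ₁ : ξ ∈ b₁
  · rw [block_eq_blockOf_of_mem hM hb hξ, block_eq_blockOf_of_mem hM hb₁ hξ₁]
  · rw [if_neg hξ₁, sub_zero] at hv
    exact absurd hv not_memLocalIdeal_one

/-- A normal `p`-subgroup whose order is `p ^ d(b)` is a defect group of `b`. -/
theorem isDefectGroup_of_normal_card [Fact p.Prime] (hpM : IsPModular p M) (Q : Subgroup K)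
    [Q.Normal] (hQ : IsPGroup p Q) {b : Set (IrrCharacter K)} (hb : IsPBlock M b)
    (hcard : Nat.card Q = p ^ blockDefect p b) : IsDefectGroup p M b Q := by
  classical
  have := Helper24.finite_irrCharacter (G := K)
  have : Fintype (IrrCharacter K) := Fintype.ofFinite _
  obtain ⟨g, hg⟩ := exists_defectClass hpM.2.1.isPrime hb
  obtain ⟨S⟩ : Nonempty (Sylow p (Subgroup.centralizer ({g} : Set K))) := inferInstance
  have hD : IsDefectGroup p M b
      ((S : Subgroup (Subgroup.centralizer ({g} : Set K))).map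
        (Subgroup.centralizer ({g} : Set K)).subtype) := ⟨g, hg, S, rfl⟩
  have hle := normal_pgroup_le_defectGroup hpM Q hQ hb hD
  have hc := card_defectGroup hpM hb _ hD
  have heq : Q = (S : Subgroup (Subgroup.centralizer ({g} : Set K))).map
      (Subgroup.centralizer ({g} : Set K)).subtype :=
    Subgroup.eq_of_le_of_card_ge hle (by rw [hc, hcard])
  rw [heq]
  exact hD

/-- Transport of a block with normal defect group along a group isomorphism. -/
theorem block_transport [Fact p.Prime] (hpM : IsPModular p M) {K' : Type*} [Group K']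
    [Fintype K'] (φ : K ≃* K') (Q : Subgroup K) [Q.Normal] (hQ : IsPGroup p Q)
    (Q' : Subgroup K') (hcard : Nat.card Q = Nat.card Q') (b' : Set (IrrCharacter K'))
    (hb' : IsPBlock M b') (hD' : IsDefectGroup p M b' Q') :
    ∃ b : Set (IrrCharacter K), IsPBlock M b ∧ IsDefectGroup p M b Q ∧
      ∀ k : K, blockCoeff b k = blockCoeff b' (φ k) := by
  classical
  have hM := hpM.2.1.isPrime
  have := Helper24.finite_irrCharacter (G := K)
  have : Fintype (IrrCharacter K) := Fintype.ofFinite _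
  have := Helper24.finite_irrCharacter (G := K')
  have : Fintype (IrrCharacter K') := Fintype.ofFinite _
  obtain ⟨b, hbdef⟩ : ∃ b : Set (IrrCharacter K), b = {ψ | (irrCongr φ).symm ψ ∈ b'} :=
    ⟨_, rfl⟩
  have hmem : ∀ ψ' : IrrCharacter K', irrCongr φ ψ' ∈ b ↔ ψ' ∈ b' := by
    intro ψ'
    rw [hbdef]
    simp
  have hb : IsPBlock M b := by
    obtain ⟨ψ₀, hψ₀⟩ := hb'
    refine ⟨irrCongr φ ψ₀, ?_⟩
    ext ψ
    obtain ⟨ψ', rfl⟩ := (irrCongr φ).surjective ψ
    rw [hmem, hψ₀, mem_blockOf, mem_blockOf]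
    have e1 : ((irrCongr φ ψ₀ : IrrCharacter K) : K → ℂ) = (ψ₀ : K' → ℂ) ∘ φ :=
      funext fun k => irrCongr_apply φ ψ₀ k
    have e2 : ((irrCongr φ ψ' : IrrCharacter K) : K → ℂ) = (ψ' : K' → ℂ) ∘ φ :=
      funext fun k => irrCongr_apply φ ψ' k
    rw [e1, e2]
    constructor
    · exact sameBlock_comp_mulEquiv φ
    · intro h
      have h2 := sameBlock_comp_mulEquiv φ.symm h
      have e3 : ∀ f : K' → ℂ, (f ∘ φ) ∘ φ.symm = f := fun f => by
        funext x
        simp
      rwa [e3, e3] at h2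
  have hdef : blockDefect p b = blockDefect p b' := blockDefect_irrCongr φ b b' hmem
  refine ⟨b, hb, ?_, ?_⟩
  · apply isDefectGroup_of_normal_card hpM Q hQ hb
    rw [hcard, hdef]
    exact card_defectGroup hpM hb' Q' hD'
  · intro k
    rw [blockCoeff_eq_coeffT, blockCoeff_eq_coeffT]
    have h1 := coeffT_irrCongr φ (fun ψ : IrrCharacter K => if ψ ∈ b then (1 : ℂ) else 0) k
    rw [← h1]
    have e : (fun ψ' : IrrCharacter K' => if irrCongr φ ψ' ∈ b then (1 : ℂ) else 0)
        = (fun ψ' : IrrCharacter K' => if ψ' ∈ b' then (1 : ℂ) else 0) := by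
      funext ψ'
      simp only [hmem]
    rw [e]

/-- The idempotent of a block with defect group `Q` and that of its Brauer correspondent in
`N(Q)` agree modulo the local ideal on `C(Q)`; the latter vanishes modulo the local ideal
off `C(Q)`. -/
theorem brauerCorr_coeff [Fact p.Prime] (hpM : IsPModular p M) (Q : Subgroup K)
    (hQ : IsPGroup p Q) (b : Set (IrrCharacter (Subgroup.normalizer (Q : Set K))))
    (hbD : IsDefectGroup p M b (Q.subgroupOf (Subgroup.normalizer (Q : Set K))))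
    (B : Set (IrrCharacter K))
    (hind : IsInducedBlock M (Subgroup.normalizer (Q : Set K)) b B)
    (n : Subgroup.normalizer (Q : Set K)) :
    ((n : K) ∈ Subgroup.centralizer (Q : Set K) →
      MemLocalIdeal M (blockCoeff B (n : K) - blockCoeff b n)) ∧
    ((n : K) ∉ Subgroup.centralizer (Q : Set K) → MemLocalIdeal M (blockCoeff b n)) := by
  classical
  have hM := hpM.2.1.isPrime
  have : Fintype (Subgroup.normalizer (Q : Set K)) := Fintype.ofFinite _
  have := Helper24.finite_irrCharacter (G := K)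
  have : Fintype (IrrCharacter K) := Fintype.ofFinite _
  have := Helper24.finite_irrCharacter (G := Subgroup.normalizer (Q : Set K))
  have : Fintype (IrrCharacter (Subgroup.normalizer (Q : Set K))) := Fintype.ofFinite _
  have hb := hind.1
  have hB := hind.2.1
  have hQN : Q ≤ Subgroup.normalizer (Q : Set K) := Subgroup.le_normalizer
  have hCN := Subgroup.centralizer_le_normalizer (Q : Set K)
  have hNN : Subgroup.normalizer (Q : Set K) ≤ Subgroup.normalizer (Q : Set K) := le_rfl
  obtain ⟨Φ, hΦdef⟩ : ∃ Φ : IrrCharacter K → ℂ, Φ = fun χ => if χ ∈ B then (1 : ℂ) else 0 :=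
    ⟨_, rfl⟩
  have hΦ : Φ ∈ specRing K M hM := by
    rw [hΦdef]
    exact block_indicator_mem hM hB
  have hΦΦ : Φ * Φ = Φ := by
    rw [hΦdef]
    funext χ
    simp only [Pi.mul_apply]
    split_ifs <;> simp
  obtain ⟨T, hTdef⟩ : ∃ T, T = trunc Q (Subgroup.normalizer (Q : Set K)) Φ := ⟨_, rfl⟩
  have hT : T ∈ specRing (Subgroup.normalizer (Q : Set K)) M hM := by
    rw [hTdef]
    exact trunc_mem_specRing hM Q _ hNN hΦ
  have hTT : T * T - T ∈ specJ (Subgroup.normalizer (Q : Set K)) M hM := by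
    have h1 := trunc_mul_sub_mem hpM Q (Subgroup.normalizer (Q : Set K)) hQ hCN hNN hΦ hΦ
    rw [hΦΦ, ← hTdef] at h1
    have h2 := neg_mem h1
    rwa [neg_sub] at h2
  obtain ⟨Ψ, hΨdef⟩ : ∃ Ψ : IrrCharacter (Subgroup.normalizer (Q : Set K)) → ℂ,
      Ψ = fun ξ => if ξ ∈ b then (1 : ℂ) else 0 := ⟨_, rfl⟩
  have hΨ : Ψ ∈ specRing (Subgroup.normalizer (Q : Set K)) M hM := by
    rw [hΨdef]
    exact block_indicator_mem hM hb
  have hΨΨ : Ψ * Ψ = Ψ := by
    rw [hΨdef]
    funext χ
    simp only [Pi.mul_apply]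
    split_ifs <;> simp
  have hmul := brauer_mul_gen hpM Q (Subgroup.normalizer (Q : Set K)) hQ hQN hCN hNN
  obtain ⟨χ₀, hχ₀⟩ := block_nonempty hM hB
  have hval1 : ∀ ξ ∈ b, MemLocalIdeal M (T ξ - 1) := by
    intro ξ hξ
    have h1 := trunc_sub_brLam_mem hpM Q (Subgroup.normalizer (Q : Set K)) hQ hQN hNN hΦ ξ
    have h2 := brLam_congr_of_induced hM (Subgroup.normalizer (Q : Set K)) hind ξ hξ χ₀ hχ₀ Φ hΦ
    have h3 := MemLocalIdeal.add hM h1 h2
    have e : Φ χ₀ = 1 := by
      rw [hΦdef]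
      exact if_pos hχ₀
    rw [e, ← hTdef] at h3
    have e3 : ∀ a c : ℂ, a - c + (c - 1) = a - 1 := fun a c => by ring
    rwa [e3] at h3
  have hval0 : ∀ ξ, ξ ∉ b → MemLocalIdeal M (T ξ) := by
    intro ξ hξ
    have h1 := trunc_sub_brLam_mem hpM Q (Subgroup.normalizer (Q : Set K)) hQ hQN hNN hΦ ξ
    have hnot : ¬ IsInducedBlock M (Subgroup.normalizer (Q : Set K))
        (blockOf M (ξ : Subgroup.normalizer (Q : Set K) → ℂ)) B := by
      intro hind'
      have h5 := firstMain_unique hpM Q hQ b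
        (blockOf M (ξ : Subgroup.normalizer (Q : Set K) → ℂ)) hbD B hind hind'
      apply hξ
      rw [h5]
      exact mem_blockOf_self hM.ne_top ξ
    have h2 := brLam_mem_of_not_induced_gen hM (Subgroup.normalizer (Q : Set K)) hmul
      (blockOf M (ξ : Subgroup.normalizer (Q : Set K) → ℂ)) ⟨ξ, rfl⟩ B hB hnot ξ
      (mem_blockOf_self hM.ne_top ξ)
    rw [← hΦdef] at h2
    have h3 := MemLocalIdeal.add hM h1 h2
    rw [← hTdef, sub_add_cancel] at h3
    exact h3
  obtain ⟨ξ₀, -⟩ := block_nonempty hM hb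
  have h1Ψ : (1 - Ψ) ∈ specRing (Subgroup.normalizer (Q : Set K)) M hM :=
    Subring.sub_mem _ (Subring.one_mem _) hΨ
  have hU : T * (1 - Ψ) ∈ specJ (Subgroup.normalizer (Q : Set K)) M hM := by
    refine mem_specJ_of_idem hM ξ₀ (Subring.mul_mem _ hT h1Ψ) ?_ ?_
    · have hq : (1 - Ψ) * (1 - Ψ) = 1 - Ψ := by
        have e : (1 - Ψ) * (1 - Ψ) = 1 - 2 * Ψ + Ψ * Ψ := by ring
        rw [e, hΨΨ]
        ring
      have e : T * (1 - Ψ) * (T * (1 - Ψ)) - T * (1 - Ψ) = (1 - Ψ) * (T * T - T) := by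
        calc T * (1 - Ψ) * (T * (1 - Ψ)) - T * (1 - Ψ)
            = T * T * ((1 - Ψ) * (1 - Ψ)) - T * (1 - Ψ) := by ring
          _ = T * T * (1 - Ψ) - T * (1 - Ψ) := by rw [hq]
          _ = (1 - Ψ) * (T * T - T) := by ring
      rw [e]
      exact mul_mem_specJ hM h1Ψ hTT
    · intro ξ
      simp only [Pi.mul_apply, Pi.sub_apply, Pi.one_apply]
      rw [hΨdef]
      by_cases hξ : ξ ∈ b
      · simp only [if_pos hξ, sub_self, mul_zero]
        exact MemLocalIdeal.zero hM.ne_top
      · simp only [if_neg hξ, sub_zero, mul_one]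
        exact hval0 ξ hξ
  have hV : (1 - T) * Ψ ∈ specJ (Subgroup.normalizer (Q : Set K)) M hM := by
    refine mem_specJ_of_idem hM ξ₀
      (Subring.mul_mem _ (Subring.sub_mem _ (Subring.one_mem _) hT) hΨ) ?_ ?_
    · have e : (1 - T) * Ψ * ((1 - T) * Ψ) - (1 - T) * Ψ = Ψ * (T * T - T) := by
        calc (1 - T) * Ψ * ((1 - T) * Ψ) - (1 - T) * Ψ
            = (1 - T) * (1 - T) * (Ψ * Ψ) - (1 - T) * Ψ := by ring
          _ = (1 - T) * (1 - T) * Ψ - (1 - T) * Ψ := by rw [hΨΨ]
          _ = Ψ * (T * T - T) := by ring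
      rw [e]
      exact mul_mem_specJ hM hΨ hTT
    · intro ξ
      simp only [Pi.mul_apply, Pi.sub_apply, Pi.one_apply]
      rw [hΨdef]
      by_cases hξ : ξ ∈ b
      · simp only [if_pos hξ, mul_one]
        have h5 := MemLocalIdeal.neg (hval1 ξ hξ)
        rwa [neg_sub] at h5
      · simp only [if_neg hξ, mul_zero]
        exact MemLocalIdeal.zero hM.ne_top
  have hTΨ : T - Ψ ∈ specJ (Subgroup.normalizer (Q : Set K)) M hM := by
    have e : T - Ψ = T * (1 - Ψ) - (1 - T) * Ψ := by ring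
    rw [e]
    exact sub_mem hU hV
  have h := mem_specJ.1 hTΨ n
  rw [coeffT_sub, hTdef, coeffT_trunc Q _ hNN Φ n, hΦdef, hΨdef, ← blockCoeff_eq_coeffT,
    ← blockCoeff_eq_coeffT] at h
  refine ⟨fun hn => ?_, fun hn => ?_⟩
  · rwa [if_pos hn] at h
  · rw [if_neg hn, zero_sub] at h
    have h5 := MemLocalIdeal.neg h
    rwa [neg_neg] at h5

theorem brauerCorr_local [Fact p.Prime] (hpM : IsPModular p M) (Q : Subgroup K)
    (hQ : IsPGroup p Q) (B : Set (IrrCharacter K)) (hB : IsPBlock M B)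
    (hD : IsDefectGroup p M B Q) :
    ∃ b : Set (IrrCharacter (Subgroup.normalizer (Q : Set K))), IsPBlock M b ∧
      IsDefectGroup p M b (Q.subgroupOf (Subgroup.normalizer (Q : Set K))) ∧
      IsInducedBlock M (Subgroup.normalizer (Q : Set K)) b B ∧
      ∀ n : Subgroup.normalizer (Q : Set K),
        ((n : K) ∈ Subgroup.centralizer (Q : Set K) →
          MemLocalIdeal M (blockCoeff B (n : K) - blockCoeff b n)) ∧
        ((n : K) ∉ Subgroup.centralizer (Q : Set K) → MemLocalIdeal M (blockCoeff b n)) := by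
  classical
  have : Fintype (Subgroup.normalizer (Q : Set K)) := Fintype.ofFinite _
  have := Helper24.finite_irrCharacter (G := K)
  have : Fintype (IrrCharacter K) := Fintype.ofFinite _
  obtain ⟨b, hbD, hind⟩ := exists_induced_defect hpM Q (Subgroup.normalizer (Q : Set K))
    Subgroup.le_normalizer (Subgroup.centralizer_le_normalizer (Q : Set K)) le_rfl B hB hD
  exact ⟨b, hind.1, hbD, hind, brauerCorr_coeff hpM Q hQ b hbD B hind⟩

theorem brauerCorr_global [Fact p.Prime] (hpM : IsPModular p M) (Q : Subgroup K)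
    (hQ : IsPGroup p Q) (b : Set (IrrCharacter (Subgroup.normalizer (Q : Set K))))
    (hb : IsPBlock M b)
    (hbD : IsDefectGroup p M b (Q.subgroupOf (Subgroup.normalizer (Q : Set K)))) :
    ∃ B : Set (IrrCharacter K), IsPBlock M B ∧ IsDefectGroup p M B Q ∧
      ∀ n : Subgroup.normalizer (Q : Set K),
        ((n : K) ∈ Subgroup.centralizer (Q : Set K) →
          MemLocalIdeal M (blockCoeff B (n : K) - blockCoeff b n)) ∧
        ((n : K) ∉ Subgroup.centralizer (Q : Set K) → MemLocalIdeal M (blockCoeff b n)) := by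
  classical
  have hM := hpM.2.1.isPrime
  have : Fintype (Subgroup.normalizer (Q : Set K)) := Fintype.ofFinite _
  have := Helper24.finite_irrCharacter (G := K)
  have : Fintype (IrrCharacter K) := Fintype.ofFinite _
  have hmul := brauer_mul_gen hpM Q (Subgroup.normalizer (Q : Set K)) hQ
    Subgroup.le_normalizer (Subgroup.centralizer_le_normalizer (Q : Set K)) le_rfl
  obtain ⟨B, hind⟩ := inducedBlockDefined_of_mul hM (Subgroup.normalizer (Q : Set K)) hmul b hb
  exact ⟨B, hind.2.1, firstMain_induced_defect hpM Q hQ b hbD B hind,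
    brauerCorr_coeff hpM Q hQ b hbD B hind⟩

theorem brauerCorr_inj [Fact p.Prime] (hpM : IsPModular p M) (Q : Subgroup K)
    (hQ : IsPGroup p Q) (B B₁ : Set (IrrCharacter K)) (hB : IsPBlock M B)
    (hB₁ : IsPBlock M B₁) (hD : IsDefectGroup p M B Q) (hD₁ : IsDefectGroup p M B₁ Q)
    (h : ∀ x ∈ Subgroup.centralizer (Q : Set K),
      MemLocalIdeal M (blockCoeff B x - blockCoeff B₁ x)) : B = B₁ := by
  classical
  have hM := hpM.2.1.isPrime
  have : Fintype (Subgroup.normalizer (Q : Set K)) := Fintype.ofFinite _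
  obtain ⟨b, hb, hbD, hind, hc⟩ := brauerCorr_local hpM Q hQ B hB hD
  obtain ⟨b₁, hb₁, hbD₁, hind₁, hc₁⟩ := brauerCorr_local hpM Q hQ B₁ hB₁ hD₁
  have hbb : b = b₁ := by
    apply block_eq_of_coeff_congr hM hb hb₁
    intro n
    have h1 := hc n
    have h2 := hc₁ n
    by_cases hn : (n : K) ∈ Subgroup.centralizer (Q : Set K)
    · have h3 := h (n : K) hn
      have h4 := MemLocalIdeal.add hM (MemLocalIdeal.add hM (MemLocalIdeal.neg (h1.1 hn)) h3)
        (h2.1 hn)
      have e : blockCoeff b n - blockCoeff b₁ n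
          = -(blockCoeff B (n : K) - blockCoeff b n)
            + (blockCoeff B (n : K) - blockCoeff B₁ (n : K))
            + (blockCoeff B₁ (n : K) - blockCoeff b₁ n) := by ring
      rw [e]
      exact h4
    · exact MemLocalIdeal.sub hM (h1.2 hn) (h2.2 hn)
  subst hbb
  exact isInducedBlock_unique hM _ b B B₁ hind hind₁

end BrauerCorr

end Cfsg.Agent.Helper25
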