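import Cfsg.Agent.S0936
import Cfsg.Agent.S0925
import Cfsg.Agent.Helper25.SecondMainIdem
import Cfsg.Agent.Helper25.BlockSection
import Cfsg.Agent.Helper25.BlockOrth2
import Cfsg.Agent.Helper25.BlockDegSq
import Cfsg.Agent.Helper25.BlockPPrime
import Cfsg.Agent.Helper24.CharValues
import Cfsg.Agent.Helper24.CharInv
import Cfsg.Agent.Helper2.CharOrtho
import Mathlib

/-!
The column norm of the principal block at a `p`-element equals the sum of the squares of the
degrees in the principal block of its centralizer; Brauer's column inner product formula.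
-/

set_option autoImplicit false

namespace Cfsg.Agent.Helper25

open Cfsg

/-- Column norm of the principal block at a `p`-element. -/
theorem col_norm_principal {G : Type*} [Group G] [Fintype G] [Fintype (IrrCharacter G)]
    {M : Ideal AlgInt} {p : ℕ} [Fact p.Prime] (hM : IsPModular p M)
    [DecidablePred (fun χ : IrrCharacter G => χ ∈ principalBlock M G)]
    (y : G) (hy : ∃ k : ℕ, orderOf y = p ^ k) :
    ∑ χ : IrrCharacter G, (if χ ∈ principalBlock M G then
        (χ : G → ℂ) y * (starRingEnd ℂ) ((χ : G → ℂ) y) else 0)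
      = ((∑ᶠ ψ ∈ principalBlock M ↥(Subgroup.centralizer ({y} : Set G)),
          charDegree (ψ : ↥(Subgroup.centralizer ({y} : Set G)) → ℂ) ^ 2 : ℕ) : ℂ) := by
  classical
  have hMp : M.IsPrime := IsPModular.isPrime hM
  have hMtop : M ≠ ⊤ := hM.2.1.ne_top
  have hp : p.Prime := Fact.out
  have : Fintype (Subgroup.centralizer ({y} : Set G)) := Fintype.ofFinite _
  have hfinC : Finite (IrrCharacter (Subgroup.centralizer ({y} : Set G))) :=
    Helper24.finite_irrCharacter
  have : Fintype (IrrCharacter (Subgroup.centralizer ({y} : Set G))) := Fintype.ofFinite _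
  have hB0 : IsPBlock M (principalBlock M G) := ⟨oneIrr G, rfl⟩
  have hb0 : IsPBlock M (principalBlock M (Subgroup.centralizer ({y} : Set G))) :=
    ⟨oneIrr _, rfl⟩
  have hA1 : ∑ χ : IrrCharacter G, (if χ ∈ principalBlock M G then
        (χ : G → ℂ) y * (starRingEnd ℂ) ((χ : G → ℂ) y) else 0)
      = (Nat.card (Subgroup.centralizer ({y} : Set G)) : ℂ) *
        ∑ z : G, blockCoeff (principalBlock M G) z *
          (if IsConj (z * y) y then (1 : ℂ) else 0) := by
    have hχ : ∀ χ : IrrCharacter G, (if χ ∈ principalBlock M G then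
        (χ : G → ℂ) y * (starRingEnd ℂ) ((χ : G → ℂ) y) else 0)
        = ∑ z : G, blockCoeff (principalBlock M G) z *
          ((χ : G → ℂ) (z * y) * (starRingEnd ℂ) ((χ : G → ℂ) y)) := by
      intro χ
      have hs := sum_coeffT_mul_shift
        (fun χ : IrrCharacter G => if χ ∈ principalBlock M G then (1 : ℂ) else 0) χ y
      have hs' : ∑ z : G, blockCoeff (principalBlock M G) z * (χ : G → ℂ) (z * y)
          = (if χ ∈ principalBlock M G then (1 : ℂ) else 0) * (χ : G → ℂ) y := by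
        refine Eq.trans (Finset.sum_congr rfl (fun z _ => ?_)) hs
        rw [blockCoeff_eq_coeffT]
      have h3 : ∑ z : G, blockCoeff (principalBlock M G) z *
          ((χ : G → ℂ) (z * y) * (starRingEnd ℂ) ((χ : G → ℂ) y))
          = (∑ z : G, blockCoeff (principalBlock M G) z * (χ : G → ℂ) (z * y))
            * (starRingEnd ℂ) ((χ : G → ℂ) y) := by
        rw [Finset.sum_mul]
        exact Finset.sum_congr rfl (fun z _ => by ring)
      rw [h3, hs']
      split_ifs <;> simp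
    rw [Finset.sum_congr rfl (fun χ _ => hχ χ), Finset.sum_comm, Finset.mul_sum]
    refine Finset.sum_congr rfl (fun z _ => ?_)
    rw [← Finset.mul_sum, Helper2.second_orthogonality (z * y) y]
    split_ifs <;> ring
  obtain ⟨ϑ, hϑdef⟩ : ∃ ϑ : G → ℂ, ϑ = fun g => if IsConj g y then (1 : ℂ) else 0 :=
    ⟨_, rfl⟩
  have hϑcl : IsClassFunction G ϑ := by
    intro u k
    rw [hϑdef]
    show (if IsConj (k * u * k⁻¹) y then (1 : ℂ) else 0) = if IsConj u y then (1 : ℂ) else 0
    have hiff : IsConj (k * u * k⁻¹) y ↔ IsConj u y := by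
      have h := isConj_conj_iff k⁻¹ u y
      rwa [inv_inv] at h
    simp only [hiff]
  have hA : ∀ ψ : IrrCharacter (Subgroup.centralizer ({y} : Set G)),
      ψ ∈ principalBlock M (Subgroup.centralizer ({y} : Set G)) ↔
      IsInducedBlock M (Subgroup.centralizer ({y} : Set G))
        (blockOf M (ψ : Subgroup.centralizer ({y} : Set G) → ℂ)) (principalBlock M G) := by
    intro ψ
    have hdef := inducedBlockDefined_centralizer_elt hM y hy
      (blockOf M (ψ : Subgroup.centralizer ({y} : Set G) → ℂ)) ⟨ψ, rfl⟩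
    rw [Cfsg.Agent.S0936.result p M hM _ _ hdef]
    constructor
    · intro h
      exact (blockOf_eq_of_mem hMp h).symm
    · intro h
      rw [← h]
      exact mem_blockOf_self hMtop ψ
  have h2 := block_part_idem hM y hy ϑ hϑcl (principalBlock M G) hB0
    (principalBlock M (Subgroup.centralizer ({y} : Set G))) hA 1
    (by rw [orderOf_one, Nat.dvd_one]; exact hp.ne_one)
  have hϑ1 : ϑ (y * (((1 : Subgroup.centralizer ({y} : Set G)) : G)
      * ((1 : Subgroup.centralizer ({y} : Set G)) : G))) = 1 := by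
    have e1 : y * (((1 : Subgroup.centralizer ({y} : Set G)) : G)
        * ((1 : Subgroup.centralizer ({y} : Set G)) : G)) = y := by simp
    rw [e1, hϑdef]
    exact if_pos (IsConj.refl y)
  have hRHS : ∑ c : Subgroup.centralizer ({y} : Set G),
      coeffT (fun ψ : IrrCharacter (Subgroup.centralizer ({y} : Set G)) =>
        if ψ ∈ principalBlock M (Subgroup.centralizer ({y} : Set G)) then (1 : ℂ) else 0) c
        * ϑ (y * (((1 : Subgroup.centralizer ({y} : Set G)) : G) * (c : G)))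
      = blockCoeff (principalBlock M (Subgroup.centralizer ({y} : Set G))) 1 := by
    rw [Finset.sum_eq_single (1 : Subgroup.centralizer ({y} : Set G))]
    · rw [← blockCoeff_eq_coeffT, hϑ1, mul_one]
    · intro c _ hc1
      rw [← blockCoeff_eq_coeffT]
      by_cases hconj : IsConj (y * (((1 : Subgroup.centralizer ({y} : Set G)) : G)
          * (c : G))) y
      · have hpc : p ∣ orderOf c := by
          obtain ⟨k, hk⟩ := hy
          have hcomm : Commute y (c : G) := by
            have hc := c.2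
            rw [Subgroup.mem_centralizer_iff] at hc
            exact hc y (Set.mem_singleton y)
          have h1 : IsConj (y * (c : G)) y := by simpa using hconj
          obtain ⟨g, hg⟩ := isConj_iff.mp h1
          have hyk : y ^ p ^ k = 1 := by
            rw [← hk]
            exact pow_orderOf_eq_one y
          have h3 : (g * (y * (c : G)) * g⁻¹) ^ p ^ k = 1 := by
            rw [hg]
            exact hyk
          rw [conj_pow] at h3
          have h4 : (y * (c : G)) ^ p ^ k = 1 := conj_eq_one_iff.mp h3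
          rw [hcomm.mul_pow, hyk, one_mul] at h4
          have h5 : orderOf (c : G) ∣ p ^ k := orderOf_dvd_of_pow_eq_one h4
          obtain ⟨j, -, hj⟩ := (Nat.dvd_prime_pow hp).mp h5
          have hj0 : j ≠ 0 := by
            intro h0
            rw [h0, pow_zero, orderOf_eq_one_iff] at hj
            exact hc1 (Subtype.ext hj)
          rw [← Subgroup.orderOf_coe, hj]
          exact dvd_pow_self p hj0
        rw [osima hM hb0 c hpc, zero_mul]
      · have hz : ϑ (y * (((1 : Subgroup.centralizer ({y} : Set G)) : G) * (c : G))) = 0 := by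
          rw [hϑdef]
          exact if_neg hconj
        rw [hz, mul_zero]
    · intro h
      exact absurd (Finset.mem_univ _) h
  have e2 : ∀ k : G, ϑ (k * (y * ((1 : Subgroup.centralizer ({y} : Set G)) : G)))
      = if IsConj (k * y) y then (1 : ℂ) else 0 := by
    intro k
    have e : k * (y * ((1 : Subgroup.centralizer ({y} : Set G)) : G)) = k * y := by simp
    rw [e, hϑdef]
  have h3 : ∑ z : G, blockCoeff (principalBlock M G) z *
      (if IsConj (z * y) y then (1 : ℂ) else 0)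
      = blockCoeff (principalBlock M (Subgroup.centralizer ({y} : Set G))) 1 := by
    rw [← hRHS, ← h2, finsum_eq_sum_of_fintype]
    exact Finset.sum_congr rfl (fun k _ => by rw [e2 k])
  rw [hA1, h3]
  unfold blockCoeff
  rw [← mul_assoc, mul_inv_cancel₀ card_ne_zero_complex, one_mul, finsum_mem_eq_sum_ite,
    finsum_mem_eq_sum_ite_nat, Nat.cast_sum]
  refine Finset.sum_congr rfl (fun ψ _ => ?_)
  split_ifs
  · rw [Helper24.charDegree_spec (Helper24.isCharacter_of_irr ψ.2), map_natCast,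
      Nat.cast_pow, pow_two]
  · simp

open Classical in
/-- Counting the elements of `N` conjugating `u` to a given conjugate. -/
theorem conj_count {G : Type*} [Group G] (N : Subgroup G) [Fintype N] (u v : G) (x0 : N)
    (hx0 : (x0 : G) * u * (x0 : G)⁻¹ = v) :
    ∑ x : N, (if (x : G) * u * (x : G)⁻¹ = v then (1 : ℂ) else 0)
      = (Nat.card ↥(N ⊓ Subgroup.centralizer ({u} : Set G)) : ℂ) := by
  have h1 : ∑ x : N, (if (x : G) * u * (x : G)⁻¹ = v then (1 : ℂ) else 0)
      = ∑ x : N, (if (x : G) ∈ Subgroup.centralizer ({u} : Set G) then (1 : ℂ) else 0) := by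
    rw [← Equiv.sum_comp (Equiv.mulLeft x0)]
    refine Finset.sum_congr rfl (fun x _ => ?_)
    have hiff : (((x0 * x : N)) : G) * u * (((x0 * x : N)) : G)⁻¹ = v ↔
        (x : G) ∈ Subgroup.centralizer ({u} : Set G) := by
      rw [Subgroup.coe_mul, ← hx0, Subgroup.mem_centralizer_iff]
      constructor
      · intro h y hy
        rw [Set.mem_singleton_iff] at hy
        rw [hy]
        have h' : (x : G) * u * (x : G)⁻¹ = u := by
          have e : (x : G) * u * (x : G)⁻¹
              = (x0 : G)⁻¹ * ((x0 : G) * (x : G) * u * ((x0 : G) * (x : G))⁻¹) * (x0 : G) := by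
            group
          rw [e, h]
          group
        exact (mul_inv_eq_iff_eq_mul.mp h').symm
      · intro h
        have h' : u * (x : G) = (x : G) * u := h u (Set.mem_singleton u)
        have e : (x0 : G) * (x : G) * u * ((x0 : G) * (x : G))⁻¹
            = (x0 : G) * ((x : G) * u) * (x : G)⁻¹ * (x0 : G)⁻¹ := by group
        rw [e, ← h']
        group
    exact if_congr hiff rfl rfl
  rw [h1, Finset.sum_boole, ← Fintype.card_subtype, ← Nat.card_eq_fintype_card]
  exact congrArg Nat.cast (Nat.card_congr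
    ⟨fun x => ⟨x.1.1, Subgroup.mem_inf.mpr ⟨x.1.2, x.2⟩⟩,
      fun c => ⟨⟨c.1, (Subgroup.mem_inf.mp c.2).1⟩, (Subgroup.mem_inf.mp c.2).2⟩,
      fun _ => rfl, fun _ => rfl⟩)

/-- Brauer's column inner product formula for the principal block (working form). -/
theorem col_inner_aux {G : Type*} [Group G] [Finite G] (p : ℕ) [Fact p.Prime]
    (M : Ideal AlgInt) (hM : IsPModular p M) (P : Subgroup G) (hP : IsPGroup p P)
    (N : Subgroup G) (hNN : N ≤ Subgroup.normalizer (P : Set G)) (U : Set G)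
    (hfus : ∀ u ∈ U, ∀ g : G, g * u * g⁻¹ ∈ (P : Set G) → ∃ n ∈ N, n * u * n⁻¹ = g * u * g⁻¹)
    (w : ℚ)
    (hw : ∀ y ∈ U, ((∑ᶠ ψ ∈ Cfsg.principalBlock M ↥(Subgroup.centralizer ({y} : Set G)), Cfsg.charDegree (ψ : ↥(Subgroup.centralizer ({y} : Set G)) → ℂ) ^ 2) : ℚ) = w * Nat.card ↥(N ⊓ Subgroup.centralizer ({y} : Set G)))
    (θ η : ↥P → ℂ) (hθU : ∀ y : ↥P, (y : G) ∉ U → θ y = 0) :
    ∑ᶠ χ ∈ Cfsg.principalBlock M G, ((Nat.card ↥P : ℂ)⁻¹ * ∑ᶠ y : ↥P, (χ : G → ℂ) (y : G) * θ y⁻¹) * (starRingEnd ℂ) ((Nat.card ↥P : ℂ)⁻¹ * ∑ᶠ y : ↥P, (χ : G → ℂ) (y : G) * η y⁻¹) = ((w : ℂ) / ((Nat.card ↥P : ℂ) ^ 2)) * ∑ᶠ y : ↥P, θ y * (starRingEnd ℂ) (∑ᶠ x : ↥N, Cfsg.extendByZero P η ((x : G) * (y : G) * (x : G)⁻¹)) := by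
  classical
  have : Fintype G := Fintype.ofFinite G
  have hfin : Finite (IrrCharacter G) := Helper24.finite_irrCharacter
  have : Fintype (IrrCharacter G) := Fintype.ofFinite _
  have : Fintype P := Fintype.ofFinite P
  have : Fintype N := Fintype.ofFinite N
  have hpr : p.Prime := Fact.out
  have hB0 : IsPBlock M (principalBlock M G) := ⟨oneIrr G, rfl⟩
  have hpel : ∀ v : P, ∃ k : ℕ, orderOf (v : G) = p ^ k := by
    intro v
    obtain ⟨k, hk⟩ := hP v
    have h1 : orderOf (v : G) ∣ p ^ k := by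
      apply orderOf_dvd_of_pow_eq_one
      simpa using congrArg Subtype.val hk
    obtain ⟨j, -, hj⟩ := (Nat.dvd_prime_pow hpr).mp h1
    exact ⟨j, hj⟩
  have hpart : ∀ v : P, IsPPart p (v : G) (v : G) := by
    intro v
    refine ⟨1, mul_one _, Commute.one_right _, hpel v, ?_⟩
    rw [orderOf_one, Nat.dvd_one]
    exact hpr.ne_one
  obtain ⟨T, hTdef⟩ : ∃ T : G → G → ℂ, ∀ u v, T u v = ∑ χ : IrrCharacter G,
      (if χ ∈ principalBlock M G then
        (χ : G → ℂ) v * (starRingEnd ℂ) ((χ : G → ℂ) u) else 0) :=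
    ⟨_, fun _ _ => rfl⟩
  obtain ⟨cnt, hcntdef⟩ : ∃ cnt : G → G → ℂ, ∀ u v, cnt u v = ∑ x : N,
      (if (x : G) * u * (x : G)⁻¹ = v then (1 : ℂ) else 0) := ⟨_, fun _ _ => rfl⟩
  have hT : ∀ u : P, (u : G) ∈ U → ∀ v : P,
      T (u : G) (v : G) = (w : ℂ) * cnt (u : G) (v : G) := by
    intro u huU v
    rw [hTdef, hcntdef]
    by_cases hex : ∃ x : N, (x : G) * (u : G) * (x : G)⁻¹ = (v : G)
    · obtain ⟨x0, hx0⟩ := hex
      rw [conj_count N (u : G) (v : G) x0 hx0]
      have h1 : ∑ χ : IrrCharacter G, (if χ ∈ principalBlock M G then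
          (χ : G → ℂ) (v : G) * (starRingEnd ℂ) ((χ : G → ℂ) (u : G)) else 0)
          = ∑ χ : IrrCharacter G, (if χ ∈ principalBlock M G then
          (χ : G → ℂ) (u : G) * (starRingEnd ℂ) ((χ : G → ℂ) (u : G)) else 0) := by
        refine Finset.sum_congr rfl (fun χ _ => ?_)
        rw [← hx0, (Helper2.IsIrrCharacter.isClassFunction χ.2) (u : G) (x0 : G)]
      rw [h1, col_norm_principal hM (u : G) (hpel u)]
      have hq := hw (u : G) huU
      haveI : Finite (IrrCharacter ↥(Subgroup.centralizer ({(u : G)} : Set G))) :=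
        Helper24.finite_irrCharacter
      have hbr : ((∑ᶠ ψ ∈ principalBlock M ↥(Subgroup.centralizer ({(u : G)} : Set G)),
          charDegree (ψ : ↥(Subgroup.centralizer ({(u : G)} : Set G)) → ℂ) ^ 2 : ℕ) : ℂ)
          = (((w * (Nat.card ↥(N ⊓ Subgroup.centralizer ({(u : G)} : Set G)) : ℚ) : ℚ)) : ℂ) := by
        rw [← hq, finsum_mem_eq_finite_toFinset_sum _ (Set.toFinite _),
          finsum_mem_eq_finite_toFinset_sum _ (Set.toFinite _)]
        push_cast
        try rfl
      rw [hbr]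
      push_cast
      try rfl
    · have hzero : ∑ x : N, (if (x : G) * (u : G) * (x : G)⁻¹ = (v : G) then (1 : ℂ) else 0)
          = 0 := Finset.sum_eq_zero (fun x _ => if_neg (fun h => hex ⟨x, h⟩))
      rw [hzero, mul_zero]
      have hnc : ¬ IsConj (v : G) (u : G) := by
        intro hc
        obtain ⟨g, hg⟩ := isConj_iff.mp hc
        have hv : g⁻¹ * (u : G) * g⁻¹⁻¹ = (v : G) := by
          rw [← hg]
          group
        obtain ⟨n, hn, hnu⟩ := hfus (u : G) huU g⁻¹ (by rw [hv]; exact v.2)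
        exact hex ⟨⟨n, hn⟩, by rw [← hv]; exact hnu⟩
      have h5 := (Cfsg.Agent.S0925.result p M hM).2 (v : G) (u : G) (v : G) (u : G)
        (hpart v) (hpart u) hnc (principalBlock M G) hB0
      rw [finsum_mem_eq_sum_ite] at h5
      refine Eq.trans (Finset.sum_congr rfl (fun χ _ => ?_)) h5
      rw [Helper24.char_inv (Helper24.isCharacter_of_irr χ.2) (u : G)]
  have hB5 : ∀ u : P,
      ∑ x : N, (starRingEnd ℂ) (extendByZero P η ((x : G) * (u : G) * (x : G)⁻¹))
      = ∑ v : P, (starRingEnd ℂ) (η v) * cnt (u : G) (v : G) := by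
    intro u
    have hx : ∀ x : N, (x : G) * (u : G) * (x : G)⁻¹ ∈ P := by
      intro x
      exact (Subgroup.mem_normalizer_iff.mp (hNN x.2) (u : G)).mp u.2
    have h1 : ∀ x : N, (starRingEnd ℂ) (extendByZero P η ((x : G) * (u : G) * (x : G)⁻¹))
        = ∑ v : P, (if (x : G) * (u : G) * (x : G)⁻¹ = (v : G)
            then (starRingEnd ℂ) (η v) else 0) := by
      intro x
      have h2 : extendByZero P η ((x : G) * (u : G) * (x : G)⁻¹)
          = η ⟨(x : G) * (u : G) * (x : G)⁻¹, hx x⟩ :=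
        Subtype.val_injective.extend_apply η 0 ⟨(x : G) * (u : G) * (x : G)⁻¹, hx x⟩
      rw [h2, Finset.sum_eq_single (⟨(x : G) * (u : G) * (x : G)⁻¹, hx x⟩ : P)]
      · rw [if_pos rfl]
      · intro v _ hv
        exact if_neg (fun h => hv (Subtype.ext h.symm))
      · intro h
        exact absurd (Finset.mem_univ _) h
    rw [Finset.sum_congr rfl (fun x _ => h1 x), Finset.sum_comm]
    refine Finset.sum_congr rfl (fun v _ => ?_)
    rw [hcntdef, Finset.mul_sum]
    exact Finset.sum_congr rfl (fun x _ => by rw [mul_ite, mul_one, mul_zero])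
  have hcoef : ∀ (φ : P → ℂ) (χ : IrrCharacter G),
      (Nat.card ↥P : ℂ)⁻¹ * ∑ᶠ y : ↥P, (χ : G → ℂ) (y : G) * φ y⁻¹
      = (Nat.card ↥P : ℂ)⁻¹ * ∑ u : P, φ u * (starRingEnd ℂ) ((χ : G → ℂ) (u : G)) := by
    intro φ χ
    rw [finsum_eq_sum_of_fintype]
    congr 1
    calc ∑ y : P, (χ : G → ℂ) (y : G) * φ y⁻¹
        = ∑ u : P, (χ : G → ℂ) ((Equiv.inv P u : P) : G) * φ (Equiv.inv P u)⁻¹ :=
          (Equiv.sum_comp (Equiv.inv P) (fun y : P => (χ : G → ℂ) (y : G) * φ y⁻¹)).symm
      _ = ∑ u : P, φ u * (starRingEnd ℂ) ((χ : G → ℂ) (u : G)) :=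
          Finset.sum_congr rfl (fun u _ => by
            rw [Equiv.inv_apply, inv_inv, Subgroup.coe_inv,
              Helper24.char_inv (Helper24.isCharacter_of_irr χ.2), mul_comm])
  have hcoef2 : ∀ (χ : IrrCharacter G),
      (starRingEnd ℂ) ((Nat.card ↥P : ℂ)⁻¹ * ∑ᶠ y : ↥P, (χ : G → ℂ) (y : G) * η y⁻¹)
      = (Nat.card ↥P : ℂ)⁻¹ * ∑ v : P, (starRingEnd ℂ) (η v) * (χ : G → ℂ) (v : G) := by
    intro χ
    rw [hcoef η χ, map_mul, map_inv₀, map_natCast, map_sum]
    congr 1
    exact Finset.sum_congr rfl (fun v _ => by rw [map_mul, Complex.conj_conj])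
  have hL : ∀ χ : IrrCharacter G, (if χ ∈ principalBlock M G then
      ((Nat.card ↥P : ℂ)⁻¹ * ∑ᶠ y : ↥P, (χ : G → ℂ) (y : G) * θ y⁻¹)
      * (starRingEnd ℂ) ((Nat.card ↥P : ℂ)⁻¹ * ∑ᶠ y : ↥P, (χ : G → ℂ) (y : G) * η y⁻¹)
        else 0)
      = ((Nat.card ↥P : ℂ)⁻¹ * (Nat.card ↥P : ℂ)⁻¹) * ∑ u : P, ∑ v : P,
        θ u * ((starRingEnd ℂ) (η v) * (if χ ∈ principalBlock M G then
          (χ : G → ℂ) (v : G) * (starRingEnd ℂ) ((χ : G → ℂ) (u : G)) else 0)) := by
    intro χ
    by_cases hχ : χ ∈ principalBlock M G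
    · simp only [if_pos hχ]
      rw [hcoef θ χ, hcoef2 χ, mul_mul_mul_comm, Finset.sum_mul_sum]
      congr 1
      exact Finset.sum_congr rfl (fun u _ => Finset.sum_congr rfl (fun v _ => by ring))
    · simp only [if_neg hχ]
      simp
  rw [finsum_mem_eq_sum_ite, Finset.sum_congr rfl (fun χ _ => hL χ), ← Finset.mul_sum,
    Finset.sum_comm]
  have hinner : ∀ u : P, ∑ χ : IrrCharacter G, ∑ v : P,
        θ u * ((starRingEnd ℂ) (η v) * (if χ ∈ principalBlock M G then
          (χ : G → ℂ) (v : G) * (starRingEnd ℂ) ((χ : G → ℂ) (u : G)) else 0))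
      = θ u * ((w : ℂ) * ∑ v : P, (starRingEnd ℂ) (η v) * cnt (u : G) (v : G)) := by
    intro u
    rw [Finset.sum_comm]
    by_cases huU : (u : G) ∈ U
    · rw [Finset.mul_sum, Finset.mul_sum]
      refine Finset.sum_congr rfl (fun v _ => ?_)
      rw [← Finset.mul_sum, ← Finset.mul_sum, ← hTdef, hT u huU v]
      ring
    · rw [hθU u huU]
      simp
  rw [Finset.sum_congr rfl (fun u _ => hinner u), finsum_eq_sum_of_fintype]
  have hR : ∀ y : P, θ y * (starRingEnd ℂ)
      (∑ᶠ x : ↥N, extendByZero P η ((x : G) * (y : G) * (x : G)⁻¹))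
      = θ y * ∑ v : P, (starRingEnd ℂ) (η v) * cnt (y : G) (v : G) := by
    intro y
    rw [finsum_eq_sum_of_fintype, map_sum, hB5 y]
  rw [Finset.sum_congr rfl (fun y _ => hR y), Finset.mul_sum, Finset.mul_sum]
  refine Finset.sum_congr rfl (fun u _ => ?_)
  ring

/-- Brauer's column inner product formula for the principal block. -/
theorem col_inner_main {G : Type*} [Group G] [Finite G] (p : ℕ) [Fact p.Prime] (M : Ideal Cfsg.AlgInt) (hM : Cfsg.IsPModular p M) (P : Subgroup G) (hP : IsPGroup p P) (N : Subgroup G) (hPN : P ≤ N) (hNN : N ≤ Subgroup.normalizer (P : Set G)) (U : Set G) (hUne : U.Nonempty) (hUP : U ⊆ (P : Set G)) (hUN : ∀ n ∈ N, ∀ u ∈ U, n * u * n⁻¹ ∈ U) (hfus : ∀ u ∈ U, ∀ g : G, g * u * g⁻¹ ∈ (P : Set G) → ∃ n ∈ N, n * u * n⁻¹ = g * u * g⁻¹) (w : ℚ) (hw : ∀ y ∈ U, ((∑ᶠ ψ ∈ Cfsg.principalBlock M ↥(Subgroup.centralizer ({y} : Set G)), Cfsg.charDegree (ψ : ↥(Subgroup.centralizer ({y} : Set G)) → ℂ) ^ 2) : ℚ) = w * Nat.card ↥(N ⊓ Subgroup.centralizer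 ({y} : Set G))) (θ η : ↥P → ℂ) (hθ : Cfsg.IsGeneralizedCharacter ↥P θ) (hη : Cfsg.IsGeneralizedCharacter ↥P η) (hθU : ∀ y : ↥P, (y : G) ∉ U → θ y = 0) : ∑ᶠ χ ∈ Cfsg.principalBlock M G, ((Nat.card ↥P : ℂ)⁻¹ * ∑ᶠ y : ↥P, (χ : G → ℂ) (y : G) * θ y⁻¹) * (starRingEnd ℂ) ((Nat.card ↥P : ℂ)⁻¹ * ∑ᶠ y : ↥P, (χ : G → ℂ) (y : G) * η y⁻¹) = ((w : ℂ) / ((Nat.card ↥P : ℂ) ^ 2)) * ∑ᶠ y : ↥P, θ y * (starRingEnd ℂ) (∑ᶠ x : ↥N, Cfsg.extendByZero P η ((x : G) * (y : G) * (x : G)⁻¹)) :=
  col_inner_aux p M hM P hP N hNN U hfus w hw θ η hθU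

end Cfsg.Agent.Helper25
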