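import Cfsg.Agent.Helper25.FongReynolds
import Cfsg.Agent.Helper25.BlockDegSq
import Cfsg.Agent.Helper25.FirstMain3
import Cfsg.Agent.Helper25.BlockOrthGen
import Cfsg.Agent.Helper25.InducedPart2
import Cfsg.Agent.Helper25.BlockAut

set_option autoImplicit false
set_option linter.unusedSectionVars false

/-!
# The defect of the unique block covering a block of a normal subgroup (helper25)
-/

namespace Cfsg.Agent.Helper25

open Cfsg
open scoped ComplexConjugate

section FongDefect

variable {G : Type*} [Group G] [Fintype G] {p : ℕ} {M : Ideal AlgInt}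
  (N : Subgroup G) [hN : N.Normal] [Fintype N] (b : Set (IrrCharacter N))
  (T : Subgroup G) [Fintype T]

theorem mem_conjSet_iff' (θ : IrrCharacter N) :
    θ ∈ conjSet N b ↔ ∃ g : G, conjIrr N g θ ∈ b := by
  constructor
  · rintro ⟨g, θ', hθ', rfl⟩
    refine ⟨g⁻¹, ?_⟩
    rw [conjIrr_mul, mul_inv_cancel, conjIrr_one]
    exact hθ'
  · rintro ⟨g, hg⟩
    refine ⟨g⁻¹, _, hg, ?_⟩
    rw [conjIrr_mul, mul_inv_cancel, conjIrr_one]

theorem mem_of_conj_mem (hM : M.IsPrime) (hb : IsPBlock M b) {g : G} {θ₁ ψ : IrrCharacter N}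
    (h1 : θ₁ ∈ b) (h2 : conjIrr N g θ₁ ∈ b) (h3 : conjIrr N g ψ ∈ b) : ψ ∈ b := by
  obtain ⟨θ₀, rfl⟩ := hb
  have s : SameBlock M ((conjIrr N g θ₁ : IrrCharacter N) : N → ℂ)
      ((conjIrr N g ψ : IrrCharacter N) : N → ℂ) := sameBlock_trans hM (sameBlock_symm h2) h3
  have s' := sameBlock_conjFun N g⁻¹ s
  rw [conjIrr_coe, conjIrr_coe, ← Helper6.conjFun_mul, ← Helper6.conjFun_mul, mul_inv_cancel,
    Helper6.conjFun_one, Helper6.conjFun_one] at s'
  exact sameBlock_trans hM h1 s'

theorem card_stab_coset (hM : M.IsPrime) (hb : IsPBlock M b)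
    (hT : ∀ g : G, g ∈ T ↔ ∀ θ ∈ b, conjIrr N g θ ∈ b) [DecidablePred (· ∈ b)]
    (θ : IrrCharacter N) (hθ : θ ∈ conjSet N b) :
    (Finset.univ.filter (fun g : G => conjIrr N g θ ∈ b)).card = Nat.card T := by
  obtain ⟨g₀, hg₀⟩ := (mem_conjSet_iff' N b θ).1 hθ
  have e : (Finset.univ.filter (fun g : G => conjIrr N g θ ∈ b)).card
      = Nat.card {g : G // conjIrr N g θ ∈ b} := by
    rw [Nat.card_eq_fintype_card, Fintype.card_subtype]
  rw [e]
  refine Nat.card_congr ⟨fun g => ⟨g₀⁻¹ * (g : G), ?_⟩, fun t => ⟨g₀ * (t : G), ?_⟩, ?_, ?_⟩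
  · refine mem_stab_of_one N T b hM hb hT hg₀ ?_
    rw [conjIrr_mul, mul_inv_cancel_left]
    exact g.2
  · rw [← conjIrr_mul]
    exact (hT t).1 t.2 _ hg₀
  · intro g
    apply Subtype.ext
    simp
  · intro t
    apply Subtype.ext
    simp

theorem fact_mul3 {a b c : ℕ} (ha : a ≠ 0) (hb : b ≠ 0) (hc : c ≠ 0) :
    (a * b * c).factorization p = a.factorization p + b.factorization p + c.factorization p := by
  rw [Nat.factorization_mul (mul_ne_zero ha hb) hc, Nat.factorization_mul ha hb]
  rfl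

/-- **Fong.** If `β` is the unique block of `G` covering the block `b` of the normal subgroup
`N` (its members are exactly the characters over `b`), and `T` is the stabilizer of `b`, then
`d(β) + ν(|N|) = d(b) + ν(|T|)`. -/
theorem fong_defect_unique_cover [Fact p.Prime] (hpM : IsPModular p M) (hb : IsPBlock M b)
    (hT : ∀ g : G, g ∈ T ↔ ∀ θ ∈ b, conjIrr N g θ ∈ b)
    (β : Set (IrrCharacter G)) (hβ : IsPBlock M β)
    (huniq : ∀ χ : IrrCharacter G, χ ∈ β ↔ ∃ θ ∈ b,
      classInner (fun n : N => (χ : G → ℂ) n) (θ : N → ℂ) ≠ 0) :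
    blockDefect p β + (Nat.card N).factorization p
      = blockDefect p b + (Nat.card T).factorization p := by
  classical
  have hM := hpM.2.1.isPrime
  have := Helper24.finite_irrCharacter (G := G)
  have : Fintype (IrrCharacter G) := Fintype.ofFinite _
  have := Helper24.finite_irrCharacter (G := N)
  have : Fintype (IrrCharacter N) := Fintype.ofFinite _
  have hkex : ∀ (χ : IrrCharacter G) (θ : IrrCharacter N), ∃ m : ℕ,
      classInner (fun n : N => (χ : G → ℂ) n) (θ : N → ℂ) = (m : ℂ) := fun χ θ =>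
    Helper2.classInner_char_nat (res_G_char N (Helper24.isCharacter_of_irr χ.2))
      (Helper24.isCharacter_of_irr θ.2)
  choose k hk using hkex
  obtain ⟨dG, hdG⟩ : ∃ dG : IrrCharacter G → ℕ,
      dG = fun χ : IrrCharacter G => charDegree (χ : G → ℂ) := ⟨_, rfl⟩
  obtain ⟨dN, hdN⟩ : ∃ dN : IrrCharacter N → ℕ,
      dN = fun θ : IrrCharacter N => charDegree (θ : N → ℂ) := ⟨_, rfl⟩
  have hdG1 : ∀ χ : IrrCharacter G, (χ : G → ℂ) 1 = (dG χ : ℂ) := by
    intro χ
    rw [hdG]
    exact irr_one_eq_degree χ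
  have hdN1 : ∀ θ : IrrCharacter N, (θ : N → ℂ) 1 = (dN θ : ℂ) := by
    intro θ
    rw [hdN]
    exact irr_one_eq_degree θ
  have S1 : ∀ χ : IrrCharacter G, dG χ = ∑ θ : IrrCharacter N, k χ θ * dN θ := by
    intro χ
    have hcl := Helper2.IsCharacter.isClassFunction
      (res_G_char N (Helper24.isCharacter_of_irr χ.2))
    have h1 := congrFun (Helper2.class_fn_expansion hcl) 1
    simp only [Finset.sum_apply, Pi.smul_apply, smul_eq_mul, Subgroup.coe_one] at h1
    have h2 : ((dG χ : ℕ) : ℂ) = ((∑ θ : IrrCharacter N, k χ θ * dN θ : ℕ) : ℂ) := by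
      rw [← hdG1 χ, h1]
      push_cast
      refine Finset.sum_congr rfl fun θ _ => ?_
      rw [← hk χ θ, hdN1 θ]
    exact_mod_cast h2
  have hNc : (Nat.card N : ℂ) ≠ 0 := by
    have : 0 < Nat.card N := Nat.card_pos
    exact_mod_cast this.ne'
  have S2 : ∀ θ : IrrCharacter N,
      Nat.card N * ∑ χ : IrrCharacter G, k χ θ * dG χ = Nat.card G * dN θ := by
    intro θ
    have hcl := Helper2.isClassFunction_indFun N (θ : N → ℂ)
    have h1 := congrFun (Helper2.class_fn_expansion hcl) 1
    simp only [Finset.sum_apply, Pi.smul_apply, smul_eq_mul] at h1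
    rw [indFun_one_eq] at h1
    have h2 : ∀ χ : IrrCharacter G,
        classInner (indFun N (θ : N → ℂ)) (χ : G → ℂ) = (k χ θ : ℂ) := by
      intro χ
      rw [Helper2.frobenius_reciprocity N _ _ (Helper2.IsIrrCharacter.isClassFunction χ.2),
        ← Helper2.classInner_conj_symm, hk χ θ]
      simp
    have h3 : ∑ χ : IrrCharacter G, (k χ θ : ℂ) * (dG χ : ℂ)
        = (Nat.card G : ℂ) * (Nat.card N : ℂ)⁻¹ * (dN θ : ℂ) := by
      rw [← hdN1 θ, h1]
      refine Finset.sum_congr rfl fun χ _ => ?_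
      rw [h2 χ, hdG1 χ]
    have h4 : ((Nat.card N * ∑ χ : IrrCharacter G, k χ θ * dG χ : ℕ) : ℂ)
        = ((Nat.card G * dN θ : ℕ) : ℂ) := by
      push_cast
      rw [h3]
      field_simp
    exact_mod_cast h4
  have hmem1 : ∀ χ ∈ β, ∀ θ : IrrCharacter N, k χ θ ≠ 0 → θ ∈ conjSet N b := by
    intro χ hχ θ hkne
    obtain ⟨θ', hθ', hne'⟩ := (huniq χ).1 hχ
    have hne : classInner (fun n : N => (χ : G → ℂ) n) (θ : N → ℂ) ≠ 0 := by
      rw [hk]
      exact_mod_cast hkne
    exact cover_conj hM N hb (sameBlock_refl hM.ne_top _) hθ' hne' hne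
  have hmem2 : ∀ χ : IrrCharacter G, ∀ θ ∈ conjSet N b, k χ θ ≠ 0 → χ ∈ β := by
    intro χ θ hθ hkne
    obtain ⟨g, θ', hθ', rfl⟩ := hθ
    rw [huniq]
    refine ⟨θ', hθ', ?_⟩
    have hne : classInner (fun n : N => (χ : G → ℂ) n)
        ((conjIrr N g θ' : IrrCharacter N) : N → ℂ) ≠ 0 := by
      rw [hk]
      exact_mod_cast hkne
    rw [conjIrr_coe, Helper6.classInner_res_conjFun N g _
      (Helper2.IsIrrCharacter.isClassFunction χ.2)] at hne
    exact hne
  have hA : Nat.card N * ∑ χ : IrrCharacter G, (if χ ∈ β then dG χ ^ 2 else 0)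
      = Nat.card G * ∑ θ : IrrCharacter N, (if θ ∈ conjSet N b then dN θ ^ 2 else 0) := by
    calc Nat.card N * ∑ χ : IrrCharacter G, (if χ ∈ β then dG χ ^ 2 else 0)
        = Nat.card N * ∑ χ : IrrCharacter G, ∑ θ : IrrCharacter N,
            (if χ ∈ β then dG χ * (k χ θ * dN θ) else 0) := by
          congr 1
          refine Finset.sum_congr rfl fun χ _ => ?_
          by_cases h : χ ∈ β
          · simp only [if_pos h]
            rw [sq, ← Finset.mul_sum, ← S1 χ]
          · simp only [if_neg h]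
            simp
      _ = Nat.card N * ∑ θ : IrrCharacter N, ∑ χ : IrrCharacter G,
            (if χ ∈ β then dG χ * (k χ θ * dN θ) else 0) := by rw [Finset.sum_comm]
      _ = Nat.card N * ∑ θ : IrrCharacter N,
            (if θ ∈ conjSet N b then dN θ * ∑ χ : IrrCharacter G, k χ θ * dG χ else 0) := by
          congr 1
          refine Finset.sum_congr rfl fun θ _ => ?_
          by_cases h : θ ∈ conjSet N b
          · rw [if_pos h, Finset.mul_sum]
            refine Finset.sum_congr rfl fun χ _ => ?_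
            by_cases hχ : χ ∈ β
            · rw [if_pos hχ]
              ring
            · rw [if_neg hχ]
              have h0 : k χ θ = 0 := by
                by_contra hk0
                exact hχ (hmem2 χ θ h hk0)
              rw [h0]
              simp
          · rw [if_neg h]
            refine Finset.sum_eq_zero fun χ _ => ?_
            by_cases hχ : χ ∈ β
            · rw [if_pos hχ]
              have h0 : k χ θ = 0 := by
                by_contra hk0
                exact h (hmem1 χ hχ θ hk0)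
              rw [h0]
              simp
            · rw [if_neg hχ]
      _ = ∑ θ : IrrCharacter N,
            (if θ ∈ conjSet N b then dN θ * (Nat.card N * ∑ χ : IrrCharacter G, k χ θ * dG χ)
              else 0) := by
          rw [Finset.mul_sum]
          refine Finset.sum_congr rfl fun θ _ => ?_
          split_ifs <;> ring
      _ = ∑ θ : IrrCharacter N, (if θ ∈ conjSet N b then Nat.card G * dN θ ^ 2 else 0) := by
          refine Finset.sum_congr rfl fun θ _ => ?_
          split_ifs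
          · rw [S2 θ]
            ring
          · rfl
      _ = Nat.card G * ∑ θ : IrrCharacter N, (if θ ∈ conjSet N b then dN θ ^ 2 else 0) := by
          rw [Finset.mul_sum]
          refine Finset.sum_congr rfl fun θ _ => ?_
          split_ifs <;> simp
  have hdinv : ∀ (g : G) (θ : IrrCharacter N), dN (conjIrr N g θ) = dN θ := by
    intro g θ
    rw [hdN]
    simp only
    unfold charDegree
    rw [conjIrr_coe, Helper6.conjFun_one_apply]
  have hB4 : Nat.card T * ∑ θ : IrrCharacter N, (if θ ∈ conjSet N b then dN θ ^ 2 else 0)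
      = Nat.card G * ∑ θ : IrrCharacter N, (if θ ∈ b then dN θ ^ 2 else 0) := by
    have e1 : ∑ g : G, ∑ θ : IrrCharacter N, (if conjIrr N g θ ∈ b then dN θ ^ 2 else 0)
        = Nat.card G * ∑ θ : IrrCharacter N, (if θ ∈ b then dN θ ^ 2 else 0) := by
      have h1 : ∀ g : G, ∑ θ : IrrCharacter N, (if conjIrr N g θ ∈ b then dN θ ^ 2 else 0)
          = ∑ θ : IrrCharacter N, (if θ ∈ b then dN θ ^ 2 else 0) := by
        intro g
        rw [← Equiv.sum_comp (conjIrr N g) (fun θ => if θ ∈ b then dN θ ^ 2 else 0)]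
        refine Finset.sum_congr rfl fun θ _ => ?_
        rw [hdinv g θ]
      rw [Finset.sum_congr rfl (fun g _ => h1 g), Finset.sum_const, Finset.card_univ,
        smul_eq_mul, Nat.card_eq_fintype_card]
    rw [← e1, Finset.sum_comm, Finset.mul_sum]
    refine Finset.sum_congr rfl fun θ _ => ?_
    rw [← Finset.sum_filter, Finset.sum_const, smul_eq_mul]
    by_cases h : θ ∈ conjSet N b
    · rw [if_pos h, card_stab_coset N b T hM hb hT θ h]
    · rw [if_neg h]
      have h0 : Finset.univ.filter (fun g : G => conjIrr N g θ ∈ b) = ∅ := by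
        rw [Finset.filter_eq_empty_iff]
        intro g _ hg
        exact h ((mem_conjSet_iff' N b θ).2 ⟨g, hg⟩)
      rw [h0]
      simp
  have hC : Nat.card T * Nat.card N * ∑ χ : IrrCharacter G, (if χ ∈ β then dG χ ^ 2 else 0)
      = Nat.card G * Nat.card G * ∑ θ : IrrCharacter N, (if θ ∈ b then dN θ ^ 2 else 0) := by
    rw [mul_assoc, hA, ← mul_assoc, mul_comm (Nat.card T), mul_assoc, hB4, ← mul_assoc]
  have hvβ := block_sum_sq_val hpM hβ
  have hvb := block_sum_sq_val hpM hb
  subst hdG hdN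
  simp only at hC
  have hSβ0 : ∑ χ : IrrCharacter G, (if χ ∈ β then charDegree (χ : G → ℂ) ^ 2 else 0) ≠ 0 := by
    obtain ⟨χ₀, hχ₀⟩ := block_nonempty hM hβ
    have h1 := Finset.single_le_sum
      (f := fun χ : IrrCharacter G => if χ ∈ β then charDegree (χ : G → ℂ) ^ 2 else 0)
      (fun χ _ => Nat.zero_le _) (Finset.mem_univ χ₀)
    simp only [if_pos hχ₀] at h1
    have h2 := charDegree_pos_irr χ₀
    have h3 : 0 < charDegree (χ₀ : G → ℂ) ^ 2 := pow_pos h2 2
    omega
  have hSb0 : ∑ θ : IrrCharacter N, (if θ ∈ b then charDegree (θ : N → ℂ) ^ 2 else 0) ≠ 0 := by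
    obtain ⟨θ₀, hθ₀⟩ := block_nonempty hM hb
    have h1 := Finset.single_le_sum
      (f := fun θ : IrrCharacter N => if θ ∈ b then charDegree (θ : N → ℂ) ^ 2 else 0)
      (fun θ _ => Nat.zero_le _) (Finset.mem_univ θ₀)
    simp only [if_pos hθ₀] at h1
    have h2 := charDegree_pos_irr θ₀
    have h3 : 0 < charDegree (θ₀ : N → ℂ) ^ 2 := pow_pos h2 2
    omega
  have hGpos : Nat.card G ≠ 0 := Nat.card_pos.ne'
  have hNpos : Nat.card N ≠ 0 := Nat.card_pos.ne'
  have hTpos : Nat.card T ≠ 0 := Nat.card_pos.ne'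
  have hfac : (Nat.card T * Nat.card N
        * ∑ χ : IrrCharacter G, (if χ ∈ β then charDegree (χ : G → ℂ) ^ 2 else 0)).factorization p
      = (Nat.card G * Nat.card G
        * ∑ θ : IrrCharacter N, (if θ ∈ b then charDegree (θ : N → ℂ) ^ 2 else 0)).factorization p := by
    rw [hC]
  rw [fact_mul3 hTpos hNpos hSβ0, fact_mul3 hGpos hGpos hSb0, hvβ, hvb] at hfac
  have hdβ : blockDefect p β ≤ (Nat.card G).factorization p := by
    rw [blockDefect_eq_sub]
    exact Nat.sub_le _ _
  have hdb : blockDefect p b ≤ (Nat.card N).factorization p := by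
    rw [blockDefect_eq_sub]
    exact Nat.sub_le _ _
  omega

end FongDefect

section Transport

variable {p : ℕ} {M : Ideal AlgInt}

theorem irrCongr_symm_apply {K K' : Type*} [Group K] [Group K'] [Finite K] [Finite K']
    (e : K ≃* K') (ψ : IrrCharacter K) (h : K') :
    (((irrCongr e).symm ψ : IrrCharacter K') : K' → ℂ) h = (ψ : K → ℂ) (e.symm h) := by
  have h1 := irrCongr_apply e ((irrCongr e).symm ψ) (e.symm h)
  rw [Equiv.apply_symm_apply, MulEquiv.apply_symm_apply] at h1
  exact h1.symm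

theorem charDegree_irrCongr {K K' : Type*} [Group K] [Group K'] [Finite K] [Finite K']
    (e : K ≃* K') (ψ : IrrCharacter K') :
    charDegree (irrCongr e ψ : K → ℂ) = charDegree (ψ : K' → ℂ) := by
  unfold charDegree
  rw [irrCongr_apply, map_one]

theorem blockDefect_irrCongr {K K' : Type*} [Group K] [Group K'] [Finite K] [Finite K']
    (e : K ≃* K') (B : Set (IrrCharacter K)) (B' : Set (IrrCharacter K'))
    (h : ∀ ψ : IrrCharacter K', irrCongr e ψ ∈ B ↔ ψ ∈ B') :
    blockDefect p B = blockDefect p B' := by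
  unfold blockDefect
  rw [Nat.card_congr e.toEquiv]
  congr 2
  ext n
  constructor
  · rintro ⟨χ, hχ, rfl⟩
    refine ⟨(irrCongr e).symm χ, ?_, ?_⟩
    · rw [← h, Equiv.apply_symm_apply]
      exact hχ
    · have h1 := charDegree_irrCongr e ((irrCongr e).symm χ)
      rw [Equiv.apply_symm_apply] at h1
      simp only
      rw [h1]
  · rintro ⟨ψ, hψ, rfl⟩
    refine ⟨irrCongr e ψ, (h ψ).2 hψ, ?_⟩
    simp only
    rw [charDegree_irrCongr e ψ]

end Transport

section StabIndex

variable {G : Type*} [Group G] [Fintype G] {p : ℕ} {M : Ideal AlgInt}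

/-- A block `b` of `P C_G(P)` with defect group `P` induces a block of `G` with defect group
`P` exactly when the stabilizer of `b` in `N_G(P)` has index prime to `p` over `P C_G(P)`. -/
theorem fr_stabilizer_index [Fact p.Prime] (hpM : IsPModular p M) (P : Subgroup G)
    (hPp : IsPGroup p P) (H : Subgroup G) [Fintype H]
    (hH : H = P ⊔ Subgroup.centralizer (P : Set G)) (b : Set (IrrCharacter H))
    (hb : IsPBlock M b) (hbP : IsDefectGroup p M b (P.subgroupOf H))
    (B : Set (IrrCharacter G)) (hind : IsInducedBlock M H b B) (T : Subgroup G)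
    (hT : ∀ g : G, g ∈ T ↔ (g ∈ Subgroup.normalizer (P : Set G) ∧ ∀ θ ∈ b,
      ∀ θ' : IrrCharacter H,
        (∀ h h' : H, (h' : G) = g * h * g⁻¹ → (θ' : H → ℂ) h' = (θ : H → ℂ) h) → θ' ∈ b)) :
    IsDefectGroup p M B P ↔ ¬ p ∣ H.relIndex T := by
  classical
  have hM := hpM.2.1.isPrime
  have hB := hind.2.1
  have hPN : P ≤ Subgroup.normalizer (P : Set G) := Subgroup.le_normalizer
  have hCN := Subgroup.centralizer_le_normalizer (P : Set G)
  have hPH : P ≤ H := by
    rw [hH]
    exact le_sup_left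
  have hHN : H ≤ Subgroup.normalizer (P : Set G) := by
    rw [hH]
    exact sup_le hPN hCN
  have : Fintype (Subgroup.normalizer (P : Set G)) := Fintype.ofFinite _
  have := Helper24.finite_irrCharacter (G := Subgroup.normalizer (P : Set G))
  have : Fintype (IrrCharacter (Subgroup.normalizer (P : Set G))) := Fintype.ofFinite _
  have := Helper24.finite_irrCharacter (G := G)
  have : Fintype (IrrCharacter G) := Fintype.ofFinite _
  have := Helper24.finite_irrCharacter (G := H)
  have : Fintype (IrrCharacter H) := Fintype.ofFinite _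
  have hQ₀n : (P.subgroupOf (Subgroup.normalizer (P : Set G))).Normal := by
    refine ⟨fun n hn g => ?_⟩
    rw [Subgroup.mem_subgroupOf] at hn ⊢
    have hg := g.2
    rw [Subgroup.mem_normalizer_iff] at hg
    exact (hg (n : G)).1 hn
  have hQ₀p : IsPGroup p (P.subgroupOf (Subgroup.normalizer (P : Set G))) := hPp.comap_subtype
  obtain ⟨L₀, hL₀def⟩ : ∃ L₀ : Subgroup (Subgroup.normalizer (P : Set G)),
      L₀ = P.subgroupOf (Subgroup.normalizer (P : Set G))
        ⊔ Subgroup.centralizer ((P.subgroupOf (Subgroup.normalizer (P : Set G)) :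
          Subgroup (Subgroup.normalizer (P : Set G))) : Set (Subgroup.normalizer (P : Set G))) :=
    ⟨_, rfl⟩
  have hL₀n : L₀.Normal := by
    rw [hL₀def]
    exact normal_sup_centralizer _
  have : Fintype L₀ := Fintype.ofFinite _
  have := Helper24.finite_irrCharacter (G := L₀)
  have : Fintype (IrrCharacter L₀) := Fintype.ofFinite _
  have hmap : L₀.map (Subgroup.normalizer (P : Set G)).subtype = H := by
    rw [hL₀def, hH, Subgroup.map_sup]
    congr 1
    · rw [Subgroup.subgroupOf_map_subtype]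
      exact inf_of_le_left hPN
    · ext c
      constructor
      · rintro ⟨c', hc', rfl⟩
        rw [SetLike.mem_coe, Subgroup.mem_centralizer_iff] at hc'
        rw [Subgroup.mem_centralizer_iff]
        intro u hu
        have h1 := hc' ⟨u, hPN hu⟩ (by rw [SetLike.mem_coe, Subgroup.mem_subgroupOf]; exact hu)
        exact congrArg Subtype.val h1
      · intro hc
        refine ⟨⟨c, hCN hc⟩, ?_, rfl⟩
        rw [SetLike.mem_coe, Subgroup.mem_centralizer_iff]
        intro u hu
        rw [SetLike.mem_coe, Subgroup.mem_subgroupOf] at hu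
        exact Subtype.ext (Subgroup.mem_centralizer_iff.1 hc _ hu)
  obtain ⟨e, he⟩ : ∃ e : L₀ ≃* H, ∀ l₀ : L₀, ((e l₀ : H) : G)
      = ((l₀ : Subgroup.normalizer (P : Set G)) : G) :=
    ⟨(L₀.equivMapOfInjective _ (Subgroup.subtype_injective _)).trans
      (MulEquiv.subgroupCongr hmap), fun l₀ => rfl⟩
  have he' : ∀ h : H, (((e.symm h : L₀) : Subgroup.normalizer (P : Set G)) : G) = (h : G) := by
    intro h
    rw [← he (e.symm h), MulEquiv.apply_symm_apply]
  obtain ⟨θ, hθ⟩ := block_nonempty hM hb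
  obtain ⟨ζ, hζ⟩ := exists_over L₀ (irrCongr e θ)
  have hind₀ := cover_induced hpM (P.subgroupOf (Subgroup.normalizer (P : Set G))) hQ₀p L₀ hL₀def
    (irrCongr e θ) ζ hζ
  have hβ := isInducedBlock_trans hM (Subgroup.normalizer (P : Set G)) H L₀ e he b B hind θ hθ
    _ hind₀
  obtain ⟨b₀, hb₀def⟩ : ∃ b₀ : Set (IrrCharacter L₀),
      b₀ = blockOf M (irrCongr e θ : L₀ → ℂ) := ⟨_, rfl⟩
  obtain ⟨β, hβdef⟩ : ∃ β : Set (IrrCharacter (Subgroup.normalizer (P : Set G))),
      β = blockOf M (ζ : Subgroup.normalizer (P : Set G) → ℂ) := ⟨_, rfl⟩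
  rw [← hb₀def, ← hβdef] at hind₀
  rw [← hβdef] at hβ
  have hb₀ : IsPBlock M b₀ := hind₀.1
  have hβblock : IsPBlock M β := hind₀.2.1
  have hbeq : b = blockOf M (θ : H → ℂ) := block_eq_blockOf_of_mem hM hb hθ
  have e2 : ∀ θ₃ : IrrCharacter H, (irrCongr e θ₃ : L₀ → ℂ) = (θ₃ : H → ℂ) ∘ e :=
    fun θ₃ => funext fun x => irrCongr_apply e θ₃ x
  have e1 : ∀ θ₃ : IrrCharacter H, (irrCongr e θ₃ : L₀ → ℂ) ∘ e.symm = (θ₃ : H → ℂ) := by
    intro θ₃
    funext x
    rw [Function.comp_apply, irrCongr_apply, MulEquiv.apply_symm_apply]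
  have htr : ∀ θ₂ : IrrCharacter H, irrCongr e θ₂ ∈ b₀ ↔ θ₂ ∈ b := by
    intro θ₂
    rw [hb₀def, hbeq]
    constructor
    · intro h
      have h1 : SameBlock M (irrCongr e θ : L₀ → ℂ) (irrCongr e θ₂ : L₀ → ℂ) := h
      have h2 := sameBlock_comp_mulEquiv e.symm h1
      rw [e1, e1] at h2
      exact h2
    · intro h
      have h1 : SameBlock M (θ : H → ℂ) (θ₂ : H → ℂ) := h
      have h2 := sameBlock_comp_mulEquiv e h1
      rw [← e2, ← e2] at h2
      exact h2
  have hθ₀mem : irrCongr e θ ∈ b₀ := (htr θ).2 hθ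
  have hζmem : ζ ∈ β := by
    rw [hβdef]
    exact mem_blockOf_self hM.ne_top ζ
  have huniq : ∀ χ : IrrCharacter (Subgroup.normalizer (P : Set G)), χ ∈ β ↔ ∃ θ' ∈ b₀,
      classInner (fun n : L₀ => (χ : Subgroup.normalizer (P : Set G) → ℂ) n) (θ' : L₀ → ℂ)
        ≠ 0 := by
    intro χ
    constructor
    · intro hχ
      exact fr_G_block_over L₀ b₀ hM hb₀ hβblock ⟨ζ, hζmem, irrCongr e θ, hθ₀mem, hζ⟩ χ hχ
    · rintro ⟨θ', hθ', hne⟩
      have h1 := cover_induced hpM (P.subgroupOf (Subgroup.normalizer (P : Set G))) hQ₀p L₀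
        hL₀def θ' χ hne
      have h2 : blockOf M (θ' : L₀ → ℂ) = b₀ := (block_eq_blockOf_of_mem hM hb₀ hθ').symm
      rw [h2] at h1
      have h3 := isInducedBlock_unique hM L₀ b₀ _ _ hind₀ h1
      rw [h3]
      exact mem_blockOf_self hM.ne_top χ
  have hTN : T ≤ Subgroup.normalizer (P : Set G) := fun g hg => ((hT g).1 hg).1
  have hHT : H ≤ T := by
    intro g hg
    refine (hT g).2 ⟨hHN hg, fun θ₂ hθ₂ θ₂' hrel => ?_⟩
    have : θ₂' = θ₂ := by
      apply Subtype.ext
      funext x
      have h1 := hrel (⟨g, hg⟩⁻¹ * x * ⟨g, hg⟩) x (by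
        simp only [Subgroup.coe_mul, Subgroup.coe_inv]
        group)
      rw [h1]
      have h2 := (Helper2.IsIrrCharacter.isClassFunction θ₂.2) x (⟨g, hg⟩⁻¹ : H)
      rw [inv_inv] at h2
      exact h2
    rw [this]
    exact hθ₂
  have hstab : ∀ g : Subgroup.normalizer (P : Set G),
      g ∈ T.subgroupOf (Subgroup.normalizer (P : Set G)) ↔ ∀ θ' ∈ b₀, conjIrr L₀ g θ' ∈ b₀ := by
    intro g
    rw [Subgroup.mem_subgroupOf]
    constructor
    · intro hgT θ' hθ'
      have hθ₂ : (irrCongr e).symm θ' ∈ b := by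
        rw [← htr, Equiv.apply_symm_apply]
        exact hθ'
      have h1 := ((hT ((g : G)⁻¹)).1 (T.inv_mem hgT)).2 _ hθ₂
        ((irrCongr e).symm (conjIrr L₀ g θ')) (by
          intro h h' hh
          rw [irrCongr_symm_apply, irrCongr_symm_apply, conjIrr_coe, Helper6.conjFun_apply]
          refine congrArg _ (Subtype.ext (Subtype.ext ?_))
          simp only [Subgroup.coe_mul, Subgroup.coe_inv]
          rw [he' h', he' h, hh]
          group)
      rw [← htr, Equiv.apply_symm_apply] at h1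
      exact h1
    · intro h
      refine (hT (g : G)).2 ⟨g.2, fun θ₂ hθ₂ θ₂' hrel => ?_⟩
      have hc : conjIrr L₀ g (irrCongr e θ₂') = irrCongr e θ₂ := by
        apply Subtype.ext
        funext n
        rw [conjIrr_coe, Helper6.conjFun_apply, irrCongr_apply, irrCongr_apply]
        refine hrel (e n) _ ?_
        rw [he, he]
        simp only [Subgroup.coe_mul, Subgroup.coe_inv]
      have h3 : conjIrr L₀ g (irrCongr e θ₂') ∈ b₀ := by
        rw [hc]
        exact (htr θ₂).2 hθ₂
      have h4 := mem_of_conj_mem L₀ b₀ hM hb₀ hθ₀mem (h _ hθ₀mem) h3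
      exact (htr θ₂').1 h4
  have : Fintype (T.subgroupOf (Subgroup.normalizer (P : Set G))) := Fintype.ofFinite _
  have hF := fong_defect_unique_cover L₀ b₀ (T.subgroupOf (Subgroup.normalizer (P : Set G)))
    hpM hb₀ hstab β hβblock huniq
  have hd₀ : blockDefect p b₀ = blockDefect p b := blockDefect_irrCongr e b₀ b htr
  have hcardL₀ : Nat.card L₀ = Nat.card H := Nat.card_congr e.toEquiv
  have hcardT₀ : Nat.card (T.subgroupOf (Subgroup.normalizer (P : Set G))) = Nat.card T :=
    Nat.card_congr (Subgroup.subgroupOfEquivOfLe hTN).toEquiv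
  have hcardPH : Nat.card (P.subgroupOf H) = Nat.card P :=
    Nat.card_congr (Subgroup.subgroupOfEquivOfLe hPH).toEquiv
  have hcardPN : Nat.card (P.subgroupOf (Subgroup.normalizer (P : Set G))) = Nat.card P :=
    Nat.card_congr (Subgroup.subgroupOfEquivOfLe hPN).toEquiv
  have hdb : Nat.card P = p ^ blockDefect p b := by
    rw [← hcardPH]
    exact card_defectGroup hpM hb _ hbP
  have hrel : Nat.card H * H.relIndex T = Nat.card T := by
    have h1 := (H.subgroupOf T).card_mul_index
    rw [Nat.card_congr (Subgroup.subgroupOfEquivOfLe hHT).toEquiv] at h1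
    exact h1
  have hkey : IsDefectGroup p M B P ↔ blockDefect p β = blockDefect p b := by
    constructor
    · intro hD
      have hDβ := defect_of_induced hpM P (Subgroup.normalizer (P : Set G)) hPN le_rfl β B hβ hD
      have h1 := card_defectGroup hpM hβblock _ hDβ
      rw [hcardPN, hdb] at h1
      exact (Nat.pow_right_injective (Fact.out : p.Prime).two_le h1).symm
    · intro hd
      obtain ⟨g, hg⟩ := exists_defectClass hM hβblock
      obtain ⟨S⟩ : Nonempty (Sylow p (Subgroup.centralizer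
        ({g} : Set (Subgroup.normalizer (P : Set G))))) := inferInstance
      have hE : IsDefectGroup p M β ((S : Subgroup (Subgroup.centralizer
          ({g} : Set (Subgroup.normalizer (P : Set G))))).map
          (Subgroup.centralizer ({g} : Set (Subgroup.normalizer (P : Set G)))).subtype) :=
        ⟨g, hg, S, rfl⟩
      have hle := normal_pgroup_le_defectGroup hpM
        (P.subgroupOf (Subgroup.normalizer (P : Set G))) hQ₀p hβblock hE
      have hcE := card_defectGroup hpM hβblock _ hE
      have heq := Subgroup.eq_of_le_of_card_ge hle (by rw [hcE, hd, ← hdb, hcardPN])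
      rw [← heq] at hE
      exact firstMain_induced_defect hpM P hPp β hE B hβ
  rw [hkey]
  rw [hd₀, hcardL₀, hcardT₀, ← hrel] at hF
  have hrel0 : H.relIndex T ≠ 0 := by
    intro h0
    rw [h0, mul_zero] at hrel
    exact (Nat.card_pos (α := T)).ne' hrel.symm
  rw [Nat.factorization_mul Nat.card_pos.ne' hrel0, Finsupp.add_apply] at hF
  constructor
  · intro h hdiv
    have h1 : 0 < (H.relIndex T).factorization p :=
      Nat.Prime.factorization_pos_of_dvd Fact.out hrel0 hdiv
    omega
  · intro h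
    have h1 : (H.relIndex T).factorization p = 0 := Nat.factorization_eq_zero_of_not_dvd h
    omega

end StabIndex

end Cfsg.Agent.Helper25
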