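import Cfsg.Agent.Helper25.BlockQuot
import Cfsg.Agent.Helper25.BlockPPrime
import Cfsg.Agent.S0915
import Cfsg.Agent.Helper11.PPrime
import Cfsg.Agent.Helper9.Fitting
import Cfsg.Agent.Helper20.PSolvHall

set_option autoImplicit false
set_option linter.unusedSectionVars false

/-!
# The principal block and `O_{p'}(G)` (helper25)

Characters of the principal block are trivial on `O_{p'}(G)`; for `p`-solvable groups the
converse holds (Fong).
-/

namespace Cfsg.Agent.Helper25

open Cfsg

section

variable {G : Type*} [Group G] [Fintype G] {M : Ideal AlgInt} {p : ℕ}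

theorem not_dvd_card_pPrimeCore (hp : p.Prime) : ¬ p ∣ Nat.card (pPrimeCore p G) := by
  have h1 := Helper9.pPrimeCore_coprime (G := G) p
  intro h2
  exact hp.one_lt.ne' (Nat.Coprime.eq_one_of_dvd h1.symm h2)

/-- Characters of the principal block are trivial on `O_{p'}(G)`. -/
theorem principalBlock_ker (hpM : IsPModular p M) (χ : IrrCharacter G)
    (hχ : χ ∈ principalBlock M G) :
    ∀ n ∈ pPrimeCore p G, (χ : G → ℂ) n = (χ : G → ℂ) 1 := by
  classical
  have hN : (pPrimeCore p G).Normal := Helper11.pPrimeCore_normal p G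
  have : Fintype (pPrimeCore p G) := Fintype.ofFinite _
  have hNp : ¬ p ∣ Nat.card (pPrimeCore p G) := not_dvd_card_pPrimeCore hpM.1
  have hs : SameBlock M ((oneIrr G : IrrCharacter G) : G → ℂ) (χ : G → ℂ) := hχ
  have h1 : classInner (fun n : pPrimeCore p G => ((oneIrr G : IrrCharacter G) : G → ℂ) n)
      (oneIrr (pPrimeCore p G) : pPrimeCore p G → ℂ) ≠ 0 :=
    (over_one_iff (pPrimeCore p G) (oneIrr G)).mpr (fun n _ => rfl)
  exact (over_one_iff (pPrimeCore p G) χ).mp
    (over_of_sameBlock_pprime hpM _ hNp (oneIrr G) χ hs (oneIrr _) h1)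

theorem pPrimeCore_quotient_eq_bot : pPrimeCore p (G ⧸ pPrimeCore p G) = ⊥ :=
  Helper11.subnormal_coprime_quot_eq_bot p _ (Helper11.pPrimeCore_normal p _).isSubnormal
    (Helper9.pPrimeCore_coprime p)

/-- Fong: in a `p`-solvable group every irreducible character trivial on `O_{p'}(G)` lies in the
principal block. -/
theorem mem_principalBlock_of_ker [Fact p.Prime] (hpM : IsPModular p M)
    (hsolv : IsPSolvable p G) (χ : IrrCharacter G)
    (hχ : ∀ n ∈ pPrimeCore p G, (χ : G → ℂ) n = (χ : G → ℂ) 1) : χ ∈ principalBlock M G := by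
  classical
  have hN : (pPrimeCore p G).Normal := Helper11.pPrimeCore_normal p G
  obtain ⟨β, hβ⟩ := exists_deflation_of_ker (pPrimeCore p G) χ hχ
  have hsolv' : IsPSolvable p (G ⧸ pPrimeCore p G) := Helper20.isPSolvable_quotient p hsolv _
  have h1 : SameBlock M ((oneIrr (G ⧸ pPrimeCore p G) : IrrCharacter _) : G ⧸ pPrimeCore p G → ℂ)
      (β : G ⧸ pPrimeCore p G → ℂ) :=
    Cfsg.Agent.S0915.result p M hpM hsolv' pPrimeCore_quotient_eq_bot (oneIrr _) β
  have h2 := sameBlock_inflate hpM.2.1.isPrime (pPrimeCore p G) (oneIrr _) β h1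
  show SameBlock M (fun _ : G => (1 : ℂ)) (χ : G → ℂ)
  rw [hβ]
  exact h2

end

end Cfsg.Agent.Helper25
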