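import Cfsg.Agent.Helper25.Reynolds
import Cfsg.Agent.Helper25.ExtFirstMain
import Cfsg.Agent.Helper13.IndInner
import Cfsg.Agent.Helper2.CharNat
import Cfsg.Agent.Helper24.CharBasic

set_option autoImplicit false
set_option linter.unusedSectionVars false

/-!
# The Fong–Reynolds correspondence (helper25)

`N` is a normal subgroup of `G`, `b` a block of `N` and `T` its stabilizer.  The block
idempotent of `b` is central in the group algebra of `T`; its spectral function `frE` on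
the irreducible characters of `T` is the indicator of the characters lying over `b`.
-/

namespace Cfsg.Agent.Helper25

open Cfsg
open scoped ComplexConjugate

section General

variable {H : Type*} [Group H] [Fintype H] [Fintype (IrrCharacter H)]

/-- Pairing of a central element, given by its spectral function, with a class function. -/
theorem sum_coeffT_mul_classFn (Φ : IrrCharacter H → ℂ) (f : H → ℂ) (hf : IsClassFunction H f) :
    ∑ h : H, coeffT Φ h * f h
      = ∑ θ : IrrCharacter H, classInner f (θ : H → ℂ) * ((θ : H → ℂ) 1 * Φ θ) := by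
  have hexp := Helper2.class_fn_expansion hf
  have e : ∀ h, f h = ∑ θ : IrrCharacter H, classInner f (θ : H → ℂ) * (θ : H → ℂ) h := by
    intro h
    have h1 := congrFun hexp h
    simp only [Finset.sum_apply, Pi.smul_apply, smul_eq_mul] at h1
    exact h1
  calc ∑ h : H, coeffT Φ h * f h
      = ∑ h : H, ∑ θ : IrrCharacter H,
          classInner f (θ : H → ℂ) * (coeffT Φ h * (θ : H → ℂ) h) := by
        refine Finset.sum_congr rfl fun h _ => ?_
        conv_lhs => rw [e h]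
        rw [Finset.mul_sum]
        refine Finset.sum_congr rfl fun θ _ => by ring
    _ = ∑ θ : IrrCharacter H, classInner f (θ : H → ℂ) * ∑ h : H, coeffT Φ h * (θ : H → ℂ) h := by
        rw [Finset.sum_comm]
        refine Finset.sum_congr rfl fun θ _ => ?_
        rw [Finset.mul_sum]
    _ = _ := by
        refine Finset.sum_congr rfl fun θ _ => ?_
        rw [sum_coeffT_mul]

theorem spec_ext {Φ Ψ : IrrCharacter H → ℂ} (h : ∀ g, coeffT Φ g = coeffT Ψ g) (χ : IrrCharacter H) :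
    Φ χ = Ψ χ := by
  rw [spec_eq_sum Φ χ, spec_eq_sum Ψ χ]
  exact Finset.sum_congr rfl fun g _ => by rw [h g]

theorem charDegree_of_one_eq {K : Type*} [Group K] {f : K → ℂ} {n : ℕ} (h : f 1 = (n : ℂ)) :
    charDegree f = n := by
  unfold charDegree
  rw [h]
  simp

end General

section FR

variable {G : Type*} [Group G] [Fintype G] {M : Ideal AlgInt}
  (N : Subgroup G) [hN : N.Normal] [Fintype N] (T : Subgroup G) [Fintype T]

theorem coeffT_conj_invariant_pt [Fintype (IrrCharacter N)] (Φ : IrrCharacter N → ℂ) (g : G)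
    (hinv : ∀ θ : IrrCharacter N, Φ (conjIrr N g θ) = Φ θ) (n : N) :
    coeffT Φ (⟨g * n * g⁻¹, hN.conj_mem (n : G) n.2 g⟩ : N) = coeffT Φ n := by
  unfold coeffT
  congr 1
  rw [← Equiv.sum_comp (conjIrr N g)
    (fun θ : IrrCharacter N => (θ : N → ℂ) 1 * Φ θ * conj ((θ : N → ℂ) n))]
  refine Finset.sum_congr rfl fun θ _ => ?_
  rw [hinv θ, conjIrr_coe, Helper6.conjFun_one_apply, Helper6.conjFun_apply]

theorem sum_T_eq_sum_N (hNT : N ≤ T) (F : G → ℂ) (hF : ∀ a, a ∉ N → F a = 0) :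
    ∑ t : T, F (t : G) = ∑ n : N, F (n : G) := by
  rw [← Helper6.sum_subgroup_eq' T F (fun a ha => hF a (fun h => ha (hNT h))),
    ← Helper6.sum_subgroup_eq' N F hF]

variable (b : Set (IrrCharacter N))

theorem stab_conv
    (hT : ∀ g : G, g ∈ T ↔ ∀ θ ∈ b, ∀ θ' : IrrCharacter N,
      (∀ n : N, (θ' : N → ℂ) n = (θ : N → ℂ) ⟨g * n * g⁻¹, hN.conj_mem n n.2 g⟩) → θ' ∈ b)
    (g : G) : g ∈ T ↔ ∀ θ ∈ b, conjIrr N g θ ∈ b := by
  rw [hT g]
  constructor
  · intro h θ hθ
    refine h θ hθ _ fun n => ?_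
    rw [conjIrr_coe, Helper6.conjFun_apply]
  · intro h θ hθ θ' h'
    have : θ' = conjIrr N g θ := by
      apply Subtype.ext
      funext n
      rw [conjIrr_coe, Helper6.conjFun_apply]
      exact h' n
    rw [this]
    exact h θ hθ

theorem stab_iff (hT : ∀ g : G, g ∈ T ↔ ∀ θ ∈ b, conjIrr N g θ ∈ b) {t : G} (ht : t ∈ T)
    (θ : IrrCharacter N) : conjIrr N t θ ∈ b ↔ θ ∈ b := by
  constructor
  · intro h
    have h2 := (hT t⁻¹).1 (T.inv_mem ht) _ h
    rwa [conjIrr_mul, mul_inv_cancel, conjIrr_one] at h2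
  · exact fun h => (hT t).1 ht θ h

theorem mem_stab_of_one (hM : M.IsPrime) (hb : IsPBlock M b)
    (hT : ∀ g : G, g ∈ T ↔ ∀ θ ∈ b, conjIrr N g θ ∈ b) {h : G} {θ₁ : IrrCharacter N}
    (h1 : θ₁ ∈ b) (h2 : conjIrr N h θ₁ ∈ b) : h ∈ T := by
  rw [hT]
  intro θ₂ hθ₂
  obtain ⟨θ₀, rfl⟩ := hb
  have s1 : SameBlock M (θ₁ : N → ℂ) (θ₂ : N → ℂ) := sameBlock_trans hM (sameBlock_symm h1) hθ₂
  have s2 := sameBlock_conjFun N h s1
  have s3 : SameBlock M (θ₀ : N → ℂ) ((conjIrr N h θ₁ : IrrCharacter N) : N → ℂ) := h2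
  rw [conjIrr_coe] at s3
  have s4 := sameBlock_trans hM s3 s2
  show SameBlock M (θ₀ : N → ℂ) ((conjIrr N h θ₂ : IrrCharacter N) : N → ℂ)
  rw [conjIrr_coe]
  exact s4

variable [Fintype (IrrCharacter N)] [DecidablePred (· ∈ b)]

/-- The coefficients of the block idempotent of `b`, extended by zero to `T`. -/
noncomputable def frC (t : T) : ℂ :=
  extendByZero N (coeffT (fun θ : IrrCharacter N => if θ ∈ b then (1 : ℂ) else 0)) (t : G)

/-- The spectral function on `Irr(T)` of the block idempotent of `b`. -/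
noncomputable def frE (ξ : IrrCharacter T) : ℂ :=
  ∑ t : T, frC N T b t * ((ξ : T → ℂ) t / (ξ : T → ℂ) 1)

theorem frC_isClassFunction (hT : ∀ g : G, g ∈ T ↔ ∀ θ ∈ b, conjIrr N g θ ∈ b) :
    IsClassFunction T (frC N T b) := by
  intro t s
  unfold frC
  by_cases ht : (t : G) ∈ N
  · have hst : ((s * t * s⁻¹ : T) : G) ∈ N := by
      have := hN.conj_mem _ ht (s : G)
      simpa using this
    rw [Helper2.extendByZero_apply_mem N _ ht, Helper2.extendByZero_apply_mem N _ hst]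
    have := coeffT_conj_invariant_pt N (fun θ => if θ ∈ b then (1:ℂ) else 0) (s : G) (fun θ => by
      simp only [stab_iff N T b hT s.2 θ]) ⟨(t : G), ht⟩
    rw [← this]
    congr 1
  · have hst : ((s * t * s⁻¹ : T) : G) ∉ N := by
      intro hc
      apply ht
      have := hN.conj_mem _ hc (s : G)⁻¹
      simpa [mul_assoc] using this
    rw [Helper2.extendByZero_apply_not_mem N _ ht, Helper2.extendByZero_apply_not_mem N _ hst]

variable [Fintype (IrrCharacter T)]

theorem coeffT_frE (hT : ∀ g : G, g ∈ T ↔ ∀ θ ∈ b, conjIrr N g θ ∈ b) (t : T) :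
    coeffT (frE N T b) t = frC N T b t :=
  coeffT_forward _ (frC_isClassFunction N T b hT) t

theorem frE_mem (hM : M.IsPrime) (hb : IsPBlock M b)
    (hT : ∀ g : G, g ∈ T ↔ ∀ θ ∈ b, conjIrr N g θ ∈ b) : frE N T b ∈ specRing T M hM := by
  rw [mem_specRing]
  intro t
  rw [coeffT_frE N T b hT]
  unfold frC
  by_cases ht : (t : G) ∈ N
  · rw [Helper2.extendByZero_apply_mem N _ ht]
    exact (mem_specRing.1 (block_indicator_mem hM hb)) _
  · rw [Helper2.extendByZero_apply_not_mem N _ ht]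
    exact MemLocalRing.zero hM.ne_top

theorem frE_idem (hNT : N ≤ T) (hT : ∀ g : G, g ∈ T ↔ ∀ θ ∈ b, conjIrr N g θ ∈ b)
    (ξ : IrrCharacter T) : frE N T b ξ * frE N T b ξ = frE N T b ξ := by
  have key : ∀ k : T, coeffT (frE N T b * frE N T b) k = coeffT (frE N T b) k := by
    intro k
    rw [coeffT_mul]
    simp only [coeffT_frE N T b hT]
    obtain ⟨Φ, hΦ⟩ : ∃ Φ : IrrCharacter N → ℂ, Φ = fun θ => if θ ∈ b then (1 : ℂ) else 0 :=
      ⟨_, rfl⟩
    have hFF : Φ * Φ = Φ := by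
      funext θ
      rw [hΦ]
      simp only [Pi.mul_apply]
      split_ifs <;> simp
    have e1 : ∑ x : T, frC N T b x * frC N T b (x⁻¹ * k)
        = ∑ n : N, extendByZero N (coeffT Φ) (n : G)
            * extendByZero N (coeffT Φ) ((n : G)⁻¹ * (k : G)) := by
      rw [← sum_T_eq_sum_N N T hNT
        (fun g => extendByZero N (coeffT Φ) g * extendByZero N (coeffT Φ) (g⁻¹ * (k : G)))
        (fun a ha => by simp only [Helper2.extendByZero_apply_not_mem N _ ha, zero_mul])]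
      refine Finset.sum_congr rfl fun x _ => ?_
      unfold frC
      rw [hΦ]
      rfl
    rw [e1]
    unfold frC
    rw [← hΦ]
    by_cases hk : (k : G) ∈ N
    · rw [Helper2.extendByZero_apply_mem N _ hk]
      conv_rhs => rw [← hFF]
      rw [coeffT_mul]
      refine Finset.sum_congr rfl fun n _ => ?_
      rw [Helper2.extendByZero_apply_coe]
      have hm : (n : G)⁻¹ * (k : G) ∈ N := N.mul_mem (N.inv_mem n.2) hk
      rw [Helper2.extendByZero_apply_mem N _ hm]
      rfl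
    · rw [Helper2.extendByZero_apply_not_mem N _ hk]
      refine Finset.sum_eq_zero fun n _ => ?_
      have hm : (n : G)⁻¹ * (k : G) ∉ N := by
        intro hc
        apply hk
        have := N.mul_mem n.2 hc
        simpa using this
      rw [Helper2.extendByZero_apply_not_mem N _ hm, mul_zero]
  have h1 := spec_ext key ξ
  rw [Pi.mul_apply] at h1
  exact h1

theorem frE_zero_or_one (hNT : N ≤ T) (hT : ∀ g : G, g ∈ T ↔ ∀ θ ∈ b, conjIrr N g θ ∈ b)
    (ξ : IrrCharacter T) : frE N T b ξ = 0 ∨ frE N T b ξ = 1 := by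
  have h := frE_idem N T b hNT hT ξ
  have h2 : frE N T b ξ * (frE N T b ξ - 1) = 0 := by
    rw [mul_sub, h, mul_one, sub_self]
  rcases mul_eq_zero.1 h2 with h3 | h3
  · exact Or.inl h3
  · exact Or.inr (sub_eq_zero.1 h3)


theorem res_TN_classFn (hNT : N ≤ T) {f : T → ℂ} (hf : IsClassFunction T f) :
    IsClassFunction N (fun n : N => f ⟨(n : G), hNT n.2⟩) := by
  intro n m
  exact hf ⟨(n : G), hNT n.2⟩ ⟨(m : G), hNT m.2⟩

theorem res_TN_char (hNT : N ≤ T) {f : T → ℂ} (hf : IsCharacter T f) :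
    IsCharacter N (fun n : N => f ⟨(n : G), hNT n.2⟩) :=
  Helper6.isCharacter_comp_hom (Subgroup.inclusion hNT) hf

theorem res_G_classFn (K : Subgroup G) {f : G → ℂ} (hf : IsClassFunction G f) :
    IsClassFunction K (fun k : K => f k) := by
  intro n m
  exact hf (n : G) (m : G)

theorem res_G_char (K : Subgroup G) {f : G → ℂ} (hf : IsCharacter G f) :
    IsCharacter K (fun k : K => f k) :=
  Helper6.isCharacter_comp_hom K.subtype hf

omit [Fintype (IrrCharacter T)] in
theorem fr_nat_term {f : N → ℂ} (hf : IsCharacter N f) (θ : IrrCharacter N) :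
    ∃ m : ℕ, classInner f (θ : N → ℂ) * ((θ : N → ℂ) 1 * (if θ ∈ b then (1:ℂ) else 0))
      = (m : ℂ) := by
  obtain ⟨m, hm⟩ := Helper2.classInner_char_nat hf (Helper24.isCharacter_of_irr θ.2)
  refine ⟨m * (charDegree (θ : N → ℂ) * (if θ ∈ b then 1 else 0)), ?_⟩
  rw [hm, irr_one_eq_degree θ]
  push_cast
  split_ifs <;> simp

theorem frE_mul_one (hNT : N ≤ T) (ξ : IrrCharacter T) :
    frE N T b ξ * (ξ : T → ℂ) 1
      = ∑ θ : IrrCharacter N,
          classInner (fun n : N => (ξ : T → ℂ) ⟨(n : G), hNT n.2⟩) (θ : N → ℂ)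
            * ((θ : N → ℂ) 1 * (if θ ∈ b then (1:ℂ) else 0)) := by
  have h1 := irr_one_ne_zero ξ.2
  rw [← sum_coeffT_mul_classFn (fun θ : IrrCharacter N => if θ ∈ b then (1:ℂ) else 0) _
    (res_TN_classFn N T hNT (Helper2.IsIrrCharacter.isClassFunction ξ.2))]
  unfold frE
  rw [Finset.sum_mul]
  have e : ∀ t : T, frC N T b t * ((ξ : T → ℂ) t / (ξ : T → ℂ) 1) * (ξ : T → ℂ) 1
      = extendByZero N (coeffT (fun θ : IrrCharacter N => if θ ∈ b then (1:ℂ) else 0)) (t : G)
          * extendByZero T (ξ : T → ℂ) (t : G) := by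
    intro t
    rw [Helper2.extendByZero_apply_coe T]
    unfold frC
    field_simp
  rw [Finset.sum_congr rfl (fun t _ => e t)]
  rw [sum_T_eq_sum_N N T hNT
    (fun g => extendByZero N (coeffT (fun θ : IrrCharacter N => if θ ∈ b then (1:ℂ) else 0)) g
      * extendByZero T (ξ : T → ℂ) g)
    (fun a ha => by simp only [Helper2.extendByZero_apply_not_mem N _ ha, zero_mul])]
  refine Finset.sum_congr rfl fun n _ => ?_
  rw [Helper2.extendByZero_apply_coe, Helper2.extendByZero_apply_mem T _ (hNT n.2)]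

theorem frE_eq_one_iff (hNT : N ≤ T) (hT : ∀ g : G, g ∈ T ↔ ∀ θ ∈ b, conjIrr N g θ ∈ b)
    (ξ : IrrCharacter T) :
    frE N T b ξ = 1 ↔ ∃ θ ∈ b,
      classInner (fun n : N => (ξ : T → ℂ) ⟨(n : G), hNT n.2⟩) (θ : N → ℂ) ≠ 0 := by
  have h1 := irr_one_ne_zero ξ.2
  have hmul := frE_mul_one N T b hNT ξ
  constructor
  · intro h
    rw [h, one_mul] at hmul
    have hne : ∑ θ : IrrCharacter N,
        classInner (fun n : N => (ξ : T → ℂ) ⟨(n : G), hNT n.2⟩) (θ : N → ℂ)
          * ((θ : N → ℂ) 1 * (if θ ∈ b then (1:ℂ) else 0)) ≠ 0 := by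
      rw [← hmul]
      exact h1
    obtain ⟨θ, -, hθ⟩ := Finset.exists_ne_zero_of_sum_ne_zero hne
    by_cases hθb : θ ∈ b
    · refine ⟨θ, hθb, fun h0 => hθ ?_⟩
      rw [h0, zero_mul]
    · exfalso
      apply hθ
      rw [if_neg hθb, mul_zero, mul_zero]
  · rintro ⟨θ₀, hθ₀, hne⟩
    rcases frE_zero_or_one N T b hNT hT ξ with h0 | h0
    · exfalso
      rw [h0, zero_mul] at hmul
      have hres := res_TN_char N T hNT (Helper24.isCharacter_of_irr ξ.2)
      have hz := Helper6.sum_nat_eq_zero Finset.univ _ (fun θ _ => fr_nat_term N b hres θ)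
        hmul.symm θ₀ (Finset.mem_univ _)
      rw [if_pos hθ₀, mul_one] at hz
      rcases mul_eq_zero.1 hz with hz | hz
      · exact hne hz
      · exact irr_one_ne_zero θ₀.2 hz
    · exact h0

theorem fr_D_eq (hNT : N ≤ T) (hT : ∀ g : G, g ∈ T ↔ ∀ θ ∈ b, conjIrr N g θ ∈ b)
    (f : G → ℂ) (hf : IsClassFunction G f) :
    ∑ n : N, coeffT (fun θ : IrrCharacter N => if θ ∈ b then (1:ℂ) else 0) n * f n
      = ∑ ξ : IrrCharacter T, classInner (fun t : T => f t) (ξ : T → ℂ)
          * ((ξ : T → ℂ) 1 * frE N T b ξ) := by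
  rw [← sum_coeffT_mul_classFn (frE N T b) (fun t : T => f t) (res_G_classFn T hf)]
  simp only [coeffT_frE N T b hT]
  have h := sum_T_eq_sum_N N T hNT
    (fun g => extendByZero N (coeffT (fun θ : IrrCharacter N => if θ ∈ b then (1:ℂ) else 0)) g
      * f g)
    (fun a ha => by simp only [Helper2.extendByZero_apply_not_mem N _ ha, zero_mul])
  calc ∑ n : N, coeffT (fun θ : IrrCharacter N => if θ ∈ b then (1:ℂ) else 0) n * f n
      = ∑ n : N, extendByZero N
          (coeffT (fun θ : IrrCharacter N => if θ ∈ b then (1:ℂ) else 0)) (n : G) * f n := by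
        refine Finset.sum_congr rfl fun n _ => ?_
        rw [Helper2.extendByZero_apply_coe]
    _ = _ := h.symm

omit [Fintype (IrrCharacter T)] in
theorem fr_count (hM : M.IsPrime) (hb : IsPBlock M b)
    (hT : ∀ g : G, g ∈ T ↔ ∀ θ ∈ b, conjIrr N g θ ∈ b) (χ : IrrCharacter G) :
    ∃ r : ℕ, (Nat.card T : ℂ) * (χ : G → ℂ) 1
      = (Nat.card G : ℂ) * (∑ n : N,
          coeffT (fun θ : IrrCharacter N => if θ ∈ b then (1:ℂ) else 0) n * (χ : G → ℂ) n)
        + (r : ℂ) := by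
  classical
  have hres := res_G_char N (Helper24.isCharacter_of_irr χ.2)
  have hcl := Helper2.IsCharacter.isClassFunction hres
  choose k hk using fun θ : IrrCharacter N =>
    Helper2.classInner_char_nat hres (Helper24.isCharacter_of_irr θ.2)
  obtain ⟨d, hd⟩ : ∃ d : IrrCharacter N → ℕ, d = fun θ : IrrCharacter N => charDegree (θ : N → ℂ) :=
    ⟨_, rfl⟩
  have hd1 : ∀ θ : IrrCharacter N, (θ : N → ℂ) 1 = (d θ : ℂ) := by
    intro θ
    rw [hd]
    exact irr_one_eq_degree θ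
  have E1 : (χ : G → ℂ) 1 = ((∑ θ : IrrCharacter N, k θ * d θ : ℕ) : ℂ) := by
    have h1 := congrFun (Helper2.class_fn_expansion hcl) 1
    simp only [Finset.sum_apply, Pi.smul_apply, smul_eq_mul, Subgroup.coe_one] at h1
    rw [h1]
    push_cast
    refine Finset.sum_congr rfl fun θ _ => ?_
    rw [← hk θ, hd1 θ]
  have E2 : ∑ n : N, coeffT (fun θ : IrrCharacter N => if θ ∈ b then (1:ℂ) else 0) n
        * (χ : G → ℂ) n
      = ((∑ θ : IrrCharacter N, (if θ ∈ b then k θ * d θ else 0) : ℕ) : ℂ) := by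
    rw [sum_coeffT_mul_classFn _ _ hcl]
    push_cast
    refine Finset.sum_congr rfl fun θ _ => ?_
    rw [hk θ, hd1 θ]
    split_ifs <;> simp
  have hkinv : ∀ (g : G) (θ : IrrCharacter N), k (conjIrr N g θ) = k θ := by
    intro g θ
    have h1 := Helper6.classInner_res_conjFun N g (θ : N → ℂ)
      (Helper2.IsIrrCharacter.isClassFunction χ.2)
    rw [← conjIrr_coe, hk, hk] at h1
    exact_mod_cast h1
  have hdinv : ∀ (g : G) (θ : IrrCharacter N), d (conjIrr N g θ) = d θ := by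
    intro g θ
    rw [hd]
    simp only
    unfold charDegree
    rw [conjIrr_coe, Helper6.conjFun_one_apply]
  have hcard : ∀ θ : IrrCharacter N,
      (Finset.univ.filter (fun g : G => conjIrr N g θ ∈ b)).card ≤ Nat.card T := by
    intro θ
    by_cases hemp : (Finset.univ.filter (fun g : G => conjIrr N g θ ∈ b)) = ∅
    · rw [hemp]
      simp
    · obtain ⟨g₀, hg₀⟩ := Finset.nonempty_iff_ne_empty.2 hemp
      rw [Finset.mem_filter] at hg₀
      have e : (Finset.univ.filter (fun g : G => conjIrr N g θ ∈ b)).card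
          = Nat.card {g : G // conjIrr N g θ ∈ b} := by
        rw [Nat.card_eq_fintype_card, Fintype.card_subtype]
      rw [e]
      refine Nat.card_le_card_of_injective
        (fun g : {g : G // conjIrr N g θ ∈ b} => (⟨g₀⁻¹ * (g : G), ?_⟩ : T)) ?_
      · refine mem_stab_of_one N T b hM hb hT hg₀.2 ?_
        rw [conjIrr_mul, mul_inv_cancel_left]
        exact g.2
      · intro g g' h
        have h1 := congrArg (Subtype.val) h
        simp only at h1
        exact Subtype.ext (mul_left_cancel h1)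
  have hcount : Nat.card G * ∑ θ : IrrCharacter N, (if θ ∈ b then k θ * d θ else 0)
      ≤ Nat.card T * ∑ θ : IrrCharacter N, k θ * d θ := by
    calc Nat.card G * ∑ θ : IrrCharacter N, (if θ ∈ b then k θ * d θ else 0)
        = ∑ _g : G, ∑ θ : IrrCharacter N, (if θ ∈ b then k θ * d θ else 0) := by
          rw [Finset.sum_const, Finset.card_univ, smul_eq_mul, Nat.card_eq_fintype_card]
      _ = ∑ g : G, ∑ θ : IrrCharacter N, (if conjIrr N g θ ∈ b then k θ * d θ else 0) := by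
          refine Finset.sum_congr rfl fun g _ => ?_
          rw [← Equiv.sum_comp (conjIrr N g)]
          refine Finset.sum_congr rfl fun θ _ => ?_
          rw [hkinv g θ, hdinv g θ]
      _ = ∑ θ : IrrCharacter N, ∑ g : G, (if conjIrr N g θ ∈ b then k θ * d θ else 0) :=
          Finset.sum_comm
      _ = ∑ θ : IrrCharacter N,
            (Finset.univ.filter (fun g : G => conjIrr N g θ ∈ b)).card * (k θ * d θ) := by
          refine Finset.sum_congr rfl fun θ _ => ?_
          rw [← Finset.sum_filter, Finset.sum_const, smul_eq_mul]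
      _ ≤ ∑ θ : IrrCharacter N, Nat.card T * (k θ * d θ) :=
          Finset.sum_le_sum fun θ _ => Nat.mul_le_mul_right _ (hcard θ)
      _ = Nat.card T * ∑ θ : IrrCharacter N, k θ * d θ := by rw [Finset.mul_sum]
  refine ⟨Nat.card T * ∑ θ : IrrCharacter N, k θ * d θ
    - Nat.card G * ∑ θ : IrrCharacter N, (if θ ∈ b then k θ * d θ else 0), ?_⟩
  rw [E1, E2]
  have := Nat.add_sub_of_le hcount
  exact_mod_cast this.symm


theorem fr_ind_irr (hM : M.IsPrime) (hb : IsPBlock M b) (hNT : N ≤ T)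
    (hT : ∀ g : G, g ∈ T ↔ ∀ θ ∈ b, conjIrr N g θ ∈ b)
    (ψ : IrrCharacter T) (hψ : frE N T b ψ = 1) :
    ∃ χ : IrrCharacter G, (χ : G → ℂ) = indFun T (ψ : T → ℂ) ∧
      classInner (fun t : T => (χ : G → ℂ) t) (ψ : T → ℂ) = 1 ∧
      ∀ ξ : IrrCharacter T, ξ ≠ ψ →
        classInner (fun t : T => (χ : G → ℂ) t) (ξ : T → ℂ) * frE N T b ξ = 0 := by
  classical
  have := Helper24.finite_irrCharacter (G := G)
  have : Fintype (IrrCharacter G) := Fintype.ofFinite _
  obtain ⟨χ, hχ⟩ := exists_over T ψ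
  have hcl := Helper2.IsIrrCharacter.isClassFunction χ.2
  obtain ⟨r, hr⟩ := fr_count N T b hM hb hT χ
  rw [fr_D_eq N T b hNT hT _ hcl] at hr
  have hresT := res_G_char T (Helper24.isCharacter_of_irr χ.2)
  choose m hm using fun ξ : IrrCharacter T =>
    Helper2.classInner_char_nat hresT (Helper24.isCharacter_of_irr ξ.2)
  have hε' : ∀ ξ : IrrCharacter T, ∃ e : ℕ, frE N T b ξ = (e : ℂ) := by
    intro ξ
    rcases frE_zero_or_one N T b hNT hT ξ with h | h
    · exact ⟨0, by rw [h]; simp⟩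
    · exact ⟨1, by rw [h]; simp⟩
  choose ε hε using hε'
  have hsum : ∑ ξ : IrrCharacter T, classInner (fun t : T => (χ : G → ℂ) t) (ξ : T → ℂ)
        * ((ξ : T → ℂ) 1 * frE N T b ξ)
      = ((∑ ξ : IrrCharacter T, m ξ * (charDegree (ξ : T → ℂ) * ε ξ) : ℕ) : ℂ) := by
    push_cast
    refine Finset.sum_congr rfl fun ξ _ => ?_
    rw [hm ξ, ← hε ξ, irr_one_eq_degree ξ]
  rw [hsum, irr_one_eq_degree χ] at hr
  have hrN : Nat.card T * charDegree (χ : G → ℂ)
      = Nat.card G * (∑ ξ : IrrCharacter T, m ξ * (charDegree (ξ : T → ℂ) * ε ξ)) + r := by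
    exact_mod_cast hr
  have hmψ : 1 ≤ m ψ := by
    rcases Nat.eq_zero_or_pos (m ψ) with h0 | h0
    · exfalso
      apply hχ
      rw [hm ψ, h0]
      simp
    · exact h0
  have hεψ : ε ψ = 1 := by
    have := hε ψ
    rw [hψ] at this
    exact_mod_cast this.symm
  have hge : m ψ * charDegree (ψ : T → ℂ)
      ≤ ∑ ξ : IrrCharacter T, m ξ * (charDegree (ξ : T → ℂ) * ε ξ) := by
    have := Finset.single_le_sum (f := fun ξ : IrrCharacter T => m ξ * (charDegree (ξ : T → ℂ) * ε ξ))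
      (fun ξ _ => Nat.zero_le _) (Finset.mem_univ ψ)
    simpa [hεψ] using this
  have hidx : Nat.card G = Nat.card T * T.index := (T.card_mul_index).symm
  have hTpos : 0 < Nat.card T := Nat.card_pos
  have hGc : (Nat.card G : ℂ) ≠ 0 := card_ne_zero_complex
  have hTc : (Nat.card T : ℂ) ≠ 0 := by exact_mod_cast hTpos.ne'
  have hΛ1 : indFun T (ψ : T → ℂ) 1 = ((T.index * charDegree (ψ : T → ℂ) : ℕ) : ℂ) := by
    rw [indFun_one_eq, irr_one_eq_degree ψ, hidx]
    push_cast
    field_simp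
  have hdegΛ : charDegree (indFun T (ψ : T → ℂ)) = T.index * charDegree (ψ : T → ℂ) :=
    charDegree_of_one_eq hΛ1
  have hle : T.index * charDegree (ψ : T → ℂ) ≤ charDegree (χ : G → ℂ) := by
    have h1 : Nat.card T * (T.index * charDegree (ψ : T → ℂ))
        ≤ Nat.card T * charDegree (χ : G → ℂ) := by
      rw [hrN, ← mul_assoc, ← hidx]
      calc Nat.card G * charDegree (ψ : T → ℂ)
          ≤ Nat.card G * (m ψ * charDegree (ψ : T → ℂ)) :=
            Nat.mul_le_mul_left _ (Nat.le_mul_of_pos_left _ hmψ)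
        _ ≤ Nat.card G * ∑ ξ : IrrCharacter T, m ξ * (charDegree (ξ : T → ℂ) * ε ξ) :=
            Nat.mul_le_mul_left _ hge
        _ ≤ _ := Nat.le_add_right _ _
    exact Nat.le_of_mul_le_mul_left h1 hTpos
  have hΛchar : IsCharacter G (indFun T (ψ : T → ℂ)) :=
    Helper2.isCharacter_indFun T (Helper24.isCharacter_of_irr ψ.2)
  have hne : classInner (indFun T (ψ : T → ℂ)) (χ : G → ℂ) ≠ 0 := by
    rw [Helper2.frobenius_reciprocity T _ _ hcl]
    intro h
    apply hχ
    rw [← Helper2.classInner_conj_symm, h, map_zero]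
  have hEq : indFun T (ψ : T → ℂ) = (χ : G → ℂ) :=
    Helper6.char_eq_of_degree_le hΛchar χ.2 hne (by rw [hdegΛ]; exact hle)
  have hdegχ : charDegree (χ : G → ℂ) = T.index * charDegree (ψ : T → ℂ) := by
    rw [← hEq, hdegΛ]
  have hSle : ∑ ξ : IrrCharacter T, m ξ * (charDegree (ξ : T → ℂ) * ε ξ)
      ≤ charDegree (ψ : T → ℂ) := by
    have h1 : Nat.card G * ∑ ξ : IrrCharacter T, m ξ * (charDegree (ξ : T → ℂ) * ε ξ)
        ≤ Nat.card G * charDegree (ψ : T → ℂ) := by
      have h2 : Nat.card T * charDegree (χ : G → ℂ) = Nat.card G * charDegree (ψ : T → ℂ) := by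
        rw [hdegχ, ← mul_assoc, ← hidx]
      rw [← h2, hrN]
      exact Nat.le_add_right _ _
    exact Nat.le_of_mul_le_mul_left h1 Nat.card_pos
  have hdpos : ∀ ξ : IrrCharacter T, 0 < charDegree (ξ : T → ℂ) := by
    intro ξ
    rcases Nat.eq_zero_or_pos (charDegree (ξ : T → ℂ)) with h | h
    · exfalso
      have := irr_one_ne_zero ξ.2
      rw [irr_one_eq_degree ξ, h] at this
      simp at this
    · exact h
  refine ⟨χ, hEq.symm, ?_, ?_⟩
  · have h1 : m ψ * charDegree (ψ : T → ℂ) ≤ charDegree (ψ : T → ℂ) := le_trans hge hSle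
    have hm1 : m ψ = 1 := by
      have h2 : m ψ ≤ 1 := by
        by_contra hc
        push Not at hc
        have h3 : 2 * charDegree (ψ : T → ℂ) ≤ m ψ * charDegree (ψ : T → ℂ) :=
          Nat.mul_le_mul_right _ hc
        have := hdpos ψ
        omega
      omega
    rw [hm ψ, hm1]
    simp
  · intro ξ hξ
    have h2 : m ψ * charDegree (ψ : T → ℂ) + m ξ * (charDegree (ξ : T → ℂ) * ε ξ)
        ≤ ∑ ξ : IrrCharacter T, m ξ * (charDegree (ξ : T → ℂ) * ε ξ) := by
      have := Finset.sum_le_sum_of_subset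
        (f := fun ξ : IrrCharacter T => m ξ * (charDegree (ξ : T → ℂ) * ε ξ))
        (Finset.subset_univ {ψ, ξ})
      rw [Finset.sum_pair (Ne.symm hξ)] at this
      simpa [hεψ] using this
    have h3 : charDegree (ψ : T → ℂ) ≤ m ψ * charDegree (ψ : T → ℂ) :=
      Nat.le_mul_of_pos_left _ hmψ
    have h4 : m ξ * (charDegree (ξ : T → ℂ) * ε ξ) = 0 := by omega
    have h5 : m ξ * ε ξ = 0 := by
      rcases Nat.mul_eq_zero.1 h4 with h | h
      · rw [h, zero_mul]
      · rcases Nat.mul_eq_zero.1 h with h | h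
        · have := hdpos ξ
          omega
        · rw [h, mul_zero]
    rw [hm ξ, hε ξ]
    exact_mod_cast h5

theorem fr_exists_ind (hM : M.IsPrime) (hb : IsPBlock M b) (hNT : N ≤ T)
    (hT : ∀ g : G, g ∈ T ↔ ∀ θ ∈ b, conjIrr N g θ ∈ b)
    (χ : IrrCharacter G) (θ : IrrCharacter N) (hθ : θ ∈ b)
    (hne : classInner (fun n : N => (χ : G → ℂ) n) (θ : N → ℂ) ≠ 0) :
    ∃ ψ : IrrCharacter T, frE N T b ψ = 1 ∧ (χ : G → ℂ) = indFun T (ψ : T → ℂ) := by
  have hcl := Helper2.IsIrrCharacter.isClassFunction χ.2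
  have hresN := res_G_char N (Helper24.isCharacter_of_irr χ.2)
  have hD : ∑ n : N, coeffT (fun θ : IrrCharacter N => if θ ∈ b then (1:ℂ) else 0) n
      * (χ : G → ℂ) n ≠ 0 := by
    rw [sum_coeffT_mul_classFn _ _ (Helper2.IsCharacter.isClassFunction hresN)]
    intro h0
    have hz := Helper6.sum_nat_eq_zero Finset.univ _ (fun θ _ => fr_nat_term N b hresN θ)
      h0 θ (Finset.mem_univ _)
    rw [if_pos hθ, mul_one] at hz
    rcases mul_eq_zero.1 hz with hz | hz
    · exact hne hz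
    · exact irr_one_ne_zero θ.2 hz
  rw [fr_D_eq N T b hNT hT _ hcl] at hD
  obtain ⟨ξ, -, hξ⟩ := Finset.exists_ne_zero_of_sum_ne_zero hD
  have hξ1 : classInner (fun t : T => (χ : G → ℂ) t) (ξ : T → ℂ) ≠ 0 := left_ne_zero_of_mul hξ
  have hξ2 : frE N T b ξ ≠ 0 := right_ne_zero_of_mul (right_ne_zero_of_mul hξ)
  have hE : frE N T b ξ = 1 := (frE_zero_or_one N T b hNT hT ξ).resolve_left hξ2
  obtain ⟨χ', hχ', -, -⟩ := fr_ind_irr N T b hM hb hNT hT ξ hE
  refine ⟨ξ, hE, ?_⟩
  rw [← hχ']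
  have h1 : classInner (χ' : G → ℂ) (χ : G → ℂ) ≠ 0 := by
    rw [hχ', Helper2.frobenius_reciprocity T _ _ hcl]
    intro h
    apply hξ1
    rw [← Helper2.classInner_conj_symm, h, map_zero]
  rw [Helper2.classInner_irr χ'.2 χ.2] at h1
  by_contra hne'
  exact h1 (if_neg (fun h => hne' h.symm))

theorem fr_spec [Fintype (IrrCharacter G)] (hM : M.IsPrime) (hb : IsPBlock M b) (hNT : N ≤ T)
    (hT : ∀ g : G, g ∈ T ↔ ∀ θ ∈ b, conjIrr N g θ ∈ b)
    (Φ : IrrCharacter T → ℂ) (hΦ : Φ ∈ specRing T M hM) :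
    ∃ Ψ ∈ specRing G M hM, ∀ ψ : IrrCharacter T, frE N T b ψ = 1 → ∀ χ : IrrCharacter G,
      (χ : G → ℂ) = indFun T (ψ : T → ℂ) → Ψ χ = Φ ψ := by
  classical
  obtain ⟨f, hf⟩ : ∃ f : T → ℂ, f = coeffT (Φ * frE N T b) := ⟨_, rfl⟩
  have hfcl : IsClassFunction T f := by
    rw [hf]
    exact coeffT_isClassFunction _
  have hfloc : ∀ t, MemLocalRing M (f t) := by
    rw [hf]
    exact mem_specRing.1 (Subring.mul_mem _ hΦ (frE_mem N T b hM hb hT))
  have hTc : (Nat.card T : ℂ) ≠ 0 := by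
    have : 0 < Nat.card T := Nat.card_pos
    exact_mod_cast this.ne'
  have hGc : (Nat.card G : ℂ) ≠ 0 := card_ne_zero_complex
  refine ⟨fun χ => ∑ g : G, indFun T f g * ((χ : G → ℂ) g / (χ : G → ℂ) 1), ?_, ?_⟩
  · rw [mem_specRing]
    intro g
    rw [coeffT_forward _ (Helper2.isClassFunction_indFun T f) g]
    unfold indFun
    have : Fintype (G ⧸ T) := Fintype.ofFinite _
    have hinv : ∀ x : G, ∀ c ∈ T, extendByZero T f ((x * c)⁻¹ * g * (x * c))
        = extendByZero T f (x⁻¹ * g * x) := by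
      intro x c hc
      have := Helper13.extendByZero_conj_mem T f (fun b c => hfcl b c) (T.inv_mem hc)
        (x⁻¹ * g * x)
      rw [← this]
      congr 1
      group
    rw [sum_right_invariant T (fun x => extendByZero T f (x⁻¹ * g * x)) hinv]
    rw [← mul_assoc, inv_mul_cancel₀ hTc, one_mul]
    refine memLocalRing_sum hM _ _ fun q _ => ?_
    by_cases hq : (Quotient.out q)⁻¹ * g * Quotient.out q ∈ T
    · rw [Helper2.extendByZero_apply_mem T _ hq]
      exact hfloc _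
    · rw [Helper2.extendByZero_apply_not_mem T _ hq]
      exact MemLocalRing.zero hM.ne_top
  · intro ψ hψ χ hχ
    obtain ⟨χ', hχ', h1, h2⟩ := fr_ind_irr N T b hM hb hNT hT ψ hψ
    have hχχ' : χ' = χ := Subtype.ext (hχ'.trans hχ.symm)
    subst hχχ'
    have hcl := Helper2.IsIrrCharacter.isClassFunction χ'.2
    have hχ1 := irr_one_ne_zero χ'.2
    show ∑ g : G, indFun T f g * ((χ' : G → ℂ) g / (χ' : G → ℂ) 1) = Φ ψ
    have e1 : ∑ g : G, indFun T f g * ((χ' : G → ℂ) g / (χ' : G → ℂ) 1)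
        = (∑ g : G, (χ' : G → ℂ) g * indFun T f g) / (χ' : G → ℂ) 1 := by
      rw [Finset.sum_div]
      refine Finset.sum_congr rfl fun g _ => by ring
    rw [e1, sum_mul_indFun T _ hcl f]
    have e2 : ∑ t : T, (χ' : G → ℂ) t * f t = (ψ : T → ℂ) 1 * Φ ψ := by
      have e3 : ∑ t : T, (χ' : G → ℂ) t * f t
          = ∑ t : T, coeffT (Φ * frE N T b) t * (fun t : T => (χ' : G → ℂ) t) t := by
        refine Finset.sum_congr rfl fun t _ => ?_
        rw [hf]
        ring
      rw [e3, sum_coeffT_mul_classFn _ _ (res_G_classFn T hcl)]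
      rw [Finset.sum_eq_single ψ]
      · rw [h1, Pi.mul_apply, hψ]
        ring
      · intro ξ _ hξ
        have h3 := h2 ξ hξ
        rw [Pi.mul_apply]
        calc classInner (fun t : T => (χ' : G → ℂ) t) (ξ : T → ℂ)
              * ((ξ : T → ℂ) 1 * (Φ ξ * frE N T b ξ))
            = (classInner (fun t : T => (χ' : G → ℂ) t) (ξ : T → ℂ) * frE N T b ξ)
              * ((ξ : T → ℂ) 1 * Φ ξ) := by ring
          _ = 0 := by rw [h3, zero_mul]
      · intro h
        exact absurd (Finset.mem_univ _) h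
    rw [e2]
    have h3 : (χ' : G → ℂ) 1 = (Nat.card G : ℂ) * (Nat.card T : ℂ)⁻¹ * (ψ : T → ℂ) 1 := by
      rw [hχ', indFun_one_eq]
    rw [h3]
    have hψ1 := irr_one_ne_zero ψ.2
    field_simp

end FR

section Main

variable {G : Type*} [Group G] [Fintype G] {p : ℕ} {M : Ideal AlgInt}
  (N : Subgroup G) [hN : N.Normal] [Fintype N] (b : Set (IrrCharacter N))
  (T : Subgroup G) [Fintype T]

theorem charDegree_pos_irr {K : Type*} [Group K] [Fintype K] (ξ : IrrCharacter K) :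
    0 < charDegree (ξ : K → ℂ) := by
  rcases Nat.eq_zero_or_pos (charDegree (ξ : K → ℂ)) with h | h
  · exfalso
    have := irr_one_ne_zero ξ.2
    rw [irr_one_eq_degree ξ, h] at this
    simp at this
  · exact h

/-- Every character of `T` over the block `b` induces irreducibly to `G`. -/
theorem fr_irr_of_over (hM : M.IsPrime) (hb : IsPBlock M b) (hNT : N ≤ T)
    (hT : ∀ g : G, g ∈ T ↔ ∀ θ ∈ b, conjIrr N g θ ∈ b) (ψ : IrrCharacter T)
    (hψ : ∃ θ ∈ b, classInner (fun n : N => (ψ : T → ℂ) ⟨(n : G), hNT n.2⟩) (θ : N → ℂ) ≠ 0) :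
    IsIrrCharacter G (indFun T (ψ : T → ℂ)) := by
  classical
  have := Helper24.finite_irrCharacter (G := N)
  have : Fintype (IrrCharacter N) := Fintype.ofFinite _
  have := Helper24.finite_irrCharacter (G := T)
  have : Fintype (IrrCharacter T) := Fintype.ofFinite _
  obtain ⟨χ, hχ, -, -⟩ := fr_ind_irr N T b hM hb hNT hT ψ
    ((frE_eq_one_iff N T b hNT hT ψ).2 hψ)
  rw [← hχ]
  exact χ.2

/-- Every character of `G` over `b` is induced from a character of `T` over `b`. -/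
theorem fr_exists_of_over (hM : M.IsPrime) (hb : IsPBlock M b) (hNT : N ≤ T)
    (hT : ∀ g : G, g ∈ T ↔ ∀ θ ∈ b, conjIrr N g θ ∈ b) (χ : IrrCharacter G)
    (hχ : ∃ θ ∈ b, classInner (fun n : N => (χ : G → ℂ) n) (θ : N → ℂ) ≠ 0) :
    ∃ ψ : IrrCharacter T,
      (∃ θ ∈ b, classInner (fun n : N => (ψ : T → ℂ) ⟨(n : G), hNT n.2⟩) (θ : N → ℂ) ≠ 0) ∧
      (χ : G → ℂ) = indFun T (ψ : T → ℂ) := by
  classical
  have := Helper24.finite_irrCharacter (G := N)
  have : Fintype (IrrCharacter N) := Fintype.ofFinite _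
  have := Helper24.finite_irrCharacter (G := T)
  have : Fintype (IrrCharacter T) := Fintype.ofFinite _
  obtain ⟨θ, hθ, hne⟩ := hχ
  obtain ⟨ψ, hψ, h⟩ := fr_exists_ind N T b hM hb hNT hT χ θ hθ hne
  exact ⟨ψ, (frE_eq_one_iff N T b hNT hT ψ).1 hψ, h⟩

/-- If a block of `T` covers `b`, all its members lie over `b`. -/
theorem fr_block_over (hM : M.IsPrime) (hb : IsPBlock M b) (hNT : N ≤ T)
    (hT : ∀ g : G, g ∈ T ↔ ∀ θ ∈ b, conjIrr N g θ ∈ b)
    {B' : Set (IrrCharacter T)} (hB' : IsPBlock M B')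
    (hcov : ∃ ψ ∈ B', ∃ θ ∈ b,
      classInner (fun n : N => (ψ : T → ℂ) ⟨(n : G), hNT n.2⟩) (θ : N → ℂ) ≠ 0)
    (ψ : IrrCharacter T) (hψ : ψ ∈ B') :
    ∃ θ ∈ b, classInner (fun n : N => (ψ : T → ℂ) ⟨(n : G), hNT n.2⟩) (θ : N → ℂ) ≠ 0 := by
  classical
  have := Helper24.finite_irrCharacter (G := N)
  have : Fintype (IrrCharacter N) := Fintype.ofFinite _
  have := Helper24.finite_irrCharacter (G := T)
  have : Fintype (IrrCharacter T) := Fintype.ofFinite _
  obtain ⟨ψ₀, hψ₀, hov⟩ := hcov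
  have h0 := (frE_eq_one_iff N T b hNT hT ψ₀).2 hov
  rw [block_eq_blockOf_of_mem hM hB' hψ₀] at hψ
  have hs : SameBlock M (ψ₀ : T → ℂ) (ψ : T → ℂ) := hψ
  have h1 := spec_sub_mem hM (frE_mem N T b hM hb hT) hs
  rw [← frE_eq_one_iff N T b hNT hT ψ]
  rcases frE_zero_or_one N T b hNT hT ψ with h | h
  · exfalso
    rw [h0, h, sub_zero] at h1
    exact not_memLocalIdeal_one h1
  · exact h

/-- If a block of `G` covers `b`, all its members lie over `b`. -/
theorem fr_G_block_over (hM : M.IsPrime) (hb : IsPBlock M b)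
    {B : Set (IrrCharacter G)} (hB : IsPBlock M B)
    (hcov : ∃ χ ∈ B, ∃ θ ∈ b, classInner (fun n : N => (χ : G → ℂ) n) (θ : N → ℂ) ≠ 0)
    (χ : IrrCharacter G) (hχ : χ ∈ B) :
    ∃ θ ∈ b, classInner (fun n : N => (χ : G → ℂ) n) (θ : N → ℂ) ≠ 0 := by
  classical
  have := Helper24.finite_irrCharacter (G := G)
  have : Fintype (IrrCharacter G) := Fintype.ofFinite _
  obtain ⟨χ₀, hχ₀, θ₀, hθ₀, hne₀⟩ := hcov
  rw [block_eq_blockOf_of_mem hM hB hχ₀] at hχ
  have hs : SameBlock M (χ₀ : G → ℂ) (χ : G → ℂ) := hχ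
  obtain ⟨θ', hθ'⟩ := exists_under N χ
  obtain ⟨g, θ, hθ, rfl⟩ := cover_conj hM N hb hs hθ₀ hne₀ hθ'
  refine ⟨θ, hθ, ?_⟩
  rw [conjIrr_coe, Helper6.classInner_res_conjFun N g (θ : N → ℂ)
    (Helper2.IsIrrCharacter.isClassFunction χ.2)] at hθ'
  exact hθ'

/-- Characters of `T` over `b` whose induced characters lie in the same block of `G` lie in
the same block of `T`. -/
theorem fr_sameBlock (hM : M.IsPrime) (hb : IsPBlock M b) (hNT : N ≤ T)
    (hT : ∀ g : G, g ∈ T ↔ ∀ θ ∈ b, conjIrr N g θ ∈ b) (ψ₁ ψ₂ : IrrCharacter T)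
    (h₁ : ∃ θ ∈ b, classInner (fun n : N => (ψ₁ : T → ℂ) ⟨(n : G), hNT n.2⟩) (θ : N → ℂ) ≠ 0)
    (h₂ : ∃ θ ∈ b, classInner (fun n : N => (ψ₂ : T → ℂ) ⟨(n : G), hNT n.2⟩) (θ : N → ℂ) ≠ 0)
    (χ₁ χ₂ : IrrCharacter G) (e₁ : (χ₁ : G → ℂ) = indFun T (ψ₁ : T → ℂ))
    (e₂ : (χ₂ : G → ℂ) = indFun T (ψ₂ : T → ℂ))
    (hs : SameBlock M (χ₁ : G → ℂ) (χ₂ : G → ℂ)) :
    SameBlock M (ψ₁ : T → ℂ) (ψ₂ : T → ℂ) := by
  classical
  have := Helper24.finite_irrCharacter (G := N)
  have : Fintype (IrrCharacter N) := Fintype.ofFinite _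
  have := Helper24.finite_irrCharacter (G := T)
  have : Fintype (IrrCharacter T) := Fintype.ofFinite _
  have := Helper24.finite_irrCharacter (G := G)
  have : Fintype (IrrCharacter G) := Fintype.ofFinite _
  intro l
  obtain ⟨Ψ, hΨ, hval⟩ := fr_spec N T b hM hb hNT hT
    (fun ξ : IrrCharacter T => centralChar (ξ : T → ℂ) l) (central_mem_specRing hM l)
  have h1 := spec_sub_mem hM hΨ hs
  rw [hval ψ₁ ((frE_eq_one_iff N T b hNT hT ψ₁).2 h₁) χ₁ e₁,
    hval ψ₂ ((frE_eq_one_iff N T b hNT hT ψ₂).2 h₂) χ₂ e₂] at h1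
  exact h1

/-- The character induced from a character of `T` over `b` lies over `b`. -/
theorem fr_over_ind (hM : M.IsPrime) (hb : IsPBlock M b) (hNT : N ≤ T)
    (hT : ∀ g : G, g ∈ T ↔ ∀ θ ∈ b, conjIrr N g θ ∈ b) (ψ : IrrCharacter T)
    (hψ : ∃ θ ∈ b, classInner (fun n : N => (ψ : T → ℂ) ⟨(n : G), hNT n.2⟩) (θ : N → ℂ) ≠ 0)
    (χ : IrrCharacter G) (e : (χ : G → ℂ) = indFun T (ψ : T → ℂ)) :
    ∃ θ ∈ b, classInner (fun n : N => (χ : G → ℂ) n) (θ : N → ℂ) ≠ 0 := by
  classical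
  have := Helper24.finite_irrCharacter (G := N)
  have : Fintype (IrrCharacter N) := Fintype.ofFinite _
  have := Helper24.finite_irrCharacter (G := T)
  have : Fintype (IrrCharacter T) := Fintype.ofFinite _
  have hE := (frE_eq_one_iff N T b hNT hT ψ).2 hψ
  obtain ⟨χ', hχ', h1, h2⟩ := fr_ind_irr N T b hM hb hNT hT ψ hE
  have hχχ' : χ' = χ := Subtype.ext (hχ'.trans e.symm)
  subst hχχ'
  have hcl := Helper2.IsIrrCharacter.isClassFunction χ'.2
  have hD : ∑ n : N, coeffT (fun θ : IrrCharacter N => if θ ∈ b then (1:ℂ) else 0) n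
      * (χ' : G → ℂ) n ≠ 0 := by
    rw [fr_D_eq N T b hNT hT _ hcl, Finset.sum_eq_single ψ]
    · rw [h1, hE, one_mul, mul_one]
      exact irr_one_ne_zero ψ.2
    · intro ξ _ hξ
      have h3 := h2 ξ hξ
      calc classInner (fun t : T => (χ' : G → ℂ) t) (ξ : T → ℂ)
            * ((ξ : T → ℂ) 1 * frE N T b ξ)
          = (classInner (fun t : T => (χ' : G → ℂ) t) (ξ : T → ℂ) * frE N T b ξ)
            * (ξ : T → ℂ) 1 := by ring
        _ = 0 := by rw [h3, zero_mul]
    · intro h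
      exact absurd (Finset.mem_univ _) h
  rw [sum_coeffT_mul_classFn _ _ (res_G_classFn N hcl)] at hD
  obtain ⟨θ, -, hθ⟩ := Finset.exists_ne_zero_of_sum_ne_zero hD
  by_cases hθb : θ ∈ b
  · refine ⟨θ, hθb, fun h0 => hθ ?_⟩
    rw [h0, zero_mul]
  · exfalso
    apply hθ
    rw [if_neg hθb, mul_zero, mul_zero]

theorem nat_sInf_add (S : Set ℕ) (hS : S.Nonempty) (c : ℕ) :
    sInf ((fun n => c + n) '' S) = c + sInf S := by
  have h1 : sInf S ∈ S := Nat.sInf_mem hS
  have h2 : ((fun n => c + n) '' S).Nonempty := hS.image _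
  obtain ⟨s, hs, hs'⟩ := Nat.sInf_mem h2
  have h4 : sInf S ≤ s := Nat.sInf_le hs
  have h5 : sInf ((fun n => c + n) '' S) ≤ c + sInf S := Nat.sInf_le ⟨_, h1, rfl⟩
  simp only at hs'
  omega

/-- Defects and heights under a degree-scaling bijection by induction. -/
theorem fr_defect_height [Fact p.Prime] (B' : Set (IrrCharacter T)) (B : Set (IrrCharacter G))
    (hne : B'.Nonempty)
    (hirr : ∀ ψ ∈ B', IsIrrCharacter G (indFun T (ψ : T → ℂ)))
    (hB : ∀ χ : IrrCharacter G, χ ∈ B ↔ ∃ ψ ∈ B', (χ : G → ℂ) = indFun T (ψ : T → ℂ)) :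
    blockDefect p B = blockDefect p B' ∧
    ∀ ψ ∈ B', ∀ χ : IrrCharacter G, (χ : G → ℂ) = indFun T (ψ : T → ℂ) →
      blockHeight p B (χ : G → ℂ) = blockHeight p B' (ψ : T → ℂ) := by
  have hidx0 : T.index ≠ 0 := Subgroup.index_ne_zero_of_finite
  have hdeg : ∀ (ψ : IrrCharacter T) (χ : IrrCharacter G),
      (χ : G → ℂ) = indFun T (ψ : T → ℂ) →
      (charDegree (χ : G → ℂ)).factorization p
        = T.index.factorization p + (charDegree (ψ : T → ℂ)).factorization p := by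
    intro ψ χ h
    rw [h, charDegree_indFun T (Helper24.isCharacter_of_irr ψ.2), Nat.factorization_mul hidx0 (charDegree_pos_irr ψ).ne']
    rfl
  have hS : (fun χ : IrrCharacter G => (charDegree (χ : G → ℂ)).factorization p) '' B
      = (fun n => T.index.factorization p + n) ''
        ((fun ψ : IrrCharacter T => (charDegree (ψ : T → ℂ)).factorization p) '' B') := by
    ext n
    constructor
    · rintro ⟨χ, hχ, rfl⟩
      obtain ⟨ψ, hψ, h⟩ := (hB χ).1 hχ
      exact ⟨_, ⟨ψ, hψ, rfl⟩, (hdeg ψ χ h).symm⟩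
    · rintro ⟨_, ⟨ψ, hψ, rfl⟩, rfl⟩
      exact ⟨⟨indFun T (ψ : T → ℂ), hirr ψ hψ⟩, (hB _).2 ⟨ψ, hψ, rfl⟩, hdeg ψ _ rfl⟩
  have hInf := nat_sInf_add
    ((fun ψ : IrrCharacter T => (charDegree (ψ : T → ℂ)).factorization p) '' B')
    (hne.image _) (T.index.factorization p)
  have hcard : (Nat.card G).factorization p
      = (Nat.card T).factorization p + T.index.factorization p := by
    rw [← T.card_mul_index, Nat.factorization_mul Nat.card_pos.ne' hidx0]
    rfl
  constructor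
  · unfold blockDefect
    rw [hS, hInf, hcard]
    omega
  · intro ψ hψ χ h
    unfold blockHeight
    rw [hS, hInf, hdeg ψ χ h]
    omega

end Main

end Cfsg.Agent.Helper25
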