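import Cfsg.Agent.Helper25.PairConj2
import Cfsg.Agent.Helper24.Schur

set_option autoImplicit false
set_option linter.unusedSectionVars false

/-!
# Brauer pairs of a block of a centralizer (helper25)
-/

namespace Cfsg.Agent.Helper25

open Cfsg
open scoped ComplexConjugate

section FullCent

variable {G : Type*} [Group G] [Fintype G] {p : ℕ} {M : Ideal AlgInt}

theorem irrCongr_symm_symm_apply' {K K' : Type*} [Group K] [Group K'] [Finite K] [Finite K']
    (φ : K ≃* K') (ψ : IrrCharacter K') : (irrCongr φ.symm).symm ψ = irrCongr φ ψ := by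
  apply Subtype.ext
  funext c
  rw [irrCongr_symm_apply, irrCongr_apply]
  rfl

theorem isPBlock_irrCongr_iff {K K' : Type*} [Group K] [Group K'] [Fintype K] [Fintype K']
    (hM : M.IsPrime) (φ : K ≃* K') (b : Set (IrrCharacter K)) (b' : Set (IrrCharacter K'))
    (h : ∀ ψ' : IrrCharacter K', irrCongr φ ψ' ∈ b ↔ ψ' ∈ b') :
    IsPBlock M b ↔ IsPBlock M b' := by
  constructor
  · intro hb
    have h1 := (irrCongr_preimage_props hM φ.symm b hb).1
    have e : {ψ : IrrCharacter K' | (irrCongr φ.symm).symm ψ ∈ b} = b' := by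
      ext ψ
      show (irrCongr φ.symm).symm ψ ∈ b ↔ ψ ∈ b'
      rw [irrCongr_symm_symm_apply', h]
    rwa [e] at h1
  · intro hb'
    have h1 := (irrCongr_preimage_props hM φ b' hb').1
    have e : {ψ : IrrCharacter K | (irrCongr φ).symm ψ ∈ b'} = b := by
      ext ψ
      show (irrCongr φ).symm ψ ∈ b' ↔ ψ ∈ b
      rw [← h, Equiv.apply_symm_apply]
    rwa [e] at h1

/-- A pair below a Brauer pair of `B` is a Brauer pair of `B`. -/
theorem subpairLE_brauerPairOf [Fact p.Prime] (hpM : IsPModular p M) (B : Set (IrrCharacter G))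
    {Q P : Subgroup G} {f : Set (IrrCharacter (Subgroup.centralizer (Q : Set G)))}
    {e : Set (IrrCharacter (Subgroup.centralizer (P : Set G)))}
    (hle : SubpairLE p M Q f P e) (hBe : IsBrauerPairOf p M B P e) :
    IsBrauerPairOf p M B Q f := by
  have key : ∀ a b : BrauerPairIdx G, Relation.ReflTransGen (NormalSubpairRel p M) a b →
      IsBrauerPairOf p M B b.1 b.2 → IsBrauerPairOf p M B a.1 a.2 := by
    intro a b hab
    induction hab with
    | refl => exact fun h => h
    | tail _ hbc ih =>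
      intro h
      exact ih ((normalSubpair_brauerPairOf_iff hpM _ _ _ _ hbc B h.2.1).1 h)
  exact key ⟨Q, f⟩ ⟨P, e⟩ hle hBe

/-- The elements of `G` acting on `H` as inner automorphisms of `H`. -/
def innerActs (H : Subgroup G) : Subgroup G where
  carrier := {y | ∃ d ∈ H, ∀ k ∈ H, y * k * y⁻¹ = d * k * d⁻¹}
  mul_mem' := by
    rintro a b ⟨d₁, hd₁, h₁⟩ ⟨d₂, hd₂, h₂⟩
    refine ⟨d₁ * d₂, H.mul_mem hd₁ hd₂, fun k hk => ?_⟩
    have e1 : a * b * k * (a * b)⁻¹ = a * (b * k * b⁻¹) * a⁻¹ := by group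
    rw [e1, h₂ k hk, h₁ _ (H.mul_mem (H.mul_mem hd₂ hk) (H.inv_mem hd₂))]
    group
  one_mem' := ⟨1, H.one_mem, fun k _ => rfl⟩
  inv_mem' := by
    rintro a ⟨d, hd, h⟩
    refine ⟨d⁻¹, H.inv_mem hd, fun k hk => ?_⟩
    have hk' : d⁻¹ * k * d ∈ H := H.mul_mem (H.mul_mem (H.inv_mem hd) hk) hd
    have h2 := h _ hk'
    have e2 : d * (d⁻¹ * k * d) * d⁻¹ = k := by group
    rw [e2] at h2
    have e3 : a⁻¹ * k * a⁻¹⁻¹ = a⁻¹ * (a * (d⁻¹ * k * d) * a⁻¹) * a := by rw [h2, inv_inv]
    rw [e3]
    group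

theorem mem_cent_sup_iff (Q : Subgroup G) (S' : Subgroup (Subgroup.centralizer (Q : Set G))) (R : Subgroup G)
    (hR : R = Q ⊔ S'.map (Subgroup.centralizer (Q : Set G)).subtype) (h : (Subgroup.centralizer (Q : Set G))) :
    h ∈ Subgroup.centralizer (S' : Set (Subgroup.centralizer (Q : Set G))) ↔ (h : G) ∈ Subgroup.centralizer (R : Set G) := by
  rw [Subgroup.mem_centralizer_iff, Subgroup.mem_centralizer_iff]
  constructor
  · intro hh
    have h1 : R ≤ Subgroup.centralizer ({(h : G)} : Set G) := by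
      rw [hR]
      refine sup_le ?_ ?_
      · intro q hq
        rw [Subgroup.mem_centralizer_iff]
        intro k hk
        rw [Set.mem_singleton_iff] at hk
        rw [hk]
        exact (Subgroup.mem_centralizer_iff.1 h.2 q hq).symm
      · rintro _ ⟨s, hs, rfl⟩
        rw [Subgroup.mem_centralizer_iff]
        intro k hk
        rw [Set.mem_singleton_iff] at hk
        rw [hk]
        exact (congrArg Subtype.val (hh s hs)).symm
    intro r hr
    exact (Subgroup.mem_centralizer_iff.1 (h1 hr) (h : G) (Set.mem_singleton _)).symm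
  · intro hh s hs
    apply Subtype.ext
    exact hh (s : G) (by
      rw [hR]
      exact Subgroup.mem_sup_right (Subgroup.mem_map_of_mem _ hs))

theorem brauerOmega_cent_eq (Q : Subgroup G) (S' : Subgroup (Subgroup.centralizer (Q : Set G))) (R : Subgroup G)
    (ι : Subgroup.centralizer (S' : Set (Subgroup.centralizer (Q : Set G))) ≃* Subgroup.centralizer (R : Set G))
    (hι : ∀ c : Subgroup.centralizer (S' : Set (Subgroup.centralizer (Q : Set G))),
      ((ι c : Subgroup.centralizer (R : Set G)) : G) = ((c : (Subgroup.centralizer (Q : Set G))) : G))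
    (f : Set (IrrCharacter (Subgroup.centralizer (Q : Set G)))) (ξ : IrrCharacter (Subgroup.centralizer (R : Set G))) :
    brauerOmega S' (blockCoeff f)
        ((irrCongr ι ξ : IrrCharacter (Subgroup.centralizer (S' : Set (Subgroup.centralizer (Q : Set G))))) :
          Subgroup.centralizer (S' : Set (Subgroup.centralizer (Q : Set G))) → ℂ)
      = brauerOmega R (subgroupBlockCoeff (Subgroup.centralizer (Q : Set G)) f)
        (ξ : Subgroup.centralizer (R : Set G) → ℂ) := by
  classical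
  have : Fintype (Subgroup.centralizer (Q : Set G)) := Fintype.ofFinite _
  have : Fintype (Subgroup.centralizer (R : Set G)) := Fintype.ofFinite _
  have : Fintype (Subgroup.centralizer (S' : Set (Subgroup.centralizer (Q : Set G)))) := Fintype.ofFinite _
  rw [brauerOmega_eq_sum, brauerOmega_eq_sum, ← Equiv.sum_comp ι.toEquiv]
  refine Finset.sum_congr rfl fun c _ => ?_
  rw [irrCongr_apply, irrCongr_apply, map_one]
  show blockCoeff f (c : (Subgroup.centralizer (Q : Set G))) * _
    = subgroupBlockCoeff (Subgroup.centralizer (Q : Set G)) f ((ι c : Subgroup.centralizer (R : Set G)) : G) * _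
  rw [hι]
  unfold subgroupBlockCoeff
  rw [dif_pos (c : (Subgroup.centralizer (Q : Set G))).2]
  rfl

theorem centPair_of_normal (hM : M.IsPrime) (Q : Subgroup G) (S' : Subgroup (Subgroup.centralizer (Q : Set G)))
    (R : Subgroup G) (hR : R = Q ⊔ S'.map (Subgroup.centralizer (Q : Set G)).subtype)
    (ι : Subgroup.centralizer (S' : Set (Subgroup.centralizer (Q : Set G))) ≃* Subgroup.centralizer (R : Set G))
    (hι : ∀ c : Subgroup.centralizer (S' : Set (Subgroup.centralizer (Q : Set G))),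
      ((ι c : Subgroup.centralizer (R : Set G)) : G) = ((c : (Subgroup.centralizer (Q : Set G))) : G))
    (f : Set (IrrCharacter (Subgroup.centralizer (Q : Set G)))) (g : Set (IrrCharacter (Subgroup.centralizer (R : Set G))))
    (g' : Set (IrrCharacter (Subgroup.centralizer (S' : Set (Subgroup.centralizer (Q : Set G))))))
    (hgg : ∀ ξ : IrrCharacter (Subgroup.centralizer (R : Set G)), irrCongr ι ξ ∈ g' ↔ ξ ∈ g)
    (h : IsNormalSubpair p M Q f R g) : IsBrauerPairOf p M f S' g' := by
  classical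
  obtain ⟨⟨hQ, hf⟩, ⟨hRp, hg⟩, hQR, hRN, hst, hom⟩ := h
  have : Fintype (Subgroup.centralizer (Q : Set G)) := Fintype.ofFinite _
  have : Fintype (Subgroup.centralizer (R : Set G)) := Fintype.ofFinite _
  have : Fintype (Subgroup.centralizer (S' : Set (Subgroup.centralizer (Q : Set G)))) := Fintype.ofFinite _
  have hS'R : S'.map (Subgroup.centralizer (Q : Set G)).subtype ≤ R := by
    rw [hR]
    exact le_sup_right
  refine ⟨⟨?_, (isPBlock_irrCongr_iff hM ι g' g hgg).2 hg⟩, hf, ?_⟩
  · exact (hRp.to_le hS'R).of_equiv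
      (S'.equivMapOfInjective _ (Subgroup.subtype_injective _)).symm
  · intro ξ' hξ'
    obtain ⟨ξ, rfl⟩ := (irrCongr ι).surjective ξ'
    rw [brauerOmega_cent_eq Q S' R ι hι f ξ]
    exact hom ξ ((hgg ξ).1 hξ')

theorem normal_of_centPair (hM : M.IsPrime) (Q : Subgroup G) (hQ : IsPGroup p Q)
    (S' : Subgroup (Subgroup.centralizer (Q : Set G))) (R : Subgroup G) (hR : R = Q ⊔ S'.map (Subgroup.centralizer (Q : Set G)).subtype)
    (ι : Subgroup.centralizer (S' : Set (Subgroup.centralizer (Q : Set G))) ≃* Subgroup.centralizer (R : Set G))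
    (hι : ∀ c : Subgroup.centralizer (S' : Set (Subgroup.centralizer (Q : Set G))),
      ((ι c : Subgroup.centralizer (R : Set G)) : G) = ((c : (Subgroup.centralizer (Q : Set G))) : G))
    (f : Set (IrrCharacter (Subgroup.centralizer (Q : Set G)))) (g : Set (IrrCharacter (Subgroup.centralizer (R : Set G))))
    (g' : Set (IrrCharacter (Subgroup.centralizer (S' : Set (Subgroup.centralizer (Q : Set G))))))
    (hgg : ∀ ξ : IrrCharacter (Subgroup.centralizer (R : Set G)), irrCongr ι ξ ∈ g' ↔ ξ ∈ g)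
    (h : IsBrauerPairOf p M f S' g') : IsNormalSubpair p M Q f R g := by
  classical
  obtain ⟨⟨hS', hg'⟩, hf, hom⟩ := h
  have : Fintype (Subgroup.centralizer (Q : Set G)) := Fintype.ofFinite _
  have : Fintype (Subgroup.centralizer (R : Set G)) := Fintype.ofFinite _
  have : Fintype (Subgroup.centralizer (S' : Set (Subgroup.centralizer (Q : Set G)))) := Fintype.ofFinite _
  have hSH : S'.map (Subgroup.centralizer (Q : Set G)).subtype ≤ (Subgroup.centralizer (Q : Set G)) := by
    rintro _ ⟨s, -, rfl⟩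
    exact s.2
  have hSp : IsPGroup p (S'.map (Subgroup.centralizer (Q : Set G)).subtype) :=
    hS'.of_equiv (S'.equivMapOfInjective _ (Subgroup.subtype_injective _))
  have hSN : S'.map (Subgroup.centralizer (Q : Set G)).subtype ≤ Subgroup.normalizer (Q : Set G) :=
    le_trans hSH (Subgroup.centralizer_le_normalizer _)
  have hRp : IsPGroup p R := by
    rw [hR]
    exact IsPGroup.to_sup_of_normal_left' hQ hSp hSN
  have hQR : Q ≤ R := by
    rw [hR]
    exact le_sup_left
  have hRN : R ≤ Subgroup.normalizer (Q : Set G) := by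
    rw [hR]
    exact sup_le Subgroup.le_normalizer hSN
  have hRW : R ≤ innerActs (Subgroup.centralizer (Q : Set G)) := by
    rw [hR]
    refine sup_le ?_ ?_
    · intro q hq
      refine ⟨1, Subgroup.one_mem _, fun k hk => ?_⟩
      have h1 := Subgroup.mem_centralizer_iff.1 hk q hq
      rw [h1]
      group
    · rintro _ ⟨s, -, rfl⟩
      exact ⟨s, s.2, fun k _ => rfl⟩
  refine ⟨⟨hQ, hf⟩, ⟨hRp, (isPBlock_irrCongr_iff hM ι g' g hgg).1 hg'⟩, hQR, hRN, ?_, ?_⟩
  · intro y hy
    obtain ⟨d, hd, hdk⟩ := hRW hy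
    refine ⟨normalizer_le_normalizer_centralizer' Q (hRN hy), fun χ hχ => ⟨χ, hχ, ?_⟩⟩
    intro k k' hk
    have hc : IsCharacter (Subgroup.centralizer (Q : Set G)) (χ : (Subgroup.centralizer (Q : Set G)) → ℂ) := by
      obtain ⟨n, ρ, -, h⟩ := χ.2
      exact ⟨n, ρ, h⟩
    have h2 : k' = (⟨d, hd⟩ : (Subgroup.centralizer (Q : Set G))) * k * (⟨d, hd⟩ : (Subgroup.centralizer (Q : Set G)))⁻¹ := by
      apply Subtype.ext
      rw [hk, hdk k k.2]
      rfl
    rw [h2]
    exact Helper24.char_conj_invariant hc k ⟨d, hd⟩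
  · intro ξ hξ
    have h1 := hom (irrCongr ι ξ) ((hgg ξ).2 hξ)
    rw [brauerOmega_cent_eq Q S' R ι hι f ξ] at h1
    exact h1

/-- A Brauer pair of a block lies below a maximal one, whose subgroup is a defect group. -/
theorem pair_le_defect {K : Type*} [Group K] [Fintype K] [Fact p.Prime]
    (hpM : IsPModular p M) (f : Set (IrrCharacter K)) (S : Subgroup K)
    (g : Set (IrrCharacter (Subgroup.centralizer (S : Set K))))
    (h : IsBrauerPairOf p M f S g) :
    ∃ D : Subgroup K, IsDefectGroup p M f D ∧ S ≤ D ∧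
      ∃ g₀ : Set (IrrCharacter (Subgroup.centralizer (D : Set K))),
        IsBrauerPairOf p M f D g₀ := by
  obtain ⟨D, g₀, hmax, hle⟩ := exists_maximal_above f (Nat.card K) S S g g h
    Relation.ReflTransGen.refl (Nat.sub_le _ _)
  have : Fintype (Subgroup.normalizer (D : Set K)) := Fintype.ofFinite _
  exact ⟨D, maximal_pair_defect hpM _ D rfl f g₀ hmax, subpairLE_le hle, g₀, hmax.1⟩

/-- If `(Q, f) ≤ (P, e)` then `C_P(Q)` carries a Brauer pair of `f` in `C_G(Q)`. -/
theorem cent_pair [Fact p.Prime] (hpM : IsPModular p M) (P Q : Subgroup G)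
    (e : Set (IrrCharacter (Subgroup.centralizer (P : Set G))))
    (f : Set (IrrCharacter (Subgroup.centralizer (Q : Set G)))) (hPe : IsBrauerPair p M P e) (hQP : Q ≤ P)
    (hle : SubpairLE p M Q f P e) :
    ∃ g' : Set (IrrCharacter (Subgroup.centralizer
        (((P ⊓ (Subgroup.centralizer (Q : Set G))).subgroupOf (Subgroup.centralizer (Q : Set G)) : Subgroup (Subgroup.centralizer (Q : Set G))) : Set (Subgroup.centralizer (Q : Set G))))),
      IsBrauerPairOf p M f ((P ⊓ (Subgroup.centralizer (Q : Set G))).subgroupOf (Subgroup.centralizer (Q : Set G))) g' := by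
  classical
  have hM := hpM.2.1.isPrime
  obtain ⟨S', hS'def⟩ : ∃ S' : Subgroup (Subgroup.centralizer (Q : Set G)), S' = (P ⊓ (Subgroup.centralizer (Q : Set G))).subgroupOf (Subgroup.centralizer (Q : Set G)) := ⟨_, rfl⟩
  rw [← hS'def]
  have hS'map : S'.map (Subgroup.centralizer (Q : Set G)).subtype = P ⊓ (Subgroup.centralizer (Q : Set G)) := by
    rw [hS'def]
    exact Subgroup.map_subgroupOf_eq_of_le inf_le_right
  obtain ⟨R, hR⟩ : ∃ R : Subgroup G, R = Q ⊔ S'.map (Subgroup.centralizer (Q : Set G)).subtype := ⟨_, rfl⟩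
  have hRP : R ≤ P := by
    rw [hR, hS'map]
    exact sup_le hQP inf_le_left
  have hQR : Q ≤ R := by
    rw [hR]
    exact le_sup_left
  have hRN : R ≤ Subgroup.normalizer (Q : Set G) := by
    rw [hR, hS'map]
    exact sup_le Subgroup.le_normalizer
      (le_trans inf_le_right (Subgroup.centralizer_le_normalizer _))
  obtain ⟨g, hg, hgle⟩ := subpair_exists hpM P e hPe _ R hRP rfl
  have hRp : IsPGroup p R := hPe.1.to_le hRP
  obtain ⟨f', hf', -⟩ := normalSubpair_existsUnique hpM R Q g ⟨hRp, hg⟩ hQR hRN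
  have hrel : NormalSubpairRel p M (⟨Q, f'⟩ : BrauerPairIdx G) ⟨R, g⟩ := hf'
  have hle' : SubpairLE p M Q f' P e := Relation.ReflTransGen.head hrel hgle
  have hff : f' = f := subpair_unique hpM _ P e hPe rfl Q f' f hle' hle
  rw [hff] at hf'
  have hCH : Subgroup.centralizer (R : Set G) ≤ (Subgroup.centralizer (Q : Set G)) := Subgroup.centralizer_le hQR
  obtain ⟨ι, hι⟩ := exists_centIso R (Subgroup.centralizer (Q : Set G)) hCH (Subgroup.centralizer (S' : Set (Subgroup.centralizer (Q : Set G))))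
    (mem_cent_sup_iff Q S' R hR)
  refine ⟨{ψ | (irrCongr ι).symm ψ ∈ g}, ?_⟩
  exact centPair_of_normal hM Q S' R hR ι hι f g _ (fun ξ => by simp) hf'

/-- `C_P(Q)` lies in a defect group of `f`, and for a suitable conjugate it is a defect group. -/
theorem fully_centralized [Fact p.Prime] (hpM : IsPModular p M) (B : Set (IrrCharacter G))
    (P Q : Subgroup G) (e : Set (IrrCharacter (Subgroup.centralizer (P : Set G))))
    (f : Set (IrrCharacter (Subgroup.centralizer (Q : Set G)))) (hmax : IsMaximalBrauerPair p M B P e) (hQP : Q ≤ P)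
    (hle : SubpairLE p M Q f P e) :
    (∃ D : Subgroup (Subgroup.centralizer (Q : Set G)), IsDefectGroup p M f D ∧ (P ⊓ (Subgroup.centralizer (Q : Set G))).subgroupOf (Subgroup.centralizer (Q : Set G)) ≤ D) ∧
    ∃ x : G, SubpairLE p M (Q.map (MulAut.conj x).toMonoidHom) (conjBlock Q x f) P e ∧
      IsDefectGroup p M (conjBlock Q x f) ((P ⊓ (Subgroup.centralizer ((Q.map (MulAut.conj x).toMonoidHom : Subgroup G) : Set G))).subgroupOf (Subgroup.centralizer ((Q.map (MulAut.conj x).toMonoidHom : Subgroup G) : Set G))) := by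
  classical
  have hM := hpM.2.1.isPrime
  have hBe := hmax.1
  have hPe := hBe.1
  have hB := hBe.2.1
  have hQ : IsPGroup p Q := hPe.1.to_le hQP
  have : Fintype (Subgroup.centralizer (Q : Set G)) := Fintype.ofFinite _
  obtain ⟨g', hg'⟩ := cent_pair hpM P Q e f hPe hQP hle
  obtain ⟨D, hD, hSD, g₀', hDg₀⟩ := pair_le_defect hpM f _ g' hg'
  refine ⟨⟨D, hD, hSD⟩, ?_⟩
  have hf : IsPBlock M f := hg'.2.1
  obtain ⟨R₂, hR₂⟩ : ∃ R₂ : Subgroup G, R₂ = Q ⊔ D.map (Subgroup.centralizer (Q : Set G)).subtype := ⟨_, rfl⟩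
  have hQR₂ : Q ≤ R₂ := by
    rw [hR₂]
    exact le_sup_left
  obtain ⟨ι, hι⟩ := exists_centIso R₂ (Subgroup.centralizer (Q : Set G)) (Subgroup.centralizer_le hQR₂)
    (Subgroup.centralizer (D : Set (Subgroup.centralizer (Q : Set G)))) (mem_cent_sup_iff Q D R₂ hR₂)
  obtain ⟨g₀, hg₀def⟩ : ∃ g₀ : Set (IrrCharacter (Subgroup.centralizer (R₂ : Set G))),
      g₀ = {ξ | irrCongr ι ξ ∈ g₀'} := ⟨_, rfl⟩
  have hgg : ∀ ξ : IrrCharacter (Subgroup.centralizer (R₂ : Set G)),
      irrCongr ι ξ ∈ g₀' ↔ ξ ∈ g₀ := by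
    intro ξ
    rw [hg₀def]
    rfl
  have hnorm := normal_of_centPair hM Q hQ D R₂ hR₂ ι hι f g₀ g₀' hgg hDg₀
  have hQf : IsBrauerPairOf p M B Q f := subpairLE_brauerPairOf hpM B hle hBe
  have hR₂g : IsBrauerPairOf p M B R₂ g₀ :=
    (normalSubpair_brauerPairOf_iff hpM Q R₂ f g₀ hnorm B hB).2 hQf
  obtain ⟨x, hx⟩ := conj_below_maximal hpM B P R₂ e g₀ hmax hR₂g
  have hnormx := normalSubpair_conj hM x hnorm
  have hrelx : NormalSubpairRel p M
      (⟨(Q.map (MulAut.conj x).toMonoidHom), conjBlock Q x f⟩ : BrauerPairIdx G)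
      ⟨R₂.map (MulAut.conj x).toMonoidHom, conjBlock R₂ x g₀⟩ := hnormx
  have hlex : SubpairLE p M (Q.map (MulAut.conj x).toMonoidHom) (conjBlock Q x f) P e := Relation.ReflTransGen.head hrelx hx
  refine ⟨x, hlex, ?_⟩
  have hQ₂P : (Q.map (MulAut.conj x).toMonoidHom) ≤ P := subpairLE_le hlex
  have : Fintype (Subgroup.centralizer ((Q.map (MulAut.conj x).toMonoidHom : Subgroup G) : Set G)) := Fintype.ofFinite _
  obtain ⟨g₂', hg₂'⟩ := cent_pair hpM P (Q.map (MulAut.conj x).toMonoidHom) e (conjBlock Q x f) hPe hQ₂P hlex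
  obtain ⟨D₂, hD₂, hSD₂, -⟩ := pair_le_defect hpM (conjBlock Q x f) _ g₂' hg₂'
  have hf₂ : IsPBlock M (conjBlock Q x f) := isPBlock_conjBlock hM Q x hf
  have hdef : blockDefect p f = blockDefect p (conjBlock Q x f) :=
    blockDefect_irrCongr (centConj Q x) f (conjBlock Q x f)
      (fun ψ => (mem_conjBlock_iff Q x f ψ).symm)
  have hc1 : Nat.card D₂ = p ^ blockDefect p (conjBlock Q x f) :=
    card_defectGroup hpM hf₂ D₂ hD₂
  have hc2 : Nat.card D = p ^ blockDefect p f := card_defectGroup hpM hf D hD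
  have hc3 : Nat.card D ≤ Nat.card ((P ⊓ (Subgroup.centralizer ((Q.map (MulAut.conj x).toMonoidHom : Subgroup G) : Set G))).subgroupOf (Subgroup.centralizer ((Q.map (MulAut.conj x).toMonoidHom : Subgroup G) : Set G))) := by
    have h1 : (D.map (Subgroup.centralizer (Q : Set G)).subtype).map (MulAut.conj x).toMonoidHom ≤ P ⊓ (Subgroup.centralizer ((Q.map (MulAut.conj x).toMonoidHom : Subgroup G) : Set G)) := by
      refine le_inf ?_ ?_
      · refine le_trans (Subgroup.map_mono ?_) (subpairLE_le hx)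
        rw [hR₂]
        exact le_sup_right
      · rintro _ ⟨_, ⟨d, -, rfl⟩, rfl⟩
        exact conj_mem_centralizer_map Q x d.2
    have h2 := Subgroup.card_le_of_le h1
    rw [Subgroup.card_map_of_injective (MulEquiv.injective _),
      Subgroup.card_map_of_injective (Subgroup.subtype_injective _)] at h2
    rw [Nat.card_congr (Subgroup.subgroupOfEquivOfLe
      (inf_le_right : P ⊓ (Subgroup.centralizer ((Q.map (MulAut.conj x).toMonoidHom : Subgroup G) : Set G)) ≤ (Subgroup.centralizer ((Q.map (MulAut.conj x).toMonoidHom : Subgroup G) : Set G)))).toEquiv]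
    exact h2
  have heq : (P ⊓ (Subgroup.centralizer ((Q.map (MulAut.conj x).toMonoidHom : Subgroup G) : Set G))).subgroupOf (Subgroup.centralizer ((Q.map (MulAut.conj x).toMonoidHom : Subgroup G) : Set G)) = D₂ :=
    Subgroup.eq_of_le_of_card_ge hSD₂ (by
      rw [hc1, ← hdef, ← hc2]
      exact hc3)
  rw [heq]
  exact hD₂

end FullCent

end Cfsg.Agent.Helper25
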