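import Cfsg.Agent.Helper25.FullCent

set_option autoImplicit false
set_option linter.unusedSectionVars false

/-!
# The stabilizer of a Brauer pair (helper25)
-/

namespace Cfsg.Agent.Helper25

open Cfsg
open scoped ComplexConjugate

section FullNorm

variable {G : Type*} [Group G] [Fintype G] {p : ℕ} {M : Ideal AlgInt}

theorem mem_normalizer_map_conj_iff (Q : Subgroup G) (x u : G) :
    x * u * x⁻¹ ∈ (Subgroup.normalizer ((Q.map (MulAut.conj x).toMonoidHom : Subgroup G) : Set G)) ↔ u ∈ (Subgroup.normalizer (Q : Set G)) := by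
  constructor
  · intro h
    rw [Subgroup.mem_normalizer_iff] at h ⊢
    intro k
    have h1 := h (x * k * x⁻¹)
    have e1 : x⁻¹ * (x * k * x⁻¹) * x = k := by group
    have e2 : x⁻¹ * (x * u * x⁻¹ * (x * k * x⁻¹) * (x * u * x⁻¹)⁻¹) * x = u * k * u⁻¹ := by
      group
    have h3 := Helper12.mem_map_conj_iff Q x (x * k * x⁻¹)
    have h4 := Helper12.mem_map_conj_iff Q x (x * u * x⁻¹ * (x * k * x⁻¹) * (x * u * x⁻¹)⁻¹)
    rw [e1] at h3
    rw [e2] at h4
    exact h3.symm.trans (h1.trans h4)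
  · intro h
    exact Helper12.conj_mem_normalizer_map_conj Q x h

theorem stabilizes_conj_iff (Q : Subgroup G) (x : G) (f : Set (IrrCharacter (Subgroup.centralizer (Q : Set G)))) (u : G) :
    StabilizesBlock (Subgroup.centralizer ((Q.map (MulAut.conj x).toMonoidHom : Subgroup G) : Set G)) (conjBlock Q x f) (x * u * x⁻¹) ↔ StabilizesBlock (Subgroup.centralizer (Q : Set G)) f u := by
  constructor
  · rintro ⟨hn, hc⟩
    refine ⟨?_, ?_⟩
    · rw [Subgroup.mem_normalizer_iff] at hn ⊢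
      intro k
      have h1 := hn (x * k * x⁻¹)
      have e1 : x⁻¹ * (x * k * x⁻¹) * x = k := by group
      have e2 : x⁻¹ * (x * u * x⁻¹ * (x * k * x⁻¹) * (x * u * x⁻¹)⁻¹) * x = u * k * u⁻¹ := by
        group
      have h3 := mem_centralizer_map_conj_iff Q x (x * k * x⁻¹)
      have h4 := mem_centralizer_map_conj_iff Q x
        (x * u * x⁻¹ * (x * k * x⁻¹) * (x * u * x⁻¹)⁻¹)
      rw [e1] at h3
      rw [e2] at h4
      exact h3.symm.trans (h1.trans h4)
    · intro χ₀ hχ₀
      have hχ : (irrCongr (centConj Q x)).symm χ₀ ∈ conjBlock Q x f := by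
        rw [mem_conjBlock_iff, Equiv.apply_symm_apply]
        exact hχ₀
      obtain ⟨χ', hχ', hconj⟩ := hc _ hχ
      refine ⟨irrCongr (centConj Q x) χ', (mem_conjBlock_iff Q x f χ').1 hχ', ?_⟩
      intro k k' hk
      rw [irrCongr_apply]
      have h2 := hconj (centConj Q x k) (centConj Q x k') (by
        rw [centConj_coe, centConj_coe, hk]
        group)
      rw [h2, irrCongr_symm_apply, MulEquiv.symm_apply_apply]
  · rintro ⟨hn, hc⟩
    refine ⟨?_, ?_⟩
    · rw [Subgroup.mem_normalizer_iff] at hn ⊢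
      intro h
      have h1 := hn (x⁻¹ * h * x)
      have e1 : u * (x⁻¹ * h * x) * u⁻¹ = x⁻¹ * (x * u * x⁻¹ * h * (x * u * x⁻¹)⁻¹) * x := by
        group
      rw [e1] at h1
      have h3 := mem_centralizer_map_conj_iff Q x h
      have h4 := mem_centralizer_map_conj_iff Q x (x * u * x⁻¹ * h * (x * u * x⁻¹)⁻¹)
      exact h3.trans (h1.trans h4.symm)
    · intro χ hχ
      obtain ⟨χ₁, hχ₁, hconj⟩ := hc _ ((mem_conjBlock_iff Q x f χ).1 hχ)
      refine ⟨(irrCongr (centConj Q x)).symm χ₁, ?_, ?_⟩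
      · rw [mem_conjBlock_iff, Equiv.apply_symm_apply]
        exact hχ₁
      · intro k k' hk
        rw [irrCongr_symm_apply]
        have h2 := hconj ((centConj Q x).symm k) ((centConj Q x).symm k') (by
          rw [centConj_symm_coe, centConj_symm_coe, hk]
          group)
        rw [h2, irrCongr_apply, MulEquiv.apply_symm_apply]

theorem exists_conjIso (T T' : Subgroup G) (x : G)
    (h : ∀ y : G, y ∈ T' ↔ x⁻¹ * y * x ∈ T) :
    ∃ τ : T ≃* T', ∀ t : T, ((τ t : T') : G) = x * (t : G) * x⁻¹ := by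
  refine ⟨{ toFun := fun t => ⟨x * (t : G) * x⁻¹, (h _).2 (by
              have e : x⁻¹ * (x * (t : G) * x⁻¹) * x = t := by group
              rw [e]
              exact t.2)⟩
            invFun := fun t' => ⟨x⁻¹ * (t' : G) * x, (h _).1 t'.2⟩
            left_inv := fun t => Subtype.ext (by
              show x⁻¹ * (x * (t : G) * x⁻¹) * x = t
              group)
            right_inv := fun t' => Subtype.ext (by
              show x * (x⁻¹ * (t' : G) * x) * x⁻¹ = t'
              group)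
            map_mul' := fun a b => Subtype.ext (by
              show x * ((a : G) * (b : G)) * x⁻¹ = x * a * x⁻¹ * (x * b * x⁻¹)
              group) }, fun t => rfl⟩

theorem brauerOmega_stab_eq (T : Subgroup G) (F : Set (IrrCharacter T)) (β : G → ℂ)
    (hF : ∀ t : T, blockCoeff F t = β (t : G)) (S' : Subgroup T) (R : Subgroup G)
    (ι : Subgroup.centralizer (S' : Set T) ≃* Subgroup.centralizer (R : Set G))
    (hι : ∀ c : Subgroup.centralizer (S' : Set T),
      ((ι c : Subgroup.centralizer (R : Set G)) : G) = ((c : T) : G))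
    (ξ : IrrCharacter (Subgroup.centralizer (R : Set G))) :
    brauerOmega S' (blockCoeff F)
        ((irrCongr ι ξ : IrrCharacter (Subgroup.centralizer (S' : Set T))) :
          Subgroup.centralizer (S' : Set T) → ℂ)
      = brauerOmega R β (ξ : Subgroup.centralizer (R : Set G) → ℂ) := by
  classical
  have : Fintype T := Fintype.ofFinite _
  have : Fintype (Subgroup.centralizer (R : Set G)) := Fintype.ofFinite _
  have : Fintype (Subgroup.centralizer (S' : Set T)) := Fintype.ofFinite _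
  rw [brauerOmega_eq_sum, brauerOmega_eq_sum, ← Equiv.sum_comp ι.toEquiv]
  refine Finset.sum_congr rfl fun c _ => ?_
  rw [irrCongr_apply, irrCongr_apply, map_one]
  show blockCoeff F (c : T) * _ = β ((ι c : Subgroup.centralizer (R : Set G)) : G) * _
  rw [hι, hF]
  rfl

theorem self_le_stab (Q : Subgroup G) (f : Set (IrrCharacter (Subgroup.centralizer (Q : Set G)))) (T : Subgroup G)
    (hT : ∀ y : G, y ∈ T ↔ y ∈ (Subgroup.normalizer (Q : Set G)) ∧ StabilizesBlock (Subgroup.centralizer (Q : Set G)) f y) : Q ≤ T := by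
  intro q hq
  rw [hT]
  refine ⟨Subgroup.le_normalizer hq,
    normalizer_le_normalizer_centralizer' Q (Subgroup.le_normalizer hq),
    fun χ hχ => ⟨χ, hχ, ?_⟩⟩
  intro k k' hk
  have h1 := Subgroup.mem_centralizer_iff.1 k.2 q hq
  have h2 : k' = k := by
    apply Subtype.ext
    rw [hk, h1]
    group
  rw [h2]

theorem cent_le_stab (Q : Subgroup G) (f : Set (IrrCharacter (Subgroup.centralizer (Q : Set G)))) (T : Subgroup G)
    (hT : ∀ y : G, y ∈ T ↔ y ∈ (Subgroup.normalizer (Q : Set G)) ∧ StabilizesBlock (Subgroup.centralizer (Q : Set G)) f y) : (Subgroup.centralizer (Q : Set G)) ≤ T := by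
  intro c hc
  rw [hT]
  refine ⟨Subgroup.centralizer_le_normalizer _ hc, Subgroup.le_normalizer hc,
    fun χ hχ => ⟨χ, hχ, ?_⟩⟩
  intro k k' hk
  have hcc : IsCharacter (Subgroup.centralizer (Q : Set G)) (χ : (Subgroup.centralizer (Q : Set G)) → ℂ) := by
    obtain ⟨n, ρ, -, h⟩ := χ.2
    exact ⟨n, ρ, h⟩
  have h2 : k' = (⟨c, hc⟩ : (Subgroup.centralizer (Q : Set G))) * k * (⟨c, hc⟩ : (Subgroup.centralizer (Q : Set G)))⁻¹ := Subtype.ext hk
  rw [h2]
  exact Helper24.char_conj_invariant hcc k ⟨c, hc⟩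

/-- The idempotent of `f` is a block idempotent of the stabilizer `T` of `(Q, f)`, and
`N_P(Q)` carries a Brauer pair of that block. -/
theorem stab_block [Fact p.Prime] (hpM : IsPModular p M) (P Q : Subgroup G)
    (e : Set (IrrCharacter (Subgroup.centralizer (P : Set G))))
    (f : Set (IrrCharacter (Subgroup.centralizer (Q : Set G)))) (hPe : IsBrauerPair p M P e) (hQP : Q ≤ P)
    (hf : IsPBlock M f) (hle : SubpairLE p M Q f P e) (T : Subgroup G)
    (hT : ∀ y : G, y ∈ T ↔ y ∈ (Subgroup.normalizer (Q : Set G)) ∧ StabilizesBlock (Subgroup.centralizer (Q : Set G)) f y) :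
    ∃ F : Set (IrrCharacter T), IsPBlock M F ∧
      (∀ t : T, blockCoeff F t = subgroupBlockCoeff (Subgroup.centralizer (Q : Set G)) f (t : G)) ∧
      P ⊓ (Subgroup.normalizer (Q : Set G)) ≤ T ∧
      ∃ D : Subgroup T, IsDefectGroup p M F D ∧ (P ⊓ (Subgroup.normalizer (Q : Set G))).subgroupOf T ≤ D ∧
        ∃ g₀ : Set (IrrCharacter (Subgroup.centralizer (D : Set T))),
          IsBrauerPairOf p M F D g₀ := by
  classical
  have hM := hpM.2.1.isPrime
  have hQ : IsPGroup p Q := hPe.1.to_le hQP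
  have : Fintype T := Fintype.ofFinite _
  have : Fintype (Subgroup.centralizer (Q : Set G)) := Fintype.ofFinite _
  have := Helper24.finite_irrCharacter (G := (Subgroup.centralizer (Q : Set G)))
  have : Fintype (IrrCharacter (Subgroup.centralizer (Q : Set G))) := Fintype.ofFinite _
  have hTN : T ≤ (Subgroup.normalizer (Q : Set G)) := fun y hy => ((hT y).1 hy).1
  have hQT : Q ≤ T := self_le_stab Q f T hT
  have hCT : (Subgroup.centralizer (Q : Set G)) ≤ T := cent_le_stab Q f T hT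
  have hQn : (Q.subgroupOf T).Normal := Subgroup.normal_subgroupOf_of_le_normalizer hTN
  have hQ' : IsPGroup p (Q.subgroupOf T) := hQ.comap_subtype
  have hCn0 : (Subgroup.centralizer ((Q.subgroupOf T : Subgroup T) : Set T)).Normal :=
    inferInstance
  obtain ⟨C'', hCdef⟩ : ∃ C'' : Subgroup T,
      C'' = Subgroup.centralizer ((Q.subgroupOf T : Subgroup T) : Set T) := ⟨_, rfl⟩
  have hCn : C''.Normal := by
    rw [hCdef]
    exact hCn0
  have hCmem : ∀ t : T, t ∈ C'' ↔ (t : G) ∈ (Subgroup.centralizer (Q : Set G)) := by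
    intro t
    rw [hCdef]
    exact mem_centralizer_subgroupOf Q T hQT t
  have : Fintype C'' := Fintype.ofFinite _
  have := Helper24.finite_irrCharacter (G := C'')
  have : Fintype (IrrCharacter C'') := Fintype.ofFinite _
  obtain ⟨φ, hφ⟩ := exists_centIso Q T hCT C'' hCmem
  obtain ⟨b, hbdef⟩ : ∃ b : Set (IrrCharacter C''), b = {ψ | (irrCongr φ).symm ψ ∈ f} :=
    ⟨_, rfl⟩
  have hbmem : ∀ θ : IrrCharacter (Subgroup.centralizer (Q : Set G)), irrCongr φ θ ∈ b ↔ θ ∈ f := by
    intro θ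
    rw [hbdef]
    simp
  have hb : IsPBlock M b := by
    rw [hbdef]
    exact (irrCongr_preimage_props hM φ f hf).1
  have hbc : ∀ k : C'', blockCoeff b k = blockCoeff f (φ k) := by
    rw [hbdef]
    exact (irrCongr_preimage_props hM φ f hf).2
  have hTst : ∀ g : T, g ∈ (⊤ : Subgroup T) ↔ ∀ θ ∈ b, conjIrr C'' g θ ∈ b := by
    intro g
    refine ⟨fun _ θ hθ => ?_, fun _ => Subgroup.mem_top g⟩
    obtain ⟨χ, rfl⟩ := (irrCongr φ).surjective θ
    have hχ : χ ∈ f := (hbmem χ).1 hθ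
    obtain ⟨-, hst⟩ := ((hT ((g⁻¹ : T) : G)).1 (g⁻¹ : T).2).2
    obtain ⟨χ', hχ', hconj⟩ := hst χ hχ
    have h1 : conjIrr C'' g (irrCongr φ χ) = irrCongr φ χ' := by
      apply Subtype.ext
      funext c
      rw [conjIrr_coe, Helper6.conjFun_apply, irrCongr_apply, irrCongr_apply]
      refine (hconj _ _ ?_).symm
      rw [hφ, hφ]
      show ((c : T) : G)
        = ((g⁻¹ : T) : G) * ((g : G) * ((c : T) : G) * (g : G)⁻¹) * ((g⁻¹ : T) : G)⁻¹
      rw [Subgroup.coe_inv]
      group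
    rw [h1]
    exact (hbmem χ').2 hχ'
  have : Fintype (⊤ : Subgroup T) := Fintype.ofFinite _
  obtain ⟨-, F, hF, hFmem, hFcoef, -⟩ :=
    normalP_blocks C'' b ⊤ hpM (Q.subgroupOf T) hQ' hCdef hb hTst
  have hFc : ∀ t : T, blockCoeff F t = subgroupBlockCoeff (Subgroup.centralizer (Q : Set G)) f (t : G) := by
    intro t
    rw [hFcoef t]
    have h1 : ∀ x : T, subgroupBlockCoeff C'' b (x⁻¹ * t * x) = subgroupBlockCoeff C'' b t :=
      fun x => subgroupBlockCoeff_conj_stab C'' b ⊤ hTst x (Subgroup.mem_top x) t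
    have hcard : (Nat.card (⊤ : Subgroup T) : ℂ) ≠ 0 := by
      have h0 : 0 < Nat.card (⊤ : Subgroup T) := Nat.card_pos
      exact_mod_cast h0.ne'
    rw [Finset.sum_congr rfl (fun x _ => h1 x), Finset.sum_const, Finset.card_univ,
      ← Nat.card_eq_fintype_card, ← Subgroup.card_top (G := T), nsmul_eq_mul, ← mul_assoc,
      inv_mul_cancel₀ hcard, one_mul]
    unfold subgroupBlockCoeff
    by_cases ht : t ∈ C''
    · rw [dif_pos ht, dif_pos ((hCmem t).1 ht), hbc]
      congr 1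
      exact Subtype.ext (hφ _)
    · rw [dif_neg ht, dif_neg (fun h => ht ((hCmem t).2 h))]
  refine ⟨F, hF, hFc, ?_⟩
  obtain ⟨R, hRdef⟩ : ∃ R : Subgroup G, R = P ⊓ (Subgroup.normalizer (Q : Set G)) := ⟨_, rfl⟩
  rw [← hRdef]
  have hRP : R ≤ P := by
    rw [hRdef]
    exact inf_le_left
  have hQR : Q ≤ R := by
    rw [hRdef]
    exact le_inf hQP Subgroup.le_normalizer
  have hRN : R ≤ (Subgroup.normalizer (Q : Set G)) := by
    rw [hRdef]
    exact inf_le_right
  obtain ⟨g, hg, hgle⟩ := subpair_exists hpM P e hPe _ R hRP rfl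
  have hRp : IsPGroup p R := hPe.1.to_le hRP
  obtain ⟨f', hf', -⟩ := normalSubpair_existsUnique hpM R Q g ⟨hRp, hg⟩ hQR hRN
  have hrel : NormalSubpairRel p M (⟨Q, f'⟩ : BrauerPairIdx G) ⟨R, g⟩ := hf'
  have hle' : SubpairLE p M Q f' P e := Relation.ReflTransGen.head hrel hgle
  have hff : f' = f := subpair_unique hpM _ P e hPe rfl Q f' f hle' hle
  rw [hff] at hf'
  have hRT : R ≤ T := fun y hy => (hT y).2 ⟨hRN hy, hf'.2.2.2.2.1 y hy⟩
  refine ⟨hRT, ?_⟩
  have hCR : Subgroup.centralizer (R : Set G) ≤ T :=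
    le_trans (Subgroup.centralizer_le hQR) hCT
  obtain ⟨ι, hι⟩ := exists_centIso R T hCR
    (Subgroup.centralizer ((R.subgroupOf T : Subgroup T) : Set T))
    (mem_centralizer_subgroupOf R T hRT)
  have : Fintype (Subgroup.centralizer (R : Set G)) := Fintype.ofFinite _
  have : Fintype (Subgroup.centralizer ((R.subgroupOf T : Subgroup T) : Set T)) :=
    Fintype.ofFinite _
  have hpair : IsBrauerPairOf p M F (R.subgroupOf T) {ψ | (irrCongr ι).symm ψ ∈ g} := by
    refine ⟨⟨hRp.comap_subtype,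
      (isPBlock_irrCongr_iff hM ι _ g (fun ξ => by simp)).2 hg⟩, hF, ?_⟩
    intro ξ' hξ'
    obtain ⟨ξ, rfl⟩ := (irrCongr ι).surjective ξ'
    have hξ : ξ ∈ g := by simpa using hξ'
    rw [brauerOmega_stab_eq T F (subgroupBlockCoeff (Subgroup.centralizer (Q : Set G)) f) hFc (R.subgroupOf T) R ι hι ξ]
    exact hf'.2.2.2.2.2 ξ hξ
  obtain ⟨D, hD, hSD, g₀, hDg₀⟩ := pair_le_defect hpM F _ _ hpair
  exact ⟨D, hD, hSD, g₀, hDg₀⟩

/-- `N_P(Q)` lies in a defect group of the block of the stabilizer of `(Q, f)` with the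
idempotent of `f`, and for a suitable conjugate it is a defect group. -/
theorem fully_normalized [Fact p.Prime] (hpM : IsPModular p M) (B : Set (IrrCharacter G))
    (P Q : Subgroup G) (e : Set (IrrCharacter (Subgroup.centralizer (P : Set G))))
    (f : Set (IrrCharacter (Subgroup.centralizer (Q : Set G)))) (hmax : IsMaximalBrauerPair p M B P e) (hQP : Q ≤ P)
    (hf : IsPBlock M f) (hle : SubpairLE p M Q f P e) (T : Subgroup G)
    (hT : ∀ y : G, y ∈ T ↔ y ∈ (Subgroup.normalizer (Q : Set G)) ∧ StabilizesBlock (Subgroup.centralizer (Q : Set G)) f y) :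
    (∃ F : Set (IrrCharacter T), IsPBlock M F ∧
      (∀ t : T, blockCoeff F t = subgroupBlockCoeff (Subgroup.centralizer (Q : Set G)) f (t : G)) ∧
      ∃ D : Subgroup T, IsDefectGroup p M F D ∧ (P ⊓ (Subgroup.normalizer (Q : Set G))).subgroupOf T ≤ D) ∧
    ∃ x : G, SubpairLE p M (Q.map (MulAut.conj x).toMonoidHom) (conjBlock Q x f) P e ∧
      ∀ (T' : Subgroup G),
        (∀ y : G, y ∈ T' ↔ y ∈ (Subgroup.normalizer ((Q.map (MulAut.conj x).toMonoidHom : Subgroup G) : Set G)) ∧ StabilizesBlock (Subgroup.centralizer ((Q.map (MulAut.conj x).toMonoidHom : Subgroup G) : Set G)) (conjBlock Q x f) y) →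
        ∃ F' : Set (IrrCharacter T'), IsPBlock M F' ∧
          (∀ t : T', blockCoeff F' t = subgroupBlockCoeff (Subgroup.centralizer ((Q.map (MulAut.conj x).toMonoidHom : Subgroup G) : Set G)) (conjBlock Q x f) (t : G)) ∧
          IsDefectGroup p M F' ((P ⊓ (Subgroup.normalizer ((Q.map (MulAut.conj x).toMonoidHom : Subgroup G) : Set G))).subgroupOf T') := by
  classical
  have hM := hpM.2.1.isPrime
  have hBe := hmax.1
  have hPe := hBe.1
  have hB := hBe.2.1
  have hQ : IsPGroup p Q := hPe.1.to_le hQP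
  have : Fintype T := Fintype.ofFinite _
  obtain ⟨F, hF, hFc, hRT, D, hD, hSD, g₀', hDg₀⟩ :=
    stab_block hpM P Q e f hPe hQP hf hle T hT
  refine ⟨⟨F, hF, hFc, D, hD, hSD⟩, ?_⟩
  have hTN : T ≤ (Subgroup.normalizer (Q : Set G)) := fun y hy => ((hT y).1 hy).1
  have hCT : (Subgroup.centralizer (Q : Set G)) ≤ T := cent_le_stab Q f T hT
  obtain ⟨R₂, hR₂⟩ : ∃ R₂ : Subgroup G, R₂ = D.map T.subtype := ⟨_, rfl⟩
  have hR₂T : R₂ ≤ T := by
    rw [hR₂]
    rintro _ ⟨d, -, rfl⟩
    exact d.2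
  have hQR₂ : Q ≤ R₂ := by
    intro q hq
    rw [hR₂]
    have hqN : q ∈ P ⊓ (Subgroup.normalizer (Q : Set G)) := ⟨hQP hq, Subgroup.le_normalizer hq⟩
    have hqT : q ∈ T := hRT hqN
    exact ⟨⟨q, hqT⟩, hSD (Subgroup.mem_subgroupOf.2 hqN), rfl⟩
  have hmemc : ∀ t : T, t ∈ Subgroup.centralizer (D : Set T)
      ↔ (t : G) ∈ Subgroup.centralizer (R₂ : Set G) := by
    intro t
    rw [Subgroup.mem_centralizer_iff, Subgroup.mem_centralizer_iff]
    constructor
    · intro hh r hr
      rw [hR₂] at hr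
      obtain ⟨d, hd, rfl⟩ := hr
      exact congrArg Subtype.val (hh d hd)
    · intro hh d hd
      apply Subtype.ext
      exact hh (d : G) (by
        rw [hR₂]
        exact Subgroup.mem_map_of_mem _ hd)
  obtain ⟨ι, hι⟩ := exists_centIso R₂ T (le_trans (Subgroup.centralizer_le hQR₂) hCT)
    (Subgroup.centralizer (D : Set T)) hmemc
  obtain ⟨g₀, hg₀def⟩ : ∃ g₀ : Set (IrrCharacter (Subgroup.centralizer (R₂ : Set G))),
      g₀ = {ξ | irrCongr ι ξ ∈ g₀'} := ⟨_, rfl⟩
  have hgg : ∀ ξ : IrrCharacter (Subgroup.centralizer (R₂ : Set G)),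
      irrCongr ι ξ ∈ g₀' ↔ ξ ∈ g₀ := by
    intro ξ
    rw [hg₀def]
    rfl
  have : Fintype (Subgroup.centralizer (R₂ : Set G)) := Fintype.ofFinite _
  have : Fintype (Subgroup.centralizer (D : Set T)) := Fintype.ofFinite _
  have hR₂p : IsPGroup p R₂ := by
    rw [hR₂]
    exact hDg₀.1.1.map _
  have hnorm : IsNormalSubpair p M Q f R₂ g₀ := by
    refine ⟨⟨hQ, hf⟩, ⟨hR₂p, (isPBlock_irrCongr_iff hM ι g₀' g₀ hgg).1 hDg₀.1.2⟩, hQR₂,
      le_trans hR₂T hTN, fun y hy => ((hT y).1 (hR₂T hy)).2, ?_⟩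
    intro ξ hξ
    have h1 := hDg₀.2.2 (irrCongr ι ξ) ((hgg ξ).2 hξ)
    rw [brauerOmega_stab_eq T F (subgroupBlockCoeff (Subgroup.centralizer (Q : Set G)) f) hFc D R₂ ι hι ξ] at h1
    exact h1
  have hQf : IsBrauerPairOf p M B Q f := subpairLE_brauerPairOf hpM B hle hBe
  have hR₂g : IsBrauerPairOf p M B R₂ g₀ :=
    (normalSubpair_brauerPairOf_iff hpM Q R₂ f g₀ hnorm B hB).2 hQf
  obtain ⟨x, hx⟩ := conj_below_maximal hpM B P R₂ e g₀ hmax hR₂g
  have hnormx := normalSubpair_conj hM x hnorm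
  have hrelx : NormalSubpairRel p M
      (⟨(Q.map (MulAut.conj x).toMonoidHom), conjBlock Q x f⟩ : BrauerPairIdx G)
      ⟨R₂.map (MulAut.conj x).toMonoidHom, conjBlock R₂ x g₀⟩ := hnormx
  have hlex : SubpairLE p M (Q.map (MulAut.conj x).toMonoidHom) (conjBlock Q x f) P e := Relation.ReflTransGen.head hrelx hx
  refine ⟨x, hlex, ?_⟩
  intro T' hT'
  have : Fintype T' := Fintype.ofFinite _
  have hQ₂P : (Q.map (MulAut.conj x).toMonoidHom) ≤ P := subpairLE_le hlex
  have hf₂ : IsPBlock M (conjBlock Q x f) := isPBlock_conjBlock hM Q x hf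
  obtain ⟨F', hF', hF'c, hR'T', D₂, hD₂, hSD₂, -⟩ :=
    stab_block hpM P (Q.map (MulAut.conj x).toMonoidHom) e (conjBlock Q x f) hPe hQ₂P hf₂ hlex T' hT'
  refine ⟨F', hF', hF'c, ?_⟩
  have hTT' : ∀ y : G, y ∈ T' ↔ x⁻¹ * y * x ∈ T := by
    intro y
    rw [hT', hT]
    have e1 : x * (x⁻¹ * y * x) * x⁻¹ = y := by group
    have h1 := mem_normalizer_map_conj_iff Q x (x⁻¹ * y * x)
    have h2 := stabilizes_conj_iff Q x f (x⁻¹ * y * x)
    rw [e1] at h1 h2
    rw [h1, h2]
  obtain ⟨τ, hτ⟩ := exists_conjIso T T' x hTT'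
  obtain ⟨F₂, hF₂def⟩ : ∃ F₂ : Set (IrrCharacter T'),
      F₂ = {ψ | (irrCongr τ.symm).symm ψ ∈ F} := ⟨_, rfl⟩
  have hF₂ : IsPBlock M F₂ := by
    rw [hF₂def]
    exact (irrCongr_preimage_props hM τ.symm F hF).1
  have hF₂c : ∀ t' : T', blockCoeff F₂ t' = blockCoeff F (τ.symm t') := by
    rw [hF₂def]
    exact (irrCongr_preimage_props hM τ.symm F hF).2
  have hFF : F₂ = F' := by
    apply block_eq_of_coeff_congr hM hF₂ hF'
    intro t'
    have h1 : blockCoeff F₂ t' = blockCoeff F' t' := by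
      rw [hF₂c, hFc, hF'c]
      have h2 := subgroupBlockCoeff_conjBlock hM Q x hf (((τ.symm t' : T)) : G)
      rw [← h2]
      congr 1
      have h3 := hτ (τ.symm t')
      rw [MulEquiv.apply_symm_apply] at h3
      exact h3.symm
    rw [h1, sub_self]
    exact MemLocalIdeal.zero hM.ne_top
  have hdef : blockDefect p F = blockDefect p F' := by
    rw [← hFF]
    apply blockDefect_irrCongr τ F F₂
    intro ψ
    rw [hF₂def]
    show irrCongr τ ψ ∈ F ↔ (irrCongr τ.symm).symm ψ ∈ F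
    rw [irrCongr_symm_symm_apply']
  have hc1 : Nat.card D₂ = p ^ blockDefect p F' := card_defectGroup hpM hF' D₂ hD₂
  have hc2 : Nat.card D = p ^ blockDefect p F := card_defectGroup hpM hF D hD
  have hc3 : Nat.card D ≤ Nat.card ((P ⊓ (Subgroup.normalizer ((Q.map (MulAut.conj x).toMonoidHom : Subgroup G) : Set G))).subgroupOf T') := by
    have h1 : R₂.map (MulAut.conj x).toMonoidHom ≤ P ⊓ (Subgroup.normalizer ((Q.map (MulAut.conj x).toMonoidHom : Subgroup G) : Set G)) := by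
      refine le_inf (subpairLE_le hx) ?_
      rintro _ ⟨r, hr, rfl⟩
      exact Helper12.conj_mem_normalizer_map_conj Q x (hTN (hR₂T hr))
    have h2 := Subgroup.card_le_of_le h1
    rw [Subgroup.card_map_of_injective (MulEquiv.injective _), hR₂,
      Subgroup.card_map_of_injective (Subgroup.subtype_injective _)] at h2
    rw [Nat.card_congr (Subgroup.subgroupOfEquivOfLe hR'T').toEquiv]
    exact h2
  have heq : (P ⊓ (Subgroup.normalizer ((Q.map (MulAut.conj x).toMonoidHom : Subgroup G) : Set G))).subgroupOf T' = D₂ :=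
    Subgroup.eq_of_le_of_card_ge hSD₂ (by
      rw [hc1, ← hdef, ← hc2]
      exact hc3)
  rw [heq]
  exact hD₂

end FullNorm

end Cfsg.Agent.Helper25
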