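import Cfsg.Agent.Helper25.ColNorm
import Cfsg.Agent.Helper25.SectionSum
import Cfsg.Agent.Helper25.CentralPPart
import Cfsg.Agent.Helper25.DCBlock
import Cfsg.Agent.Helper6.GoingDown
import Cfsg.Agent.Helper6.PRegular
import Cfsg.Agent.Helper6.ConjChar
import Cfsg.Agent.Helper2.CharInner
import Cfsg.Agent.Helper2.CharComplete
import Mathlib

/-!
Characters of `p'`-degree in a block lying over a character of a normal subgroup that does
not contain a Sylow `p`-subgroup: their number is never one, and is divisible by `p` when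
`p ≤ 3`.  The proof combines block orthogonality with Clifford's theorem.
-/

set_option autoImplicit false

namespace Cfsg.Agent.Helper25

open Cfsg

/-- Nonzero squares are one modulo two. -/
theorem sq_eq_one_zmod_two : ∀ a : ZMod 2, a ≠ 0 → a ^ 2 = 1 := by decide

/-- Nonzero squares are one modulo three. -/
theorem sq_eq_one_zmod_three : ∀ a : ZMod 3, a ≠ 0 → a ^ 2 = 1 := by decide

/-- Nonzero squares are one modulo a prime at most three. -/
theorem sq_eq_one_zmod_le_three (p : ℕ) [Fact p.Prime] (hp3 : p ≤ 3) (a : ZMod p)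
    (ha : a ≠ 0) : a ^ 2 = 1 := by
  have hp2 : 2 ≤ p := (Fact.out : p.Prime).two_le
  obtain rfl | rfl : p = 2 ∨ p = 3 := by omega
  · exact sq_eq_one_zmod_two a ha
  · exact sq_eq_one_zmod_three a ha

/-- Clifford data for one character over `θ`: the multiplicity is a natural number `e`, and
the degree is `e` times a constant not depending on the character. -/
theorem clifford_mult_deg {G : Type*} [Group G] [Fintype G] (N : Subgroup G) [hN : N.Normal]
    [Fintype N] (χ : IrrCharacter G) (θ : IrrCharacter N) :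
    ∃ e : ℕ, classInner (fun n : N => (χ : G → ℂ) n) (θ : N → ℂ) = (e : ℂ) ∧
      (classInner (fun n : N => (χ : G → ℂ) n) (θ : N → ℂ) ≠ 0 →
        charDegree (χ : G → ℂ) = e * ((Nat.card G /
          Nat.card (Helper6.inertia N (θ : N → ℂ))) * charDegree (θ : N → ℂ))) := by
  classical
  by_cases hne : classInner (fun n : N => (χ : G → ℂ) n) (θ : N → ℂ) = 0
  · exact ⟨0, by rw [hne]; simp, fun h => absurd hne h⟩
  · obtain ⟨e, F, he, hF, hθF, hcard, hres, -, -⟩ := Helper6.clifford_finset N χ.2 θ.2 hne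
    have hm : classInner (fun n : N => (χ : G → ℂ) n) (θ : N → ℂ) = (e : ℂ) := by
      rw [hres, Helper2.classInner_smul_left, Helper2.classInner_sum_left]
      have hthis : ∀ ψ ∈ F, classInner ψ (θ : N → ℂ)
          = if ψ = (θ : N → ℂ) then (1 : ℂ) else 0 := by
        intro ψ hψ
        obtain ⟨g, rfl⟩ := hF ψ hψ
        exact Helper2.classInner_irr (Helper6.isIrrCharacter_conjFun N g θ.2) θ.2
      rw [Finset.sum_congr rfl hthis, Finset.sum_ite_eq' F (θ : N → ℂ), if_pos hθF, mul_one]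
    refine ⟨e, hm, fun _ => ?_⟩
    have h2 := congrFun hres (1 : N)
    simp only [Pi.smul_apply, Finset.sum_apply, smul_eq_mul, OneMemClass.coe_one] at h2
    have h3 : ∑ ψ ∈ F, ψ (1 : N) = ∑ _ψ ∈ F, (θ : N → ℂ) 1 := by
      refine Finset.sum_congr rfl (fun ψ hψ => ?_)
      obtain ⟨g, rfl⟩ := hF ψ hψ
      exact Helper6.conjFun_one_apply N g _
    rw [Finset.sum_const, nsmul_eq_mul] at h3
    have hd : (charDegree (χ : G → ℂ) : ℂ)
        = ((e * (F.card * charDegree (θ : N → ℂ)) : ℕ) : ℂ) := by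
      rw [← irr_one_eq_degree χ, h2, h3, irr_one_eq_degree θ]
      push_cast
      ring
    have hd' : charDegree (χ : G → ℂ) = e * (F.card * charDegree (θ : N → ℂ)) :=
      Nat.cast_injective hd
    have hFc : F.card = Nat.card G / Nat.card (Helper6.inertia N (θ : N → ℂ)) := by
      have hpos : 0 < Nat.card (Helper6.inertia N (θ : N → ℂ)) := Nat.card_pos
      exact (Nat.div_eq_of_eq_mul_left hpos hcard.symm).symm
    rw [hd', hFc]

/-- The number of `p'`-degree characters of a block over `θ` is not one, and is divisible by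
`p` when `p ≤ 3`, if `N` does not contain a Sylow `p`-subgroup. -/
theorem ht_zero_over {G : Type*} [Group G] [Fintype G] (p : ℕ) [Fact p.Prime] (P : Sylow p G)
    (M : Ideal AlgInt) (hM : IsPModular p M) (B : Set (IrrCharacter G)) (hB : IsPBlock M B)
    (N : Subgroup G) [hN : N.Normal] [Fintype N] (hPN : ¬ (P : Subgroup G) ≤ N)
    (θ : IrrCharacter N) :
    (Nat.card {χ : IrrCharacter G // χ ∈ B ∧ ¬ p ∣ charDegree (χ : G → ℂ) ∧
        classInner (fun n : N => (χ : G → ℂ) n) (θ : N → ℂ) ≠ 0} = 0 ∨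
      2 ≤ Nat.card {χ : IrrCharacter G // χ ∈ B ∧ ¬ p ∣ charDegree (χ : G → ℂ) ∧
        classInner (fun n : N => (χ : G → ℂ) n) (θ : N → ℂ) ≠ 0}) ∧
    (p ≤ 3 → p ∣ Nat.card {χ : IrrCharacter G // χ ∈ B ∧ ¬ p ∣ charDegree (χ : G → ℂ) ∧
        classInner (fun n : N => (χ : G → ℂ) n) (θ : N → ℂ) ≠ 0}) := by
  classical
  have hfin : Finite (IrrCharacter G) := Helper24.finite_irrCharacter
  have : Fintype (IrrCharacter G) := Fintype.ofFinite _
  have hprime : M.IsPrime := IsPModular.isPrime hM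
  have hp : p.Prime := Fact.out
  obtain ⟨x0, hx0P, hx0N⟩ := SetLike.not_le_iff_exists.mp hPN
  obtain ⟨k0, hk0⟩ : ∃ k : ℕ, orderOf x0 = p ^ k := by
    obtain ⟨k, hk⟩ := (IsPGroup.iff_orderOf.mp P.isPGroup') ⟨x0, hx0P⟩
    exact ⟨k, (Subgroup.orderOf_mk x0 hx0P).symm.trans hk⟩
  -- block orthogonality between `N` and the `p`-element `x0`
  have horth : ∀ n : N, ∑ χ : IrrCharacter G,
      (if χ ∈ B then (χ : G → ℂ) n * (χ : G → ℂ) x0⁻¹ else 0) = 0 := by
    intro n
    obtain ⟨z, hz⟩ := exists_isPPart p n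
    have hz' : IsPPart p (n : G) (z : G) := isPPart_coe N hz
    have hx0 : IsPPart p x0 x0 :=
      ⟨1, mul_one x0, Commute.one_right x0, ⟨k0, hk0⟩, by
        rw [orderOf_one, Nat.dvd_one]; exact hp.ne_one⟩
    have hnc : ¬ IsConj (z : G) x0 := by
      intro hc
      obtain ⟨c, hc⟩ := isConj_iff.mp hc
      apply hx0N
      rw [← hc]
      exact hN.conj_mem (z : G) z.2 c
    have h5 := (Cfsg.Agent.S0925.result p M hM).2 (n : G) x0 (z : G) x0 hz' hx0 hnc B hB
    rw [finsum_mem_eq_sum_ite] at h5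
    exact h5
  have hkey : ∑ χ : IrrCharacter G, (if χ ∈ B then
      classInner (fun n : N => (χ : G → ℂ) n) (θ : N → ℂ) * (χ : G → ℂ) x0⁻¹ else 0) = 0 := by
    have hexp : ∀ χ : IrrCharacter G, (if χ ∈ B then
        classInner (fun n : N => (χ : G → ℂ) n) (θ : N → ℂ) * (χ : G → ℂ) x0⁻¹ else 0)
        = (Nat.card N : ℂ)⁻¹ * ∑ n : N, (starRingEnd ℂ) ((θ : N → ℂ) n) *
            (if χ ∈ B then (χ : G → ℂ) n * (χ : G → ℂ) x0⁻¹ else 0) := by
      intro χ
      by_cases h : χ ∈ B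
      · simp only [if_pos h, classInner]
        rw [mul_assoc, Finset.sum_mul]
        congr 1
        refine Finset.sum_congr rfl (fun n _ => ?_)
        ring
      · simp only [if_neg h, mul_zero, Finset.sum_const_zero]
    rw [Finset.sum_congr rfl (fun χ _ => hexp χ), ← Finset.mul_sum, Finset.sum_comm]
    have hz : ∀ n : N, ∑ χ : IrrCharacter G, (starRingEnd ℂ) ((θ : N → ℂ) n) *
        (if χ ∈ B then (χ : G → ℂ) n * (χ : G → ℂ) x0⁻¹ else 0) = 0 := by
      intro n
      rw [← Finset.mul_sum, horth n, mul_zero]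
    rw [Finset.sum_congr rfl (fun n _ => hz n), Finset.sum_const_zero, mul_zero]
  -- Clifford data
  obtain ⟨c, hcl⟩ : ∃ c : ℕ, ∀ χ : IrrCharacter G, ∃ e : ℕ,
      classInner (fun n : N => (χ : G → ℂ) n) (θ : N → ℂ) = (e : ℂ) ∧
      (classInner (fun n : N => (χ : G → ℂ) n) (θ : N → ℂ) ≠ 0 →
        charDegree (χ : G → ℂ) = e * c) :=
    ⟨_, fun χ => clifford_mult_deg N χ θ⟩
  choose E hE1 hE2 using hcl
  have hsum : p ∣ ∑ χ : IrrCharacter G,
      (if χ ∈ B then E χ * charDegree (χ : G → ℂ) else 0) := by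
    rw [← memLocalIdeal_natCast_iff hM]
    have hdiff : ∀ χ : IrrCharacter G,
        MemLocalIdeal M ((χ : G → ℂ) x0⁻¹ - (χ : G → ℂ) 1) := by
      intro χ
      have h := Helper6.PRegular.char_ppart_congr hM (Helper24.isCharacter_of_irr χ.2) x0⁻¹ 1
        (Commute.one_right _) k0 (by rw [orderOf_inv]; exact hk0)
      rwa [mul_one] at h
    have heq : ((∑ χ : IrrCharacter G,
          (if χ ∈ B then E χ * charDegree (χ : G → ℂ) else 0) : ℕ) : ℂ)
        = - ∑ χ : IrrCharacter G, (if χ ∈ B then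
            (E χ : ℂ) * ((χ : G → ℂ) x0⁻¹ - (χ : G → ℂ) 1) else 0) := by
      rw [eq_neg_iff_add_eq_zero, Nat.cast_sum, ← Finset.sum_add_distrib]
      refine Eq.trans (Finset.sum_congr rfl (fun χ _ => ?_)) hkey
      by_cases h : χ ∈ B
      · simp only [if_pos h]
        rw [hE1 χ, irr_one_eq_degree χ]
        push_cast
        ring
      · simp only [if_neg h, Nat.cast_zero, add_zero]
    rw [heq]
    refine MemLocalIdeal.neg (memLocalIdeal_sum hprime _ _ (fun χ _ => ?_))
    by_cases h : χ ∈ B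
    · rw [if_pos h]
      exact MemLocalIdeal.mul_left hprime (memLocalRing_natCast hprime.ne_top (E χ)) (hdiff χ)
    · rw [if_neg h]
      exact MemLocalIdeal.zero hprime.ne_top
  -- counting
  have hcardA : Nat.card {χ : IrrCharacter G // χ ∈ B ∧ ¬ p ∣ charDegree (χ : G → ℂ) ∧
        classInner (fun n : N => (χ : G → ℂ) n) (θ : N → ℂ) ≠ 0}
      = (Finset.univ.filter (fun χ : IrrCharacter G => χ ∈ B ∧
          ¬ p ∣ charDegree (χ : G → ℂ) ∧
          classInner (fun n : N => (χ : G → ℂ) n) (θ : N → ℂ) ≠ 0)).card := by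
    rw [Nat.card_eq_fintype_card, Fintype.card_subtype]
  rw [hcardA]
  generalize hA : (Finset.univ.filter (fun χ : IrrCharacter G => χ ∈ B ∧
          ¬ p ∣ charDegree (χ : G → ℂ) ∧
          classInner (fun n : N => (χ : G → ℂ) n) (θ : N → ℂ) ≠ 0)) = A
  by_cases hAe : A = ∅
  · rw [hAe]
    simp
  obtain ⟨χ0, hχ0⟩ := Finset.nonempty_iff_ne_empty.mpr hAe
  have hmemA : ∀ χ ∈ A, (χ ∈ B ∧ ¬ p ∣ charDegree (χ : G → ℂ)) ∧
      charDegree (χ : G → ℂ) = E χ * c := by
    intro χ hχ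
    rw [← hA, Finset.mem_filter] at hχ
    exact ⟨⟨hχ.2.1, hχ.2.2.1⟩, hE2 χ hχ.2.2.2⟩
  have hcne : (c : ZMod p) ≠ 0 := by
    obtain ⟨⟨_, h1⟩, h2⟩ := hmemA χ0 hχ0
    intro h0
    apply h1
    rw [h2]
    exact Dvd.dvd.mul_left ((CharP.cast_eq_zero_iff (ZMod p) p c).mp h0) _
  have hEne : ∀ χ ∈ A, (E χ : ZMod p) ≠ 0 := by
    intro χ hχ h0
    obtain ⟨⟨_, h1⟩, h2⟩ := hmemA χ hχ
    apply h1
    rw [h2]
    exact Dvd.dvd.mul_right ((CharP.cast_eq_zero_iff (ZMod p) p (E χ)).mp h0) _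
  have hsumZ : ∑ χ ∈ A, (E χ : ZMod p) ^ 2 = 0 := by
    have h1 : ((∑ χ : IrrCharacter G,
        (if χ ∈ B then E χ * charDegree (χ : G → ℂ) else 0) : ℕ) : ZMod p) = 0 :=
      (CharP.cast_eq_zero_iff (ZMod p) p _).mpr hsum
    rw [Nat.cast_sum] at h1
    have h2 : ∑ χ : IrrCharacter G,
        (((if χ ∈ B then E χ * charDegree (χ : G → ℂ) else 0 : ℕ)) : ZMod p)
        = ∑ χ ∈ A, (E χ : ZMod p) ^ 2 * (c : ZMod p) := by
      rw [← hA, Finset.sum_filter]
      refine Finset.sum_congr rfl (fun χ _ => ?_)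
      by_cases hB' : χ ∈ B
      · by_cases hd : p ∣ charDegree (χ : G → ℂ)
        · rw [if_pos hB', if_neg (fun h => h.2.1 hd)]
          rw [Nat.cast_mul, (CharP.cast_eq_zero_iff (ZMod p) p _).mpr hd, mul_zero]
        · by_cases hm : classInner (fun n : N => (χ : G → ℂ) n) (θ : N → ℂ) = 0
          · rw [if_pos hB', if_neg (fun h => h.2.2 hm)]
            have hE0 : E χ = 0 := by
              have h7 := hE1 χ
              rw [hm] at h7
              exact_mod_cast h7.symm
            rw [hE0, zero_mul, Nat.cast_zero]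
          · rw [if_pos hB', if_pos ⟨hB', hd, hm⟩, hE2 χ hm]
            push_cast
            ring
      · rw [if_neg hB', if_neg (fun h => hB' h.1), Nat.cast_zero]
    rw [h2, ← Finset.sum_mul] at h1
    exact (mul_eq_zero.mp h1).resolve_right hcne
  refine ⟨?_, ?_⟩
  · by_contra hcon
    have h1 : A.card = 1 := by omega
    obtain ⟨χ1, hχ1⟩ := Finset.card_eq_one.mp h1
    rw [hχ1, Finset.sum_singleton] at hsumZ
    exact hEne χ1 (by rw [hχ1]; exact Finset.mem_singleton_self χ1)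
      ((pow_eq_zero_iff (two_ne_zero)).mp hsumZ)
  · intro hp3
    have h8 : ∑ χ ∈ A, (E χ : ZMod p) ^ 2 = (A.card : ZMod p) := by
      rw [Finset.sum_congr rfl (fun χ hχ => sq_eq_one_zmod_le_three p hp3 _ (hEne χ hχ)),
        Finset.sum_const, nsmul_eq_mul, mul_one]
    rw [h8] at hsumZ
    exact (CharP.cast_eq_zero_iff (ZMod p) p _).mp hsumZ

end Cfsg.Agent.Helper25
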