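import Cfsg.Agent.Helper25.RelBrauer3

set_option autoImplicit false
set_option linter.unusedSectionVars false

/-!
# Maximal Brauer pairs and defect groups (helper25)
-/

namespace Cfsg.Agent.Helper25

open Cfsg
open scoped ComplexConjugate

section GoingUp

variable {G : Type*} [Group G] [Fintype G] {p : ℕ} {M : Ideal AlgInt}

/-- If `R ⊇ P` is a `p`-group normalizing `P` and stabilizing `e`, and the idempotent of `e` has
a coefficient outside the local ideal at an element centralizing `R`, then there is a Brauer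
pair `(R, g)` of `B` normally above `(P, e)`. -/
theorem going_up [Fact p.Prime] (hpM : IsPModular p M) (P R : Subgroup G)
    (e : Set (IrrCharacter (Subgroup.centralizer (P : Set G)))) (B : Set (IrrCharacter G))
    (hBe : IsBrauerPairOf p M B P e) (hR : IsPGroup p R) (hPR : P ≤ R)
    (hRN : R ≤ Subgroup.normalizer (P : Set G))
    (hst : ∀ n : Subgroup.normalizer ((Subgroup.centralizer (P : Set G) : Subgroup G) : Set G),
      (n : G) ∈ R → ∀ θ, nAct (Subgroup.centralizer (P : Set G)) n θ ∈ e ↔ θ ∈ e)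
    (y : G) (hy : y ∈ Subgroup.centralizer (R : Set G))
    (hcoef : ¬ MemLocalIdeal M (subgroupBlockCoeff (Subgroup.centralizer (P : Set G)) e y)) :
    ∃ g : Set (IrrCharacter (Subgroup.centralizer (R : Set G))),
      IsNormalSubpair p M P e R g ∧ IsBrauerPairOf p M B R g := by
  classical
  have hM := hpM.2.1.isPrime
  have : Fintype (Subgroup.centralizer (P : Set G)) := Fintype.ofFinite _
  have := Helper24.finite_irrCharacter (G := Subgroup.centralizer (P : Set G))
  have : Fintype (IrrCharacter (Subgroup.centralizer (P : Set G))) := Fintype.ofFinite _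
  have : Fintype (Subgroup.centralizer (R : Set G)) := Fintype.ofFinite _
  have := Helper24.finite_irrCharacter (G := Subgroup.centralizer (R : Set G))
  have : Fintype (IrrCharacter (Subgroup.centralizer (R : Set G))) := Fintype.ofFinite _
  obtain ⟨⟨hP, he⟩, hB, hBe1⟩ := hBe
  have hCK : Subgroup.centralizer (R : Set G) ≤ Subgroup.centralizer (P : Set G) :=
    Subgroup.centralizer_le hPR
  have hRNK := le_trans hRN (normalizer_le_normalizer_centralizer' P)
  have hem := ind_mem_specRing (Subgroup.centralizer (P : Set G)) hM he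
  obtain ⟨U, hUdef⟩ : ∃ U, U = rtrunc (Subgroup.centralizer (P : Set G)) R (ind e) := ⟨_, rfl⟩
  have hU : U ∈ specRing (Subgroup.centralizer (R : Set G)) M hM := by
    rw [hUdef]
    exact rtrunc_mem_specRing _ R hM hCK hem
  have hUU : U * U - U ∈ specJ (Subgroup.centralizer (R : Set G)) M hM := by
    have h3 := rtrunc_mul_sub_mem (Subgroup.centralizer (P : Set G)) R hpM hR hCK hRNK hem hem
      (stable_ind _ hst) (stable_ind _ hst)
    rw [ind_mul_self, ← hUdef] at h3
    have h4 := neg_mem h3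
    rwa [neg_sub] at h4
  have hUy : ¬ MemLocalIdeal M (coeffT U ⟨y, hy⟩) := by
    rw [hUdef, coeffT_rtrunc _ R hCK, ← blockCoeff_eq_ind]
    unfold subgroupBlockCoeff at hcoef
    rw [dif_pos (hCK hy)] at hcoef
    exact hcoef
  have hex : ∃ ξ, ¬ MemLocalIdeal M (U ξ) := by
    by_contra hcon
    have hall : ∀ ξ, MemLocalIdeal M (U ξ) := by
      intro ξ
      by_contra h
      exact hcon ⟨ξ, h⟩
    obtain ⟨ξ₀⟩ : Nonempty (IrrCharacter (Subgroup.centralizer (R : Set G))) :=
      ⟨⟨_, Helper2.isIrrCharacter_one_fun (G := Subgroup.centralizer (R : Set G))⟩⟩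
    exact hUy (mem_specJ.1 (mem_specJ_of_idem hM ξ₀ hU hUU hall) _)
  obtain ⟨ξ, hξ⟩ := hex
  have hξ1 : MemLocalIdeal M (U ξ - 1) := by
    have h1 := specJ_value_mem hM hUU ξ
    simp only [Pi.sub_apply, Pi.mul_apply] at h1
    have e1 : U ξ * U ξ - U ξ = U ξ * (U ξ - 1) := by ring
    rw [e1] at h1
    exact (MemLocalIdeal.of_mul hM (spec_value_mem hM hU ξ) h1).resolve_left hξ
  have hg : IsPBlock M (blockOf M (ξ : Subgroup.centralizer (R : Set G) → ℂ)) := ⟨ξ, rfl⟩
  have hnorm : IsNormalSubpair p M P e R (blockOf M (ξ : Subgroup.centralizer (R : Set G) → ℂ)) := by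
    refine ⟨⟨hP, he⟩, ⟨hR, hg⟩, hPR, hRN,
      (stabilizes_iff (Subgroup.centralizer (P : Set G)) R hRNK e).2 hst, fun ξ₁ hξ₁ => ?_⟩
    rw [brauerOmega_subgroupBlockCoeff _ R hCK, ← hUdef]
    have h2 := spec_sub_mem hM hU (sameBlock_symm (mem_blockOf.1 hξ₁))
    have h3 := MemLocalIdeal.add hM h2 hξ1
    rwa [sub_add_sub_cancel] at h3
  exact ⟨_, hnorm, (normalSubpair_brauerPairOf_iff hpM P R e _ hnorm B hB).2 ⟨⟨hP, he⟩, hB, hBe1⟩⟩

end GoingUp

section Fixed

variable {G : Type*} [Group G] [Fintype G] {p : ℕ} {M : Ideal AlgInt}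
  (N : Subgroup G) [hN : N.Normal] [Fintype N] (b : Set (IrrCharacter N))
  (T : Subgroup G) [Fintype T]

theorem subgroupBlockCoeff_conj_stab (hT : ∀ g : G, g ∈ T ↔ ∀ θ ∈ b, conjIrr N g θ ∈ b)
    (c : G) (hc : c ∈ T) (z : G) :
    subgroupBlockCoeff N b (c⁻¹ * z * c) = subgroupBlockCoeff N b z := by
  classical
  have := Helper24.finite_irrCharacter (G := N)
  have : Fintype (IrrCharacter N) := Fintype.ofFinite _
  unfold subgroupBlockCoeff
  by_cases hz : z ∈ N
  · have hz' : c⁻¹ * z * c ∈ N := by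
      have h1 := hN.conj_mem z hz c⁻¹
      rwa [inv_inv] at h1
    rw [dif_pos hz, dif_pos hz', blockCoeff_eq_coeffT, blockCoeff_eq_coeffT]
    have h1 := coeffT_conj_invariant_pt N (fun θ : IrrCharacter N => if θ ∈ b then (1 : ℂ) else 0)
      c⁻¹ (fun θ => by
        have h2 := stab_iff N T b hT (T.inv_mem hc) θ
        simp only [h2]) ⟨z, hz⟩
    rw [← h1]
    congr 1
    apply Subtype.ext
    simp
  · have hz' : c⁻¹ * z * c ∉ N := by
      intro h
      apply hz
      have h1 := hN.conj_mem _ h c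
      have e : c * (c⁻¹ * z * c) * c⁻¹ = z := by group
      rwa [e] at h1
    rw [dif_neg hz, dif_neg hz']

/-- Fixed points of a `p`-subgroup on the conjugates of a block of a normal subgroup. -/
theorem exists_fixed_conj [Fact p.Prime] (hpM : IsPModular p M) (hb : IsPBlock M b)
    (hT : ∀ g : G, g ∈ T ↔ ∀ θ ∈ b, conjIrr N g θ ∈ b)
    (D : Subgroup G) (hD : IsPGroup p D) (y : G) (hDy : ∀ u ∈ D, u * y = y * u)
    (hcoef : ¬ MemLocalIdeal M
      ((Nat.card T : ℂ)⁻¹ * ∑ x : G, subgroupBlockCoeff N b (x⁻¹ * y * x))) :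
    ∃ x : G, (∀ u ∈ D, x⁻¹ * u * x ∈ T) ∧
      ¬ MemLocalIdeal M (subgroupBlockCoeff N b (x⁻¹ * y * x)) := by
  classical
  have hM := hpM.2.1.isPrime
  have := Helper24.finite_irrCharacter (G := N)
  have : Fintype (IrrCharacter N) := Fintype.ofFinite _
  have : Fintype (G ⧸ T) := Fintype.ofFinite _
  have hpJ : MemLocalIdeal M (p : ℂ) := (memLocalIdeal_natCast_iff hpM p).2 (dvd_refl p)
  have hTc : (Nat.card T : ℂ) ≠ 0 := by
    have : 0 < Nat.card T := Nat.card_pos
    exact_mod_cast this.ne'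
  by_contra hcon
  have hcon' : ∀ x : G, (∀ u ∈ D, x⁻¹ * u * x ∈ T) →
      MemLocalIdeal M (subgroupBlockCoeff N b (x⁻¹ * y * x)) := by
    intro x hx
    by_contra h
    exact hcon ⟨x, hx, h⟩
  obtain ⟨F, hFdef⟩ : ∃ F : G → ℂ, F = fun x => subgroupBlockCoeff N b (x⁻¹ * y * x) :=
    ⟨_, rfl⟩
  have hF : ∀ t : G, ∀ c ∈ T, F (t * c) = F t := by
    intro t c hc
    rw [hFdef]
    simp only
    have e : (t * c)⁻¹ * y * (t * c) = c⁻¹ * (t⁻¹ * y * t) * c := by group
    rw [e, subgroupBlockCoeff_conj_stab N b T hT c hc]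
  have hsum := sum_right_invariant T F hF
  have key : ∀ a : G, F (Quotient.out (QuotientGroup.mk a : G ⧸ T)) = F a := by
    intro a
    obtain ⟨h, hh⟩ := QuotientGroup.mk_out_eq_mul T a
    rw [hh]
    exact hF a h h.2
  have hloc : ∀ x : G, MemLocalRing M (F x) := by
    intro x
    rw [hFdef]
    simp only
    unfold subgroupBlockCoeff
    by_cases hx : x⁻¹ * y * x ∈ N
    · rw [dif_pos hx, blockCoeff_eq_coeffT]
      exact mem_specRing.1 (block_indicator_mem hM hb) _
    · rw [dif_neg hx]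
      exact MemLocalRing.zero hM.ne_top
  have h1 := pgroup_sum_mem' hD ((MulAction.toPermHom G (G ⧸ T)).comp D.subtype)
    (localIdeal M hM) (fun q : G ⧸ T => F (Quotient.out q)) ?_ ?_ ?_
  · rw [mem_localIdeal] at h1
    apply hcoef
    have e : (Nat.card T : ℂ)⁻¹ * ∑ x : G, subgroupBlockCoeff N b (x⁻¹ * y * x)
        = ∑ q : G ⧸ T, F (Quotient.out q) := by
      have e2 : ∑ x : G, subgroupBlockCoeff N b (x⁻¹ * y * x) = ∑ x : G, F x := by
        rw [hFdef]
      rw [e2, hsum, ← mul_assoc, inv_mul_cancel₀ hTc, one_mul]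
    rw [e]
    exact h1
  · intro u q
    induction q using QuotientGroup.induction_on with
    | H a =>
      have e1 : ((MulAction.toPermHom G (G ⧸ T)).comp D.subtype) u (QuotientGroup.mk a)
          = QuotientGroup.mk ((u : G) * a) := rfl
      rw [e1, key, key, hFdef]
      simp only
      have e2 : ((u : G) * a)⁻¹ * y * ((u : G) * a) = a⁻¹ * ((u : G)⁻¹ * y * (u : G)) * a := by
        group
      have e3 : (u : G)⁻¹ * y * (u : G) = y := by
        rw [mul_assoc, ← hDy (u : G) u.2]
        group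
      rw [e2, e3]
  · intro q
    rw [mem_localIdeal]
    exact MemLocalIdeal.mul_right hM hpJ (hloc _)
  · intro q hq
    rw [mem_localIdeal]
    induction q using QuotientGroup.induction_on with
    | H a =>
      rw [key, hFdef]
      simp only
      apply hcon' a
      intro u hu
      have h2 := hq ⟨u⁻¹, D.inv_mem hu⟩
      have e1 : ((MulAction.toPermHom G (G ⧸ T)).comp D.subtype) ⟨u⁻¹, D.inv_mem hu⟩
          (QuotientGroup.mk a) = QuotientGroup.mk (u⁻¹ * a) := rfl
      rw [e1, QuotientGroup.eq] at h2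
      have e2 : (u⁻¹ * a)⁻¹ * a = a⁻¹ * u * a := by group
      rwa [e2] at h2

end Fixed

section Transport

variable {G : Type*} [Group G] [Fintype G] {p : ℕ} {M : Ideal AlgInt}

theorem mem_centralizer_subgroupOf (P H : Subgroup G) (hPH : P ≤ H) (h : H) :
    h ∈ Subgroup.centralizer ((P.subgroupOf H : Subgroup H) : Set H)
      ↔ (h : G) ∈ Subgroup.centralizer (P : Set G) := by
  rw [Subgroup.mem_centralizer_iff, Subgroup.mem_centralizer_iff]
  constructor
  · intro hh u hu
    have h1 := hh ⟨u, hPH hu⟩ (Subgroup.mem_subgroupOf.2 hu)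
    exact congrArg Subtype.val h1
  · intro hh u hu
    apply Subtype.ext
    exact hh (u : G) (Subgroup.mem_subgroupOf.1 hu)

theorem exists_centIso (P H : Subgroup G) (hCH : Subgroup.centralizer (P : Set G) ≤ H)
    (C' : Subgroup H) (hC' : ∀ h : H, h ∈ C' ↔ (h : G) ∈ Subgroup.centralizer (P : Set G)) :
    ∃ φ : C' ≃* Subgroup.centralizer (P : Set G),
      ∀ c : C', ((φ c : Subgroup.centralizer (P : Set G)) : G) = ((c : H) : G) := by
  have hCeq : C' = (Subgroup.centralizer (P : Set G)).subgroupOf H := by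
    ext h
    rw [hC', Subgroup.mem_subgroupOf]
  exact ⟨(MulEquiv.subgroupCongr hCeq).trans (Subgroup.subgroupOfEquivOfLe hCH), fun c => rfl⟩

theorem irrCongr_preimage_props {K K' : Type*} [Group K] [Group K'] [Fintype K] [Fintype K']
    (hM : M.IsPrime) (φ : K ≃* K') (b' : Set (IrrCharacter K')) (hb' : IsPBlock M b') :
    IsPBlock M {ψ : IrrCharacter K | (irrCongr φ).symm ψ ∈ b'} ∧
      ∀ k : K, blockCoeff {ψ : IrrCharacter K | (irrCongr φ).symm ψ ∈ b'} k
        = blockCoeff b' (φ k) := by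
  classical
  have := Helper24.finite_irrCharacter (G := K)
  have : Fintype (IrrCharacter K) := Fintype.ofFinite _
  have := Helper24.finite_irrCharacter (G := K')
  have : Fintype (IrrCharacter K') := Fintype.ofFinite _
  obtain ⟨b, hbdef⟩ : ∃ b : Set (IrrCharacter K), b = {ψ | (irrCongr φ).symm ψ ∈ b'} :=
    ⟨_, rfl⟩
  rw [← hbdef]
  have hmem : ∀ ψ' : IrrCharacter K', irrCongr φ ψ' ∈ b ↔ ψ' ∈ b' := by
    intro ψ'
    rw [hbdef]
    simp
  refine ⟨?_, ?_⟩
  · obtain ⟨ψ₀, hψ₀⟩ := hb'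
    refine ⟨irrCongr φ ψ₀, ?_⟩
    ext ψ
    obtain ⟨ψ', rfl⟩ := (irrCongr φ).surjective ψ
    rw [hmem, hψ₀, mem_blockOf, mem_blockOf]
    have e1 : ((irrCongr φ ψ₀ : IrrCharacter K) : K → ℂ) = (ψ₀ : K' → ℂ) ∘ φ :=
      funext fun k => irrCongr_apply φ ψ₀ k
    have e2 : ((irrCongr φ ψ' : IrrCharacter K) : K → ℂ) = (ψ' : K' → ℂ) ∘ φ :=
      funext fun k => irrCongr_apply φ ψ' k
    rw [e1, e2]
    constructor
    · exact sameBlock_comp_mulEquiv φ
    · intro h
      have h2 := sameBlock_comp_mulEquiv φ.symm h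
      have e3 : ∀ f : K' → ℂ, (f ∘ φ) ∘ φ.symm = f := fun f => by
        funext x
        simp
      rwa [e3, e3] at h2
  · intro k
    rw [blockCoeff_eq_coeffT, blockCoeff_eq_coeffT]
    have h1 := coeffT_irrCongr φ (fun ψ : IrrCharacter K => if ψ ∈ b then (1 : ℂ) else 0) k
    rw [← h1]
    have e : (fun ψ' : IrrCharacter K' => if irrCongr φ ψ' ∈ b then (1 : ℂ) else 0)
        = (fun ψ' : IrrCharacter K' => if ψ' ∈ b' then (1 : ℂ) else 0) := by
      funext ψ'
      simp only [hmem]
    rw [e]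

theorem exists_stabilizer (N : Subgroup G) [hN : N.Normal] [Fintype N]
    (b : Set (IrrCharacter N)) (hM : M.IsPrime) (hb : IsPBlock M b) :
    ∃ T : Subgroup G, ∀ g : G, g ∈ T ↔ ∀ θ ∈ b, conjIrr N g θ ∈ b := by
  obtain ⟨θ₁, hθ₁⟩ := block_nonempty hM hb
  refine ⟨{ carrier := {g | ∀ θ, conjIrr N g θ ∈ b ↔ θ ∈ b}
            mul_mem' := ?_
            one_mem' := ?_
            inv_mem' := ?_ }, ?_⟩
  · intro a c ha hc θ
    show conjIrr N (a * c) θ ∈ b ↔ θ ∈ b
    rw [← conjIrr_mul]
    exact (hc _).trans (ha θ)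
  · intro θ
    show conjIrr N 1 θ ∈ b ↔ θ ∈ b
    rw [conjIrr_one]
  · intro a ha θ
    show conjIrr N a⁻¹ θ ∈ b ↔ θ ∈ b
    have h := ha (conjIrr N a⁻¹ θ)
    rw [conjIrr_mul, inv_mul_cancel, conjIrr_one] at h
    exact h.symm
  · intro g
    constructor
    · intro h θ hθ
      exact (h θ).2 hθ
    · intro h θ
      exact ⟨fun h3 => mem_of_conj_mem N b hM hb hθ₁ (h θ₁ hθ₁) h3, fun hθ => h θ hθ⟩

end Transport

section Maximal

variable {G : Type*} [Group G] [Fintype G] {p : ℕ} {M : Ideal AlgInt}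

/-- A maximal Brauer pair `(P, e)` of `B` has `P` a defect group of `B`. -/
theorem maximal_pair_defect [Fact p.Prime] (hpM : IsPModular p M) (N : Subgroup G) [Fintype N]
    (P : Subgroup G) (hNdef : N = Subgroup.normalizer (P : Set G)) (B : Set (IrrCharacter G))
    (e : Set (IrrCharacter (Subgroup.centralizer (P : Set G))))
    (hmax : IsMaximalBrauerPair p M B P e) : IsDefectGroup p M B P := by
  classical
  have hM := hpM.2.1.isPrime
  obtain ⟨hBe, hmaxR⟩ := hmax
  have hP : IsPGroup p P := hBe.1.1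
  have he : IsPBlock M e := hBe.1.2
  have hB : IsPBlock M B := hBe.2.1
  have hPN : P ≤ N := by
    rw [hNdef]
    exact Subgroup.le_normalizer
  have hCN : Subgroup.centralizer (P : Set G) ≤ N := by
    rw [hNdef]
    exact Subgroup.centralizer_le_normalizer (P : Set G)
  have hNN : N ≤ Subgroup.normalizer (P : Set G) := hNdef.le
  have : Fintype (Subgroup.centralizer (P : Set G)) := Fintype.ofFinite _
  have := Helper24.finite_irrCharacter (G := G)
  have : Fintype (IrrCharacter G) := Fintype.ofFinite _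
  have := Helper24.finite_irrCharacter (G := N)
  have : Fintype (IrrCharacter N) := Fintype.ofFinite _
  have := Helper24.finite_irrCharacter (G := Subgroup.centralizer (P : Set G))
  have : Fintype (IrrCharacter (Subgroup.centralizer (P : Set G))) := Fintype.ofFinite _
  have hPn : (P.subgroupOf N).Normal := by
    subst hNdef
    infer_instance
  have hP' : IsPGroup p (P.subgroupOf N) := hP.comap_subtype
  have hC'n0 : (Subgroup.centralizer ((P.subgroupOf N : Subgroup N) : Set N)).Normal :=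
    inferInstance
  obtain ⟨C', hC'def⟩ : ∃ C' : Subgroup N,
      C' = Subgroup.centralizer ((P.subgroupOf N : Subgroup N) : Set N) := ⟨_, rfl⟩
  have hC'n : C'.Normal := by
    rw [hC'def]
    exact hC'n0
  have hC'mem : ∀ h : N, h ∈ C' ↔ (h : G) ∈ Subgroup.centralizer (P : Set G) := by
    intro h
    rw [hC'def]
    exact mem_centralizer_subgroupOf P N hPN h
  have : Fintype C' := Fintype.ofFinite _
  have := Helper24.finite_irrCharacter (G := C')
  have : Fintype (IrrCharacter C') := Fintype.ofFinite _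
  obtain ⟨φ, hφ⟩ := exists_centIso P N hCN C' hC'mem
  obtain ⟨e', he'def⟩ : ∃ e' : Set (IrrCharacter C'), e' = {ψ | (irrCongr φ).symm ψ ∈ e} :=
    ⟨_, rfl⟩
  have he'mem : ∀ θ : IrrCharacter (Subgroup.centralizer (P : Set G)),
      irrCongr φ θ ∈ e' ↔ θ ∈ e := by
    intro θ
    rw [he'def]
    simp
  have he' : IsPBlock M e' := by
    rw [he'def]
    exact (irrCongr_preimage_props hM φ e he).1
  have he'c : ∀ k : C', blockCoeff e' k = blockCoeff e (φ k) := by
    rw [he'def]
    exact (irrCongr_preimage_props hM φ e he).2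
  obtain ⟨T', hT'⟩ := exists_stabilizer C' e' hM he'
  have : Fintype T' := Fintype.ofFinite _
  obtain ⟨-, β, hβ, hβmem, hβcoef, -⟩ :=
    normalP_blocks C' e' T' hpM (P.subgroupOf N) hP' hC'def he' hT'
  -- Step A: `β` induces `B`
  have hind : IsInducedBlock M N β B := by
    by_contra hnot
    obtain ⟨ψ, hψ⟩ := block_nonempty hM hβ
    obtain ⟨θ', hθ', hcon⟩ := (hβmem ψ).1 hψ
    obtain ⟨θ, rfl⟩ := (irrCongr φ).surjective θ'
    have hθ : θ ∈ e := (he'mem θ).1 hθ'
    have hΦ : ind B ∈ specRing G M hM := ind_mem_specRing' hM hB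
    obtain ⟨Φ', hΦ'def⟩ : ∃ Φ' : IrrCharacter C' → ℂ, Φ' = fun θ₁ : IrrCharacter C' =>
        ∑ c : C', blockCoeff B ((c : N) : G) * ((θ₁ : C' → ℂ) c / (θ₁ : C' → ℂ) 1) := ⟨_, rfl⟩
    have hcl : IsClassFunction C' (fun c : C' => blockCoeff B ((c : N) : G)) := by
      intro h k
      simp only
      rw [blockCoeff_eq_ind', blockCoeff_eq_ind']
      exact coeffT_isClassFunction (ind B) ((h : N) : G) ((k : N) : G)
    have hco : ∀ c : C', coeffT Φ' c = blockCoeff B ((c : N) : G) := by
      intro c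
      rw [hΦ'def]
      exact coeffT_forward (fun c : C' => blockCoeff B ((c : N) : G)) hcl c
    have hinv : ∀ (g : N) (θ₁ : IrrCharacter C'), Φ' (conjIrr C' g θ₁) = Φ' θ₁ := by
      intro g θ₁
      refine spec_ext (Φ := fun θ₂ : IrrCharacter C' => Φ' (conjIrr C' g θ₂)) (Ψ := Φ') ?_ θ₁
      intro n
      rw [coeffT_comp_conjIrr, hco, hco, blockCoeff_eq_ind', blockCoeff_eq_ind']
      have h2 := coeffT_isClassFunction (ind B) ((n : N) : G) ((g : N) : G)⁻¹
      rw [inv_inv] at h2
      exact h2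
    have h1 := spec_extend_over C' Φ' hinv ψ (irrCongr φ θ) hcon
    have h2 : trunc P N (ind B) ψ = Φ' (irrCongr φ θ) := by
      rw [← h1]
      unfold trunc
      refine Finset.sum_congr rfl fun h _ => ?_
      congr 1
      by_cases hh : h ∈ C'
      · rw [Helper2.extendByZero_apply_mem C' _ hh, if_pos ((hC'mem h).1 hh), hco,
          blockCoeff_eq_ind']
      · rw [Helper2.extendByZero_apply_not_mem C' _ hh,
          if_neg (fun h3 => hh ((hC'mem h).2 h3))]
    have h3 : Φ' (irrCongr φ θ)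
        = brauerOmega P (blockCoeff B) (θ : Subgroup.centralizer (P : Set G) → ℂ) := by
      rw [brauerOmega_eq_sum, hΦ'def]
      simp only
      rw [← Equiv.sum_comp φ.toEquiv]
      refine Finset.sum_congr rfl fun c _ => ?_
      rw [irrCongr_apply, irrCongr_apply, map_one]
      show blockCoeff B ((c : N) : G) * _ = blockCoeff B ((φ c : Subgroup.centralizer (P : Set G)) : G) * _
      rw [hφ]
      rfl
    have h4 := hBe.2.2 θ hθ
    rw [← h3, ← h2] at h4
    have h5 := trunc_sub_brLam_mem hpM P N hP hPN hNN hΦ ψ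
    have hmul := brauer_mul_gen hpM P N hP hPN hCN hNN
    have h6 := brLam_mem_of_not_induced_gen hM N hmul β hβ B hB hnot ψ hψ
    rw [← ind_eq] at h6
    have h7 := MemLocalIdeal.add hM (MemLocalIdeal.sub hM h4 h5) h6
    have e7 : ∀ a c : ℂ, a - 1 - (a - c) + c = 2 * c - 1 := fun a c => by ring
    rw [e7] at h7
    have h8 := MemLocalIdeal.sub hM (MemLocalIdeal.add hM h6 h6) h7
    have e8 : ∀ c : ℂ, c + c - (2 * c - 1) = 1 := fun c => by ring
    rw [e8] at h8
    exact not_memLocalIdeal_one h8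
  -- Step B: the order of `P`
  have hcard : Nat.card (P.subgroupOf N) = p ^ blockDefect p β := by
    obtain ⟨y, hy⟩ := exists_defectClass hM hβ
    obtain ⟨S⟩ : Nonempty (Sylow p (Subgroup.centralizer ({y} : Set N))) := inferInstance
    obtain ⟨D, hDdef⟩ : ∃ D : Subgroup N,
        D = (S : Subgroup (Subgroup.centralizer ({y} : Set N))).map
          (Subgroup.centralizer ({y} : Set N)).subtype := ⟨_, rfl⟩
    have hD : IsDefectGroup p M β D := ⟨y, hy, S, hDdef⟩
    have hPD : P.subgroupOf N ≤ D :=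
      normal_pgroup_le_defectGroup hpM (P.subgroupOf N) hP' hβ hD
    have hDcard : Nat.card D = p ^ blockDefect p β := card_defectGroup hpM hβ D hD
    have hDp : IsPGroup p D := IsPGroup.of_card hDcard
    have hDy : ∀ u ∈ D, u * y = y * u := by
      intro u hu
      rw [hDdef] at hu
      obtain ⟨s, -, rfl⟩ := Subgroup.mem_map.1 hu
      exact (Subgroup.mem_centralizer_iff.1 s.2 y (Set.mem_singleton y)).symm
    have hcoef : ¬ MemLocalIdeal M
        ((Nat.card T' : ℂ)⁻¹ * ∑ x : N, subgroupBlockCoeff C' e' (x⁻¹ * y * x)) := by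
      rw [← hβcoef y]
      exact hy.2.1
    obtain ⟨x, hxT, hxc⟩ := exists_fixed_conj C' e' T' hpM he' hT' D hDp y hDy hcoef
    obtain ⟨R, hRdef⟩ : ∃ R : Subgroup G,
        R = (D.map (MulAut.conj x⁻¹).toMonoidHom).map N.subtype := ⟨_, rfl⟩
    have hRmem : ∀ r : G, r ∈ R ↔ ∃ u ∈ D, ((x⁻¹ * u * x : N) : G) = r := by
      intro r
      rw [hRdef, Subgroup.mem_map]
      constructor
      · rintro ⟨v, hv, rfl⟩
        obtain ⟨u, hu, rfl⟩ := Subgroup.mem_map.1 hv
        refine ⟨u, hu, ?_⟩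
        simp
      · rintro ⟨u, hu, rfl⟩
        refine ⟨x⁻¹ * u * x, Subgroup.mem_map.2 ⟨u, hu, ?_⟩, rfl⟩
        simp
    have hRcard : Nat.card R = Nat.card D := by
      rw [hRdef, Subgroup.card_map_of_injective N.subtype_injective,
        Subgroup.card_map_of_injective (MulEquiv.injective _)]
    have hR : IsPGroup p R := IsPGroup.of_card (hRcard.trans hDcard)
    have hPR : P ≤ R := by
      intro u hu
      rw [hRmem]
      have hu' : (⟨u, hPN hu⟩ : N) ∈ P.subgroupOf N := Subgroup.mem_subgroupOf.2 hu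
      have h1 := hPn.conj_mem _ hu' x
      refine ⟨_, hPD h1, ?_⟩
      simp [mul_assoc]
    have hRN : R ≤ Subgroup.normalizer (P : Set G) := by
      intro r hr
      obtain ⟨u, -, rfl⟩ := (hRmem r).1 hr
      exact hNN (x⁻¹ * u * x).2
    have hst : ∀ n : Subgroup.normalizer
        ((Subgroup.centralizer (P : Set G) : Subgroup G) : Set G),
        (n : G) ∈ R → ∀ θ, nAct (Subgroup.centralizer (P : Set G)) n θ ∈ e ↔ θ ∈ e := by
      intro n hn θ
      obtain ⟨u, hu, hun⟩ := (hRmem _).1 hn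
      have h1 := stab_iff C' T' e' hT' (hxT u hu) (irrCongr φ θ)
      have h2 : conjIrr C' (x⁻¹ * u * x) (irrCongr φ θ)
          = irrCongr φ (nAct (Subgroup.centralizer (P : Set G)) n θ) := by
        apply Subtype.ext
        funext c
        rw [conjIrr_coe, Helper6.conjFun_apply, irrCongr_apply, irrCongr_apply, nAct_apply]
        refine congrArg (θ : Subgroup.centralizer (P : Set G) → ℂ) (Subtype.ext ?_)
        rw [hφ, nMH_coe, hφ, ← hun]
        rfl
      rw [h2, he'mem, he'mem] at h1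
      exact h1
    have hy2 : ((x⁻¹ * y * x : N) : G) ∈ Subgroup.centralizer (R : Set G) := by
      rw [Subgroup.mem_centralizer_iff]
      intro r hr
      obtain ⟨u, hu, rfl⟩ := (hRmem r).1 hr
      have h1 := hDy u hu
      have h2 : x⁻¹ * u * x * (x⁻¹ * y * x) = x⁻¹ * y * x * (x⁻¹ * u * x) := by
        calc x⁻¹ * u * x * (x⁻¹ * y * x) = x⁻¹ * (u * y) * x := by group
          _ = x⁻¹ * (y * u) * x := by rw [h1]
          _ = x⁻¹ * y * x * (x⁻¹ * u * x) := by group
      exact congrArg Subtype.val h2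
    have hcoef2 : ¬ MemLocalIdeal M
        (subgroupBlockCoeff (Subgroup.centralizer (P : Set G)) e ((x⁻¹ * y * x : N) : G)) := by
      by_cases hh : x⁻¹ * y * x ∈ C'
      · unfold subgroupBlockCoeff at hxc ⊢
        rw [dif_pos hh, he'c] at hxc
        rw [dif_pos ((hC'mem _).1 hh)]
        have e1 : φ ⟨x⁻¹ * y * x, hh⟩
            = ⟨((x⁻¹ * y * x : N) : G), (hC'mem _).1 hh⟩ := Subtype.ext (hφ _)
        rwa [e1] at hxc
      · exfalso
        apply hxc
        unfold subgroupBlockCoeff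
        rw [dif_neg hh]
        exact MemLocalIdeal.zero hM.ne_top
    obtain ⟨g, hnorm, hBg⟩ := going_up hpM P R e B hBe hR hPR hRN hst _ hy2 hcoef2
    have hrel : NormalSubpairRel p M (⟨P, e⟩ : BrauerPairIdx G) ⟨R, g⟩ := hnorm
    have hRP : R = P := hmaxR R g hBg (Relation.ReflTransGen.single hrel)
    rw [Nat.card_congr (Subgroup.subgroupOfEquivOfLe hPN).toEquiv, ← hRP, hRcard, hDcard]
  have hDβ : IsDefectGroup p M β (P.subgroupOf N) :=
    isDefectGroup_of_normal_card hpM (P.subgroupOf N) hP' hβ hcard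
  subst hNdef
  exact firstMain_induced_defect hpM P hP β hDβ B hind

end Maximal

end Cfsg.Agent.Helper25
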