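import Cfsg.Agent.Helper25.StabX2
import Cfsg.Agent.Helper6.Laradji

set_option autoImplicit false
set_option linter.unusedSectionVars false

namespace Cfsg.Agent.Helper25

open Cfsg Cfsg.FusionSystem
open scoped ComplexConjugate

section MaxWeight

variable {G : Type*} [Group G] [Fintype G] {p : ℕ} {M : Ideal AlgInt}

theorem lt_normalizer_inf_of_lt' [Fact p.Prime] {H R : Subgroup G}
    (hR : IsPGroup p R) (hHR : H < R) :
    H < Subgroup.normalizer (H : Set G) ⊓ R := by
  have hnil : Group.IsNilpotent R := hR.isNilpotent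
  have hnc : NormalizerCondition R := Group.normalizerCondition_of_isNilpotent
  have h1 : H.subgroupOf R < ⊤ := by
    rw [lt_top_iff_ne_top]
    intro h
    rw [Subgroup.subgroupOf_eq_top] at h
    exact absurd h (not_le_of_gt hHR)
  have h2 := hnc _ h1
  obtain ⟨x, hxn, hxH⟩ := SetLike.exists_of_lt h2
  refine lt_of_le_of_ne (le_inf Subgroup.le_normalizer hHR.le) ?_
  intro heq
  apply hxH
  rw [Subgroup.mem_subgroupOf, heq]
  refine Subgroup.mem_inf.mpr ⟨?_, x.2⟩
  rw [Subgroup.mem_normalizer_iff] at hxn ⊢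
  intro h
  constructor
  · intro hh
    have := (hxn ⟨h, hHR.le hh⟩).mp (Subgroup.mem_subgroupOf.mpr hh)
    exact Subgroup.mem_subgroupOf.mp this
  · intro hh
    have hhR : h ∈ R := by
      have h3 : (x : G)⁻¹ * ((x : G) * h * (x : G)⁻¹) * (x : G) ∈ R :=
        R.mul_mem (R.mul_mem (R.inv_mem x.2) (hHR.le hh)) x.2
      have h4 : (x : G)⁻¹ * ((x : G) * h * (x : G)⁻¹) * (x : G) = h := by group
      rwa [h4] at h3
    have := (hxn ⟨h, hhR⟩).mpr (Subgroup.mem_subgroupOf.mpr hh)
    exact Subgroup.mem_subgroupOf.mp this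

/-- The inertial index of a maximal Brauer pair is prime to `p`. -/
theorem maximal_inertial_index [Fact p.Prime] (hpM : IsPModular p M) (B : Set (IrrCharacter G))
    (P : Subgroup G) (e : Set (IrrCharacter (Subgroup.centralizer (P : Set G)))) (hmax : IsMaximalBrauerPair p M B P e)
    (T : Subgroup G) (hT : ∀ y : G, y ∈ T ↔ y ∈ (Subgroup.normalizer (P : Set G)) ∧ StabilizesBlock (Subgroup.centralizer (P : Set G)) e y) :
    ¬ p ∣ (P.subgroupOf T ⊔ (Subgroup.centralizer (P : Set G)).subgroupOf T).index := by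
  classical
  have hM := hpM.2.1.isPrime
  obtain ⟨F, hF⟩ := exists_blockFusion hpM B P e hmax
  have hPe : IsBrauerPair p M P e := hmax.1.1
  have he : IsPBlock M e := hPe.2
  have hPp : IsPGroup p P := hPe.1
  have : Fintype T := Fintype.ofFinite _
  have hTN : T ≤ (Subgroup.normalizer (P : Set G)) := fun y hy => ((hT y).1 hy).1
  have hCT : (Subgroup.centralizer (P : Set G)) ≤ T := cent_le_stab P e T hT
  have hPT : P ≤ T := self_le_stab P e T hT
  have hTs : ∀ x ∈ T, StabilizesBlock (Subgroup.centralizer (P : Set G)) e x := fun x hx => ((hT x).1 hx).2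
  have hPn : F.IsFullyNormalized P := by
    refine ⟨le_rfl, fun Q' _ => ?_⟩
    have e1 : normalizerIn P P = P := inf_eq_left.2 Subgroup.le_normalizer
    rw [e1]
    exact Subgroup.card_le_of_le (show P ⊓ Subgroup.normalizer (Q' : Set G) ≤ P from inf_le_left)
  obtain ⟨F', hF', hF'c, hD'⟩ :=
    (fullyNormalized_iff hpM B P e hmax F hF P e le_rfl he Relation.ReflTransGen.refl T hT).1 hPn
  rw [inf_eq_left.2 (Subgroup.le_normalizer : P ≤ (Subgroup.normalizer (P : Set G)))] at hD'
  obtain ⟨F₀, hF₀, hF₀c, hidx⟩ := stabX_block hpM P hPp e he T hPT hCT hTN hTs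
  have hFF : F₀ = F' := by
    apply block_eq_of_coeff_congr hM hF₀ hF'
    intro t
    rw [hF₀c, hF'c, sub_self]
    exact MemLocalIdeal.zero hM.ne_top
  rw [hFF] at hidx
  exact hidx _ hD'

theorem maximal_iff_weight [Fact p.Prime] (hpM : IsPModular p M) (Q : Subgroup G)
    (e : Set (IrrCharacter (Subgroup.centralizer (Q : Set G)))) (he : IsBrauerPair p M Q e) :
    (∃ B : Set (IrrCharacter G), IsMaximalBrauerPair p M B Q e) ↔
      ∃ θ ∈ e, (∀ z : (Subgroup.centralizer (Q : Set G)), (z : G) ∈ Q → (θ : (Subgroup.centralizer (Q : Set G)) → ℂ) z = (θ : (Subgroup.centralizer (Q : Set G)) → ℂ) 1) ∧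
        (charDegree (θ : (Subgroup.centralizer (Q : Set G)) → ℂ)).factorization p + (Nat.card ↥(Q ⊓ (Subgroup.centralizer (Q : Set G)))).factorization p
          = (Nat.card (Subgroup.centralizer (Q : Set G))).factorization p ∧
        (∀ g : G, g ∈ (Subgroup.normalizer (Q : Set G)) → StabilizesBlock (Subgroup.centralizer (Q : Set G)) e g → (∃ k : ℕ, orderOf g = p ^ k) →
          g ∈ Q ⊔ (Subgroup.centralizer (Q : Set G))) := by
  classical
  have hp : p.Prime := Fact.out
  have hMp := hpM.2.1.isPrime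
  have hQ : IsPGroup p Q := he.1
  have heb : IsPBlock M e := he.2
  have : Fintype (Subgroup.centralizer (Q : Set G)) := Fintype.ofFinite _
  have := Helper24.finite_irrCharacter (G := (Subgroup.centralizer (Q : Set G)))
  have : Fintype (IrrCharacter (Subgroup.centralizer (Q : Set G))) := Fintype.ofFinite _
  obtain ⟨Z', hZdef⟩ : ∃ Z' : Subgroup (Subgroup.centralizer (Q : Set G)), Z' = (Q ⊓ (Subgroup.centralizer (Q : Set G))).subgroupOf (Subgroup.centralizer (Q : Set G)) := ⟨_, rfl⟩
  have hZmem : ∀ z : (Subgroup.centralizer (Q : Set G)), z ∈ Z' ↔ (z : G) ∈ Q := by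
    intro z
    rw [hZdef, Subgroup.mem_subgroupOf, Subgroup.mem_inf]
    exact ⟨fun h => h.1, fun h => ⟨h, z.2⟩⟩
  have hZcen : Z' ≤ Subgroup.center (Subgroup.centralizer (Q : Set G)) := by
    intro z hz
    rw [Subgroup.mem_center_iff]
    intro k
    have h1 := (Subgroup.mem_centralizer_iff.1 k.2) (z : G) ((hZmem z).1 hz)
    exact Subtype.ext h1.symm
  have hZn : Z'.Normal := by
    refine ⟨fun n hn g => ?_⟩
    have h1 := (Subgroup.mem_center_iff.1 (hZcen hn)) g
    have h2 : g * n * g⁻¹ = n := by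
      rw [h1]
      group
    rw [h2]
    exact hn
  have hZp : IsPGroup p Z' := by
    rw [hZdef]
    exact (hQ.to_le inf_le_left).comap_subtype
  have hcardZ : Nat.card Z' = Nat.card (Q ⊓ (Subgroup.centralizer (Q : Set G)) : Subgroup G) := by
    rw [hZdef]
    exact Nat.card_congr (Subgroup.subgroupOfEquivOfLe (inf_le_right : Q ⊓ (Subgroup.centralizer (Q : Set G)) ≤ (Subgroup.centralizer (Q : Set G)))).toEquiv
  have hidxZ : (Nat.card (Q ⊓ (Subgroup.centralizer (Q : Set G)) : Subgroup G)).factorization p + Z'.index.factorization p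
      = (Nat.card (Subgroup.centralizer (Q : Set G))).factorization p := by
    rw [← hcardZ, ← Subgroup.card_mul_index Z',
      Nat.factorization_mul Nat.card_pos.ne' (Subgroup.index_ne_zero_of_finite)]
    rfl
  have hcardZp : Nat.card Z' = p ^ (Nat.card Z').factorization p := by
    obtain ⟨n, hn⟩ := IsPGroup.iff_card.1 hZp
    rw [hn, hp.factorization_pow, Finsupp.single_eq_same]
  have hdefOf : ∀ θ ∈ e, (charDegree (θ : (Subgroup.centralizer (Q : Set G)) → ℂ)).factorization p
      + (Nat.card ↥(Q ⊓ (Subgroup.centralizer (Q : Set G)))).factorization p = (Nat.card (Subgroup.centralizer (Q : Set G))).factorization p →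
      IsDefectGroup p M e Z' := by
    intro θ hθ hdeg
    have hdeg' : (charDegree (θ : (Subgroup.centralizer (Q : Set G)) → ℂ)).factorization p = Z'.index.factorization p := by
      omega
    have h1 := Helper6.lar_defect hpM Z' hZp hZcen θ hdeg'
    rw [← block_eq_blockOf_of_mem hMp heb hθ] at h1
    have := hZn
    refine isDefectGroup_of_normal_card hpM Z' hZp heb ?_
    rw [h1]
    exact hcardZp
  constructor
  · rintro ⟨B, hmax⟩
    obtain ⟨F, hF⟩ := exists_blockFusion hpM B Q e hmax
    have hcen : F.IsCentric Q := by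
      refine ⟨le_rfl, fun Q' hconj => ?_⟩
      obtain ⟨φ, hφ, rfl⟩ := hconj
      have h1 : φ.range ≤ Q := by
        rintro _ ⟨x, rfl⟩
        exact (F.le_of_mem hφ).2 x
      have h2 : Nat.card Q = Nat.card φ.range :=
        Nat.card_congr (MonoidHom.ofInjective (F.injective_of_mem hφ)).toEquiv
      have h3 : φ.range = Q := Subgroup.eq_of_le_of_card_ge h1 (le_of_eq h2)
      rw [h3]
      exact inf_le_left
    have hZD : IsDefectGroup p M e Z' := by
      rw [hZdef]
      exact (centric_iff hpM B Q e hmax F hF Q e le_rfl Relation.ReflTransGen.refl).1 hcen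
    have := hZn
    have hC : ∃ k : ℕ, (Subgroup.centralizer (Z' : Set (Subgroup.centralizer (Q : Set G)))).index = p ^ k := by
      refine ⟨0, ?_⟩
      have h1 : Subgroup.centralizer (Z' : Set (Subgroup.centralizer (Q : Set G))) = ⊤ :=
        Subgroup.centralizer_eq_top_iff_subset.2 (SetLike.coe_subset_coe.2 hZcen)
      rw [h1, Subgroup.index_top, pow_zero]
    obtain ⟨θ, hθ, hθZ, huniq⟩ := exists_canonical_char hpM Z' hZp hC e heb hZD
    refine ⟨θ, hθ, fun z hz => hθZ z ((hZmem z).2 hz), ?_, ?_⟩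
    · have h1 := (huniq θ hθ hθZ).2
      omega
    · rintro g hgN hgs ⟨k, hk⟩
      obtain ⟨T, hT⟩ := exists_stabSubgroup hMp Q e heb
      have hndvd := maximal_inertial_index hpM B Q e hmax T hT
      have hTN : T ≤ (Subgroup.normalizer (Q : Set G)) := fun y hy => ((hT y).1 hy).1
      have hCT : (Subgroup.centralizer (Q : Set G)) ≤ T := cent_le_stab Q e T hT
      have hQT : Q ≤ T := self_le_stab Q e T hT
      have hgT : g ∈ T := (hT g).2 ⟨hgN, hgs⟩
      have hn1 : (Q.subgroupOf T).Normal := Subgroup.normal_subgroupOf_of_le_normalizer hTN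
      have hn2 : ((Subgroup.centralizer (Q : Set G)).subgroupOf T).Normal :=
        Subgroup.normal_subgroupOf_of_le_normalizer
          (hTN.trans (normalizer_le_normalizer_centralizer' Q))
      have h1 : (⟨g, hgT⟩ : T) ^ (Q.subgroupOf T ⊔ (Subgroup.centralizer (Q : Set G)).subgroupOf T).index
          ∈ Q.subgroupOf T ⊔ (Subgroup.centralizer (Q : Set G)).subgroupOf T := Subgroup.pow_index_mem _ _
      have h2 : (⟨g, hgT⟩ : T) ^ p ^ k = 1 := by
        apply Subtype.ext
        show g ^ p ^ k = 1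
        rw [← hk]
        exact pow_orderOf_eq_one g
      have hcop : Nat.Coprime ((Q.subgroupOf T ⊔ (Subgroup.centralizer (Q : Set G)).subgroupOf T).index) (p ^ k) :=
        Nat.Coprime.pow_right _ (Nat.Coprime.symm ((Nat.Prime.coprime_iff_not_dvd hp).2 hndvd))
      obtain ⟨s, t, hst⟩ := Nat.isCoprime_iff_coprime.2 hcop
      have hx1 : (⟨g, hgT⟩ : T)
          = ((⟨g, hgT⟩ : T) ^ (Q.subgroupOf T ⊔ (Subgroup.centralizer (Q : Set G)).subgroupOf T).index) ^ s
            * ((⟨g, hgT⟩ : T) ^ p ^ k) ^ t := by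
        rw [← zpow_natCast (⟨g, hgT⟩ : T) ((Q.subgroupOf T ⊔ (Subgroup.centralizer (Q : Set G)).subgroupOf T).index),
          ← zpow_natCast (⟨g, hgT⟩ : T) (p ^ k), ← zpow_mul', ← zpow_mul', ← zpow_add, hst,
          zpow_one]
      have hmem : (⟨g, hgT⟩ : T) ∈ Q.subgroupOf T ⊔ (Subgroup.centralizer (Q : Set G)).subgroupOf T := by
        rw [hx1, h2, one_zpow, mul_one]
        exact Subgroup.zpow_mem _ h1 s
      have h3 := Subgroup.mem_map_of_mem T.subtype hmem
      rw [Subgroup.map_sup, Subgroup.map_subgroupOf_eq_of_le hQT,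
        Subgroup.map_subgroupOf_eq_of_le hCT] at h3
      exact h3
  · rintro ⟨θ, hθ, -, hdeg, h3⟩
    have hZD := hdefOf θ hθ hdeg
    obtain ⟨B, hB, -⟩ := Cfsg.Agent.S4657.result p M hpM Q e he
    obtain ⟨P, eP, hmaxP, hleP⟩ := exists_maximal_above B (Nat.card G) Q Q e e hB
      Relation.ReflTransGen.refl (Nat.sub_le _ _)
    have hQP : Q ≤ P := subpairLE_le hleP
    have hPe : IsBrauerPair p M P eP := hmaxP.1.1
    have hPp : IsPGroup p P := hPe.1
    have hQeqP : Q = P := by
      by_contra hne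
      have hlt : Q < P := lt_of_le_of_ne hQP hne
      obtain ⟨R, hRdef⟩ : ∃ R : Subgroup G, R = (Subgroup.normalizer (Q : Set G)) ⊓ P := ⟨_, rfl⟩
      have hQR : Q < R := by
        rw [hRdef]
        exact lt_normalizer_inf_of_lt' hPp hlt
      have hRP : R ≤ P := by
        rw [hRdef]
        exact inf_le_right
      have hRN : R ≤ (Subgroup.normalizer (Q : Set G)) := by
        rw [hRdef]
        exact inf_le_left
      obtain ⟨e₁, he₁, hle₁⟩ := subpair_exists hpM P eP hPe _ R hRP rfl
      have hRp : IsPGroup p R := hPp.to_le hRP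
      obtain ⟨f', hf', -⟩ := normalSubpair_existsUnique hpM R Q e₁ ⟨hRp, he₁⟩ hQR.le hRN
      have hrel : NormalSubpairRel p M (⟨Q, f'⟩ : BrauerPairIdx G) ⟨R, e₁⟩ := hf'
      have hle' : SubpairLE p M Q f' P eP := Relation.ReflTransGen.head hrel hle₁
      have hff : f' = e := subpair_unique hpM _ P eP hPe rfl Q f' e hle' hleP
      rw [hff] at hf'
      have hn : IsNormalSubpair p M Q e R e₁ := hf'
      have hRQC : R ≤ Q ⊔ (Subgroup.centralizer (Q : Set G)) := by
        intro x hx
        refine h3 x (hRN hx) (hn.2.2.2.2.1 x hx) ?_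
        obtain ⟨k, hk⟩ := hRp ⟨x, hx⟩
        have hk' : x ^ p ^ k = 1 := congrArg Subtype.val hk
        obtain ⟨j, -, hj⟩ := (Nat.dvd_prime_pow hp).1 (orderOf_dvd_of_pow_eq_one hk')
        exact ⟨j, hj⟩
      obtain ⟨S', hS'def⟩ : ∃ S' : Subgroup (Subgroup.centralizer (Q : Set G)), S' = (R ⊓ (Subgroup.centralizer (Q : Set G))).subgroupOf (Subgroup.centralizer (Q : Set G)) := ⟨_, rfl⟩
      have hS'map : S'.map (Subgroup.centralizer (Q : Set G)).subtype = R ⊓ (Subgroup.centralizer (Q : Set G)) := by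
        rw [hS'def]
        exact Subgroup.map_subgroupOf_eq_of_le inf_le_right
      have hQNC : Q ≤ Subgroup.normalizer (((Subgroup.centralizer (Q : Set G)) : Subgroup G) : Set G) :=
        (Subgroup.le_normalizer).trans (normalizer_le_normalizer_centralizer' Q)
      have hR : R = Q ⊔ S'.map (Subgroup.centralizer (Q : Set G)).subtype := by
        rw [hS'map]
        apply le_antisymm
        · intro x hx
          obtain ⟨a, ha, b, hb, rfl⟩ := Helper26.mem_sup_of_le_normalizer hQNC (hRQC hx)
          have hbR : b ∈ R := by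
            have e1 : b = a⁻¹ * (a * b) := by group
            rw [e1]
            exact R.mul_mem (R.inv_mem (hQR.le ha)) hx
          exact Subgroup.mul_mem_sup ha (Subgroup.mem_inf.2 ⟨hbR, hb⟩)
        · exact sup_le hQR.le inf_le_left
      obtain ⟨ι, hι⟩ := exists_centIso R (Subgroup.centralizer (Q : Set G)) (Subgroup.centralizer_le hQR.le)
        (Subgroup.centralizer (S' : Set (Subgroup.centralizer (Q : Set G)))) (mem_cent_sup_iff Q S' R hR)
      have hpair := centPair_of_normal hMp Q S' R hR ι hι e e₁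
        {ψ | (irrCongr ι).symm ψ ∈ e₁} (fun ξ => by simp) hn
      obtain ⟨D, hD, hS'D, -⟩ := pair_le_defect hpM e S' _ hpair
      have := hZn
      have hZD' : Z' ≤ D := normal_pgroup_le_defectGroup hpM Z' hZp heb hD
      have hDZ : Z' = D := Subgroup.eq_of_le_of_card_ge hZD'
        (by rw [card_defectGroup hpM heb D hD, card_defectGroup hpM heb Z' hZD])
      have hRCQ : R ⊓ (Subgroup.centralizer (Q : Set G)) ≤ Q := by
        intro x hx
        obtain ⟨hxR, hxC⟩ := Subgroup.mem_inf.1 hx
        have h1 : (⟨x, hxC⟩ : (Subgroup.centralizer (Q : Set G))) ∈ S' := by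
          rw [hS'def, Subgroup.mem_subgroupOf]
          exact hx
        have h2 := hS'D h1
        rw [← hDZ] at h2
        exact (hZmem _).1 h2
      have hRQ : R ≤ Q := by
        rw [hR, hS'map]
        exact sup_le le_rfl hRCQ
      exact absurd hRQ (not_le_of_gt hQR)
    have : Fintype (Subgroup.normalizer (P : Set G)) := Fintype.ofFinite _
    have hPD : IsDefectGroup p M B P :=
      maximal_pair_defect hpM (Subgroup.normalizer (P : Set G)) P rfl B eP hmaxP
    have hcP := card_defectGroup hpM hB.2.1 P hPD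
    refine ⟨B, maximal_of_card hpM B Q e hB ?_⟩
    rw [hQeqP]
    exact hcP

end MaxWeight

end Cfsg.Agent.Helper25
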