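import Cfsg.Agent.Helper25.BlockSat
import Cfsg.Agent.S5083

set_option autoImplicit false
open Cfsg Cfsg.FusionSystem

namespace Cfsg.Agent.Helper25

section NilFus

universe u
variable {G : Type u} [Group G] [Fintype G] {p : ℕ} {M : Ideal AlgInt}

theorem mem_centralizer_of_conj_eq [Fact p.Prime] (Q : Subgroup G) (x u : G)
    (hxN : x ∈ Subgroup.normalizer (Q : Set G))
    (hu : ∃ k : ℕ, u ^ p ^ k = 1) (hx : ¬ p ∣ orderOf x)
    (h : ∀ y ∈ Q, x * y * x⁻¹ = u * y * u⁻¹) :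
    x ∈ (Subgroup.centralizer (Q : Set G)) := by
  have hpow : ∀ n : ℕ, ∀ y ∈ Q, x ^ n * y * (x ^ n)⁻¹ = u ^ n * y * (u ^ n)⁻¹ := by
    intro n
    induction n with
    | zero => intro y _; simp
    | succ n ih =>
      intro y hy
      have hy' : x * y * x⁻¹ ∈ Q := (Subgroup.mem_normalizer_iff.1 hxN y).1 hy
      have e1 : x ^ (n + 1) * y * (x ^ (n + 1))⁻¹ = x ^ n * (x * y * x⁻¹) * (x ^ n)⁻¹ := by
        rw [pow_succ]; group
      have e2 : u ^ (n + 1) * y * (u ^ (n + 1))⁻¹ = u ^ n * (u * y * u⁻¹) * (u ^ n)⁻¹ := by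
        rw [pow_succ]; group
      rw [e1, e2, ih _ hy', h y hy]
  obtain ⟨k, hk⟩ := hu
  have h1 : x ^ p ^ k ∈ (Subgroup.centralizer (Q : Set G)) := by
    rw [Subgroup.mem_centralizer_iff]
    intro y hy
    have h2 := hpow (p ^ k) y hy
    rw [hk] at h2
    calc y * x ^ p ^ k = (x ^ p ^ k * y * (x ^ p ^ k)⁻¹) * x ^ p ^ k := by rw [h2]; group
      _ = x ^ p ^ k * y := by group
  have h3 : x ^ orderOf x ∈ (Subgroup.centralizer (Q : Set G)) := by
    rw [pow_orderOf_eq_one]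
    exact Subgroup.one_mem _
  have hcop : Nat.Coprime (p ^ k) (orderOf x) :=
    Nat.Coprime.pow_left _ ((Nat.Prime.coprime_iff_not_dvd Fact.out).2 hx)
  obtain ⟨s, t, hst⟩ := Nat.isCoprime_iff_coprime.2 hcop
  have hx1 : x = (x ^ (p ^ k)) ^ s * (x ^ orderOf x) ^ t := by
    rw [← zpow_natCast x (p ^ k), ← zpow_natCast x (orderOf x), ← zpow_mul', ← zpow_mul',
      ← zpow_add, hst, zpow_one]
  rw [hx1]
  exact Subgroup.mul_mem _ (Subgroup.zpow_mem _ h1 s) (Subgroup.zpow_mem _ h3 t)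

theorem nilpotent_autGroup [Fact p.Prime] (hpM : IsPModular p M) (B : Set (IrrCharacter G))
    (P : Subgroup G) (e : Set (IrrCharacter (Subgroup.centralizer (P : Set G)))) (hmax : IsMaximalBrauerPair p M B P e)
    (F : FusionSystem P) (hF : IsBlockFusionSystemOn p M B P e F)
    (hnil : IsNilpotentBlock p M B) (Q : Subgroup G) (hQP : Q ≤ P) :
    IsPGroup p (F.autGroup Q) := by
  classical
  have hMp := hpM.2.1.isPrime
  have hBe := hmax.1
  have hPe : IsBrauerPair p M P e := hBe.1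
  obtain ⟨f, hfblock, hf⟩ := subpair_exists hpM P e hPe _ Q hQP rfl
  have hfB : IsBrauerPairOf p M B Q f := subpairLE_brauerPairOf hpM B hf hBe
  obtain ⟨T, hT⟩ := exists_stabSubgroup hMp Q f hfblock
  intro α
  have hα := (Helper26.mem_autGroup_iff F hQP).1 α.2
  rw [hF.2 Q] at hα
  obtain ⟨-, g, hg, hgP, f₁, hf₁, hf₁g⟩ := hα
  have hfe : f₁ = f := subpair_unique hpM _ P e hPe rfl Q f₁ f hf₁ hf
  rw [hfe] at hf₁g
  have hg' : ∀ u : Q, (((α : MulAut Q) u : Q) : G) = g * (u : G) * g⁻¹ := hg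
  have hQg : Q.map (MulAut.conj g).toMonoidHom = Q := by
    apply Subgroup.eq_of_le_of_card_ge
    · rintro _ ⟨u, hu, rfl⟩
      have h1 := hg' ⟨u, hu⟩
      show g * u * g⁻¹ ∈ Q
      rw [← h1]
      exact ((α : MulAut Q) ⟨u, hu⟩).2
    · rw [Subgroup.card_map_of_injective (MulEquiv.injective _)]
  have heq : conjPair g ⟨Q, f⟩ = (⟨Q, f⟩ : BrauerPairIdx G) :=
    subpair_unique' hpM P e hPe (conjPair g ⟨Q, f⟩) ⟨Q, f⟩ hf₁g hf hQg
  obtain ⟨hgN, hgs⟩ := stab_of_pair_conj_eq Q f g heq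
  have hgT : g ∈ T := (hT g).2 ⟨hgN, hgs⟩
  have ho : orderOf g ≠ 0 := (orderOf_pos g).ne'
  have hu : g ^ (p ^ (orderOf g).factorization p) ∈ (Subgroup.centralizer (Q : Set G)) := by
    have huT : g ^ (p ^ (orderOf g).factorization p) ∈ T := T.pow_mem hgT _
    obtain ⟨huN, hus⟩ := (hT _).1 huT
    refine hnil.2 Q f hfB _ huN hus ?_
    show ¬ p ∣ orderOf (g ^ (p ^ (orderOf g).factorization p))
    rw [orderOf_pow g, Nat.gcd_eq_right (Nat.ordProj_dvd _ _)]
    exact Nat.not_dvd_ordCompl Fact.out ho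
  refine ⟨(orderOf g).factorization p, ?_⟩
  have hpow : ∀ n : ℕ, ∀ u : Q, ((((α : MulAut Q) ^ n) u : Q) : G) = g ^ n * (u : G) * (g ^ n)⁻¹ := by
    intro n
    induction n with
    | zero => intro u; simp
    | succ n ih =>
      intro u
      rw [pow_succ', MulAut.mul_apply, hg', ih u, pow_succ']
      group
  apply Subtype.ext
  apply MulEquiv.ext
  intro u
  apply Subtype.ext
  have h1 := hpow (p ^ (orderOf g).factorization p) u
  rw [Subgroup.mem_centralizer_iff] at hu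
  have h2 := hu (u : G) u.2
  show ((((α : MulAut Q) ^ (p ^ (orderOf g).factorization p)) u : Q) : G) = (u : G)
  rw [h1, ← h2]
  group

theorem nilpotent_iff_inner [Fact p.Prime] (hpM : IsPModular p M) (B : Set (IrrCharacter G))
    (P : Subgroup G) (e : Set (IrrCharacter (Subgroup.centralizer (P : Set G)))) (hmax : IsMaximalBrauerPair p M B P e)
    (F : FusionSystem P) (hF : IsBlockFusionSystemOn p M B P e F) :
    IsNilpotentBlock p M B ↔ ∀ Q : Subgroup G, F.Hom Q = (innerFusionSystem P).Hom Q := by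
  classical
  have hMp := hpM.2.1.isPrime
  have hBe := hmax.1
  have hPe : IsBrauerPair p M P e := hBe.1
  have hPp : IsPGroup p P := hPe.1
  constructor
  · intro hnil
    have hsat : F.IsSaturated p := block_saturated hpM B P e hmax F hF
    have hinner : F = innerFusionSystem P :=
      Cfsg.Agent.S5083.result p hPp F hsat
        (fun Q hQP => nilpotent_autGroup hpM B P e hmax F hF hnil Q hQP)
    intro Q
    rw [← hinner]
  · intro hcond
    refine ⟨hBe.2.1, fun Q₀ f₀ hQf x₀ hx₀N hx₀s hreg => ?_⟩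
    obtain ⟨z, hz⟩ := conj_below_maximal hpM B P Q₀ e f₀ hmax hQf
    have hQP := subpairLE_le hz
    have hf := isPBlock_conjBlock hMp Q₀ z hQf.1.2
    have hxN := (mem_normalizer_map_conj_iff Q₀ z x₀).2 hx₀N
    have hxs := (stabilizes_conj_iff Q₀ z f₀ x₀).2 hx₀s
    have hxs' := stabilizes_inv hMp _ _ hf _ hxs
    have hpair := pair_conj_eq_of_stab _ _ _ hxN hxs hxs'
    have hz' : Relation.ReflTransGen (NormalSubpairRel p M)
        (⟨Q₀.map (MulAut.conj z).toMonoidHom, conjBlock Q₀ z f₀⟩ : BrauerPairIdx G) ⟨P, e⟩ := hz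
    have hmem : conjHom (Q₀.map (MulAut.conj z).toMonoidHom) (z * x₀ * z⁻¹)
        ∈ F.Hom (Q₀.map (MulAut.conj z).toMonoidHom) := by
      refine (hF.2 _ _).2 ⟨hQP, z * x₀ * z⁻¹, fun u => rfl, ?_, conjBlock Q₀ z f₀, hz, ?_⟩
      · rw [map_conj_eq_of_mem_normalizer' _ hxN]
        exact hQP
      · show Relation.ReflTransGen (NormalSubpairRel p M) _ _
        rw [hpair]
        exact hz'
    rw [hcond] at hmem
    obtain ⟨-, u, huP, hu⟩ := hmem
    have hreg' : ¬ p ∣ orderOf (z * x₀ * z⁻¹) := by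
      have e1 : orderOf (z * x₀ * z⁻¹) = orderOf x₀ := (MulAut.conj z).orderOf_eq x₀
      rw [e1]
      exact hreg
    have hup : ∃ k : ℕ, u ^ p ^ k = 1 := by
      obtain ⟨k, hk⟩ := hPp ⟨u, huP⟩
      exact ⟨k, congrArg Subtype.val hk⟩
    have hxC := mem_centralizer_of_conj_eq (p := p) (Q₀.map (MulAut.conj z).toMonoidHom)
      (z * x₀ * z⁻¹) u hxN hup hreg' (fun y hy => hu ⟨y, hy⟩)
    have h1 := (mem_centralizer_map_conj_iff Q₀ z _).1 hxC
    have e1 : z⁻¹ * (z * x₀ * z⁻¹) * z = x₀ := by group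
    rwa [e1] at h1

end NilFus

end Cfsg.Agent.Helper25
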