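import Cfsg.Agent.Helper25.NilFus

set_option autoImplicit false
set_option linter.unusedSectionVars false
open Cfsg Cfsg.FusionSystem

namespace Cfsg.Agent.Helper25

section NilLocal

universe u
variable {G : Type u} [Group G] [Fintype G] {p : ℕ} {M : Ideal AlgInt}

theorem nilpotent_local [Fact p.Prime] (hpM : IsPModular p M) (B : Set (IrrCharacter G))
    (hnil : IsNilpotentBlock p M B) (Q : Subgroup G) (f : Set (IrrCharacter (Subgroup.centralizer (Q : Set G))))
    (hQf : IsBrauerPairOf p M B Q f) : IsNilpotentBlock p M f := by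
  classical
  have hMp := hpM.2.1.isPrime
  have hB : IsPBlock M B := hnil.1
  have hQ : IsPGroup p Q := hQf.1.1
  have hf : IsPBlock M f := hQf.1.2
  have : Fintype (Subgroup.centralizer (Q : Set G)) := Fintype.ofFinite _
  refine ⟨hf, fun S' g' hSg x hxN hxs hreg => ?_⟩
  obtain ⟨R, hR⟩ : ∃ R : Subgroup G, R = Q ⊔ S'.map (Subgroup.centralizer (Q : Set G)).subtype := ⟨_, rfl⟩
  have hQR : Q ≤ R := by
    rw [hR]
    exact le_sup_left
  obtain ⟨ι, hι⟩ := exists_centIso R (Subgroup.centralizer (Q : Set G)) (Subgroup.centralizer_le hQR)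
    (Subgroup.centralizer (S' : Set (Subgroup.centralizer (Q : Set G)))) (mem_cent_sup_iff Q S' R hR)
  obtain ⟨g₀, hg₀def⟩ : ∃ g₀ : Set (IrrCharacter (Subgroup.centralizer (R : Set G))),
      g₀ = {ξ | irrCongr ι ξ ∈ g'} := ⟨_, rfl⟩
  have hgg : ∀ ξ : IrrCharacter (Subgroup.centralizer (R : Set G)),
      irrCongr ι ξ ∈ g' ↔ ξ ∈ g₀ := by
    intro ξ
    rw [hg₀def]
    rfl
  have hnorm := normal_of_centPair hMp Q hQ S' R hR ι hι f g₀ g' hgg hSg
  have hRg : IsBrauerPairOf p M B R g₀ :=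
    (normalSubpair_brauerPairOf_iff hpM Q R f g₀ hnorm B hB).2 hQf
  have hxQ : (x : G) ∈ Subgroup.normalizer (Q : Set G) :=
    Subgroup.centralizer_le_normalizer _ x.2
  have hxNR : (x : G) ∈ Subgroup.normalizer (R : Set G) := by
    apply mem_normalizer_of_map_conj_le'
    rw [hR, Subgroup.map_sup]
    refine sup_le ?_ ?_
    · rw [map_conj_eq_of_mem_normalizer' Q hxQ]
      exact le_sup_left
    · refine le_trans ?_ le_sup_right
      rintro _ ⟨_, ⟨s, hs, rfl⟩, rfl⟩
      exact ⟨x * s * x⁻¹, (Subgroup.mem_normalizer_iff.1 hxN s).1 hs, rfl⟩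
  have hxsR : StabilizesBlock (Subgroup.centralizer (R : Set G)) g₀ (x : G) := by
    refine ⟨normalizer_le_normalizer_centralizer' R hxNR, fun χ hχ => ?_⟩
    obtain ⟨χ'', hχ'', hconj⟩ := hxs.2 (irrCongr ι χ) ((hgg χ).2 hχ)
    refine ⟨(irrCongr ι).symm χ'', ?_, ?_⟩
    · rw [← hgg, Equiv.apply_symm_apply]
      exact hχ''
    · intro k k' hkk
      have h0 : ((ι.symm k' : Subgroup.centralizer (S' : Set (Subgroup.centralizer (Q : Set G)))) : (Subgroup.centralizer (Q : Set G)))
          = x * ((ι.symm k : Subgroup.centralizer (S' : Set (Subgroup.centralizer (Q : Set G)))) : (Subgroup.centralizer (Q : Set G))) * x⁻¹ := by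
        apply Subtype.ext
        have e1 := hι (ι.symm k')
        have e2 := hι (ι.symm k)
        rw [MulEquiv.apply_symm_apply] at e1 e2
        show (((ι.symm k' : Subgroup.centralizer (S' : Set (Subgroup.centralizer (Q : Set G)))) : (Subgroup.centralizer (Q : Set G))) : G)
          = (x : G) * (((ι.symm k : Subgroup.centralizer (S' : Set (Subgroup.centralizer (Q : Set G)))) : (Subgroup.centralizer (Q : Set G))) : G) * (x : G)⁻¹
        rw [← e1, ← e2]
        exact hkk
      have h1 := hconj (ι.symm k) (ι.symm k') h0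
      rw [irrCongr_apply, MulEquiv.apply_symm_apply] at h1
      rw [irrCongr_symm_apply]
      exact h1
  have hxreg : IsPRegular p (x : G) := by
    show ¬ p ∣ orderOf (x : G)
    rw [Subgroup.orderOf_coe]
    exact hreg
  have hxC := hnil.2 R g₀ hRg (x : G) hxNR hxsR hxreg
  exact (mem_cent_sup_iff Q S' R hR x).2 hxC

theorem nilpotent_cent_defect [Fact p.Prime] (hpM : IsPModular p M) (B : Set (IrrCharacter G))
    (P : Subgroup G) (e : Set (IrrCharacter (Subgroup.centralizer (P : Set G)))) (hmax : IsMaximalBrauerPair p M B P e)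
    (hnil : IsNilpotentBlock p M B) (Q : Subgroup G) (f : Set (IrrCharacter (Subgroup.centralizer (Q : Set G))))
    (hle : SubpairLE p M Q f P e) :
    IsDefectGroup p M f ((P ⊓ (Subgroup.centralizer (Q : Set G))).subgroupOf (Subgroup.centralizer (Q : Set G))) := by
  classical
  obtain ⟨F, hF⟩ := exists_blockFusion hpM B P e hmax
  have hin := (nilpotent_iff_inner hpM B P e hmax F hF).1 hnil
  have hQP : Q ≤ P := subpairLE_le hle
  refine (fullyCentralized_iff hpM B P e hmax F hF Q f hQP hle).1 ⟨hQP, fun Q' hQQ' => ?_⟩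
  obtain ⟨φ, hφ, hrange⟩ := hQQ'
  rw [hin Q] at hφ
  obtain ⟨-, u, huP, hu⟩ := hφ
  have hQ' : Q' = Q.map (MulAut.conj u).toMonoidHom := by
    rw [← hrange]
    ext y
    constructor
    · rintro ⟨q, rfl⟩
      exact ⟨q, q.2, (hu q).symm⟩
    · rintro ⟨q, hq, rfl⟩
      exact ⟨⟨q, hq⟩, hu ⟨q, hq⟩⟩
  have hsub : centralizerIn P Q' ≤ (centralizerIn P Q).map (MulAut.conj u).toMonoidHom := by
    intro y hy
    obtain ⟨hy1, hy2⟩ := Subgroup.mem_inf.1 hy
    refine ⟨u⁻¹ * y * u, Subgroup.mem_inf.2 ⟨?_, ?_⟩, ?_⟩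
    · exact P.mul_mem (P.mul_mem (P.inv_mem huP) hy1) huP
    · rw [hQ'] at hy2
      exact (mem_centralizer_map_conj_iff Q u y).1 hy2
    · show u * (u⁻¹ * y * u) * u⁻¹ = y
      group
  calc Nat.card (centralizerIn P Q')
      ≤ Nat.card ((centralizerIn P Q).map (MulAut.conj u).toMonoidHom) :=
        Subgroup.card_le_of_le hsub
    _ = Nat.card (centralizerIn P Q) := Subgroup.card_map_of_injective (MulEquiv.injective _)

end NilLocal

end Cfsg.Agent.Helper25
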