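import Cfsg.Agent.Helper25.FongDefect
import Cfsg.Agent.Helper25.BlockQuot
import Cfsg.Prelude.Def_BrauerPairs

set_option autoImplicit false
set_option linter.unusedSectionVars false

/-!
# Blocks of a group with a normal `p`-subgroup and blocks of its centralizer (helper25)
-/

namespace Cfsg.Agent.Helper25

open Cfsg
open scoped ComplexConjugate

section NormalP

variable {G : Type*} [Group G] [Fintype G] {p : ℕ} {M : Ideal AlgInt}
  (N : Subgroup G) [hN : N.Normal] [Fintype N] (b : Set (IrrCharacter N))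
  (T : Subgroup G) [Fintype T]

/-- Characters lying over the same block of the centralizer of a normal `p`-subgroup are in the
same block. -/
theorem sameBlock_of_over_centralizer [Fact p.Prime] (hpM : IsPModular p M) (P : Subgroup G)
    [P.Normal] (hP : IsPGroup p P) (hNP : N = Subgroup.centralizer (P : Set G))
    (hb : IsPBlock M b) (χ χ' : IrrCharacter G)
    (h : ∃ θ ∈ b, classInner (fun n : N => (χ : G → ℂ) n) (θ : N → ℂ) ≠ 0)
    (h' : ∃ θ ∈ b, classInner (fun n : N => (χ' : G → ℂ) n) (θ : N → ℂ) ≠ 0) :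
    SameBlock M (χ : G → ℂ) (χ' : G → ℂ) := by
  classical
  have hM := hpM.2.1.isPrime
  obtain ⟨θ, hθ, h1⟩ := h
  obtain ⟨θ', hθ', h2⟩ := h'
  refine sameBlock_of_regular hpM χ χ' fun g _ => ?_
  by_cases hgN : g ∈ N
  · have e1 := (constituent_iff_centralChar N χ θ).1 h1 ⟨g, hgN⟩
    have e2 := (constituent_iff_centralChar N χ' θ').1 h2 ⟨g, hgN⟩
    rw [e1, e2]
    have hs : SameBlock M (θ : N → ℂ) (θ' : N → ℂ) := by
      obtain ⟨θ₀, rfl⟩ := hb
      exact sameBlock_trans hM (sameBlock_symm hθ) hθ'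
    exact inducedCentralChar_sub_mem hM N θ θ' hs g
  · have hg' : g ∉ Subgroup.centralizer (P : Set G) := by
      rw [← hNP]
      exact hgN
    exact MemLocalIdeal.sub hM (centralChar_mem_of_not_centralizer hpM P hP χ g hg')
      (centralChar_mem_of_not_centralizer hpM P hP χ' g hg')

theorem coeffT_comp_conjIrr [Fintype (IrrCharacter N)] (Φ : IrrCharacter N → ℂ) (x : G) (n : N) :
    coeffT (fun θ : IrrCharacter N => Φ (conjIrr N x θ)) n
      = coeffT Φ (⟨x⁻¹ * n * x, by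
          have := hN.conj_mem (n : G) n.2 x⁻¹
          rwa [inv_inv] at this⟩ : N) := by
  unfold coeffT
  congr 1
  rw [← Equiv.sum_comp (conjIrr N x⁻¹)
    (fun θ : IrrCharacter N => (θ : N → ℂ) 1 * Φ (conjIrr N x θ) * conj ((θ : N → ℂ) n))]
  refine Finset.sum_congr rfl fun θ _ => ?_
  rw [conjIrr_mul, inv_mul_cancel, conjIrr_one, conjIrr_coe, Helper6.conjFun_one_apply,
    Helper6.conjFun_apply]
  have e : (⟨x⁻¹ * (n : G) * x⁻¹⁻¹, hN.conj_mem (n : G) n.2 x⁻¹⟩ : N)
      = ⟨x⁻¹ * n * x, by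
          have := hN.conj_mem (n : G) n.2 x⁻¹
          rwa [inv_inv] at this⟩ := by
    apply Subtype.ext
    simp
  rw [e]

theorem conjIrr_of_mem {n : G} (hn : n ∈ N) (θ : IrrCharacter N) : conjIrr N n θ = θ := by
  apply Subtype.ext
  funext m
  rw [conjIrr_coe, Helper6.conjFun_apply]
  exact (Helper2.IsIrrCharacter.isClassFunction θ.2) m ⟨n, hn⟩

/-- The coefficients of the unique block covering `b`: the sum of the conjugates of the idempotent
of `b`. -/
theorem blockCoeff_unique_cover (hM : M.IsPrime) (hb : IsPBlock M b)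
    (hT : ∀ g : G, g ∈ T ↔ ∀ θ ∈ b, conjIrr N g θ ∈ b)
    (β : Set (IrrCharacter G))
    (huniq : ∀ χ : IrrCharacter G, χ ∈ β ↔ ∃ θ ∈ b,
      classInner (fun n : N => (χ : G → ℂ) n) (θ : N → ℂ) ≠ 0) :
    (∀ g : G, blockCoeff β g
      = (Nat.card T : ℂ)⁻¹ * ∑ x : G, subgroupBlockCoeff N b (x⁻¹ * g * x)) ∧
    ∀ ξ ∈ b, ∑ n : N, blockCoeff β (n : G) * ((ξ : N → ℂ) n / (ξ : N → ℂ) 1) = 1 := by
  classical
  have := Helper24.finite_irrCharacter (G := G)
  have : Fintype (IrrCharacter G) := Fintype.ofFinite _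
  have := Helper24.finite_irrCharacter (G := N)
  have : Fintype (IrrCharacter N) := Fintype.ofFinite _
  have hTc : (Nat.card T : ℂ) ≠ 0 := by
    have : 0 < Nat.card T := Nat.card_pos
    exact_mod_cast this.ne'
  obtain ⟨Φ, hΦ⟩ : ∃ Φ : IrrCharacter N → ℂ, Φ = fun θ =>
      (Nat.card T : ℂ)⁻¹ * ∑ x : G, (if conjIrr N x θ ∈ b then (1 : ℂ) else 0) := ⟨_, rfl⟩
  have hΦval : ∀ θ : IrrCharacter N, Φ θ = if θ ∈ conjSet N b then (1 : ℂ) else 0 := by
    intro θ
    rw [hΦ]
    simp only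
    rw [← Finset.sum_filter, Finset.sum_const, nsmul_eq_mul, mul_one]
    by_cases h : θ ∈ conjSet N b
    · rw [if_pos h, card_stab_coset N b T hM hb hT θ h]
      exact inv_mul_cancel₀ hTc
    · rw [if_neg h]
      have h0 : Finset.univ.filter (fun g : G => conjIrr N g θ ∈ b) = ∅ := by
        rw [Finset.filter_eq_empty_iff]
        intro g _ hg
        exact h ((mem_conjSet_iff' N b θ).2 ⟨g, hg⟩)
      rw [h0]
      simp
  have hΦinv : ∀ (g : G) (θ : IrrCharacter N), Φ (conjIrr N g θ) = Φ θ := by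
    intro g θ
    rw [hΦval, hΦval]
    have h1 : conjIrr N g θ ∈ conjSet N b ↔ θ ∈ conjSet N b := by
      rw [mem_conjSet_iff', mem_conjSet_iff']
      constructor
      · rintro ⟨x, hx⟩
        rw [conjIrr_mul] at hx
        exact ⟨_, hx⟩
      · rintro ⟨x, hx⟩
        refine ⟨g⁻¹ * x, ?_⟩
        rw [conjIrr_mul, mul_inv_cancel_left]
        exact hx
    simp only [h1]
  have hspec : ∀ χ : IrrCharacter G,
      ∑ h : G, extendByZero N (coeffT Φ) h * ((χ : G → ℂ) h / (χ : G → ℂ) 1)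
        = if χ ∈ β then (1 : ℂ) else 0 := by
    intro χ
    obtain ⟨θ, hθ⟩ := exists_under N χ
    rw [spec_extend_over N Φ hΦinv χ θ hθ, hΦval]
    by_cases hθc : θ ∈ conjSet N b
    · rw [if_pos hθc, if_pos]
      obtain ⟨g, θ', hθ', rfl⟩ := hθc
      rw [huniq]
      refine ⟨θ', hθ', ?_⟩
      rw [conjIrr_coe, Helper6.classInner_res_conjFun N g _
        (Helper2.IsIrrCharacter.isClassFunction χ.2)] at hθ
      exact hθ
    · rw [if_neg hθc, if_neg]
      intro hχ
      obtain ⟨θ', hθ', hne'⟩ := (huniq χ).1 hχ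
      exact hθc (cover_conj hM N hb (sameBlock_refl hM.ne_top _) hθ' hne' hθ)
  have hcoef : ∀ g : G, blockCoeff β g = extendByZero N (coeffT Φ) g := by
    intro g
    rw [blockCoeff_eq_coeffT]
    have h1 := coeffT_forward (extendByZero N (coeffT Φ))
      (isClassFunction_extend_coeffT N Φ hΦinv) g
    rw [funext hspec] at h1
    exact h1
  refine ⟨fun g => ?_, fun ξ hξ => ?_⟩
  · rw [hcoef g]
    by_cases hg : g ∈ N
    · rw [Helper2.extendByZero_apply_mem N _ hg]
      have e1 : Φ = (fun _ => (Nat.card T : ℂ)⁻¹) * ∑ x : G,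
          (fun θ : IrrCharacter N => if conjIrr N x θ ∈ b then (1 : ℂ) else 0) := by
        rw [hΦ]
        funext θ
        simp only [Pi.mul_apply, Finset.sum_apply]
      rw [e1, coeffT_const_mul, coeffT_finset_sum]
      congr 1
      refine Finset.sum_congr rfl fun x _ => ?_
      have hx : x⁻¹ * g * x ∈ N := by
        have := hN.conj_mem g hg x⁻¹
        rwa [inv_inv] at this
      unfold subgroupBlockCoeff
      rw [dif_pos hx, blockCoeff_eq_coeffT]
      exact coeffT_comp_conjIrr N (fun θ : IrrCharacter N => if θ ∈ b then (1 : ℂ) else 0) x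
        ⟨g, hg⟩
    · rw [Helper2.extendByZero_apply_not_mem N _ hg]
      symm
      rw [Finset.sum_eq_zero, mul_zero]
      intro x _
      have hx : x⁻¹ * g * x ∉ N := by
        intro hx
        apply hg
        have := hN.conj_mem _ hx x
        have e : x * (x⁻¹ * g * x) * x⁻¹ = g := by group
        rwa [e] at this
      unfold subgroupBlockCoeff
      rw [dif_neg hx]
  · have h1 := spec_eq_sum Φ ξ
    rw [hΦval, if_pos (subset_conjSet N b hξ)] at h1
    rw [h1]
    refine Finset.sum_congr rfl fun n _ => ?_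
    rw [hcoef, Helper2.extendByZero_apply_mem N _ n.2]

/-- For a normal `p`-subgroup `P` with centralizer `N` and a block `b` of `N` with stabilizer
`T`: the idempotent of `b` is a block idempotent of `T`, and the sum of its conjugates is a
block idempotent of `G`. -/
theorem normalP_blocks [Fact p.Prime] (hpM : IsPModular p M) (P : Subgroup G) [P.Normal]
    (hP : IsPGroup p P) (hNP : N = Subgroup.centralizer (P : Set G)) (hb : IsPBlock M b)
    (hT : ∀ g : G, g ∈ T ↔ ∀ θ ∈ b, conjIrr N g θ ∈ b) :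
    (∃ E : Set (IrrCharacter T), IsPBlock M E ∧
      ∀ t : T, blockCoeff E t = subgroupBlockCoeff N b (t : G)) ∧
    ∃ β : Set (IrrCharacter G), IsPBlock M β ∧
      (∀ χ : IrrCharacter G, χ ∈ β ↔ ∃ θ ∈ b,
        classInner (fun n : N => (χ : G → ℂ) n) (θ : N → ℂ) ≠ 0) ∧
      (∀ g : G, blockCoeff β g
        = (Nat.card T : ℂ)⁻¹ * ∑ x : G, subgroupBlockCoeff N b (x⁻¹ * g * x)) ∧
      ∀ ξ ∈ b, ∑ n : N, blockCoeff β (n : G) * ((ξ : N → ℂ) n / (ξ : N → ℂ) 1) = 1 := by
  classical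
  have hM := hpM.2.1.isPrime
  have := Helper24.finite_irrCharacter (G := G)
  have : Fintype (IrrCharacter G) := Fintype.ofFinite _
  have := Helper24.finite_irrCharacter (G := N)
  have : Fintype (IrrCharacter N) := Fintype.ofFinite _
  have := Helper24.finite_irrCharacter (G := T)
  have : Fintype (IrrCharacter T) := Fintype.ofFinite _
  have hNT : N ≤ T := by
    intro n hn
    rw [hT]
    intro θ hθ
    rw [conjIrr_of_mem N hn]
    exact hθ
  obtain ⟨θ₀, hθ₀⟩ := block_nonempty hM hb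
  obtain ⟨χ₀, hχ₀⟩ := exists_over N θ₀
  have hcov₀ : ∃ θ ∈ b, classInner (fun n : N => (χ₀ : G → ℂ) n) (θ : N → ℂ) ≠ 0 :=
    ⟨θ₀, hθ₀, hχ₀⟩
  have hB₀ : IsPBlock M (blockOf M (χ₀ : G → ℂ)) := ⟨χ₀, rfl⟩
  have hmem : ∀ χ : IrrCharacter G, χ ∈ blockOf M (χ₀ : G → ℂ) ↔
      ∃ θ ∈ b, classInner (fun n : N => (χ : G → ℂ) n) (θ : N → ℂ) ≠ 0 := by
    intro χ
    constructor
    · intro hχ
      exact fr_G_block_over N b hM hb hB₀ ⟨χ₀, mem_blockOf_self hM.ne_top χ₀, hcov₀⟩ χ hχ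
    · intro h
      exact sameBlock_of_over_centralizer N b hpM P hP hNP hb χ₀ χ hcov₀ h
  refine ⟨?_, blockOf M (χ₀ : G → ℂ), hB₀, hmem,
    blockCoeff_unique_cover N b T hM hb hT _ hmem⟩
  obtain ⟨ψ₀, hov₀, e₀⟩ := fr_exists_of_over N b T hM hb hNT hT χ₀ hcov₀
  have hE₀ : IsPBlock M (blockOf M (ψ₀ : T → ℂ)) := ⟨ψ₀, rfl⟩
  have hE : ∀ ξ : IrrCharacter T, ξ ∈ blockOf M (ψ₀ : T → ℂ) ↔ frE N T b ξ = 1 := by
    intro ξ
    constructor
    · intro hξ
      exact (frE_eq_one_iff N T b hNT hT ξ).2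
        (fr_block_over N b T hM hb hNT hT hE₀ ⟨ψ₀, mem_blockOf_self hM.ne_top ψ₀, hov₀⟩ ξ hξ)
    · intro hξ
      have hov := (frE_eq_one_iff N T b hNT hT ξ).1 hξ
      have hirr := fr_irr_of_over N b T hM hb hNT hT ξ hov
      obtain ⟨χ, hχe⟩ : ∃ χ : IrrCharacter G, (χ : G → ℂ) = indFun T (ξ : T → ℂ) :=
        ⟨⟨_, hirr⟩, rfl⟩
      have hχov := fr_over_ind N b T hM hb hNT hT ξ hov χ hχe
      have hs := sameBlock_of_over_centralizer N b hpM P hP hNP hb χ₀ χ hcov₀ hχov
      exact mem_blockOf.2 (fr_sameBlock N b T hM hb hNT hT ψ₀ ξ hov₀ hov χ₀ χ e₀ hχe hs)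
  refine ⟨_, hE₀, fun t => ?_⟩
  rw [blockCoeff_eq_coeffT]
  have e1 : (fun ξ : IrrCharacter T => if ξ ∈ blockOf M (ψ₀ : T → ℂ) then (1 : ℂ) else 0)
      = frE N T b := by
    funext ξ
    by_cases h : ξ ∈ blockOf M (ψ₀ : T → ℂ)
    · rw [if_pos h, (hE ξ).1 h]
    · rw [if_neg h]
      rcases frE_zero_or_one N T b hNT hT ξ with h0 | h1
      · exact h0.symm
      · exact absurd ((hE ξ).2 h1) h
  rw [e1, coeffT_frE N T b hT t]
  unfold frC subgroupBlockCoeff
  by_cases ht : (t : G) ∈ N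
  · rw [Helper2.extendByZero_apply_mem N _ ht, dif_pos ht, blockCoeff_eq_coeffT]
  · rw [Helper2.extendByZero_apply_not_mem N _ ht, dif_neg ht]

end NormalP

end Cfsg.Agent.Helper25
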