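import Cfsg.Agent.Helper25.AbelFus

set_option autoImplicit false
set_option linter.unusedSectionVars false

/-!
# Calculus of conjugate Brauer pairs and the fusion system of a block (helper25)
-/

namespace Cfsg.Agent.Helper25

open Cfsg
open scoped ComplexConjugate

section PairCalc

variable {G : Type*} [Group G] [Fintype G] {p : ℕ} {M : Ideal AlgInt}

/-- The conjugate of a Brauer pair. -/
def conjPair (x : G) (a : BrauerPairIdx G) : BrauerPairIdx G :=
  ⟨a.1.map (MulAut.conj x).toMonoidHom, conjBlock a.1 x a.2⟩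

theorem conjPair_le (hM : M.IsPrime) (x : G) {a b : BrauerPairIdx G}
    (h : Relation.ReflTransGen (NormalSubpairRel p M) a b) :
    Relation.ReflTransGen (NormalSubpairRel p M) (conjPair x a) (conjPair x b) := by
  induction h with
  | refl => exact Relation.ReflTransGen.refl
  | tail _ hbc ih => exact Relation.ReflTransGen.tail ih (normalSubpair_conj hM x hbc)

theorem conjPair_mul (h g : G) (a : BrauerPairIdx G) :
    conjPair h (conjPair g a) = conjPair (h * g) a := by
  obtain ⟨Q, f⟩ := a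
  have hPP : (Q.map (MulAut.conj g).toMonoidHom).map (MulAut.conj h).toMonoidHom
      = Q.map (MulAut.conj (h * g)).toMonoidHom := by
    ext y
    rw [Helper12.mem_map_conj_iff, Helper12.mem_map_conj_iff, Helper12.mem_map_conj_iff]
    have e : g⁻¹ * (h⁻¹ * y * h) * g = (h * g)⁻¹ * y * (h * g) := by group
    rw [e]
  refine pair_eq _ _ hPP (conjBlock Q (h * g) f)
    (conjBlock (Q.map (MulAut.conj g).toMonoidHom) h (conjBlock Q g f)) ?_
  intro ξ'
  constructor
  · rintro ⟨ξ₁, ⟨ξ₀, hξ₀, hc₀⟩, hc₁⟩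
    refine ⟨(irrCongr (centConj Q (h * g))).symm ξ₀, ?_, fun c c' hcc => ?_⟩
    · rw [mem_conjBlock_iff, Equiv.apply_symm_apply]
      exact hξ₀
    · rw [irrCongr_symm_apply]
      have hm1 : h⁻¹ * (c' : G) * h ∈ Subgroup.centralizer
          ((Q.map (MulAut.conj g).toMonoidHom : Subgroup G) : Set G) :=
        mem_centralizer_of_conj_mem (Q.map (MulAut.conj g).toMonoidHom) h c'.2
      have hm0 : g⁻¹ * (h⁻¹ * (c' : G) * h) * g ∈ Subgroup.centralizer (Q : Set G) :=
        mem_centralizer_of_conj_mem Q g hm1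
      have h1 := hc₁ ⟨_, hm1⟩ c' (by
        show (c' : G) = h * (h⁻¹ * (c' : G) * h) * h⁻¹
        group)
      have h0 := hc₀ ⟨_, hm0⟩ ⟨_, hm1⟩ (by
        show h⁻¹ * (c' : G) * h = g * (g⁻¹ * (h⁻¹ * (c' : G) * h) * g) * g⁻¹
        group)
      rw [h1, h0]
      refine congrArg (ξ₀ : Subgroup.centralizer (Q : Set G) → ℂ) (Subtype.ext ?_)
      rw [centConj_symm_coe, ← hcc]
      show g⁻¹ * (h⁻¹ * (c' : G) * h) * g = (h * g)⁻¹ * (c' : G) * (h * g)
      group
  · rintro ⟨ξ, ⟨ξ₀, hξ₀, hc₀⟩, hc⟩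
    refine ⟨(irrCongr (centConj Q g)).symm ξ₀, ?_, fun c₁ c' hcc => ?_⟩
    · rw [mem_conjBlock_iff, Equiv.apply_symm_apply]
      exact hξ₀
    · rw [irrCongr_symm_apply]
      have hcm : (c' : G) ∈ Subgroup.centralizer
          ((Q.map (MulAut.conj (h * g)).toMonoidHom : Subgroup G) : Set G) :=
        coe_mem_of_eq _ _ hPP c'
      have h1 := hc ⟨_, hcm⟩ c' rfl
      have h0 := hc₀ ((centConj Q g).symm c₁) ⟨_, hcm⟩ (by
        show (c' : G) = h * g
          * (((centConj Q g).symm c₁ : Subgroup.centralizer (Q : Set G)) : G) * (h * g)⁻¹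
        rw [centConj_symm_coe, hcc]
        group)
      rw [h1, h0]

theorem conjPair_one (a : BrauerPairIdx G) : conjPair 1 a = a := by
  obtain ⟨Q, f⟩ := a
  have hPP : Q.map (MulAut.conj (1 : G)).toMonoidHom = Q :=
    map_conj_eq_of_mem_normalizer' Q (Subgroup.one_mem _)
  refine pair_eq Q _ hPP f (conjBlock Q 1 f) ?_
  intro ξ'
  constructor
  · rintro ⟨ξ, hξ, hc⟩
    exact ⟨ξ, hξ, fun c c' hcc => hc c c' (by
      rw [hcc]
      group)⟩
  · rintro ⟨ξ, hξ, hc⟩
    exact ⟨ξ, hξ, fun c c' hcc => hc c c' (by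
      rw [hcc]
      group)⟩

theorem brauerPair_of_le {a b : BrauerPairIdx G}
    (h : Relation.ReflTransGen (NormalSubpairRel p M) a b)
    (hb : IsBrauerPair p M b.1 b.2) : IsBrauerPair p M a.1 a.2 := by
  rcases Relation.ReflTransGen.cases_head h with rfl | ⟨c, hac, -⟩
  · exact hb
  · exact hac.1

/-- Two subpairs of `(P, e)` with comparable subgroups are comparable. -/
theorem le_of_le_of_le [Fact p.Prime] (hpM : IsPModular p M) (P : Subgroup G)
    (e : Set (IrrCharacter (Subgroup.centralizer (P : Set G)))) (hPe : IsBrauerPair p M P e)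
    (a b : BrauerPairIdx G) (ha : Relation.ReflTransGen (NormalSubpairRel p M) a ⟨P, e⟩)
    (hb : Relation.ReflTransGen (NormalSubpairRel p M) b ⟨P, e⟩) (hab : a.1 ≤ b.1) :
    Relation.ReflTransGen (NormalSubpairRel p M) a b := by
  obtain ⟨A, fa⟩ := a
  obtain ⟨R, fr⟩ := b
  have hRr : IsBrauerPair p M R fr := brauerPair_of_le hb hPe
  obtain ⟨f', -, hf'⟩ := subpair_exists hpM R fr hRr _ A hab rfl
  have h1 : SubpairLE p M A f' P e := Relation.ReflTransGen.trans hf' hb
  have h2 : f' = fa := subpair_unique hpM _ P e hPe rfl A f' fa h1 ha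
  rw [h2] at hf'
  exact hf'

theorem conjPair_stab (hM : M.IsPrime) (P : Subgroup G)
    (e : Set (IrrCharacter (Subgroup.centralizer (P : Set G)))) (he : IsPBlock M e) (y : G)
    (hyN : y ∈ Subgroup.normalizer (P : Set G))
    (hys : StabilizesBlock (Subgroup.centralizer (P : Set G)) e y) :
    conjPair y ⟨P, e⟩ = ⟨P, e⟩ :=
  pair_conj_eq_of_stab P e y hyN hys (stabilizes_inv hM _ e he y hys)

theorem stab_of_mem (hM : M.IsPrime) (P : Subgroup G)
    (e : Set (IrrCharacter (Subgroup.centralizer (P : Set G)))) (he : IsPBlock M e) {y : G}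
    (hy : y ∈ P) :
    y ∈ Subgroup.normalizer (P : Set G)
      ∧ StabilizesBlock (Subgroup.centralizer (P : Set G)) e y := by
  obtain ⟨T, hT⟩ := exists_stabSubgroup hM P e he
  exact (hT y).1 (self_le_stab P e T hT hy)

/-- The fusion system of a block on a maximal Brauer pair exists. -/
theorem exists_blockFusion [Fact p.Prime] (hpM : IsPModular p M) (B : Set (IrrCharacter G))
    (P : Subgroup G) (e : Set (IrrCharacter (Subgroup.centralizer (P : Set G))))
    (hmax : IsMaximalBrauerPair p M B P e) :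
    ∃ F : FusionSystem P, IsBlockFusionSystemOn p M B P e F := by
  classical
  have hM := hpM.2.1.isPrime
  have hPe : IsBrauerPair p M P e := hmax.1.1
  have he : IsPBlock M e := hPe.2
  refine ⟨{ Hom := fun Q => {φ | Q ≤ P ∧ ∃ g : G, (∀ u : Q, φ u = g * (u : G) * g⁻¹) ∧
              Q.map (MulAut.conj g).toMonoidHom ≤ P ∧
              ∃ f : Set (IrrCharacter (Subgroup.centralizer (Q : Set G))),
                SubpairLE p M Q f P e ∧
                  SubpairLE p M (Q.map (MulAut.conj g).toMonoidHom) (conjBlock Q g f) P e}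
            le_of_mem := ?_
            injective_of_mem := ?_
            conj_mem := ?_
            comp_mem := ?_
            inv_mem := ?_ }, hmax, fun Q φ => Iff.rfl⟩
  · rintro Q φ ⟨hQ, g, hg, hgP, -⟩
    refine ⟨hQ, fun x => ?_⟩
    rw [hg]
    exact hgP (Helper12.conj_mem_map_conj Q g x.2)
  · rintro Q φ ⟨-, g, hg, -⟩ a b hab
    have h : g * (a : G) * g⁻¹ = g * (b : G) * g⁻¹ := ((hg a).symm.trans hab).trans (hg b)
    exact Subtype.ext (mul_left_cancel (mul_right_cancel h))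
  · intro Q g hQ hg
    obtain ⟨f, -, hf⟩ := subpair_exists hpM P e hPe _ Q hQ rfl
    obtain ⟨hgN, hgs⟩ := stab_of_mem hM P e he hg
    refine ⟨hQ, g, fun u => rfl, ?_, f, hf, ?_⟩
    · intro y hy
      have h1 := (Helper12.mem_map_conj_iff Q g y).1 hy
      have h2 : g * (g⁻¹ * y * g) * g⁻¹ ∈ P := P.mul_mem (P.mul_mem hg (hQ h1)) (P.inv_mem hg)
      have e1 : g * (g⁻¹ * y * g) * g⁻¹ = y := by group
      rwa [e1] at h2
    · have h1 : Relation.ReflTransGen (NormalSubpairRel p M) (conjPair g ⟨Q, f⟩)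
          (conjPair g ⟨P, e⟩) := conjPair_le hM g hf
      rw [conjPair_stab hM P e he g hgN hgs] at h1
      exact h1
  · rintro Q R φ ψ ⟨hQ, g, hg, hgP, f, hf, hfg⟩ ⟨hR, k, hk, hkP, fR, hfR, hfRk⟩ h
    have hQR : Q.map (MulAut.conj g).toMonoidHom ≤ R := by
      intro y hy
      obtain ⟨u, hu, rfl⟩ := Subgroup.mem_map.1 hy
      have h1 := h ⟨u, hu⟩
      rw [hg] at h1
      exact h1
    have h1 : Relation.ReflTransGen (NormalSubpairRel p M) (conjPair g ⟨Q, f⟩) ⟨R, fR⟩ :=
      le_of_le_of_le hpM P e hPe (conjPair g ⟨Q, f⟩) ⟨R, fR⟩ hfg hfR hQR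
    have h2 := conjPair_le hM k h1
    rw [conjPair_mul] at h2
    have h3 : Relation.ReflTransGen (NormalSubpairRel p M) (conjPair (k * g) ⟨Q, f⟩) ⟨P, e⟩ :=
      h2.trans hfRk
    refine ⟨hQ, k * g, fun u => ?_, subpairLE_le h3, f, hf, h3⟩
    show ψ (φ.codRestrict R h u) = k * g * (u : G) * (k * g)⁻¹
    rw [hk]
    show k * φ u * k⁻¹ = _
    rw [hg]
    group
  · rintro Q φ ⟨hQ, g, hg, hgP, f, hf, hfg⟩
    have hrange : φ.range = Q.map (MulAut.conj g).toMonoidHom := by
      ext y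
      constructor
      · rintro ⟨u, rfl⟩
        rw [hg]
        exact Helper12.conj_mem_map_conj Q g u.2
      · intro hy
        obtain ⟨u, hu, rfl⟩ := Subgroup.mem_map.1 hy
        exact ⟨⟨u, hu⟩, hg ⟨u, hu⟩⟩
    have hrP : φ.range ≤ P := by
      rw [hrange]
      exact hgP
    obtain ⟨f', -, hf'⟩ := subpair_exists hpM P e hPe _ φ.range hrP rfl
    have heq : conjPair g ⟨Q, f⟩ = ⟨φ.range, f'⟩ :=
      subpair_unique' hpM P e hPe (conjPair g ⟨Q, f⟩) ⟨φ.range, f'⟩ hfg hf' hrange.symm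
    have h1 : conjPair g⁻¹ ⟨φ.range, f'⟩ = ⟨Q, f⟩ := by
      rw [← heq, conjPair_mul, inv_mul_cancel, conjPair_one]
    refine ⟨conjHom φ.range g⁻¹, ⟨hrP, g⁻¹, fun u => rfl, ?_, f', hf', ?_⟩, fun x => ?_⟩
    · have h2 : (conjPair g⁻¹ ⟨φ.range, f'⟩).1 = Q := congrArg Sigma.fst h1
      exact (le_of_eq h2).trans hQ
    · have h3 : Relation.ReflTransGen (NormalSubpairRel p M) (conjPair g⁻¹ ⟨φ.range, f'⟩)
          ⟨P, e⟩ := by
        rw [h1]
        exact hf
      exact h3
    · show g⁻¹ * φ x * g⁻¹⁻¹ = (x : G)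
      rw [hg]
      group

end PairCalc

end Cfsg.Agent.Helper25
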