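import Cfsg.Agent.Helper25.MaxPair
import Cfsg.Agent.Helper12.Conj

set_option autoImplicit false
set_option linter.unusedSectionVars false

/-!
# Conjugation of Brauer pairs (helper25)
-/

namespace Cfsg.Agent.Helper25

open Cfsg
open scoped ComplexConjugate

section PairConj

variable {G : Type*} [Group G] [Fintype G] {p : ℕ} {M : Ideal AlgInt}

theorem conj_mem_centralizer_map (Q : Subgroup G) (x : G) {c : G}
    (hc : c ∈ Subgroup.centralizer (Q : Set G)) :
    x * c * x⁻¹ ∈ Subgroup.centralizer
      ((Q.map (MulAut.conj x).toMonoidHom : Subgroup G) : Set G) := by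
  rw [Subgroup.mem_centralizer_iff]
  intro h hh
  have h1 := (Helper12.mem_map_conj_iff Q x h).1 hh
  have h2 := Subgroup.mem_centralizer_iff.1 hc _ h1
  calc h * (x * c * x⁻¹) = x * (x⁻¹ * h * x * c) * x⁻¹ := by group
    _ = x * (c * (x⁻¹ * h * x)) * x⁻¹ := by rw [h2]
    _ = x * c * x⁻¹ * h := by group

theorem mem_centralizer_of_conj_mem (Q : Subgroup G) (x : G) {c' : G}
    (hc : c' ∈ Subgroup.centralizer
      ((Q.map (MulAut.conj x).toMonoidHom : Subgroup G) : Set G)) :
    x⁻¹ * c' * x ∈ Subgroup.centralizer (Q : Set G) := by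
  rw [Subgroup.mem_centralizer_iff]
  intro q hq
  have h2 := Subgroup.mem_centralizer_iff.1 hc _ (Helper12.conj_mem_map_conj Q x hq)
  calc q * (x⁻¹ * c' * x) = x⁻¹ * (x * q * x⁻¹ * c') * x := by group
    _ = x⁻¹ * (c' * (x * q * x⁻¹)) * x := by rw [h2]
    _ = x⁻¹ * c' * x * q := by group

theorem mem_centralizer_map_conj_iff (Q : Subgroup G) (x c' : G) :
    c' ∈ Subgroup.centralizer ((Q.map (MulAut.conj x).toMonoidHom : Subgroup G) : Set G)
      ↔ x⁻¹ * c' * x ∈ Subgroup.centralizer (Q : Set G) :=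
  ⟨mem_centralizer_of_conj_mem Q x, fun h => by
    have h1 := conj_mem_centralizer_map Q x h
    have e : x * (x⁻¹ * c' * x) * x⁻¹ = c' := by group
    rwa [e] at h1⟩

/-- Conjugation by `x` as an isomorphism `C_G(Q) ≃* C_G(x Q x⁻¹)`. -/
noncomputable def centConj (Q : Subgroup G) (x : G) :
    Subgroup.centralizer (Q : Set G) ≃*
      Subgroup.centralizer ((Q.map (MulAut.conj x).toMonoidHom : Subgroup G) : Set G) where
  toFun c := ⟨x * c * x⁻¹, conj_mem_centralizer_map Q x c.2⟩
  invFun c' := ⟨x⁻¹ * c' * x, mem_centralizer_of_conj_mem Q x c'.2⟩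
  left_inv c := by
    apply Subtype.ext
    show x⁻¹ * (x * (c : G) * x⁻¹) * x = c
    group
  right_inv c' := by
    apply Subtype.ext
    show x * (x⁻¹ * (c' : G) * x) * x⁻¹ = c'
    group
  map_mul' a b := by
    apply Subtype.ext
    show x * ((a : G) * (b : G)) * x⁻¹ = x * a * x⁻¹ * (x * b * x⁻¹)
    group

theorem centConj_coe (Q : Subgroup G) (x : G) (c : Subgroup.centralizer (Q : Set G)) :
    ((centConj Q x c :
      Subgroup.centralizer ((Q.map (MulAut.conj x).toMonoidHom : Subgroup G) : Set G)) : G)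
      = x * c * x⁻¹ := rfl

theorem centConj_symm_coe (Q : Subgroup G) (x : G)
    (c' : Subgroup.centralizer ((Q.map (MulAut.conj x).toMonoidHom : Subgroup G) : Set G)) :
    (((centConj Q x).symm c' : Subgroup.centralizer (Q : Set G)) : G) = x⁻¹ * c' * x := rfl

theorem mem_conjBlock_iff (Q : Subgroup G) (x : G)
    (f : Set (IrrCharacter (Subgroup.centralizer (Q : Set G))))
    (ξ' : IrrCharacter (Subgroup.centralizer
      ((Q.map (MulAut.conj x).toMonoidHom : Subgroup G) : Set G))) :
    ξ' ∈ conjBlock Q x f ↔ irrCongr (centConj Q x) ξ' ∈ f := by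
  constructor
  · rintro ⟨ξ, hξ, hc⟩
    have h1 : irrCongr (centConj Q x) ξ' = ξ := by
      apply Subtype.ext
      funext c
      rw [irrCongr_apply]
      exact hc c (centConj Q x c) rfl
    rw [h1]
    exact hξ
  · intro h
    refine ⟨_, h, fun c c' hcc => ?_⟩
    rw [irrCongr_apply]
    have h2 : c' = centConj Q x c := Subtype.ext hcc
    rw [h2]

theorem conjBlock_eq (Q : Subgroup G) (x : G)
    (f : Set (IrrCharacter (Subgroup.centralizer (Q : Set G)))) :
    conjBlock Q x f = {ψ | (irrCongr (centConj Q x).symm).symm ψ ∈ f} := by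
  ext ψ
  rw [mem_conjBlock_iff]
  have h1 : (irrCongr (centConj Q x).symm).symm ψ = irrCongr (centConj Q x) ψ := by
    apply Subtype.ext
    funext c
    rw [irrCongr_symm_apply, irrCongr_apply]
    rfl
  show irrCongr (centConj Q x) ψ ∈ f ↔ (irrCongr (centConj Q x).symm).symm ψ ∈ f
  rw [h1]

theorem isPBlock_conjBlock (hM : M.IsPrime) (Q : Subgroup G) (x : G)
    {f : Set (IrrCharacter (Subgroup.centralizer (Q : Set G)))} (hf : IsPBlock M f) :
    IsPBlock M (conjBlock Q x f) := by
  classical
  have : Fintype (Subgroup.centralizer (Q : Set G)) := Fintype.ofFinite _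
  have : Fintype (Subgroup.centralizer
    ((Q.map (MulAut.conj x).toMonoidHom : Subgroup G) : Set G)) := Fintype.ofFinite _
  rw [conjBlock_eq]
  exact (irrCongr_preimage_props hM (centConj Q x).symm f hf).1

theorem blockCoeff_conjBlock (hM : M.IsPrime) (Q : Subgroup G) (x : G)
    {f : Set (IrrCharacter (Subgroup.centralizer (Q : Set G)))} (hf : IsPBlock M f)
    (k : Subgroup.centralizer ((Q.map (MulAut.conj x).toMonoidHom : Subgroup G) : Set G)) :
    blockCoeff (conjBlock Q x f) k = blockCoeff f ((centConj Q x).symm k) := by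
  classical
  have : Fintype (Subgroup.centralizer (Q : Set G)) := Fintype.ofFinite _
  have : Fintype (Subgroup.centralizer
    ((Q.map (MulAut.conj x).toMonoidHom : Subgroup G) : Set G)) := Fintype.ofFinite _
  rw [conjBlock_eq]
  exact (irrCongr_preimage_props hM (centConj Q x).symm f hf).2 k

theorem subgroupBlockCoeff_conjBlock (hM : M.IsPrime) (Q : Subgroup G) (x : G)
    {f : Set (IrrCharacter (Subgroup.centralizer (Q : Set G)))} (hf : IsPBlock M f) (g : G) :
    subgroupBlockCoeff (Subgroup.centralizer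
        ((Q.map (MulAut.conj x).toMonoidHom : Subgroup G) : Set G)) (conjBlock Q x f)
        (x * g * x⁻¹)
      = subgroupBlockCoeff (Subgroup.centralizer (Q : Set G)) f g := by
  classical
  unfold subgroupBlockCoeff
  by_cases hg : g ∈ Subgroup.centralizer (Q : Set G)
  · rw [dif_pos hg, dif_pos (conj_mem_centralizer_map Q x hg), blockCoeff_conjBlock hM Q x hf]
    congr 1
    apply Subtype.ext
    rw [centConj_symm_coe]
    show x⁻¹ * (x * g * x⁻¹) * x = g
    group
  · have hg' : x * g * x⁻¹ ∉ Subgroup.centralizer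
        ((Q.map (MulAut.conj x).toMonoidHom : Subgroup G) : Set G) := by
      intro h
      apply hg
      have h1 := mem_centralizer_of_conj_mem Q x h
      have e : x⁻¹ * (x * g * x⁻¹) * x = g := by group
      rwa [e] at h1
    rw [dif_neg hg, dif_neg hg']

theorem brauerOmega_conj (P : Subgroup G) (x : G) (β β' : G → ℂ)
    (hβ : ∀ c : Subgroup.centralizer (P : Set G), β' (x * c * x⁻¹) = β c)
    (ξ' : IrrCharacter (Subgroup.centralizer
      ((P.map (MulAut.conj x).toMonoidHom : Subgroup G) : Set G))) :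
    brauerOmega (P.map (MulAut.conj x).toMonoidHom) β'
        (ξ' : Subgroup.centralizer
          ((P.map (MulAut.conj x).toMonoidHom : Subgroup G) : Set G) → ℂ)
      = brauerOmega P β ((irrCongr (centConj P x) ξ' :
          IrrCharacter (Subgroup.centralizer (P : Set G))) :
            Subgroup.centralizer (P : Set G) → ℂ) := by
  classical
  have : Fintype (Subgroup.centralizer (P : Set G)) := Fintype.ofFinite _
  have : Fintype (Subgroup.centralizer
    ((P.map (MulAut.conj x).toMonoidHom : Subgroup G) : Set G)) := Fintype.ofFinite _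
  rw [brauerOmega_eq_sum, brauerOmega_eq_sum, ← Equiv.sum_comp (centConj P x).toEquiv]
  refine Finset.sum_congr rfl fun c _ => ?_
  rw [irrCongr_apply, irrCongr_apply, map_one]
  show β' (x * c * x⁻¹) * _ = _
  rw [hβ]
  rfl

/-- Normal inclusion of Brauer pairs is preserved by conjugation. -/
theorem normalSubpair_conj (hM : M.IsPrime) (x : G) {Q P : Subgroup G}
    {f : Set (IrrCharacter (Subgroup.centralizer (Q : Set G)))}
    {e : Set (IrrCharacter (Subgroup.centralizer (P : Set G)))}
    (h : IsNormalSubpair p M Q f P e) :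
    IsNormalSubpair p M (Q.map (MulAut.conj x).toMonoidHom) (conjBlock Q x f)
      (P.map (MulAut.conj x).toMonoidHom) (conjBlock P x e) := by
  obtain ⟨⟨hQ, hf⟩, ⟨hP, he⟩, hQP, hPN, hst, hom⟩ := h
  refine ⟨⟨hQ.map _, isPBlock_conjBlock hM Q x hf⟩, ⟨hP.map _, isPBlock_conjBlock hM P x he⟩,
    Subgroup.map_mono hQP, ?_, ?_, ?_⟩
  · intro y hy
    have hu := (Helper12.mem_map_conj_iff P x y).1 hy
    have h1 := Helper12.conj_mem_normalizer_map_conj Q x (hPN hu)
    have e1 : x * (x⁻¹ * y * x) * x⁻¹ = y := by group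
    rwa [e1] at h1
  · intro y hy
    have hu := (Helper12.mem_map_conj_iff P x y).1 hy
    obtain ⟨hun, huc⟩ := hst _ hu
    refine ⟨?_, ?_⟩
    · rw [Subgroup.mem_normalizer_iff]
      intro h
      rw [mem_centralizer_map_conj_iff, mem_centralizer_map_conj_iff]
      have h1 := Subgroup.mem_normalizer_iff.1 hun (x⁻¹ * h * x)
      have e1 : x⁻¹ * y * x * (x⁻¹ * h * x) * (x⁻¹ * y * x)⁻¹ = x⁻¹ * (y * h * y⁻¹) * x := by
        group
      rw [e1] at h1
      exact h1
    · intro χ hχ
      obtain ⟨χ₁, hχ₁, hconj⟩ := huc _ ((mem_conjBlock_iff Q x f χ).1 hχ)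
      refine ⟨(irrCongr (centConj Q x)).symm χ₁, ?_, ?_⟩
      · rw [mem_conjBlock_iff, Equiv.apply_symm_apply]
        exact hχ₁
      · intro k k' hk
        rw [irrCongr_symm_apply]
        have h2 := hconj ((centConj Q x).symm k) ((centConj Q x).symm k') (by
          rw [centConj_symm_coe, centConj_symm_coe, hk]
          group)
        rw [h2, irrCongr_apply, MulEquiv.apply_symm_apply]
  · intro ξ' hξ'
    rw [brauerOmega_conj P x (subgroupBlockCoeff (Subgroup.centralizer (Q : Set G)) f) _
      (fun c => subgroupBlockCoeff_conjBlock hM Q x hf (c : G))]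
    exact hom _ ((mem_conjBlock_iff P x e ξ').1 hξ')

/-- Inclusion of Brauer pairs is preserved by conjugation. -/
theorem subpairLE_conj (hM : M.IsPrime) (x : G) {Q P : Subgroup G}
    {f : Set (IrrCharacter (Subgroup.centralizer (Q : Set G)))}
    {e : Set (IrrCharacter (Subgroup.centralizer (P : Set G)))}
    (h : SubpairLE p M Q f P e) :
    SubpairLE p M (Q.map (MulAut.conj x).toMonoidHom) (conjBlock Q x f)
      (P.map (MulAut.conj x).toMonoidHom) (conjBlock P x e) := by
  have key : ∀ a b : BrauerPairIdx G, Relation.ReflTransGen (NormalSubpairRel p M) a b →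
      Relation.ReflTransGen (NormalSubpairRel p M)
        (⟨a.1.map (MulAut.conj x).toMonoidHom, conjBlock a.1 x a.2⟩ : BrauerPairIdx G)
        ⟨b.1.map (MulAut.conj x).toMonoidHom, conjBlock b.1 x b.2⟩ := by
    intro a b hab
    induction hab with
    | refl => exact Relation.ReflTransGen.refl
    | tail _ hbc ih => exact Relation.ReflTransGen.tail ih (normalSubpair_conj hM x hbc)
  exact key ⟨Q, f⟩ ⟨P, e⟩ h

/-- Above every Brauer pair of `B` there is a maximal one. -/
theorem exists_maximal_above (B : Set (IrrCharacter G)) :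
    ∀ (k : ℕ) (Q R : Subgroup G) (f : Set (IrrCharacter (Subgroup.centralizer (Q : Set G))))
      (g : Set (IrrCharacter (Subgroup.centralizer (R : Set G)))),
      IsBrauerPairOf p M B R g → SubpairLE p M Q f R g → Nat.card G - Nat.card R ≤ k →
      ∃ (P₁ : Subgroup G) (e₁ : Set (IrrCharacter (Subgroup.centralizer (P₁ : Set G)))),
        IsMaximalBrauerPair p M B P₁ e₁ ∧ SubpairLE p M Q f P₁ e₁ := by
  intro k
  induction k with
  | zero =>
    intro Q R f g hRg hle hk
    refine ⟨R, g, ⟨hRg, ?_⟩, hle⟩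
    intro R' g' hR'g' hle'
    have h1 : R ≤ R' := subpairLE_le hle'
    have h3 : Nat.card R' ≤ Nat.card G := Subgroup.card_le_card_group R'
    exact (Subgroup.eq_of_le_of_card_ge h1 (by omega)).symm
  | succ k ih =>
    intro Q R f g hRg hle hk
    by_cases hmax : ∀ (R' : Subgroup G)
        (g' : Set (IrrCharacter (Subgroup.centralizer (R' : Set G)))),
        IsBrauerPairOf p M B R' g' → SubpairLE p M R g R' g' → R' = R
    · exact ⟨R, g, ⟨hRg, hmax⟩, hle⟩
    · push Not at hmax
      obtain ⟨R', g', hR'g', hle', hne⟩ := hmax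
      have h1 : R ≤ R' := subpairLE_le hle'
      have h2 : Nat.card R < Nat.card R' := by
        by_contra hcon
        exact hne (Subgroup.eq_of_le_of_card_ge h1 (not_lt.1 hcon)).symm
      have h3 : Nat.card R' ≤ Nat.card G := Subgroup.card_le_card_group R'
      exact ih Q R' f g' hR'g' (Relation.ReflTransGen.trans hle hle') (by omega)

theorem pair_eq (P P' : Subgroup G) (hPP : P' = P)
    (e : Set (IrrCharacter (Subgroup.centralizer (P : Set G))))
    (e' : Set (IrrCharacter (Subgroup.centralizer (P' : Set G))))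
    (h : ∀ ξ' : IrrCharacter (Subgroup.centralizer (P' : Set G)), ξ' ∈ e' ↔
      ∃ ξ ∈ e, ∀ (c : Subgroup.centralizer (P : Set G))
        (c' : Subgroup.centralizer (P' : Set G)), (c' : G) = (c : G) →
        (ξ' : Subgroup.centralizer (P' : Set G) → ℂ) c'
          = (ξ : Subgroup.centralizer (P : Set G) → ℂ) c) :
    (⟨P', e'⟩ : BrauerPairIdx G) = ⟨P, e⟩ := by
  subst hPP
  have h1 : e' = e := by
    ext ξ'
    rw [h]
    constructor
    · rintro ⟨ξ, hξ, hc⟩
      have h2 : ξ' = ξ := Subtype.ext (funext fun c => hc c c rfl)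
      rw [h2]
      exact hξ
    · intro hξ
      refine ⟨ξ', hξ, fun c c' hcc => ?_⟩
      rw [Subtype.ext hcc]
  rw [h1]

theorem coe_mem_of_eq (P P' : Subgroup G) (hPP : P' = P)
    (c' : Subgroup.centralizer (P' : Set G)) : (c' : G) ∈ Subgroup.centralizer (P : Set G) := by
  subst hPP
  exact c'.2

theorem exists_centIso_conj (P P₁ : Subgroup G) (z₁ : G)
    (hPeq : P = P₁.map (MulAut.conj z₁).toMonoidHom) :
    ∃ κ : Subgroup.centralizer (P : Set G) ≃* Subgroup.centralizer (P₁ : Set G),
      ∀ c : Subgroup.centralizer (P : Set G),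
        ((κ c : Subgroup.centralizer (P₁ : Set G)) : G) = z₁⁻¹ * (c : G) * z₁ := by
  subst hPeq
  exact ⟨(centConj P₁ z₁).symm, fun c => rfl⟩

end PairConj

end Cfsg.Agent.Helper25
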