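import Cfsg.Agent.Helper25.PairConj

set_option autoImplicit false
set_option linter.unusedSectionVars false

/-!
# Conjugacy of maximal Brauer pairs (helper25)
-/

namespace Cfsg.Agent.Helper25

open Cfsg
open scoped ComplexConjugate

section MaxConj

variable {G : Type*} [Group G] [Fintype G] {p : ℕ} {M : Ideal AlgInt}

/-- If the block `e'` of `C_N(P)` occurs in the Brauer-map image of the idempotent of `B`, then
the block of `N` covering it induces `B`. -/
theorem cover_induces [Fact p.Prime] (hpM : IsPModular p M) (N : Subgroup G) [Fintype N]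
    (P : Subgroup G) (hP : IsPGroup p P) (hPN : P ≤ N)
    (hCN : Subgroup.centralizer (P : Set G) ≤ N)
    (hNN : N ≤ Subgroup.normalizer (P : Set G))
    (B : Set (IrrCharacter G)) (hB : IsPBlock M B)
    (C' : Subgroup N) [hC'n : C'.Normal] [Fintype C']
    (hC'mem : ∀ h : N, h ∈ C' ↔ (h : G) ∈ Subgroup.centralizer (P : Set G))
    (e' : Set (IrrCharacter C'))
    (hH1 : ∀ θ' ∈ e', MemLocalIdeal M
      (∑ c : C', blockCoeff B ((c : N) : G) * ((θ' : C' → ℂ) c / (θ' : C' → ℂ) 1) - 1))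
    (β : Set (IrrCharacter N)) (hβ : IsPBlock M β)
    (hβmem : ∀ χ : IrrCharacter N, χ ∈ β ↔
      ∃ θ ∈ e', classInner (fun n : C' => (χ : N → ℂ) n) (θ : C' → ℂ) ≠ 0) :
    IsInducedBlock M N β B := by
  classical
  have hM := hpM.2.1.isPrime
  have := Helper24.finite_irrCharacter (G := G)
  have : Fintype (IrrCharacter G) := Fintype.ofFinite _
  have := Helper24.finite_irrCharacter (G := N)
  have : Fintype (IrrCharacter N) := Fintype.ofFinite _
  have := Helper24.finite_irrCharacter (G := C')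
  have : Fintype (IrrCharacter C') := Fintype.ofFinite _
  by_contra hnot
  obtain ⟨ψ, hψ⟩ := block_nonempty hM hβ
  obtain ⟨θ', hθ', hcon⟩ := (hβmem ψ).1 hψ
  have hΦ : ind B ∈ specRing G M hM := ind_mem_specRing' hM hB
  obtain ⟨Φ', hΦ'def⟩ : ∃ Φ' : IrrCharacter C' → ℂ, Φ' = fun θ₁ : IrrCharacter C' =>
      ∑ c : C', blockCoeff B ((c : N) : G) * ((θ₁ : C' → ℂ) c / (θ₁ : C' → ℂ) 1) := ⟨_, rfl⟩
  have hcl : IsClassFunction C' (fun c : C' => blockCoeff B ((c : N) : G)) := by
    intro h k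
    simp only
    rw [blockCoeff_eq_ind', blockCoeff_eq_ind']
    exact coeffT_isClassFunction (ind B) ((h : N) : G) ((k : N) : G)
  have hco : ∀ c : C', coeffT Φ' c = blockCoeff B ((c : N) : G) := by
    intro c
    rw [hΦ'def]
    exact coeffT_forward (fun c : C' => blockCoeff B ((c : N) : G)) hcl c
  have hinv : ∀ (g : N) (θ₁ : IrrCharacter C'), Φ' (conjIrr C' g θ₁) = Φ' θ₁ := by
    intro g θ₁
    refine spec_ext (Φ := fun θ₂ : IrrCharacter C' => Φ' (conjIrr C' g θ₂)) (Ψ := Φ') ?_ θ₁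
    intro n
    rw [coeffT_comp_conjIrr, hco, hco, blockCoeff_eq_ind', blockCoeff_eq_ind']
    have h2 := coeffT_isClassFunction (ind B) ((n : N) : G) ((g : N) : G)⁻¹
    rw [inv_inv] at h2
    exact h2
  have h1 := spec_extend_over C' Φ' hinv ψ θ' hcon
  have h2 : trunc P N (ind B) ψ = Φ' θ' := by
    rw [← h1]
    unfold trunc
    refine Finset.sum_congr rfl fun h _ => ?_
    congr 1
    by_cases hh : h ∈ C'
    · rw [Helper2.extendByZero_apply_mem C' _ hh, if_pos ((hC'mem h).1 hh), hco,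
        blockCoeff_eq_ind']
    · rw [Helper2.extendByZero_apply_not_mem C' _ hh,
        if_neg (fun h3 => hh ((hC'mem h).2 h3))]
  have h4 := hH1 θ' hθ'
  have h3 : Φ' θ' = ∑ c : C', blockCoeff B ((c : N) : G)
      * ((θ' : C' → ℂ) c / (θ' : C' → ℂ) 1) := by
    rw [hΦ'def]
  rw [← h3, ← h2] at h4
  have h5 := trunc_sub_brLam_mem hpM P N hP hPN hNN hΦ ψ
  have hmul := brauer_mul_gen hpM P N hP hPN hCN hNN
  have h6 := brLam_mem_of_not_induced_gen hM N hmul β hβ B hB hnot ψ hψ
  rw [← ind_eq] at h6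
  have h7 := MemLocalIdeal.add hM (MemLocalIdeal.sub hM h4 h5) h6
  have e7 : ∀ a c : ℂ, a - 1 - (a - c) + c = 2 * c - 1 := fun a c => by ring
  rw [e7] at h7
  have h8 := MemLocalIdeal.sub hM (MemLocalIdeal.add hM h6 h6) h7
  have e8 : ∀ c : ℂ, c + c - (2 * c - 1) = 1 := fun c => by ring
  rw [e8] at h8
  exact not_memLocalIdeal_one h8

/-- For a maximal Brauer pair `(P, e)` of `B`, the block of `N_G(P)` covering `e` induces `B`
and has defect group `P`. -/
theorem maximal_pair_beta [Fact p.Prime] (hpM : IsPModular p M) (N : Subgroup G) [Fintype N]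
    (P : Subgroup G) (hNdef : N = Subgroup.normalizer (P : Set G)) (B : Set (IrrCharacter G))
    (e : Set (IrrCharacter (Subgroup.centralizer (P : Set G))))
    (hmax : IsMaximalBrauerPair p M B P e)
    (C' : Subgroup N) [hC'n : C'.Normal] [Fintype C']
    (hC'def : C' = Subgroup.centralizer ((P.subgroupOf N : Subgroup N) : Set N))
    (φ : C' ≃* Subgroup.centralizer (P : Set G))
    (hφ : ∀ c : C', ((φ c : Subgroup.centralizer (P : Set G)) : G) = ((c : N) : G))
    (e' : Set (IrrCharacter C')) (he'def : e' = {ψ | (irrCongr φ).symm ψ ∈ e})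
    (β : Set (IrrCharacter N)) (hβ : IsPBlock M β)
    (hβmem : ∀ χ : IrrCharacter N, χ ∈ β ↔
      ∃ θ ∈ e', classInner (fun n : C' => (χ : N → ℂ) n) (θ : C' → ℂ) ≠ 0) :
    IsInducedBlock M N β B ∧ IsDefectGroup p M β (P.subgroupOf N) := by
  classical
  have hM := hpM.2.1.isPrime
  obtain ⟨hBe, hmaxR⟩ := hmax
  have hP : IsPGroup p P := hBe.1.1
  have he : IsPBlock M e := hBe.1.2
  have hB : IsPBlock M B := hBe.2.1
  have hPN : P ≤ N := by
    rw [hNdef]
    exact Subgroup.le_normalizer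
  have hCN : Subgroup.centralizer (P : Set G) ≤ N := by
    rw [hNdef]
    exact Subgroup.centralizer_le_normalizer (P : Set G)
  have hNN : N ≤ Subgroup.normalizer (P : Set G) := hNdef.le
  have : Fintype (Subgroup.centralizer (P : Set G)) := Fintype.ofFinite _
  have := Helper24.finite_irrCharacter (G := G)
  have : Fintype (IrrCharacter G) := Fintype.ofFinite _
  have := Helper24.finite_irrCharacter (G := N)
  have : Fintype (IrrCharacter N) := Fintype.ofFinite _
  have := Helper24.finite_irrCharacter (G := Subgroup.centralizer (P : Set G))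
  have : Fintype (IrrCharacter (Subgroup.centralizer (P : Set G))) := Fintype.ofFinite _
  have hPn : (P.subgroupOf N).Normal := by
    subst hNdef
    infer_instance
  have hP' : IsPGroup p (P.subgroupOf N) := hP.comap_subtype
  have hC'mem : ∀ h : N, h ∈ C' ↔ (h : G) ∈ Subgroup.centralizer (P : Set G) := by
    intro h
    rw [hC'def]
    exact mem_centralizer_subgroupOf P N hPN h
  have := Helper24.finite_irrCharacter (G := C')
  have : Fintype (IrrCharacter C') := Fintype.ofFinite _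
  have he'mem : ∀ θ : IrrCharacter (Subgroup.centralizer (P : Set G)),
      irrCongr φ θ ∈ e' ↔ θ ∈ e := by
    intro θ
    rw [he'def]
    simp
  have he' : IsPBlock M e' := by
    rw [he'def]
    exact (irrCongr_preimage_props hM φ e he).1
  have he'c : ∀ k : C', blockCoeff e' k = blockCoeff e (φ k) := by
    rw [he'def]
    exact (irrCongr_preimage_props hM φ e he).2
  obtain ⟨T', hT'⟩ := exists_stabilizer C' e' hM he'
  have : Fintype T' := Fintype.ofFinite _
  have hβcoef := (blockCoeff_unique_cover C' e' T' hM he' hT' β hβmem).1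
  have hH1 : ∀ θ' ∈ e', MemLocalIdeal M
      (∑ c : C', blockCoeff B ((c : N) : G) * ((θ' : C' → ℂ) c / (θ' : C' → ℂ) 1) - 1) := by
    intro θ' hθ'
    obtain ⟨θ, rfl⟩ := (irrCongr φ).surjective θ'
    have hθ : θ ∈ e := (he'mem θ).1 hθ'
    have h4 := hBe.2.2 θ hθ
    have e3 : ∑ c : C', blockCoeff B ((c : N) : G)
        * ((irrCongr φ θ : C' → ℂ) c / (irrCongr φ θ : C' → ℂ) 1)
        = brauerOmega P (blockCoeff B) (θ : Subgroup.centralizer (P : Set G) → ℂ) := by
      rw [brauerOmega_eq_sum, ← Equiv.sum_comp φ.toEquiv]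
      refine Finset.sum_congr rfl fun c _ => ?_
      rw [irrCongr_apply, irrCongr_apply, map_one]
      show blockCoeff B ((c : N) : G) * _
        = blockCoeff B ((φ c : Subgroup.centralizer (P : Set G)) : G) * _
      rw [hφ]
      rfl
    rw [e3]
    exact h4
  have hind : IsInducedBlock M N β B :=
    cover_induces hpM N P hP hPN hCN hNN B hB C' hC'mem e' hH1 β hβ hβmem
  refine ⟨hind, ?_⟩
  have hcard : Nat.card (P.subgroupOf N) = p ^ blockDefect p β := by
    obtain ⟨y, hy⟩ := exists_defectClass hM hβ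
    obtain ⟨S⟩ : Nonempty (Sylow p (Subgroup.centralizer ({y} : Set N))) := inferInstance
    obtain ⟨D, hDdef⟩ : ∃ D : Subgroup N,
        D = (S : Subgroup (Subgroup.centralizer ({y} : Set N))).map
          (Subgroup.centralizer ({y} : Set N)).subtype := ⟨_, rfl⟩
    have hD : IsDefectGroup p M β D := ⟨y, hy, S, hDdef⟩
    have hPD : P.subgroupOf N ≤ D :=
      normal_pgroup_le_defectGroup hpM (P.subgroupOf N) hP' hβ hD
    have hDcard : Nat.card D = p ^ blockDefect p β := card_defectGroup hpM hβ D hD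
    have hDp : IsPGroup p D := IsPGroup.of_card hDcard
    have hDy : ∀ u ∈ D, u * y = y * u := by
      intro u hu
      rw [hDdef] at hu
      obtain ⟨s, -, rfl⟩ := Subgroup.mem_map.1 hu
      exact (Subgroup.mem_centralizer_iff.1 s.2 y (Set.mem_singleton y)).symm
    have hcoef : ¬ MemLocalIdeal M
        ((Nat.card T' : ℂ)⁻¹ * ∑ x : N, subgroupBlockCoeff C' e' (x⁻¹ * y * x)) := by
      rw [← hβcoef y]
      exact hy.2.1
    obtain ⟨x, hxT, hxc⟩ := exists_fixed_conj C' e' T' hpM he' hT' D hDp y hDy hcoef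
    obtain ⟨R, hRdef⟩ : ∃ R : Subgroup G,
        R = (D.map (MulAut.conj x⁻¹).toMonoidHom).map N.subtype := ⟨_, rfl⟩
    have hRmem : ∀ r : G, r ∈ R ↔ ∃ u ∈ D, ((x⁻¹ * u * x : N) : G) = r := by
      intro r
      rw [hRdef, Subgroup.mem_map]
      constructor
      · rintro ⟨v, hv, rfl⟩
        obtain ⟨u, hu, rfl⟩ := Subgroup.mem_map.1 hv
        refine ⟨u, hu, ?_⟩
        simp
      · rintro ⟨u, hu, rfl⟩
        refine ⟨x⁻¹ * u * x, Subgroup.mem_map.2 ⟨u, hu, ?_⟩, rfl⟩
        simp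
    have hRcard : Nat.card R = Nat.card D := by
      rw [hRdef, Subgroup.card_map_of_injective N.subtype_injective,
        Subgroup.card_map_of_injective (MulEquiv.injective _)]
    have hR : IsPGroup p R := IsPGroup.of_card (hRcard.trans hDcard)
    have hPR : P ≤ R := by
      intro u hu
      rw [hRmem]
      have hu' : (⟨u, hPN hu⟩ : N) ∈ P.subgroupOf N := Subgroup.mem_subgroupOf.2 hu
      have h1 := hPn.conj_mem _ hu' x
      refine ⟨_, hPD h1, ?_⟩
      simp [mul_assoc]
    have hRN : R ≤ Subgroup.normalizer (P : Set G) := by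
      intro r hr
      obtain ⟨u, -, rfl⟩ := (hRmem r).1 hr
      exact hNN (x⁻¹ * u * x).2
    have hst : ∀ n : Subgroup.normalizer
        ((Subgroup.centralizer (P : Set G) : Subgroup G) : Set G),
        (n : G) ∈ R → ∀ θ, nAct (Subgroup.centralizer (P : Set G)) n θ ∈ e ↔ θ ∈ e := by
      intro n hn θ
      obtain ⟨u, hu, hun⟩ := (hRmem _).1 hn
      have h1 := stab_iff C' T' e' hT' (hxT u hu) (irrCongr φ θ)
      have h2 : conjIrr C' (x⁻¹ * u * x) (irrCongr φ θ)
          = irrCongr φ (nAct (Subgroup.centralizer (P : Set G)) n θ) := by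
        apply Subtype.ext
        funext c
        rw [conjIrr_coe, Helper6.conjFun_apply, irrCongr_apply, irrCongr_apply, nAct_apply]
        refine congrArg (θ : Subgroup.centralizer (P : Set G) → ℂ) (Subtype.ext ?_)
        rw [hφ, nMH_coe, hφ, ← hun]
        rfl
      rw [h2, he'mem, he'mem] at h1
      exact h1
    have hy2 : ((x⁻¹ * y * x : N) : G) ∈ Subgroup.centralizer (R : Set G) := by
      rw [Subgroup.mem_centralizer_iff]
      intro r hr
      obtain ⟨u, hu, rfl⟩ := (hRmem r).1 hr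
      have h1 := hDy u hu
      have h2 : x⁻¹ * u * x * (x⁻¹ * y * x) = x⁻¹ * y * x * (x⁻¹ * u * x) := by
        calc x⁻¹ * u * x * (x⁻¹ * y * x) = x⁻¹ * (u * y) * x := by group
          _ = x⁻¹ * (y * u) * x := by rw [h1]
          _ = x⁻¹ * y * x * (x⁻¹ * u * x) := by group
      exact congrArg Subtype.val h2
    have hcoef2 : ¬ MemLocalIdeal M
        (subgroupBlockCoeff (Subgroup.centralizer (P : Set G)) e ((x⁻¹ * y * x : N) : G)) := by
      by_cases hh : x⁻¹ * y * x ∈ C'
      · unfold subgroupBlockCoeff at hxc ⊢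
        rw [dif_pos hh, he'c] at hxc
        rw [dif_pos ((hC'mem _).1 hh)]
        have e1 : φ ⟨x⁻¹ * y * x, hh⟩
            = ⟨((x⁻¹ * y * x : N) : G), (hC'mem _).1 hh⟩ := Subtype.ext (hφ _)
        rwa [e1] at hxc
      · exfalso
        apply hxc
        unfold subgroupBlockCoeff
        rw [dif_neg hh]
        exact MemLocalIdeal.zero hM.ne_top
    obtain ⟨g, hnorm, hBg⟩ := going_up hpM P R e B hBe hR hPR hRN hst _ hy2 hcoef2
    have hrel : NormalSubpairRel p M (⟨P, e⟩ : BrauerPairIdx G) ⟨R, g⟩ := hnorm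
    have hRP : R = P := hmaxR R g hBg (Relation.ReflTransGen.single hrel)
    rw [Nat.card_congr (Subgroup.subgroupOfEquivOfLe hPN).toEquiv, ← hRP, hRcard, hDcard]
  exact isDefectGroup_of_normal_card hpM (P.subgroupOf N) hP' hβ hcard

/-- Any two maximal Brauer pairs of `B` are conjugate. -/
theorem maximal_pairs_conj [Fact p.Prime] (hpM : IsPModular p M) (B : Set (IrrCharacter G))
    (P P₁ : Subgroup G) (e : Set (IrrCharacter (Subgroup.centralizer (P : Set G))))
    (e₁ : Set (IrrCharacter (Subgroup.centralizer (P₁ : Set G))))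
    (hmax : IsMaximalBrauerPair p M B P e) (hmax₁ : IsMaximalBrauerPair p M B P₁ e₁) :
    ∃ z : G, (⟨P₁.map (MulAut.conj z).toMonoidHom, conjBlock P₁ z e₁⟩ : BrauerPairIdx G)
      = ⟨P, e⟩ := by
  classical
  have hM := hpM.2.1.isPrime
  have hBe := hmax.1
  have hBe₁ := hmax₁.1
  have hP : IsPGroup p P := hBe.1.1
  have he : IsPBlock M e := hBe.1.2
  have he₁ : IsPBlock M e₁ := hBe₁.1.2
  have hB : IsPBlock M B := hBe.2.1
  have hD : IsDefectGroup p M B P := by
    have : Fintype (Subgroup.normalizer (P : Set G)) := Fintype.ofFinite _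
    exact maximal_pair_defect hpM (Subgroup.normalizer (P : Set G)) P rfl B e hmax
  have hD₁ : IsDefectGroup p M B P₁ := by
    have : Fintype (Subgroup.normalizer (P₁ : Set G)) := Fintype.ofFinite _
    exact maximal_pair_defect hpM (Subgroup.normalizer (P₁ : Set G)) P₁ rfl B e₁ hmax₁
  obtain ⟨z₁, hz₁⟩ := defectGroup_le_conj hpM hB hD₁ hD
  have hPeq : P = P₁.map (MulAut.conj z₁).toMonoidHom := by
    apply Subgroup.eq_of_le_of_card_ge hz₁
    rw [Subgroup.card_map_of_injective (MulEquiv.injective _), card_defectGroup hpM hB P hD,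
      card_defectGroup hpM hB P₁ hD₁]
  obtain ⟨κ, hκ⟩ := exists_centIso_conj P P₁ z₁ hPeq
  obtain ⟨N, hNdef⟩ : ∃ N : Subgroup G, N = Subgroup.normalizer (P : Set G) := ⟨_, rfl⟩
  have : Fintype N := Fintype.ofFinite _
  have hPN : P ≤ N := by
    rw [hNdef]
    exact Subgroup.le_normalizer
  have hCN : Subgroup.centralizer (P : Set G) ≤ N := by
    rw [hNdef]
    exact Subgroup.centralizer_le_normalizer (P : Set G)
  have hNN : N ≤ Subgroup.normalizer (P : Set G) := hNdef.le
  have : Fintype (Subgroup.centralizer (P : Set G)) := Fintype.ofFinite _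
  have : Fintype (Subgroup.centralizer (P₁ : Set G)) := Fintype.ofFinite _
  have := Helper24.finite_irrCharacter (G := G)
  have : Fintype (IrrCharacter G) := Fintype.ofFinite _
  have := Helper24.finite_irrCharacter (G := N)
  have : Fintype (IrrCharacter N) := Fintype.ofFinite _
  have := Helper24.finite_irrCharacter (G := Subgroup.centralizer (P : Set G))
  have : Fintype (IrrCharacter (Subgroup.centralizer (P : Set G))) := Fintype.ofFinite _
  have := Helper24.finite_irrCharacter (G := Subgroup.centralizer (P₁ : Set G))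
  have : Fintype (IrrCharacter (Subgroup.centralizer (P₁ : Set G))) := Fintype.ofFinite _
  have hPn : (P.subgroupOf N).Normal := by
    subst hNdef
    infer_instance
  have hP' : IsPGroup p (P.subgroupOf N) := hP.comap_subtype
  have hC'n0 : (Subgroup.centralizer ((P.subgroupOf N : Subgroup N) : Set N)).Normal :=
    inferInstance
  obtain ⟨C', hC'def⟩ : ∃ C' : Subgroup N,
      C' = Subgroup.centralizer ((P.subgroupOf N : Subgroup N) : Set N) := ⟨_, rfl⟩
  have hC'n : C'.Normal := by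
    rw [hC'def]
    exact hC'n0
  have hC'mem : ∀ h : N, h ∈ C' ↔ (h : G) ∈ Subgroup.centralizer (P : Set G) := by
    intro h
    rw [hC'def]
    exact mem_centralizer_subgroupOf P N hPN h
  have : Fintype C' := Fintype.ofFinite _
  have := Helper24.finite_irrCharacter (G := C')
  have : Fintype (IrrCharacter C') := Fintype.ofFinite _
  obtain ⟨φ, hφ⟩ := exists_centIso P N hCN C' hC'mem
  obtain ⟨e', he'def⟩ : ∃ e' : Set (IrrCharacter C'), e' = {ψ | (irrCongr φ).symm ψ ∈ e} :=
    ⟨_, rfl⟩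
  have he'mem : ∀ θ : IrrCharacter (Subgroup.centralizer (P : Set G)),
      irrCongr φ θ ∈ e' ↔ θ ∈ e := by
    intro θ
    rw [he'def]
    simp
  have he' : IsPBlock M e' := by
    rw [he'def]
    exact (irrCongr_preimage_props hM φ e he).1
  obtain ⟨T', hT'⟩ := exists_stabilizer C' e' hM he'
  have : Fintype T' := Fintype.ofFinite _
  obtain ⟨-, β, hβ, hβmem, -, -⟩ :=
    normalP_blocks C' e' T' hpM (P.subgroupOf N) hP' hC'def he' hT'
  obtain ⟨hind, hDβ⟩ :=
    maximal_pair_beta hpM N P hNdef B e hmax C' hC'def φ hφ e' he'def β hβ hβmem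
  -- the second pair, transported to `C'`
  obtain ⟨φ₁, hφ₁def⟩ : ∃ φ₁ : C' ≃* Subgroup.centralizer (P₁ : Set G), φ₁ = φ.trans κ :=
    ⟨_, rfl⟩
  have hφ₁ : ∀ c : C', ((φ₁ c : Subgroup.centralizer (P₁ : Set G)) : G)
      = z₁⁻¹ * ((c : N) : G) * z₁ := by
    intro c
    rw [hφ₁def]
    show ((κ (φ c) : Subgroup.centralizer (P₁ : Set G)) : G) = _
    rw [hκ, hφ]
  obtain ⟨e₁', he₁'def⟩ : ∃ e₁' : Set (IrrCharacter C'),
      e₁' = {ψ | (irrCongr φ₁).symm ψ ∈ e₁} := ⟨_, rfl⟩
  have he₁'mem : ∀ θ : IrrCharacter (Subgroup.centralizer (P₁ : Set G)),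
      irrCongr φ₁ θ ∈ e₁' ↔ θ ∈ e₁ := by
    intro θ
    rw [he₁'def]
    simp
  have he₁' : IsPBlock M e₁' := by
    rw [he₁'def]
    exact (irrCongr_preimage_props hM φ₁ e₁ he₁).1
  obtain ⟨T₁', hT₁'⟩ := exists_stabilizer C' e₁' hM he₁'
  have : Fintype T₁' := Fintype.ofFinite _
  obtain ⟨-, β₁, hβ₁, hβ₁mem, -, -⟩ :=
    normalP_blocks C' e₁' T₁' hpM (P.subgroupOf N) hP' hC'def he₁' hT₁'
  have hH1 : ∀ θ' ∈ e₁', MemLocalIdeal M
      (∑ c : C', blockCoeff B ((c : N) : G) * ((θ' : C' → ℂ) c / (θ' : C' → ℂ) 1) - 1) := by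
    intro θ' hθ'
    obtain ⟨θ₁, rfl⟩ := (irrCongr φ₁).surjective θ'
    have hθ₁ : θ₁ ∈ e₁ := (he₁'mem θ₁).1 hθ'
    have h4 := hBe₁.2.2 θ₁ hθ₁
    have e3 : ∑ c : C', blockCoeff B ((c : N) : G)
        * ((irrCongr φ₁ θ₁ : C' → ℂ) c / (irrCongr φ₁ θ₁ : C' → ℂ) 1)
        = brauerOmega P₁ (blockCoeff B) (θ₁ : Subgroup.centralizer (P₁ : Set G) → ℂ) := by
      rw [brauerOmega_eq_sum, ← Equiv.sum_comp φ₁.toEquiv]
      refine Finset.sum_congr rfl fun c _ => ?_
      rw [irrCongr_apply, irrCongr_apply, map_one]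
      show blockCoeff B ((c : N) : G) * _
        = blockCoeff B ((φ₁ c : Subgroup.centralizer (P₁ : Set G)) : G) * _
      rw [hφ₁]
      have h5 : blockCoeff B (z₁⁻¹ * ((c : N) : G) * z₁) = blockCoeff B ((c : N) : G) := by
        rw [blockCoeff_eq_ind', blockCoeff_eq_ind']
        have h6 := coeffT_isClassFunction (ind B) ((c : N) : G) z₁⁻¹
        rwa [inv_inv] at h6
      rw [h5]
      rfl
    rw [e3]
    exact h4
  have hind₁ : IsInducedBlock M N β₁ B :=
    cover_induces hpM N P hP hPN hCN hNN B hB C' hC'mem e₁' hH1 β₁ hβ₁ hβ₁mem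
  have hββ : β = β₁ := by
    subst hNdef
    exact firstMain_unique hpM P hP β β₁ hDβ B hind hind₁
  obtain ⟨ψ, hψ⟩ := block_nonempty hM hβ
  obtain ⟨θ', hθ', hcon⟩ := (hβmem ψ).1 hψ
  have hψ₁ : ψ ∈ β₁ := by
    rw [← hββ]
    exact hψ
  obtain ⟨θ₁', hθ₁', hcon₁⟩ := (hβ₁mem ψ).1 hψ₁
  have hcs := cover_conj hM C' he' (sameBlock_refl hM.ne_top (ψ : N → ℂ)) hθ' hcon hcon₁
  obtain ⟨n, hn⟩ := (mem_conjSet_iff' C' e' θ₁').1 hcs
  have hconj : ∀ θ : IrrCharacter C', θ ∈ e₁' ↔ conjIrr C' n θ ∈ e' := by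
    intro θ
    rw [block_eq_blockOf_of_mem hM he₁' hθ₁', block_eq_blockOf_of_mem hM he' hn, mem_blockOf,
      mem_blockOf]
    constructor
    · intro h
      exact sameBlock_conjFun C' n h
    · intro h
      have h2 := sameBlock_conjFun C' n⁻¹ h
      rw [conjIrr_coe, conjIrr_coe, ← Helper6.conjFun_mul, ← Helper6.conjFun_mul,
        mul_inv_cancel, Helper6.conjFun_one, Helper6.conjFun_one] at h2
      exact h2
  have hnN : ((n : N) : G) ∈ Subgroup.normalizer (P : Set G) := hNN n.2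
  have hPP : P₁.map (MulAut.conj (((n : N) : G)⁻¹ * z₁)).toMonoidHom = P := by
    ext g
    have h1 : g ∈ P ↔ ((n : N) : G) * g * ((n : N) : G)⁻¹ ∈ P :=
      Subgroup.mem_normalizer_iff.1 hnN g
    have h2 : ((n : N) : G) * g * ((n : N) : G)⁻¹ ∈ P
        ↔ z₁⁻¹ * (((n : N) : G) * g * ((n : N) : G)⁻¹) * z₁ ∈ P₁ := by
      rw [hPeq]
      exact Helper12.mem_map_conj_iff P₁ z₁ _
    rw [Helper12.mem_map_conj_iff, h1, h2]
    have e1 : (((n : N) : G)⁻¹ * z₁)⁻¹ * g * (((n : N) : G)⁻¹ * z₁)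
        = z₁⁻¹ * (((n : N) : G) * g * ((n : N) : G)⁻¹) * z₁ := by group
    rw [e1]
  refine ⟨((n : N) : G)⁻¹ * z₁, ?_⟩
  refine pair_eq P _ hPP e _ ?_
  intro ξ'
  constructor
  · rintro ⟨ξ₁, hξ₁, hc⟩
    refine ⟨(irrCongr φ).symm (conjIrr C' n (irrCongr φ₁ ξ₁)), ?_, ?_⟩
    · rw [← he'mem, Equiv.apply_symm_apply, ← hconj, he₁'mem]
      exact hξ₁
    · intro c c' hcc
      rw [irrCongr_symm_apply, conjIrr_coe, Helper6.conjFun_apply, irrCongr_apply]
      apply hc
      rw [hφ₁]
      have h3 : (((φ.symm c : C') : N) : G) = (c : G) := by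
        have h4 := hφ (φ.symm c)
        rw [MulEquiv.apply_symm_apply] at h4
        exact h4.symm
      show (c' : G) = ((n : N) : G)⁻¹ * z₁
        * (z₁⁻¹ * (((n : N) : G) * (((φ.symm c : C') : N) : G) * ((n : N) : G)⁻¹) * z₁)
        * (((n : N) : G)⁻¹ * z₁)⁻¹
      rw [h3, hcc]
      group
  · rintro ⟨ξ, hξ, hc⟩
    refine ⟨(irrCongr φ₁).symm ((conjIrr C' n).symm (irrCongr φ ξ)), ?_, ?_⟩
    · rw [← he₁'mem, Equiv.apply_symm_apply, hconj, Equiv.apply_symm_apply, he'mem]
      exact hξ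
    · intro c₁ c' hcc
      have hc'P : (c' : G) ∈ Subgroup.centralizer (P : Set G) := coe_mem_of_eq P _ hPP c'
      rw [hc ⟨(c' : G), hc'P⟩ c' rfl, irrCongr_symm_apply, conjIrr_symm_coe,
        Helper6.conjFun_apply, irrCongr_apply]
      refine congrArg (ξ : Subgroup.centralizer (P : Set G) → ℂ) (Subtype.ext ?_)
      rw [hφ]
      have h3 : (((φ₁.symm c₁ : C') : N) : G) = z₁ * (c₁ : G) * z₁⁻¹ := by
        have h4 := hφ₁ (φ₁.symm c₁)
        rw [MulEquiv.apply_symm_apply] at h4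
        rw [h4]
        group
      show (c' : G) = ((n : N) : G)⁻¹ * (((φ₁.symm c₁ : C') : N) : G) * ((n : N) : G)⁻¹⁻¹
      rw [h3, hcc]
      group

/-- Every Brauer pair of `B` has a conjugate below a given maximal Brauer pair of `B`. -/
theorem conj_below_maximal [Fact p.Prime] (hpM : IsPModular p M) (B : Set (IrrCharacter G))
    (P Q : Subgroup G) (e : Set (IrrCharacter (Subgroup.centralizer (P : Set G))))
    (f : Set (IrrCharacter (Subgroup.centralizer (Q : Set G))))
    (hmax : IsMaximalBrauerPair p M B P e) (hQf : IsBrauerPairOf p M B Q f) :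
    ∃ x : G, SubpairLE p M (Q.map (MulAut.conj x).toMonoidHom) (conjBlock Q x f) P e := by
  have hM := hpM.2.1.isPrime
  obtain ⟨P₁, e₁, hmax₁, hle⟩ := exists_maximal_above B (Nat.card G) Q Q f f hQf
    Relation.ReflTransGen.refl (Nat.sub_le _ _)
  obtain ⟨z, hz⟩ := maximal_pairs_conj hpM B P P₁ e e₁ hmax hmax₁
  refine ⟨z, ?_⟩
  have h1 := subpairLE_conj hM z hle
  unfold SubpairLE at h1 ⊢
  rw [hz] at h1
  exact h1

end MaxConj

end Cfsg.Agent.Helper25
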