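import Cfsg.Agent.Helper25.FSIndicator
import Cfsg.Agent.Helper25.Frobenius
import Cfsg.Agent.Helper6.Kernel

set_option autoImplicit false
open Cfsg
open scoped ComplexConjugate

namespace Cfsg.Agent.Helper25

/-- The permutation character on the cosets of `H` is constant on the cosets of the core. -/
theorem indFun_one_core_mul {G : Type*} [Group G] [Fintype G] (H : Subgroup G) (m : G)
    (hm : m ∈ H.normalCore) (g : G) :
    indFun H (fun _ : H => (1 : ℂ)) (m * g) = indFun H (fun _ : H => (1 : ℂ)) g := by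
  classical
  have hm' : ∀ b : G, b * m * b⁻¹ ∈ H := hm
  rw [Helper2.indFun_apply, Helper2.indFun_apply]
  congr 1
  refine Finset.sum_congr rfl fun x _ => ?_
  have hmem : x⁻¹ * (m * g) * x ∈ H ↔ x⁻¹ * g * x ∈ H := by
    have h1 : x⁻¹ * m * x ∈ H := by
      have := hm' x⁻¹
      simpa using this
    have : x⁻¹ * (m * g) * x = (x⁻¹ * m * x) * (x⁻¹ * g * x) := by group
    rw [this]
    exact H.mul_mem_cancel_left h1
  rw [Helper2.extendByZero_apply, Helper2.extendByZero_apply]
  by_cases h : x⁻¹ * g * x ∈ H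
  · rw [dif_pos h, dif_pos (hmem.2 h)]
  · rw [dif_neg h, dif_neg (fun h' => h (hmem.1 h'))]

/-- The Frobenius–Schur sum of a permutation character counts square roots of elements of `H`. -/
theorem fs_indFun_one {G : Type*} [Group G] [Fintype G] (H : Subgroup G) [DecidablePred (· ∈ H)] :
    (Nat.card G : ℂ)⁻¹ * ∑ g : G, indFun H (fun _ : H => (1 : ℂ)) (g * g) =
      ((Finset.univ.filter (fun g : G => g * g ∈ H)).card : ℂ) / (Nat.card H : ℂ) := by
  classical
  have hG0 : (Nat.card G : ℂ) ≠ 0 := by exact_mod_cast Nat.card_pos.ne'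
  have key : ∀ x : G, ∑ g : G, extendByZero H (fun _ : H => (1 : ℂ)) (x⁻¹ * (g * g) * x) =
      ((Finset.univ.filter (fun g : G => g * g ∈ H)).card : ℂ) := by
    intro x
    rw [Finset.card_filter, Nat.cast_sum]
    refine Fintype.sum_equiv (MulAut.conj x⁻¹).toEquiv _ _ (fun g => ?_)
    have h1 : (MulAut.conj x⁻¹).toEquiv g * (MulAut.conj x⁻¹).toEquiv g = x⁻¹ * (g * g) * x := by
      show (x⁻¹ * g * x⁻¹⁻¹) * (x⁻¹ * g * x⁻¹⁻¹) = _
      group
    rw [h1, Helper2.extendByZero_apply]
    by_cases h : x⁻¹ * (g * g) * x ∈ H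
    · rw [dif_pos h, if_pos h]; simp
    · rw [dif_neg h, if_neg h]; simp
  have h2 : ∑ g : G, indFun H (fun _ : H => (1 : ℂ)) (g * g) =
      (Nat.card H : ℂ)⁻¹ * ((Nat.card G : ℂ) *
        ((Finset.univ.filter (fun g : G => g * g ∈ H)).card : ℂ)) := by
    simp only [Helper2.indFun_apply]
    rw [← Finset.mul_sum, Finset.sum_comm, Finset.sum_congr rfl (fun x _ => key x),
      Finset.sum_const, Finset.card_univ, nsmul_eq_mul, ← Nat.card_eq_fintype_card (α := G)]
  rw [h2]
  field_simp

end Cfsg.Agent.Helper25
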