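import Cfsg.Agent.Helper25.BrauerCorr

set_option autoImplicit false
set_option linter.unusedSectionVars false

/-!
# The relative Brauer map on stable central elements (helper25)

`K` is a subgroup of `G`, `R` a `p`-subgroup normalizing `K` with `C_G(R) ≤ K`.  The truncation
to `C_G(R)` of central elements of the group algebra of `K` that are stable under `R` is
multiplicative modulo the local ideal.
-/

namespace Cfsg.Agent.Helper25

open Cfsg
open scoped ComplexConjugate

section Ind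

/-- The indicator function of a set, with values in `ℂ`. -/
noncomputable def ind {α : Type*} (f : Set α) : α → ℂ :=
  fun θ => by classical exact if θ ∈ f then 1 else 0

theorem ind_eq {α : Type*} (f : Set α) [DecidablePred (· ∈ f)] :
    ind f = fun θ => if θ ∈ f then (1 : ℂ) else 0 := by
  funext θ
  unfold ind
  split_ifs <;> rfl

theorem ind_mem {α : Type*} {f : Set α} {θ : α} (h : θ ∈ f) : ind f θ = 1 := by
  classical
  rw [ind_eq]
  exact if_pos h

theorem ind_not_mem {α : Type*} {f : Set α} {θ : α} (h : θ ∉ f) : ind f θ = 0 := by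
  classical
  rw [ind_eq]
  exact if_neg h

theorem ind_mul_self {α : Type*} (f : Set α) : ind f * ind f = ind f := by
  funext θ
  by_cases h : θ ∈ f
  · simp [ind_mem h]
  · simp [ind_not_mem h]

end Ind

section Norm

theorem normalizer_le_normalizer_centralizer' {G : Type*} [Group G] (Q : Subgroup G) :
    Subgroup.normalizer (Q : Set G)
      ≤ Subgroup.normalizer ((Subgroup.centralizer (Q : Set G) : Subgroup G) : Set G) :=
  (Subgroup.normal_subgroupOf_iff_le_normalizer
    (Subgroup.centralizer_le_normalizer (Q : Set G))).1 inferInstance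

end Norm

section NAct

variable {G : Type*} [Group G] [Fintype G] {p : ℕ} {M : Ideal AlgInt}
  (K : Subgroup G) [Fintype K]

/-- The action of the normalizer of `K` on the irreducible characters of `K`:
`(nAct K n θ) c = θ (n c n⁻¹)`. -/
noncomputable def nAct (n : Subgroup.normalizer (K : Set G)) :
    IrrCharacter K ≃ IrrCharacter K :=
  irrCongr (K.normalizerMonoidHom n)

theorem nAct_apply (n : Subgroup.normalizer (K : Set G)) (θ : IrrCharacter K) (c : K) :
    (nAct K n θ : K → ℂ) c = (θ : K → ℂ) (K.normalizerMonoidHom n c) := rfl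

theorem nMH_coe (n : Subgroup.normalizer (K : Set G)) (c : K) :
    ((K.normalizerMonoidHom n c : K) : G) = (n : G) * c * (n : G)⁻¹ := rfl

theorem nAct_mul (n m : Subgroup.normalizer (K : Set G)) (θ : IrrCharacter K) :
    nAct K (n * m) θ = nAct K m (nAct K n θ) := by
  apply Subtype.ext
  funext c
  rw [nAct_apply, nAct_apply, nAct_apply, map_mul]
  rfl

theorem nAct_one (θ : IrrCharacter K) : nAct K 1 θ = θ := by
  apply Subtype.ext
  funext c
  rw [nAct_apply, map_one]
  rfl

theorem nAct_inv_left (n : Subgroup.normalizer (K : Set G)) (θ : IrrCharacter K) :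
    nAct K n⁻¹ (nAct K n θ) = θ := by
  rw [← nAct_mul, mul_inv_cancel, nAct_one]

theorem nAct_inv_right (n : Subgroup.normalizer (K : Set G)) (θ : IrrCharacter K) :
    nAct K n (nAct K n⁻¹ θ) = θ := by
  rw [← nAct_mul, inv_mul_cancel, nAct_one]

theorem sameBlock_nAct (n : Subgroup.normalizer (K : Set G)) {θ θ' : IrrCharacter K}
    (h : SameBlock M (θ : K → ℂ) (θ' : K → ℂ)) :
    SameBlock M (nAct K n θ : K → ℂ) (nAct K n θ' : K → ℂ) :=
  sameBlock_comp_mulEquiv (K.normalizerMonoidHom n) h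

variable [Fintype (IrrCharacter K)]

theorem coeffT_nAct (Φ : IrrCharacter K → ℂ) (n : Subgroup.normalizer (K : Set G)) (k : K) :
    coeffT (fun ψ : IrrCharacter K => Φ (nAct K n ψ)) (K.normalizerMonoidHom n k)
      = coeffT Φ k :=
  coeffT_irrCongr (K.normalizerMonoidHom n) Φ k

/-- A spectral function on `Irr(K)` is stable under the subgroup `R`. -/
def IsStable (R : Subgroup G) (Φ : IrrCharacter K → ℂ) : Prop :=
  ∀ n : Subgroup.normalizer (K : Set G), (n : G) ∈ R → ∀ θ, Φ (nAct K n θ) = Φ θ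

theorem stable_coeff {R : Subgroup G} {Φ : IrrCharacter K → ℂ} (hΦ : IsStable K R Φ)
    (n : Subgroup.normalizer (K : Set G)) (hn : (n : G) ∈ R) (k : K) :
    coeffT Φ (K.normalizerMonoidHom n k) = coeffT Φ k := by
  have h1 := coeffT_nAct K Φ n k
  have e : (fun ψ : IrrCharacter K => Φ (nAct K n ψ)) = Φ := funext fun ψ => hΦ n hn ψ
  rwa [e] at h1

theorem stable_ext {R : Subgroup G} (hRN : R ≤ Subgroup.normalizer (K : Set G))
    {Φ : IrrCharacter K → ℂ} (hΦ : IsStable K R Φ) (u : G) (hu : u ∈ R) (y : G) :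
    extendByZero K (coeffT Φ) (u * y * u⁻¹) = extendByZero K (coeffT Φ) y := by
  by_cases hy : y ∈ K
  · have h1 := stable_coeff K hΦ ⟨u, hRN hu⟩ hu ⟨y, hy⟩
    have hy' : u * y * u⁻¹ ∈ K := (K.normalizerMonoidHom ⟨u, hRN hu⟩ ⟨y, hy⟩).2
    rw [Helper2.extendByZero_apply_mem K _ hy, Helper2.extendByZero_apply_mem K _ hy']
    exact h1
  · have hy' : u * y * u⁻¹ ∉ K := by
      intro h
      apply hy
      have h2 := (K.normalizerMonoidHom (⟨u, hRN hu⟩ : Subgroup.normalizer (K : Set G))⁻¹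
        ⟨_, h⟩).2
      have e : ((K.normalizerMonoidHom (⟨u, hRN hu⟩ : Subgroup.normalizer (K : Set G))⁻¹
          ⟨u * y * u⁻¹, h⟩ : K) : G) = y := by
        rw [nMH_coe]
        show u⁻¹ * (u * y * u⁻¹) * u⁻¹⁻¹ = y
        group
      rwa [e] at h2
    rw [Helper2.extendByZero_apply_not_mem K _ hy, Helper2.extendByZero_apply_not_mem K _ hy']

theorem stable_of_coeff {R : Subgroup G} {Φ : IrrCharacter K → ℂ}
    (h : ∀ n : Subgroup.normalizer (K : Set G), (n : G) ∈ R → ∀ k : K,
      coeffT Φ (K.normalizerMonoidHom n k) = coeffT Φ k) : IsStable K R Φ := by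
  intro n hn θ
  rw [spec_eq_sum Φ (nAct K n θ), spec_eq_sum Φ θ,
    ← Equiv.sum_comp (K.normalizerMonoidHom n).toEquiv
      (fun c : K => coeffT Φ c * ((θ : K → ℂ) c / (θ : K → ℂ) 1))]
  refine Finset.sum_congr rfl fun c _ => ?_
  rw [nAct_apply, nAct_apply, map_one]
  show _ = coeffT Φ (K.normalizerMonoidHom n c) * _
  rw [h n hn c]
  rfl

theorem stable_mul {R : Subgroup G} {Φ Ψ : IrrCharacter K → ℂ} (hΦ : IsStable K R Φ)
    (hΨ : IsStable K R Ψ) : IsStable K R (Φ * Ψ) := by
  intro n hn θ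
  simp only [Pi.mul_apply]
  rw [hΦ n hn θ, hΨ n hn θ]

theorem stable_sub {R : Subgroup G} {Φ Ψ : IrrCharacter K → ℂ} (hΦ : IsStable K R Φ)
    (hΨ : IsStable K R Ψ) : IsStable K R (Φ - Ψ) := by
  intro n hn θ
  simp only [Pi.sub_apply]
  rw [hΦ n hn θ, hΨ n hn θ]

theorem stable_one (R : Subgroup G) : IsStable K R (1 : IrrCharacter K → ℂ) := by
  intro n hn θ
  rfl

theorem stable_ind {R : Subgroup G} {f : Set (IrrCharacter K)}
    (hf : ∀ n : Subgroup.normalizer (K : Set G), (n : G) ∈ R → ∀ θ, nAct K n θ ∈ f ↔ θ ∈ f) :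
    IsStable K R (ind f) := by
  intro n hn θ
  by_cases h : θ ∈ f
  · rw [ind_mem h, ind_mem ((hf n hn θ).2 h)]
  · rw [ind_not_mem h, ind_not_mem (fun h' => h ((hf n hn θ).1 h'))]

end NAct

section RTrunc

variable {G : Type*} [Group G] [Fintype G] {p : ℕ} {M : Ideal AlgInt}
  (K R : Subgroup G) [Fintype K] [Fintype (IrrCharacter K)]
  [Fintype (Subgroup.centralizer (R : Set G))]

/-- The truncation to `C_G(R)` of a central element of the group algebra of `K`, as a
spectral function on `Irr(C_G(R))`. -/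
noncomputable def rtrunc (Φ : IrrCharacter K → ℂ) :
    IrrCharacter (Subgroup.centralizer (R : Set G)) → ℂ :=
  fun ξ => ∑ x : Subgroup.centralizer (R : Set G), extendByZero K (coeffT Φ) (x : G)
    * ((ξ : Subgroup.centralizer (R : Set G) → ℂ) x
      / (ξ : Subgroup.centralizer (R : Set G) → ℂ) 1)

theorem rtrunc_eq (hCK : Subgroup.centralizer (R : Set G) ≤ K) (Φ : IrrCharacter K → ℂ)
    (ξ : IrrCharacter (Subgroup.centralizer (R : Set G))) :
    rtrunc K R Φ ξ = ∑ x : Subgroup.centralizer (R : Set G), coeffT Φ ⟨(x : G), hCK x.2⟩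
      * ((ξ : Subgroup.centralizer (R : Set G) → ℂ) x
        / (ξ : Subgroup.centralizer (R : Set G) → ℂ) 1) := by
  unfold rtrunc
  refine Finset.sum_congr rfl fun x _ => ?_
  rw [Helper2.extendByZero_apply_mem K _ (hCK x.2)]

variable [Fintype (IrrCharacter (Subgroup.centralizer (R : Set G)))]

theorem coeffT_rtrunc (hCK : Subgroup.centralizer (R : Set G) ≤ K) (Φ : IrrCharacter K → ℂ)
    (x : Subgroup.centralizer (R : Set G)) :
    coeffT (rtrunc K R Φ) x = coeffT Φ ⟨(x : G), hCK x.2⟩ := by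
  have h1 := coeffT_forward
    (fun x : Subgroup.centralizer (R : Set G) => coeffT Φ ⟨(x : G), hCK x.2⟩) (by
      intro x k
      exact coeffT_isClassFunction Φ ⟨(x : G), hCK x.2⟩ ⟨(k : G), hCK k.2⟩) x
  rw [← h1]
  congr 1
  funext ξ
  exact rtrunc_eq K R hCK Φ ξ

theorem rtrunc_mem_specRing (hM : M.IsPrime) (hCK : Subgroup.centralizer (R : Set G) ≤ K)
    {Φ : IrrCharacter K → ℂ} (hΦ : Φ ∈ specRing K M hM) :
    rtrunc K R Φ ∈ specRing (Subgroup.centralizer (R : Set G)) M hM := by
  rw [mem_specRing]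
  intro x
  rw [coeffT_rtrunc K R hCK]
  exact mem_specRing.1 hΦ _

theorem rtrunc_mem_specJ (hM : M.IsPrime) (hCK : Subgroup.centralizer (R : Set G) ≤ K)
    {Φ : IrrCharacter K → ℂ} (hΦ : Φ ∈ specJ K M hM) :
    rtrunc K R Φ ∈ specJ (Subgroup.centralizer (R : Set G)) M hM := by
  rw [mem_specJ]
  intro x
  rw [coeffT_rtrunc K R hCK]
  exact mem_specJ.1 hΦ _

theorem rtrunc_sub (hCK : Subgroup.centralizer (R : Set G) ≤ K) (Φ Ψ : IrrCharacter K → ℂ) :
    rtrunc K R (Φ - Ψ) = rtrunc K R Φ - rtrunc K R Ψ := by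
  funext ξ
  rw [Pi.sub_apply, rtrunc_eq K R hCK, rtrunc_eq K R hCK, rtrunc_eq K R hCK,
    ← Finset.sum_sub_distrib]
  refine Finset.sum_congr rfl fun x _ => ?_
  rw [coeffT_sub, sub_mul]

theorem rtrunc_zero (hCK : Subgroup.centralizer (R : Set G) ≤ K) :
    rtrunc K R (0 : IrrCharacter K → ℂ) = 0 := by
  funext ξ
  rw [rtrunc_eq K R hCK]
  refine Finset.sum_eq_zero fun x _ => ?_
  rw [coeffT_zero, zero_mul]

theorem rtrunc_finset_sum (hCK : Subgroup.centralizer (R : Set G) ≤ K) {ι : Type*}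
    (S : Finset ι) (Φ : ι → IrrCharacter K → ℂ)
    (ξ : IrrCharacter (Subgroup.centralizer (R : Set G))) :
    rtrunc K R (∑ i ∈ S, Φ i) ξ = ∑ i ∈ S, rtrunc K R (Φ i) ξ := by
  rw [rtrunc_eq K R hCK]
  simp only [coeffT_finset_sum, Finset.sum_mul]
  rw [Finset.sum_comm]
  refine Finset.sum_congr rfl fun i _ => ?_
  rw [rtrunc_eq K R hCK]

theorem rtrunc_one (hCK : Subgroup.centralizer (R : Set G) ≤ K)
    (ξ : IrrCharacter (Subgroup.centralizer (R : Set G))) :
    rtrunc K R (1 : IrrCharacter K → ℂ) ξ = 1 := by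
  classical
  rw [rtrunc_eq K R hCK, Finset.sum_eq_single (1 : Subgroup.centralizer (R : Set G))]
  · rw [coeffT_one, if_pos (by rfl), one_mul]
    exact div_self (irr_one_ne_zero' ξ)
  · intro x _ hx
    rw [coeffT_one, if_neg, zero_mul]
    intro h
    apply hx
    apply Subtype.ext
    have h' := congrArg (fun k : K => (k : G)) h
    simpa using h'
  · intro h
    exact absurd (Finset.mem_univ _) h

/-- The relative Brauer map is multiplicative modulo the local ideal on stable elements. -/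
theorem rtrunc_mul_sub_mem [Fact p.Prime] (hpM : IsPModular p M) (hR : IsPGroup p R)
    (hCK : Subgroup.centralizer (R : Set G) ≤ K)
    (hRN : R ≤ Subgroup.normalizer (K : Set G)) {Φ Ψ : IrrCharacter K → ℂ}
    (hΦ : Φ ∈ specRing K M hpM.2.1.isPrime) (hΨ : Ψ ∈ specRing K M hpM.2.1.isPrime)
    (hΦs : IsStable K R Φ) (hΨs : IsStable K R Ψ) :
    rtrunc K R (Φ * Ψ) - rtrunc K R Φ * rtrunc K R Ψ
      ∈ specJ (Subgroup.centralizer (R : Set G)) M hpM.2.1.isPrime := by
  classical
  have hM := hpM.2.1.isPrime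
  rw [mem_specJ]
  intro x
  rw [coeffT_sub, coeffT_rtrunc K R hCK, coeffT_mul (rtrunc K R Φ) (rtrunc K R Ψ) x]
  simp only [coeffT_rtrunc K R hCK]
  obtain ⟨F, hF⟩ : ∃ F : G → ℂ, F = fun g =>
      extendByZero K (coeffT Φ) g * extendByZero K (coeffT Ψ) (g⁻¹ * (x : G)) := ⟨_, rfl⟩
  have e1 : coeffT (Φ * Ψ) ⟨(x : G), hCK x.2⟩ = ∑ g : G, F g := by
    rw [coeffT_mul, Helper6.sum_subgroup_eq' K F (fun a ha => by
      rw [hF]
      simp only
      rw [Helper2.extendByZero_apply_not_mem K _ ha, zero_mul])]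
    refine Finset.sum_congr rfl fun c _ => ?_
    rw [hF]
    simp only
    rw [Helper2.extendByZero_apply_mem K _ c.2]
    have hc : (c : G)⁻¹ * (x : G) ∈ K := (c⁻¹ * ⟨(x : G), hCK x.2⟩ : K).2
    rw [Helper2.extendByZero_apply_mem K _ hc]
    rfl
  have e2 : ∑ y : Subgroup.centralizer (R : Set G), coeffT Φ ⟨(y : G), hCK y.2⟩
      * coeffT Ψ ⟨((y⁻¹ * x : Subgroup.centralizer (R : Set G)) : G), hCK (y⁻¹ * x).2⟩
      = ∑ y : Subgroup.centralizer (R : Set G), F (y : G) := by
    refine Finset.sum_congr rfl fun y _ => ?_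
    rw [hF]
    simp only
    rw [Helper2.extendByZero_apply_mem K _ (hCK y.2)]
    have hc : (y : G)⁻¹ * (x : G) ∈ K := hCK (y⁻¹ * x).2
    rw [Helper2.extendByZero_apply_mem K _ hc]
    rfl
  rw [e1, e2, sum_eq_sum_centralizer_add R F, add_sub_cancel_left]
  refine sum_off_centralizer_mem hpM R hR F (fun u hu y => ?_) (fun y => ?_)
  · rw [hF]
    simp only
    rw [stable_ext K hRN hΦs u hu y]
    have hxu : u * (x : G) = (x : G) * u := Subgroup.mem_centralizer_iff.1 x.2 u hu
    have e : (u * y * u⁻¹)⁻¹ * (x : G) = u * (y⁻¹ * (x : G)) * u⁻¹ := by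
      have hxu' : u⁻¹ * (x : G) = (x : G) * u⁻¹ := by
        have : (x : G) = u⁻¹ * (x : G) * u := by
          rw [mul_assoc, ← hxu]
          group
        calc u⁻¹ * (x : G) = u⁻¹ * (x : G) * u * u⁻¹ := by group
          _ = (x : G) * u⁻¹ := by rw [← this]
      calc (u * y * u⁻¹)⁻¹ * (x : G) = u * y⁻¹ * (u⁻¹ * (x : G)) := by group
        _ = u * y⁻¹ * ((x : G) * u⁻¹) := by rw [hxu']
        _ = u * (y⁻¹ * (x : G)) * u⁻¹ := by group
    rw [e, stable_ext K hRN hΨs u hu]
  · rw [hF]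
    simp only
    have hloc : ∀ (Θ : IrrCharacter K → ℂ), Θ ∈ specRing K M hM → ∀ g : G,
        MemLocalRing M (extendByZero K (coeffT Θ) g) := by
      intro Θ hΘ g
      by_cases hg : g ∈ K
      · rw [Helper2.extendByZero_apply_mem K _ hg]
        exact mem_specRing.1 hΘ _
      · rw [Helper2.extendByZero_apply_not_mem K _ hg]
        exact MemLocalRing.zero hM.ne_top
    exact MemLocalRing.mul hM (hloc Φ hΦ y) (hloc Ψ hΨ _)

end RTrunc

section Pairs

variable {G : Type*} [Group G] [Fintype G] {p : ℕ} {M : Ideal AlgInt}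
  (K P : Subgroup G) [Fintype K] [Fintype (IrrCharacter K)]
  [Fintype (Subgroup.centralizer (P : Set G))]
  [Fintype (IrrCharacter (Subgroup.centralizer (P : Set G)))]

theorem ind_mem_specRing (hM : M.IsPrime) {f : Set (IrrCharacter K)} (hf : IsPBlock M f) :
    ind f ∈ specRing K M hM := by
  classical
  rw [ind_eq]
  exact block_indicator_mem hM hf

theorem blockCoeff_eq_ind (f : Set (IrrCharacter K)) (k : K) :
    blockCoeff f k = coeffT (ind f) k := by
  classical
  rw [ind_eq, blockCoeff_eq_coeffT]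

theorem brauerOmega_subgroupBlockCoeff (hCK : Subgroup.centralizer (P : Set G) ≤ K)
    (f : Set (IrrCharacter K)) (ξ : IrrCharacter (Subgroup.centralizer (P : Set G))) :
    brauerOmega P (subgroupBlockCoeff K f) (ξ : Subgroup.centralizer (P : Set G) → ℂ)
      = rtrunc K P (ind f) ξ := by
  rw [brauerOmega_eq_sum, rtrunc_eq K P hCK]
  refine Finset.sum_congr rfl fun x _ => ?_
  unfold subgroupBlockCoeff
  rw [dif_pos (hCK x.2), blockCoeff_eq_ind]

theorem stabilizes_iff (hPN : P ≤ Subgroup.normalizer (K : Set G))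
    (f : Set (IrrCharacter K)) :
    (∀ x ∈ P, StabilizesBlock K f x) ↔
      ∀ n : Subgroup.normalizer (K : Set G), (n : G) ∈ P → ∀ θ, nAct K n θ ∈ f ↔ θ ∈ f := by
  constructor
  · intro h
    have key : ∀ n : Subgroup.normalizer (K : Set G), (n : G) ∈ P →
        ∀ χ ∈ f, nAct K n⁻¹ χ ∈ f := by
      intro n hn χ hχ
      obtain ⟨χ', hχ', hconj⟩ := (h (n : G) hn).2 χ hχ
      have e : nAct K n⁻¹ χ = χ' := by
        apply Subtype.ext
        funext k
        rw [nAct_apply]
        refine (hconj (K.normalizerMonoidHom n⁻¹ k) k ?_).symm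
        rw [nMH_coe]
        show (k : G) = (n : G) * ((n : G)⁻¹ * (k : G) * (n : G)⁻¹⁻¹) * (n : G)⁻¹
        group
      rw [e]
      exact hχ'
    intro n hn θ
    constructor
    · intro hθ
      have h1 := key n hn _ hθ
      rwa [nAct_inv_left] at h1
    · intro hθ
      have hn' : ((n⁻¹ : Subgroup.normalizer (K : Set G)) : G) ∈ P := P.inv_mem hn
      have h1 := key n⁻¹ hn' θ hθ
      rwa [inv_inv] at h1
  · intro h x hx
    refine ⟨hPN hx, fun χ hχ => ?_⟩
    have hx' : (((⟨x, hPN hx⟩ : Subgroup.normalizer (K : Set G))⁻¹ :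
        Subgroup.normalizer (K : Set G)) : G) ∈ P := P.inv_mem hx
    refine ⟨nAct K (⟨x, hPN hx⟩ : Subgroup.normalizer (K : Set G))⁻¹ χ,
      (h _ hx' χ).2 hχ, ?_⟩
    intro k k' hk
    rw [nAct_apply]
    have e : K.normalizerMonoidHom (⟨x, hPN hx⟩ : Subgroup.normalizer (K : Set G))⁻¹ k' = k := by
      apply Subtype.ext
      rw [nMH_coe, hk]
      show x⁻¹ * (x * (k : G) * x⁻¹) * x⁻¹⁻¹ = (k : G)
      group
    rw [e]

/-- The action of `P ≤ N(K)` on sets of irreducible characters of `K`. -/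
noncomputable def setAction (hPN : P ≤ Subgroup.normalizer (K : Set G)) :
    MulAction P (Set (IrrCharacter K)) where
  smul u f := {θ | nAct K ⟨(u : G), hPN u.2⟩ θ ∈ f}
  one_smul f := by
    ext θ
    show nAct K ⟨((1 : P) : G), hPN (1 : P).2⟩ θ ∈ f ↔ θ ∈ f
    have e : (⟨((1 : P) : G), hPN (1 : P).2⟩ : Subgroup.normalizer (K : Set G)) = 1 := rfl
    rw [e, nAct_one]
  mul_smul u v f := by
    ext θ
    show nAct K ⟨((u * v : P) : G), hPN (u * v).2⟩ θ ∈ f
      ↔ nAct K ⟨(v : G), hPN v.2⟩ (nAct K ⟨(u : G), hPN u.2⟩ θ) ∈ f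
    have e : (⟨((u * v : P) : G), hPN (u * v).2⟩ : Subgroup.normalizer (K : Set G))
        = ⟨(u : G), hPN u.2⟩ * ⟨(v : G), hPN v.2⟩ := rfl
    rw [e, nAct_mul]

theorem exists_stable_block [Fact p.Prime] (hpM : IsPModular p M) (hP : IsPGroup p P)
    (hPN : P ≤ Subgroup.normalizer (K : Set G))
    (hCK : Subgroup.centralizer (P : Set G) ≤ K)
    (ξ₀ : IrrCharacter (Subgroup.centralizer (P : Set G))) :
    ∃ f : Set (IrrCharacter K), IsPBlock M f ∧
      (∀ n : Subgroup.normalizer (K : Set G), (n : G) ∈ P → ∀ θ, nAct K n θ ∈ f ↔ θ ∈ f) ∧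
      MemLocalIdeal M (rtrunc K P (ind f) ξ₀ - 1) := by
  classical
  have hM := hpM.2.1.isPrime
  let act := setAction K P hPN
  have : Fintype (Set (IrrCharacter K)) := Fintype.ofFinite _
  have hpJ : MemLocalIdeal M (p : ℂ) := (memLocalIdeal_natCast_iff hpM p).2 (dvd_refl p)
  obtain ⟨S, hS⟩ : ∃ S : Finset (Set (IrrCharacter K)),
      S = Finset.univ.image (fun χ : IrrCharacter K => blockOf M (χ : K → ℂ)) := ⟨_, rfl⟩
  have hSmem : ∀ f, f ∈ S ↔ IsPBlock M f := by
    intro f
    rw [hS, Finset.mem_image]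
    constructor
    · rintro ⟨χ, -, rfl⟩
      exact ⟨χ, rfl⟩
    · rintro ⟨χ, rfl⟩
      exact ⟨χ, Finset.mem_univ _, rfl⟩
  have hsum : (1 : IrrCharacter K → ℂ) = ∑ f ∈ S, ind f := by
    funext χ
    rw [Finset.sum_apply, Finset.sum_eq_single (blockOf M (χ : K → ℂ))]
    · rw [ind_mem (mem_blockOf_self hM.ne_top χ)]
      rfl
    · intro B hB hne
      obtain ⟨ψ, rfl⟩ := (hSmem B).1 hB
      apply ind_not_mem
      intro hmem
      exact hne (blockOf_eq_of_mem hM hmem)
    · intro h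
      exact absurd ((hSmem _).2 ⟨χ, rfl⟩) h
  obtain ⟨St, hSt⟩ : ∃ St : Set (IrrCharacter K) → Prop, St = fun f => ∀ u : P, u • f = f :=
    ⟨_, rfl⟩
  have hact_block : ∀ (u : P) (f : Set (IrrCharacter K)), IsPBlock M f → IsPBlock M (u • f) := by
    rintro u f ⟨θ₀, rfl⟩
    refine ⟨nAct K (⟨(u : G), hPN u.2⟩ : Subgroup.normalizer (K : Set G))⁻¹ θ₀, ?_⟩
    ext θ
    show nAct K ⟨(u : G), hPN u.2⟩ θ ∈ blockOf M (θ₀ : K → ℂ) ↔ _
    rw [mem_blockOf, mem_blockOf]
    constructor
    · intro h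
      have h2 := sameBlock_nAct (M := M) K
        (⟨(u : G), hPN u.2⟩ : Subgroup.normalizer (K : Set G))⁻¹ h
      rwa [nAct_inv_left] at h2
    · intro h
      have h2 := sameBlock_nAct (M := M) K
        (⟨(u : G), hPN u.2⟩ : Subgroup.normalizer (K : Set G)) h
      rwa [nAct_inv_right] at h2
  have hact_S : ∀ (u : P) (f : Set (IrrCharacter K)), u • f ∈ S ↔ f ∈ S := by
    intro u f
    rw [hSmem, hSmem]
    constructor
    · intro h
      have h1 := hact_block u⁻¹ _ h
      rwa [inv_smul_smul] at h1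
    · exact hact_block u f
  have hact_St : ∀ (u : P) (f : Set (IrrCharacter K)), St (u • f) ↔ St f := by
    have key : ∀ (u : P) (f : Set (IrrCharacter K)), St f → St (u • f) := by
      intro u f h
      rw [hSt] at h ⊢
      intro v
      have e : v * u = u * (u⁻¹ * v * u) := by group
      rw [← mul_smul, e, mul_smul, h]
    intro u f
    constructor
    · intro h
      have h1 := key u⁻¹ _ h
      rwa [inv_smul_smul] at h1
    · exact key u f
  have hact_coeff : ∀ (u : P) (f : Set (IrrCharacter K)) (x : K),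
      (u : G) * (x : G) = (x : G) * (u : G) → blockCoeff (u • f) x = blockCoeff f x := by
    intro u f x hux
    rw [blockCoeff_eq_ind, blockCoeff_eq_ind]
    have h1 := coeffT_nAct K (ind f) ⟨(u : G), hPN u.2⟩ x
    have e1 : (fun ψ : IrrCharacter K => ind f (nAct K ⟨(u : G), hPN u.2⟩ ψ))
        = ind (u • f) := by
      funext ψ
      by_cases h : ψ ∈ u • f
      · rw [ind_mem h]
        exact ind_mem h
      · rw [ind_not_mem h]
        exact ind_not_mem h
    have e2 : K.normalizerMonoidHom ⟨(u : G), hPN u.2⟩ x = x := by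
      apply Subtype.ext
      rw [nMH_coe]
      show (u : G) * (x : G) * (u : G)⁻¹ = x
      rw [hux]
      group
    rw [e1, e2] at h1
    exact h1
  have hlam1 := rtrunc_one K P hCK ξ₀
  have hlamsum := rtrunc_finset_sum K P hCK S (fun f => ind f) ξ₀
  rw [← hsum, hlam1, ← Finset.sum_filter_add_sum_filter_not S St] at hlamsum
  have hnon : MemLocalIdeal M (∑ f ∈ S.filter (fun f => ¬ St f), rtrunc K P (ind f) ξ₀) := by
    have e : ∑ f ∈ S.filter (fun f => ¬ St f), rtrunc K P (ind f) ξ₀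
        = ∑ x : Subgroup.centralizer (P : Set G),
          (∑ f ∈ S.filter (fun f => ¬ St f), blockCoeff f ⟨(x : G), hCK x.2⟩)
            * ((ξ₀ : Subgroup.centralizer (P : Set G) → ℂ) x
              / (ξ₀ : Subgroup.centralizer (P : Set G) → ℂ) 1) := by
      simp only [Finset.sum_mul]
      rw [Finset.sum_comm]
      refine Finset.sum_congr rfl fun f _ => ?_
      rw [rtrunc_eq K P hCK]
      refine Finset.sum_congr rfl fun x _ => ?_
      rw [blockCoeff_eq_ind]
    rw [e]
    refine omega_mem_ideal hM ξ₀ _ ?_ ?_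
    · intro x k
      refine Finset.sum_congr rfl fun f _ => ?_
      rw [blockCoeff_eq_ind, blockCoeff_eq_ind]
      exact coeffT_isClassFunction (ind f) ⟨(x : G), hCK x.2⟩ ⟨(k : G), hCK k.2⟩
    · intro x
      have h1 := pgroup_sum_mem hP (localIdeal M hM)
        (fun f : Set (IrrCharacter K) => if f ∈ S ∧ ¬ St f
          then blockCoeff f ⟨(x : G), hCK x.2⟩ else 0) ?_ ?_ ?_
      · rw [mem_localIdeal, ← Finset.sum_filter] at h1
        have e2 : Finset.univ.filter (fun f : Set (IrrCharacter K) => f ∈ S ∧ ¬ St f)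
            = S.filter (fun f => ¬ St f) := by
          ext f
          simp
        rw [e2] at h1
        exact h1
      · intro u f
        have hiff : (u • f ∈ S ∧ ¬ St (u • f)) ↔ (f ∈ S ∧ ¬ St f) := by
          rw [hact_S, hact_St]
        by_cases h : f ∈ S ∧ ¬ St f
        · rw [if_pos h, if_pos (hiff.2 h)]
          exact hact_coeff u f _ (Subgroup.mem_centralizer_iff.1 x.2 u u.2)
        · rw [if_neg h, if_neg (fun h' => h (hiff.1 h'))]
      · intro f
        by_cases h : f ∈ S ∧ ¬ St f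
        · rw [if_pos h, mem_localIdeal]
          refine MemLocalIdeal.mul_right hM hpJ ?_
          rw [blockCoeff_eq_ind]
          exact mem_specRing.1 (ind_mem_specRing K hM ((hSmem f).1 h.1)) _
        · rw [if_neg h, mul_zero, mem_localIdeal]
          exact MemLocalIdeal.zero hM.ne_top
      · intro f hfix
        rw [if_neg, mem_localIdeal]
        · exact MemLocalIdeal.zero hM.ne_top
        · intro h
          apply h.2
          rw [hSt]
          exact hfix
  have hex : ∃ f ∈ S.filter St, ¬ MemLocalIdeal M (rtrunc K P (ind f) ξ₀) := by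
    by_contra hcon
    have hcon' : ∀ f ∈ S.filter St, MemLocalIdeal M (rtrunc K P (ind f) ξ₀) := by
      intro f hf
      by_contra h
      exact hcon ⟨f, hf, h⟩
    have h5 := MemLocalIdeal.add hM (memLocalIdeal_sum hM _ _ hcon') hnon
    rw [← hlamsum] at h5
    exact not_memLocalIdeal_one h5
  obtain ⟨f, hfS, hfn⟩ := hex
  rw [Finset.mem_filter] at hfS
  have hfb : IsPBlock M f := (hSmem f).1 hfS.1
  have hst : ∀ n : Subgroup.normalizer (K : Set G), (n : G) ∈ P →
      ∀ θ, nAct K n θ ∈ f ↔ θ ∈ f := by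
    intro n hn θ
    have h1 := hfS.2
    rw [hSt] at h1
    exact Set.ext_iff.1 (h1 ⟨(n : G), hn⟩) θ
  refine ⟨f, hfb, hst, ?_⟩
  have h2 := specJ_value_mem hM (rtrunc_mul_sub_mem K P hpM hP hCK hPN
    (ind_mem_specRing K hM hfb) (ind_mem_specRing K hM hfb) (stable_ind K hst)
    (stable_ind K hst)) ξ₀
  rw [ind_mul_self] at h2
  simp only [Pi.sub_apply, Pi.mul_apply] at h2
  obtain ⟨t, ht⟩ : ∃ t, t = rtrunc K P (ind f) ξ₀ := ⟨_, rfl⟩
  rw [← ht] at h2 hfn ⊢
  have hr : MemLocalRing M t := by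
    rw [ht]
    exact spec_value_mem hM (rtrunc_mem_specRing K P hM hCK (ind_mem_specRing K hM hfb)) ξ₀
  have h3 : MemLocalIdeal M (t * (t - 1)) := by
    have e : t * (t - 1) = -(t - t * t) := by ring
    rw [e]
    exact MemLocalIdeal.neg h2
  exact (MemLocalIdeal.of_mul hM hr h3).resolve_left hfn

theorem stable_block_unique [Fact p.Prime] (hpM : IsPModular p M) (hP : IsPGroup p P)
    (hPN : P ≤ Subgroup.normalizer (K : Set G))
    (hCK : Subgroup.centralizer (P : Set G) ≤ K)
    (ξ₀ : IrrCharacter (Subgroup.centralizer (P : Set G)))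
    {f f' : Set (IrrCharacter K)} (hf : IsPBlock M f) (hf' : IsPBlock M f')
    (hs : ∀ n : Subgroup.normalizer (K : Set G), (n : G) ∈ P → ∀ θ, nAct K n θ ∈ f ↔ θ ∈ f)
    (hs' : ∀ n : Subgroup.normalizer (K : Set G), (n : G) ∈ P → ∀ θ, nAct K n θ ∈ f' ↔ θ ∈ f')
    (h : MemLocalIdeal M (rtrunc K P (ind f) ξ₀ - 1))
    (h' : MemLocalIdeal M (rtrunc K P (ind f') ξ₀ - 1)) : f = f' := by
  classical
  have hM := hpM.2.1.isPrime
  by_contra hne
  have e0 : ind f * ind f' = 0 := by
    funext θ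
    simp only [Pi.mul_apply, Pi.zero_apply]
    by_cases h1 : θ ∈ f
    · by_cases h2 : θ ∈ f'
      · exfalso
        apply hne
        rw [block_eq_blockOf_of_mem hM hf h1, block_eq_blockOf_of_mem hM hf' h2]
      · rw [ind_not_mem h2, mul_zero]
    · rw [ind_not_mem h1, zero_mul]
  have h2 := specJ_value_mem hM (rtrunc_mul_sub_mem K P hpM hP hCK hPN
    (ind_mem_specRing K hM hf) (ind_mem_specRing K hM hf') (stable_ind K hs)
    (stable_ind K hs')) ξ₀
  rw [e0, rtrunc_zero K P hCK] at h2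
  simp only [Pi.sub_apply, Pi.zero_apply, Pi.mul_apply, zero_sub] at h2
  have h3 := MemLocalIdeal.neg h2
  rw [neg_neg] at h3
  have hr : MemLocalRing M (rtrunc K P (ind f) ξ₀) :=
    spec_value_mem hM (rtrunc_mem_specRing K P hM hCK (ind_mem_specRing K hM hf)) ξ₀
  have h4 : ∀ t : ℂ, MemLocalIdeal M (t - 1) → ¬ MemLocalIdeal M t := by
    intro t ht ht'
    have h5 := MemLocalIdeal.sub hM ht' ht
    rw [sub_sub_cancel] at h5
    exact not_memLocalIdeal_one h5
  rcases MemLocalIdeal.of_mul hM hr h3 with h5 | h5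
  · exact h4 _ h h5
  · exact h4 _ h' h5

/-- Pushing a congruence through the relative Brauer map. -/
theorem push_iff [Fact p.Prime] (hpM : IsPModular p M) (hP : IsPGroup p P)
    (hPN : P ≤ Subgroup.normalizer (K : Set G))
    (hCK : Subgroup.centralizer (P : Set G) ≤ K)
    {g : Set (IrrCharacter K)} (hg : IsPBlock M g) (hgs : IsStable K P (ind g))
    {e : Set (IrrCharacter (Subgroup.centralizer (P : Set G)))} (he : IsPBlock M e)
    (hge : ∀ ξ' ∈ e, MemLocalIdeal M (rtrunc K P (ind g) ξ' - 1))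
    {U : IrrCharacter K → ℂ} (hU : U ∈ specRing K M hpM.2.1.isPrime) (hUs : IsStable K P U)
    (hUU : U * U - U ∈ specJ K M hpM.2.1.isPrime) :
    (∀ ξ ∈ g, MemLocalIdeal M (U ξ - 1)) ↔
      ∀ ξ' ∈ e, MemLocalIdeal M (rtrunc K P U ξ' - 1) := by
  classical
  have hM := hpM.2.1.isPrime
  have hgm := ind_mem_specRing K hM hg
  obtain ⟨ξ₁, hξ₁⟩ := block_nonempty hM hg
  have hmul := fun ξ' => specJ_value_mem hM
    (rtrunc_mul_sub_mem K P hpM hP hCK hPN hgm hU hgs hUs) ξ'
  have hur : ∀ ξ', MemLocalRing M (rtrunc K P U ξ') := fun ξ' =>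
    spec_value_mem hM (rtrunc_mem_specRing K P hM hCK hU) ξ'
  constructor
  · intro h ξ' hξ'
    have hV : ind g * (1 - U) ∈ specJ K M hM := by
      refine mem_specJ_of_idem hM ξ₁
        (Subring.mul_mem _ hgm (Subring.sub_mem _ (Subring.one_mem _) hU)) ?_ ?_
      · have e1 : ind g * (1 - U) * (ind g * (1 - U)) - ind g * (1 - U)
            = ind g * (U * U - U) := by
          calc ind g * (1 - U) * (ind g * (1 - U)) - ind g * (1 - U)
              = ind g * ind g * ((1 - U) * (1 - U)) - ind g * (1 - U) := by ring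
            _ = ind g * ((1 - U) * (1 - U)) - ind g * (1 - U) := by rw [ind_mul_self]
            _ = ind g * (U * U - U) := by ring
        rw [e1]
        exact mul_mem_specJ hM hgm hUU
      · intro ξ
        simp only [Pi.mul_apply, Pi.sub_apply, Pi.one_apply]
        by_cases hξ : ξ ∈ g
        · rw [ind_mem hξ, one_mul]
          have h5 := MemLocalIdeal.neg (h ξ hξ)
          rwa [neg_sub] at h5
        · rw [ind_not_mem hξ, zero_mul]
          exact MemLocalIdeal.zero hM.ne_top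
    have h1 := specJ_value_mem hM (rtrunc_mem_specJ K P hM hCK hV) ξ'
    have e2 : ind g * (1 - U) = ind g - ind g * U := by ring
    rw [e2, rtrunc_sub K P hCK] at h1
    have h2 := hmul ξ'
    simp only [Pi.sub_apply, Pi.mul_apply] at h1 h2
    have ha := hge ξ' hξ'
    have h3 := MemLocalIdeal.add hM (MemLocalIdeal.neg (MemLocalIdeal.add hM h1 h2))
      (MemLocalIdeal.mul_right hM ha (MemLocalRing.sub hM (MemLocalRing.one hM.ne_top) (hur ξ')))
    have e3 : ∀ a c u : ℂ, -(a - c + (c - a * u)) + (a - 1) * (1 - u) = u - 1 :=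
      fun a c u => by ring
    rw [e3] at h3
    exact h3
  · intro h
    obtain ⟨ξ', hξ'⟩ := block_nonempty hM he
    have hdich : ∀ ξ, MemLocalIdeal M (U ξ) ∨ MemLocalIdeal M (U ξ - 1) := by
      intro ξ
      have h1 := specJ_value_mem hM hUU ξ
      simp only [Pi.sub_apply, Pi.mul_apply] at h1
      have e1 : U ξ * U ξ - U ξ = U ξ * (U ξ - 1) := by ring
      rw [e1] at h1
      exact MemLocalIdeal.of_mul hM (spec_value_mem hM hU ξ) h1
    by_contra hcon
    have hcon' : ∃ ξ ∈ g, ¬ MemLocalIdeal M (U ξ - 1) := by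
      by_contra h'
      apply hcon
      intro ξ hξ
      by_contra h''
      exact h' ⟨ξ, hξ, h''⟩
    obtain ⟨ξ₂, hξ₂, hnot⟩ := hcon'
    have h0 : MemLocalIdeal M (U ξ₂) := (hdich ξ₂).resolve_right hnot
    have hall : ∀ ξ ∈ g, MemLocalIdeal M (U ξ) := by
      intro ξ hξ
      have h1 := spec_sub_mem hM hU (sameBlock_of_mem_block hM hg hξ hξ₂)
      have h2 := MemLocalIdeal.add hM h1 h0
      rwa [sub_add_cancel] at h2
    have hW : ind g * U ∈ specJ K M hM := by
      refine mem_specJ_of_idem hM ξ₁ (Subring.mul_mem _ hgm hU) ?_ ?_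
      · have e1 : ind g * U * (ind g * U) - ind g * U = ind g * (U * U - U) := by
          calc ind g * U * (ind g * U) - ind g * U
              = ind g * ind g * (U * U) - ind g * U := by ring
            _ = ind g * (U * U) - ind g * U := by rw [ind_mul_self]
            _ = ind g * (U * U - U) := by ring
        rw [e1]
        exact mul_mem_specJ hM hgm hUU
      · intro ξ
        simp only [Pi.mul_apply]
        by_cases hξ : ξ ∈ g
        · rw [ind_mem hξ, one_mul]
          exact hall ξ hξ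
        · rw [ind_not_mem hξ, zero_mul]
          exact MemLocalIdeal.zero hM.ne_top
    have h1 := specJ_value_mem hM (rtrunc_mem_specJ K P hM hCK hW) ξ'
    have h2 := hmul ξ'
    simp only [Pi.sub_apply, Pi.mul_apply] at h2
    have ha := hge ξ' hξ'
    have hu1 := h ξ' hξ'
    have h3 := MemLocalIdeal.sub hM (MemLocalIdeal.sub hM (MemLocalIdeal.sub hM h1 h2)
      (MemLocalIdeal.mul_right hM ha (hur ξ'))) hu1
    have e3 : ∀ a c u : ℂ, c - (c - a * u) - (a - 1) * u - (u - 1) = 1 :=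
      fun a c u => by ring
    rw [e3] at h3
    exact not_memLocalIdeal_one h3

end Pairs

end Cfsg.Agent.Helper25
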