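import Cfsg.Agent.Helper25.RelBrauer

set_option autoImplicit false
set_option linter.unusedSectionVars false

/-!
# Normal inclusion of Brauer pairs (helper25)
-/

namespace Cfsg.Agent.Helper25

open Cfsg
open scoped ComplexConjugate

section Step

variable {G : Type*} [Group G] [Fintype G] {p : ℕ} {M : Ideal AlgInt}

theorem blockCoeff_eq_ind' {H : Type*} [Group H] [Fintype H] [Fintype (IrrCharacter H)]
    (B : Set (IrrCharacter H)) (g : H) : blockCoeff B g = coeffT (ind B) g := by
  classical
  rw [ind_eq, blockCoeff_eq_coeffT]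

theorem ind_mem_specRing' {H : Type*} [Group H] [Fintype H] [Fintype (IrrCharacter H)]
    (hM : M.IsPrime) {B : Set (IrrCharacter H)} (hB : IsPBlock M B) :
    ind B ∈ specRing H M hM := by
  classical
  rw [ind_eq]
  exact block_indicator_mem hM hB

/-- The truncation to `C(Q)` of the idempotent of a block of `G`: its properties. -/
theorem truncB_props [Fact p.Prime] (hpM : IsPModular p M) (Q : Subgroup G) (hQ : IsPGroup p Q)
    [Fintype (IrrCharacter G)] [Fintype (Subgroup.centralizer (Q : Set G))]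
    [Fintype (IrrCharacter (Subgroup.centralizer (Q : Set G)))]
    (B : Set (IrrCharacter G)) (hB : IsPBlock M B) :
    ∃ U : IrrCharacter (Subgroup.centralizer (Q : Set G)) → ℂ,
      U ∈ specRing (Subgroup.centralizer (Q : Set G)) M hpM.2.1.isPrime ∧
      U * U - U ∈ specJ (Subgroup.centralizer (Q : Set G)) M hpM.2.1.isPrime ∧
      (∀ k : Subgroup.centralizer (Q : Set G), coeffT U k = blockCoeff B (k : G)) ∧
      (∀ ξ : IrrCharacter (Subgroup.centralizer (Q : Set G)),
        brauerOmega Q (blockCoeff B) (ξ : Subgroup.centralizer (Q : Set G) → ℂ) = U ξ) := by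
  classical
  have hM := hpM.2.1.isPrime
  have hHN := Subgroup.centralizer_le_normalizer (Q : Set G)
  have hΦ : ind B ∈ specRing G M hM := ind_mem_specRing' hM hB
  have hc : ∀ k : Subgroup.centralizer (Q : Set G),
      coeffT (trunc Q (Subgroup.centralizer (Q : Set G)) (ind B)) k = blockCoeff B (k : G) := by
    intro k
    rw [coeffT_trunc Q _ hHN, if_pos k.2, blockCoeff_eq_ind']
  refine ⟨trunc Q (Subgroup.centralizer (Q : Set G)) (ind B),
    trunc_mem_specRing hM Q _ hHN hΦ, ?_, hc, ?_⟩
  · have h1 := trunc_mul_sub_mem hpM Q (Subgroup.centralizer (Q : Set G)) hQ le_rfl hHN hΦ hΦ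
    rw [ind_mul_self] at h1
    have h2 := neg_mem h1
    rwa [neg_sub] at h2
  · intro ξ
    rw [brauerOmega_eq_sum]
    unfold trunc
    refine Finset.sum_congr rfl fun x _ => ?_
    rw [if_pos x.2, blockCoeff_eq_ind']

/-- A normal inclusion of Brauer pairs preserves the block. -/
theorem normalSubpair_brauerPairOf_iff [Fact p.Prime] (hpM : IsPModular p M)
    (Q P : Subgroup G) (f : Set (IrrCharacter (Subgroup.centralizer (Q : Set G))))
    (e : Set (IrrCharacter (Subgroup.centralizer (P : Set G))))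
    (h : IsNormalSubpair p M Q f P e) (B : Set (IrrCharacter G)) (hB : IsPBlock M B) :
    IsBrauerPairOf p M B P e ↔ IsBrauerPairOf p M B Q f := by
  classical
  have hM := hpM.2.1.isPrime
  have := Helper24.finite_irrCharacter (G := G)
  have : Fintype (IrrCharacter G) := Fintype.ofFinite _
  have : Fintype (Subgroup.centralizer (Q : Set G)) := Fintype.ofFinite _
  have := Helper24.finite_irrCharacter (G := Subgroup.centralizer (Q : Set G))
  have : Fintype (IrrCharacter (Subgroup.centralizer (Q : Set G))) := Fintype.ofFinite _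
  have : Fintype (Subgroup.centralizer (P : Set G)) := Fintype.ofFinite _
  have := Helper24.finite_irrCharacter (G := Subgroup.centralizer (P : Set G))
  have : Fintype (IrrCharacter (Subgroup.centralizer (P : Set G))) := Fintype.ofFinite _
  obtain ⟨⟨hQ, hf⟩, ⟨hP, he⟩, hQP, hPN, hst, h1⟩ := h
  have hCK : Subgroup.centralizer (P : Set G) ≤ Subgroup.centralizer (Q : Set G) :=
    Subgroup.centralizer_le hQP
  have hPNK := le_trans hPN (normalizer_le_normalizer_centralizer' Q)
  have hs := (stabilizes_iff (Subgroup.centralizer (Q : Set G)) P hPNK f).1 hst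
  obtain ⟨U, hU, hUU, hUc, hUb⟩ := truncB_props hpM Q hQ B hB
  have hUs : IsStable (Subgroup.centralizer (Q : Set G)) P U := by
    apply stable_of_coeff
    intro n hn k
    rw [hUc, hUc, nMH_coe]
    have h2 := blockCoeff_eq_ind' B ((n : G) * (k : G) * (n : G)⁻¹)
    have h3 := blockCoeff_eq_ind' B (k : G)
    rw [h2, h3]
    exact coeffT_isClassFunction (ind B) (k : G) (n : G)
  have hge : ∀ ξ' ∈ e, MemLocalIdeal M
      (rtrunc (Subgroup.centralizer (Q : Set G)) P (ind f) ξ' - 1) := by
    intro ξ' hξ'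
    have h2 := h1 ξ' hξ'
    rwa [brauerOmega_subgroupBlockCoeff (Subgroup.centralizer (Q : Set G)) P hCK] at h2
  have hβ : ∀ ξ' : IrrCharacter (Subgroup.centralizer (P : Set G)),
      brauerOmega P (blockCoeff B) (ξ' : Subgroup.centralizer (P : Set G) → ℂ)
        = rtrunc (Subgroup.centralizer (Q : Set G)) P U ξ' := by
    intro ξ'
    rw [brauerOmega_eq_sum, rtrunc_eq _ P hCK]
    refine Finset.sum_congr rfl fun x _ => ?_
    rw [hUc]
  have hpush := push_iff (Subgroup.centralizer (Q : Set G)) P hpM hP hPNK hCK hf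
    (stable_ind _ hs) he hge hU hUs hUU
  constructor
  · rintro ⟨-, -, h2⟩
    refine ⟨⟨hQ, hf⟩, hB, fun ξ hξ => ?_⟩
    rw [hUb]
    refine hpush.2 (fun ξ' hξ' => ?_) ξ hξ
    rw [← hβ]
    exact h2 ξ' hξ'
  · rintro ⟨-, -, h2⟩
    refine ⟨⟨hP, he⟩, hB, fun ξ' hξ' => ?_⟩
    rw [hβ]
    refine hpush.1 (fun ξ hξ => ?_) ξ' hξ'
    rw [← hUb]
    exact h2 ξ hξ

end Step

end Cfsg.Agent.Helper25
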