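import Cfsg.Agent.Helper25.RelBrauer2
import Cfsg.Agent.Helper12.AlpInd

set_option autoImplicit false
set_option linter.unusedSectionVars false

/-!
# Inclusion of Brauer pairs: existence and uniqueness below a given pair (helper25)
-/

namespace Cfsg.Agent.Helper25

open Cfsg
open scoped ComplexConjugate

section Equivariance

variable {G : Type*} [Group G] [Fintype G] {p : ℕ} {M : Ideal AlgInt}

theorem isPBlock_nAct_preimage (K : Subgroup G) [Fintype K]
    (n : Subgroup.normalizer (K : Set G)) {f : Set (IrrCharacter K)} (hf : IsPBlock M f) :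
    IsPBlock M {θ : IrrCharacter K | nAct K n θ ∈ f} := by
  obtain ⟨θ₀, rfl⟩ := hf
  refine ⟨nAct K n⁻¹ θ₀, ?_⟩
  ext θ
  show nAct K n θ ∈ blockOf M (θ₀ : K → ℂ) ↔ _
  rw [mem_blockOf, mem_blockOf]
  constructor
  · intro h
    have h2 := sameBlock_nAct (M := M) K n⁻¹ h
    rwa [nAct_inv_left] at h2
  · intro h
    have h2 := sameBlock_nAct (M := M) K n h
    rwa [nAct_inv_right] at h2

theorem ind_nAct_preimage (K : Subgroup G) [Fintype K] (n : Subgroup.normalizer (K : Set G))
    (f : Set (IrrCharacter K)) :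
    ind {θ : IrrCharacter K | nAct K n θ ∈ f} = fun θ => ind f (nAct K n θ) := by
  funext θ
  by_cases h : nAct K n θ ∈ f
  · rw [ind_mem h]
    exact ind_mem h
  · rw [ind_not_mem h]
    exact ind_not_mem h

theorem rtrunc_nAct (K R : Subgroup G) [Fintype K] [Fintype (IrrCharacter K)]
    [Fintype (Subgroup.centralizer (R : Set G))]
    [Fintype (IrrCharacter (Subgroup.centralizer (R : Set G)))]
    (hCK : Subgroup.centralizer (R : Set G) ≤ K) (Φ : IrrCharacter K → ℂ)
    (n : Subgroup.normalizer (K : Set G))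
    (m : Subgroup.normalizer ((Subgroup.centralizer (R : Set G) : Subgroup G) : Set G))
    (hnm : (n : G) = (m : G)) (ξ : IrrCharacter (Subgroup.centralizer (R : Set G))) :
    rtrunc K R (fun θ => Φ (nAct K n θ)) ξ
      = rtrunc K R Φ (nAct (Subgroup.centralizer (R : Set G)) m ξ) := by
  rw [rtrunc_eq K R hCK, rtrunc_eq K R hCK,
    ← Equiv.sum_comp ((Subgroup.centralizer (R : Set G)).normalizerMonoidHom m).toEquiv
      (fun x : Subgroup.centralizer (R : Set G) =>
        coeffT (fun θ => Φ (nAct K n θ)) ⟨(x : G), hCK x.2⟩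
          * ((ξ : Subgroup.centralizer (R : Set G) → ℂ) x
            / (ξ : Subgroup.centralizer (R : Set G) → ℂ) 1))]
  refine Finset.sum_congr rfl fun y _ => ?_
  rw [nAct_apply, nAct_apply, map_one]
  have e : (⟨((((Subgroup.centralizer (R : Set G)).normalizerMonoidHom m) y :
        Subgroup.centralizer (R : Set G)) : G),
        hCK (((Subgroup.centralizer (R : Set G)).normalizerMonoidHom m) y).2⟩ : K)
      = K.normalizerMonoidHom n ⟨(y : G), hCK y.2⟩ := by
    apply Subtype.ext
    rw [nMH_coe, nMH_coe, hnm]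
  show coeffT (fun θ => Φ (nAct K n θ))
      ⟨((((Subgroup.centralizer (R : Set G)).normalizerMonoidHom m) y :
        Subgroup.centralizer (R : Set G)) : G), _⟩ * _ = _
  rw [e, coeffT_nAct]
  rfl

theorem rtrunc_rtrunc (K R P : Subgroup G) [Fintype K] [Fintype (IrrCharacter K)]
    [Fintype (Subgroup.centralizer (R : Set G))]
    [Fintype (IrrCharacter (Subgroup.centralizer (R : Set G)))]
    [Fintype (Subgroup.centralizer (P : Set G))]
    (hCRK : Subgroup.centralizer (R : Set G) ≤ K)
    (hCPR : Subgroup.centralizer (P : Set G) ≤ Subgroup.centralizer (R : Set G))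
    (Φ : IrrCharacter K → ℂ) :
    rtrunc (Subgroup.centralizer (R : Set G)) P (rtrunc K R Φ) = rtrunc K P Φ := by
  funext ξ
  rw [rtrunc_eq _ P hCPR, rtrunc_eq K P (le_trans hCPR hCRK)]
  refine Finset.sum_congr rfl fun x _ => ?_
  rw [coeffT_rtrunc K R hCRK]

end Equivariance

section Normal

variable {G : Type*} [Group G] [Fintype G] {p : ℕ} {M : Ideal AlgInt}

/-- Below a Brauer pair `(P, e)` and on a normal subgroup `Q` of `P` there is exactly one
normal subpair. -/
theorem normalSubpair_existsUnique [Fact p.Prime] (hM : IsPModular p M) (P Q : Subgroup G)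
    (e : Set (IrrCharacter (Subgroup.centralizer (P : Set G)))) (hPe : IsBrauerPair p M P e)
    (hQP : Q ≤ P) (hPN : P ≤ Subgroup.normalizer (Q : Set G)) :
    ∃! f : Set (IrrCharacter (Subgroup.centralizer (Q : Set G))),
      IsNormalSubpair p M Q f P e := by
  classical
  have hMp := hM.2.1.isPrime
  have : Fintype (Subgroup.centralizer (Q : Set G)) := Fintype.ofFinite _
  have := Helper24.finite_irrCharacter (G := Subgroup.centralizer (Q : Set G))
  have : Fintype (IrrCharacter (Subgroup.centralizer (Q : Set G))) := Fintype.ofFinite _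
  have : Fintype (Subgroup.centralizer (P : Set G)) := Fintype.ofFinite _
  have := Helper24.finite_irrCharacter (G := Subgroup.centralizer (P : Set G))
  have : Fintype (IrrCharacter (Subgroup.centralizer (P : Set G))) := Fintype.ofFinite _
  obtain ⟨hP, he⟩ := hPe
  have hQ : IsPGroup p Q := hP.to_le hQP
  have hCK : Subgroup.centralizer (P : Set G) ≤ Subgroup.centralizer (Q : Set G) :=
    Subgroup.centralizer_le hQP
  have hPNK := le_trans hPN (normalizer_le_normalizer_centralizer' Q)
  obtain ⟨ξ₀, hξ₀⟩ := block_nonempty hMp he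
  obtain ⟨f, hf, hfs, hf1⟩ :=
    exists_stable_block (Subgroup.centralizer (Q : Set G)) P hM hP hPNK hCK ξ₀
  have hfin : ∀ f' : Set (IrrCharacter (Subgroup.centralizer (Q : Set G))), IsPBlock M f' →
      (∀ n : Subgroup.normalizer ((Subgroup.centralizer (Q : Set G) : Subgroup G) : Set G),
        (n : G) ∈ P → ∀ θ, nAct (Subgroup.centralizer (Q : Set G)) n θ ∈ f' ↔ θ ∈ f') →
      MemLocalIdeal M (rtrunc (Subgroup.centralizer (Q : Set G)) P (ind f') ξ₀ - 1) →
      IsNormalSubpair p M Q f' P e := by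
    intro f' hf' hs' h1
    refine ⟨⟨hQ, hf'⟩, ⟨hP, he⟩, hQP, hPN,
      (stabilizes_iff (Subgroup.centralizer (Q : Set G)) P hPNK f').2 hs', fun ξ hξ => ?_⟩
    rw [brauerOmega_subgroupBlockCoeff (Subgroup.centralizer (Q : Set G)) P hCK]
    have h2 := spec_sub_mem hMp (rtrunc_mem_specRing (Subgroup.centralizer (Q : Set G)) P hMp hCK
      (ind_mem_specRing (Subgroup.centralizer (Q : Set G)) hMp hf'))
      (sameBlock_of_mem_block hMp he hξ hξ₀)
    have h3 := MemLocalIdeal.add hMp h2 h1
    rwa [sub_add_sub_cancel] at h3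
  refine ⟨f, hfin f hf hfs hf1, ?_⟩
  rintro f' ⟨⟨-, hf'⟩, -, -, -, hst', h1'⟩
  have hs' := (stabilizes_iff (Subgroup.centralizer (Q : Set G)) P hPNK f').1 hst'
  have h2 := h1' ξ₀ hξ₀
  rw [brauerOmega_subgroupBlockCoeff (Subgroup.centralizer (Q : Set G)) P hCK] at h2
  exact stable_block_unique (Subgroup.centralizer (Q : Set G)) P hM hP hPNK hCK ξ₀ hf' hf hs' hfs
    h2 hf1

theorem normalSubpair_self [Fact p.Prime] (hpM : IsPModular p M) (P : Subgroup G)
    (f e : Set (IrrCharacter (Subgroup.centralizer (P : Set G))))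
    (h : IsNormalSubpair p M P f P e) : f = e := by
  classical
  have hM := hpM.2.1.isPrime
  have : Fintype (Subgroup.centralizer (P : Set G)) := Fintype.ofFinite _
  have := Helper24.finite_irrCharacter (G := Subgroup.centralizer (P : Set G))
  have : Fintype (IrrCharacter (Subgroup.centralizer (P : Set G))) := Fintype.ofFinite _
  obtain ⟨⟨-, hf⟩, ⟨-, he⟩, -, -, -, h1⟩ := h
  obtain ⟨ξ, hξ⟩ := block_nonempty hM he
  have h2 := h1 ξ hξ
  rw [brauerOmega_subgroupBlockCoeff (Subgroup.centralizer (P : Set G)) P le_rfl] at h2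
  have e1 : rtrunc (Subgroup.centralizer (P : Set G)) P (ind f) ξ = ind f ξ := by
    apply spec_ext
    intro x
    rw [coeffT_rtrunc _ P le_rfl]
  rw [e1] at h2
  have hξf : ξ ∈ f := by
    by_contra hn
    rw [ind_not_mem hn, zero_sub] at h2
    have h3 := MemLocalIdeal.neg h2
    rw [neg_neg] at h3
    exact not_memLocalIdeal_one h3
  rw [block_eq_blockOf_of_mem hM hf hξf, block_eq_blockOf_of_mem hM he hξ]

/-- Transitivity of normal inclusion when the smallest group is normal in the largest. -/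
theorem normalSubpair_trans [Fact p.Prime] (hpM : IsPModular p M) (Q R P : Subgroup G)
    (f : Set (IrrCharacter (Subgroup.centralizer (Q : Set G))))
    (g : Set (IrrCharacter (Subgroup.centralizer (R : Set G))))
    (e : Set (IrrCharacter (Subgroup.centralizer (P : Set G))))
    (h1 : IsNormalSubpair p M Q f R g) (h2 : IsNormalSubpair p M R g P e)
    (hPNQ : P ≤ Subgroup.normalizer (Q : Set G)) : IsNormalSubpair p M Q f P e := by
  classical
  have hM := hpM.2.1.isPrime
  have : Fintype (Subgroup.centralizer (Q : Set G)) := Fintype.ofFinite _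
  have := Helper24.finite_irrCharacter (G := Subgroup.centralizer (Q : Set G))
  have : Fintype (IrrCharacter (Subgroup.centralizer (Q : Set G))) := Fintype.ofFinite _
  have : Fintype (Subgroup.centralizer (R : Set G)) := Fintype.ofFinite _
  have := Helper24.finite_irrCharacter (G := Subgroup.centralizer (R : Set G))
  have : Fintype (IrrCharacter (Subgroup.centralizer (R : Set G))) := Fintype.ofFinite _
  have : Fintype (Subgroup.centralizer (P : Set G)) := Fintype.ofFinite _
  have := Helper24.finite_irrCharacter (G := Subgroup.centralizer (P : Set G))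
  have : Fintype (IrrCharacter (Subgroup.centralizer (P : Set G))) := Fintype.ofFinite _
  have h1' := h1
  obtain ⟨⟨hQ, hf⟩, ⟨hR, hg⟩, hQR, hRNQ, hstf, hf1⟩ := h1
  obtain ⟨-, ⟨hP, he⟩, hRP, hPNR, hstg, hg1⟩ := h2
  have hQP := le_trans hQR hRP
  have hCQR : Subgroup.centralizer (R : Set G) ≤ Subgroup.centralizer (Q : Set G) :=
    Subgroup.centralizer_le hQR
  have hCRP : Subgroup.centralizer (P : Set G) ≤ Subgroup.centralizer (R : Set G) :=
    Subgroup.centralizer_le hRP
  have hCQP := le_trans hCRP hCQR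
  have hRNKQ := le_trans hRNQ (normalizer_le_normalizer_centralizer' Q)
  have hPNKQ := le_trans hPNQ (normalizer_le_normalizer_centralizer' Q)
  have hPNKR := le_trans hPNR (normalizer_le_normalizer_centralizer' R)
  have hsf := (stabilizes_iff (Subgroup.centralizer (Q : Set G)) R hRNKQ f).1 hstf
  have hsg := (stabilizes_iff (Subgroup.centralizer (R : Set G)) P hPNKR g).1 hstg
  have hf1' : ∀ ξ ∈ g, MemLocalIdeal M
      (rtrunc (Subgroup.centralizer (Q : Set G)) R (ind f) ξ - 1) := by
    intro ξ hξ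
    have h3 := hf1 ξ hξ
    rwa [brauerOmega_subgroupBlockCoeff _ R hCQR] at h3
  have hg1' : ∀ ξ' ∈ e, MemLocalIdeal M
      (rtrunc (Subgroup.centralizer (R : Set G)) P (ind g) ξ' - 1) := by
    intro ξ' hξ'
    have h3 := hg1 ξ' hξ'
    rwa [brauerOmega_subgroupBlockCoeff _ P hCRP] at h3
  have hsfP : ∀ n : Subgroup.normalizer
      ((Subgroup.centralizer (Q : Set G) : Subgroup G) : Set G), (n : G) ∈ P →
      ∀ θ, nAct (Subgroup.centralizer (Q : Set G)) n θ ∈ f ↔ θ ∈ f := by
    intro n hn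
    have hf'' : IsNormalSubpair p M Q
        {θ | nAct (Subgroup.centralizer (Q : Set G)) n θ ∈ f} R g := by
      refine ⟨⟨hQ, isPBlock_nAct_preimage _ n hf⟩, ⟨hR, hg⟩, hQR, hRNQ,
        (stabilizes_iff (Subgroup.centralizer (Q : Set G)) R hRNKQ _).2 ?_, ?_⟩
      · intro m hm θ
        show nAct _ n (nAct _ m θ) ∈ f ↔ nAct _ n θ ∈ f
        have e1 : m * n = n * (n⁻¹ * m * n) := by group
        rw [← nAct_mul, e1, nAct_mul]
        refine hsf (n⁻¹ * m * n) ?_ _
        show (n : G)⁻¹ * (m : G) * (n : G) ∈ R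
        have hn' : (n : G)⁻¹ ∈ Subgroup.normalizer (R : Set G) := hPNR (P.inv_mem hn)
        have h3 := (hn' (m : G)).1 hm
        rwa [inv_inv] at h3
      · intro ξ hξ
        rw [brauerOmega_subgroupBlockCoeff _ R hCQR, ind_nAct_preimage,
          rtrunc_nAct (Subgroup.centralizer (Q : Set G)) R hCQR (ind f) n
            ⟨(n : G), hPNKR hn⟩ rfl ξ]
        exact hf1' _ ((hsg ⟨(n : G), hPNKR hn⟩ hn ξ).2 hξ)
    have heq := (normalSubpair_existsUnique hpM R Q g ⟨hR, hg⟩ hQR hRNQ).unique hf'' h1'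
    intro θ
    exact Set.ext_iff.1 heq θ
  have hfm := ind_mem_specRing (Subgroup.centralizer (Q : Set G)) hM hf
  have hU : rtrunc (Subgroup.centralizer (Q : Set G)) R (ind f)
      ∈ specRing (Subgroup.centralizer (R : Set G)) M hM := rtrunc_mem_specRing _ R hM hCQR hfm
  have hUU : rtrunc (Subgroup.centralizer (Q : Set G)) R (ind f)
      * rtrunc (Subgroup.centralizer (Q : Set G)) R (ind f)
      - rtrunc (Subgroup.centralizer (Q : Set G)) R (ind f)
      ∈ specJ (Subgroup.centralizer (R : Set G)) M hM := by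
    have h3 := rtrunc_mul_sub_mem (Subgroup.centralizer (Q : Set G)) R hpM hR hCQR hRNKQ hfm hfm
      (stable_ind _ hsf) (stable_ind _ hsf)
    rw [ind_mul_self] at h3
    have h4 := neg_mem h3
    rwa [neg_sub] at h4
  have hUs : IsStable (Subgroup.centralizer (R : Set G)) P
      (rtrunc (Subgroup.centralizer (Q : Set G)) R (ind f)) := by
    apply stable_of_coeff
    intro m hm k
    rw [coeffT_rtrunc _ R hCQR, coeffT_rtrunc _ R hCQR]
    exact stable_coeff (Subgroup.centralizer (Q : Set G)) (stable_ind _ hsfP)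
      ⟨(m : G), hPNKQ hm⟩ hm ⟨(k : G), hCQR k.2⟩
  have hpush := push_iff (Subgroup.centralizer (R : Set G)) P hpM hP hPNKR hCRP hg
    (stable_ind _ hsg) he hg1' hU hUs hUU
  refine ⟨⟨hQ, hf⟩, ⟨hP, he⟩, hQP, hPNQ,
    (stabilizes_iff (Subgroup.centralizer (Q : Set G)) P hPNKQ f).2 hsfP, fun ξ' hξ' => ?_⟩
  rw [brauerOmega_subgroupBlockCoeff _ P hCQP,
    ← rtrunc_rtrunc (Subgroup.centralizer (Q : Set G)) R P hCQR hCRP]
  exact hpush.1 hf1' ξ' hξ'

end Normal

section Chain

variable {G : Type*} [Group G] [Fintype G] {p : ℕ} {M : Ideal AlgInt}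

theorem subpairLE_le {a b : BrauerPairIdx G}
    (h : Relation.ReflTransGen (NormalSubpairRel p M) a b) : a.1 ≤ b.1 := by
  induction h with
  | refl => exact le_rfl
  | tail _ hbc ih => exact le_trans ih hbc.2.2.1

theorem normalSubpair_sigma_eq [Fact p.Prime] (hpM : IsPModular p M) {b c : BrauerPairIdx G}
    (h : NormalSubpairRel p M b c) (heq : b.1 = c.1) : b = c := by
  obtain ⟨Q, f⟩ := b
  obtain ⟨P, e⟩ := c
  simp only at heq
  subst heq
  have h1 := normalSubpair_self hpM Q f e h
  rw [h1]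

theorem subpairLE_eq_of_eq [Fact p.Prime] (hpM : IsPModular p M) {a b : BrauerPairIdx G}
    (h : Relation.ReflTransGen (NormalSubpairRel p M) a b) (heq : a.1 = b.1) : a = b := by
  induction h with
  | refl => rfl
  | tail hab hbc ih =>
    have h1 := subpairLE_le hab
    have h2 := hbc.2.2.1
    have h3 := le_antisymm h2 (heq ▸ h1)
    have h4 := normalSubpair_sigma_eq hpM hbc h3
    subst h4
    exact ih heq

theorem exists_last_step [Fact p.Prime] (hpM : IsPModular p M) {a b : BrauerPairIdx G}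
    (h : Relation.ReflTransGen (NormalSubpairRel p M) a b) (hne : a.1 ≠ b.1) :
    ∃ c, Relation.ReflTransGen (NormalSubpairRel p M) a c ∧ NormalSubpairRel p M c b ∧
      c.1 ≠ b.1 := by
  induction h with
  | refl => exact absurd rfl hne
  | @tail b' c' hab hbc ih =>
    by_cases heq : b'.1 = c'.1
    · have h4 := normalSubpair_sigma_eq hpM hbc heq
      subst h4
      exact ih hne
    · exact ⟨b', hab, hbc, heq⟩

theorem subpair_exists [Fact p.Prime] (hpM : IsPModular p M) (P : Subgroup G)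
    (e : Set (IrrCharacter (Subgroup.centralizer (P : Set G)))) (hPe : IsBrauerPair p M P e) :
    ∀ (d : ℕ) (Q : Subgroup G), Q ≤ P → Nat.card P - Nat.card Q = d →
      ∃ f : Set (IrrCharacter (Subgroup.centralizer (Q : Set G))),
        IsPBlock M f ∧ SubpairLE p M Q f P e := by
  intro d
  induction d using Nat.strong_induction_on with
  | _ d ih =>
    intro Q hQP hd
    by_cases hne : Q = P
    · subst hne
      exact ⟨e, hPe.2, Relation.ReflTransGen.refl⟩
    · have hlt := Helper12.card_lt_card_inf_normalizer hPe.1 hQP hne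
      obtain ⟨Q₁, hQ₁⟩ : ∃ Q₁ : Subgroup G, Q₁ = P ⊓ Subgroup.normalizer (Q : Set G) :=
        ⟨_, rfl⟩
      have hQ₁P : Q₁ ≤ P := by
        rw [hQ₁]
        exact inf_le_left
      have hQ₁N : Q₁ ≤ Subgroup.normalizer (Q : Set G) := by
        rw [hQ₁]
        exact inf_le_right
      have hQQ₁ : Q ≤ Q₁ := by
        rw [hQ₁]
        exact le_inf hQP Subgroup.le_normalizer
      have hcard : Nat.card Q₁ ≤ Nat.card P := Subgroup.card_le_of_le hQ₁P
      have hlt' : Nat.card Q < Nat.card Q₁ := by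
        rw [hQ₁]
        exact hlt
      obtain ⟨f₁, hf₁, hle₁⟩ := ih (Nat.card P - Nat.card Q₁) (by omega) Q₁ hQ₁P rfl
      have hpair₁ : IsBrauerPair p M Q₁ f₁ := ⟨hPe.1.to_le hQ₁P, hf₁⟩
      obtain ⟨f, hf, -⟩ := normalSubpair_existsUnique hpM Q₁ Q f₁ hpair₁ hQQ₁ hQ₁N
      have hrel : NormalSubpairRel p M (⟨Q, f⟩ : BrauerPairIdx G) ⟨Q₁, f₁⟩ := hf
      exact ⟨f, hf.1.2, Relation.ReflTransGen.head hrel hle₁⟩

theorem subpair_unique [Fact p.Prime] (hpM : IsPModular p M) :
    ∀ (n : ℕ) (P : Subgroup G) (e : Set (IrrCharacter (Subgroup.centralizer (P : Set G)))),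
      IsBrauerPair p M P e → Nat.card P = n →
      ∀ (Q : Subgroup G) (f f' : Set (IrrCharacter (Subgroup.centralizer (Q : Set G)))),
        SubpairLE p M Q f P e → SubpairLE p M Q f' P e → f = f' := by
  intro n
  induction n using Nat.strong_induction_on with
  | _ n ih =>
    intro P e hPe hn Q f f' h h'
    have hQP : Q ≤ P := subpairLE_le h
    by_cases hne : Q = P
    · have e1 := subpairLE_eq_of_eq hpM h hne
      have e2 := subpairLE_eq_of_eq hpM h' hne
      have e3 : (⟨Q, f⟩ : BrauerPairIdx G) = ⟨Q, f'⟩ := e1.trans e2.symm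
      exact eq_of_heq (Sigma.mk.inj e3).2
    · obtain ⟨⟨R₁, g₁⟩, hc₁, hr₁, hne₁⟩ := exists_last_step hpM h hne
      obtain ⟨⟨R₂, g₂⟩, hc₂, hr₂, hne₂⟩ := exists_last_step hpM h' hne
      have hr₁' : IsNormalSubpair p M R₁ g₁ P e := hr₁
      have hr₂' : IsNormalSubpair p M R₂ g₂ P e := hr₂
      obtain ⟨D, hD⟩ : ∃ D : Subgroup G, D = R₁ ⊓ R₂ := ⟨_, rfl⟩
      have hQR₁ : Q ≤ R₁ := subpairLE_le hc₁
      have hQR₂ : Q ≤ R₂ := subpairLE_le hc₂
      have hQD : Q ≤ D := by
        rw [hD]
        exact le_inf hQR₁ hQR₂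
      have hDR₁ : D ≤ R₁ := by
        rw [hD]
        exact inf_le_left
      have hDR₂ : D ≤ R₂ := by
        rw [hD]
        exact inf_le_right
      have hR₁P := hr₁'.2.2.1
      have hR₂P := hr₂'.2.2.1
      have hPN₁ := hr₁'.2.2.2.1
      have hPN₂ := hr₂'.2.2.2.1
      have hPND : P ≤ Subgroup.normalizer (D : Set G) := by
        intro x hx
        have h1 := hPN₁ hx
        have h2 := hPN₂ hx
        intro y
        rw [hD]
        exact ⟨fun hy => ⟨(h1 y).1 hy.1, (h2 y).1 hy.2⟩,
          fun hy => ⟨(h1 y).2 hy.1, (h2 y).2 hy.2⟩⟩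
      have hDP := le_trans hDR₁ hR₁P
      obtain ⟨h₀, hh₀, hh₀u⟩ := normalSubpair_existsUnique hpM P D e hPe hDP hPND
      have hstep : ∀ (R : Subgroup G) (g : Set (IrrCharacter (Subgroup.centralizer (R : Set G)))),
          IsNormalSubpair p M R g P e → D ≤ R → IsNormalSubpair p M D h₀ R g := by
        intro R g hR hDR
        obtain ⟨h', hh', -⟩ := normalSubpair_existsUnique hpM R D g hR.1 hDR
          (le_trans hR.2.2.1 hPND)
        have h3 := normalSubpair_trans hpM D R P h' g e hh' hR hPND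
        have h4 := hh₀u h' h3
        rw [← h4]
        exact hh'
      have hs₁ := hstep R₁ g₁ hr₁' hDR₁
      have hs₂ := hstep R₂ g₂ hr₂' hDR₂
      obtain ⟨f₀, hf₀, hle₀⟩ := subpair_exists hpM D h₀ hh₀.1 _ Q hQD rfl
      have hle₁ : SubpairLE p M Q f₀ R₁ g₁ := Relation.ReflTransGen.tail hle₀ hs₁
      have hle₂ : SubpairLE p M Q f₀ R₂ g₂ := Relation.ReflTransGen.tail hle₀ hs₂
      have hcard₁ : Nat.card R₁ < n := by
        rw [← hn]
        exact lt_of_le_of_ne (Subgroup.card_le_of_le hR₁P)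
          (fun h => hne₁ (Subgroup.eq_of_le_of_card_ge hR₁P h.ge))
      have hcard₂ : Nat.card R₂ < n := by
        rw [← hn]
        exact lt_of_le_of_ne (Subgroup.card_le_of_le hR₂P)
          (fun h => hne₂ (Subgroup.eq_of_le_of_card_ge hR₂P h.ge))
      have e1 := ih _ hcard₁ R₁ g₁ hr₁'.1 rfl Q f f₀ hc₁ hle₁
      have e2 := ih _ hcard₂ R₂ g₂ hr₂'.1 rfl Q f' f₀ hc₂ hle₂
      rw [e1, e2]

end Chain

end Cfsg.Agent.Helper25
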