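import Cfsg.Agent.Helper25.DCBlock
import Cfsg.Agent.Helper25.HeightZero2
import Cfsg.Agent.Helper6.GoingDown
import Cfsg.Agent.Helper6.PPowerDeg
import Cfsg.Agent.Helper6.ConjChar
import Cfsg.Agent.Helper24.Extraspecial

set_option autoImplicit false
set_option linter.unusedSectionVars false

/-!
# Blocks with a normal defect group: abelian iff all heights zero (helper25)
-/

namespace Cfsg.Agent.Helper25

open Cfsg
open scoped ComplexConjugate

theorem central_value_eq {K : Type*} [Group K] [Fintype K] (k : K)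
    (hk : k ∈ Subgroup.center K) (η : IrrCharacter K) :
    ∃ c : ℂ, IsIntegral ℤ c ∧ (η : K → ℂ) k = c * (η : K → ℂ) 1 := by
  obtain ⟨c, hc1, hc2⟩ := Helper24.char_central_mul η.2 k hk
  have hpow : ∀ j : ℕ, (η : K → ℂ) (k ^ j) = c ^ j * (η : K → ℂ) 1 := by
    intro j
    induction j with
    | zero => simp
    | succ j ih =>
      rw [pow_succ, hc1, ih, pow_succ]
      ring
  have hcN : c ^ orderOf k = 1 := by
    have h1 := hpow (orderOf k)
    rw [pow_orderOf_eq_one] at h1
    have h2 := Helper24.irr_one_ne_zero η.2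
    have h3 : (c ^ orderOf k - 1) * (η : K → ℂ) 1 = 0 := by
      rw [sub_mul, one_mul, ← h1, sub_self]
    rcases mul_eq_zero.1 h3 with h | h
    · exact sub_eq_zero.1 h
    · exact absurd h h2
  refine ⟨c, ?_, ?_⟩
  · apply IsIntegral.of_pow (orderOf_pos k)
    rw [hcN]
    exact isIntegral_one
  · have h4 := hc1 1
    rwa [one_mul] at h4

section Reynolds

variable {G : Type*} [Group G] [Fintype G] [Fintype (IrrCharacter G)] {M : Ideal AlgInt} {p : ℕ}
  [Fact p.Prime]

/-- Every irreducible character of a `p`-subgroup lies under some member of any block. -/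
theorem exists_mem_block_over (hpM : IsPModular p M) (P : Subgroup G) [Fintype P]
    (hP : IsPGroup p P) {B : Set (IrrCharacter G)} (hB : IsPBlock M B) (ζ : IrrCharacter P) :
    ∃ χ ∈ B, classInner (fun d : P => (χ : G → ℂ) d) (ζ : P → ℂ) ≠ 0 := by
  classical
  have hM := hpM.2.1.isPrime
  by_contra hno
  have hall : ∀ χ ∈ B, classInner (fun d : P => (χ : G → ℂ) d) (ζ : P → ℂ) = 0 := by
    intro χ hχ
    by_contra h
    exact hno ⟨χ, hχ, h⟩
  have hG0 : (Nat.card G : ℂ) ≠ 0 := Nat.cast_ne_zero.2 Nat.card_pos.ne'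
  have hP0 : (Nat.card P : ℂ) ≠ 0 := Nat.cast_ne_zero.2 Nat.card_pos.ne'
  have h1 : ∑ z : P, (ζ : P → ℂ) z * blockCoeff B (z : G)
      = (ζ : P → ℂ) 1 * blockCoeff B 1 := by
    rw [Finset.sum_eq_single (1 : P)]
    · rw [Subgroup.coe_one]
    · intro z _ hz1
      have hz1' : (z : G) ≠ 1 := fun h => hz1 (Subtype.ext h)
      rw [osima hpM hB (z : G) (pgroup_ne_one_dvd_orderOf hP z.2 hz1'), mul_zero]
    · intro h
      exact absurd (Finset.mem_univ _) h
  have h2 : ∑ z : P, (ζ : P → ℂ) z * blockCoeff B (z : G) = 0 := by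
    have e : ∀ z : P, (ζ : P → ℂ) z * blockCoeff B (z : G)
        = (Nat.card G : ℂ)⁻¹ * ∑ χ : IrrCharacter G,
          if χ ∈ B then (χ : G → ℂ) 1 * ((ζ : P → ℂ) z * conj ((χ : G → ℂ) z)) else 0 := by
      intro z
      rw [blockCoeff_eq_sum B _, mul_left_comm, Finset.mul_sum]
      congr 1
      refine Finset.sum_congr rfl fun χ _ => ?_
      rw [mul_ite, mul_zero]
      split_ifs
      · ring
      · rfl
    rw [Finset.sum_congr rfl (fun z _ => e z), ← Finset.mul_sum, Finset.sum_comm]
    have e2 : ∀ χ : IrrCharacter G, ∑ z : P, (if χ ∈ B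
        then (χ : G → ℂ) 1 * ((ζ : P → ℂ) z * conj ((χ : G → ℂ) z)) else 0) = 0 := by
      intro χ
      by_cases hχ : χ ∈ B
      · simp only [if_pos hχ]
        rw [← Finset.mul_sum]
        have h3 := hall χ hχ
        unfold classInner at h3
        have h4 : ∑ z : P, (χ : G → ℂ) z * conj ((ζ : P → ℂ) z) = 0 := by
          rcases mul_eq_zero.1 h3 with h5 | h5
          · exact absurd (inv_eq_zero.1 h5) hP0
          · exact h5
        have h5 : ∑ z : P, (ζ : P → ℂ) z * conj ((χ : G → ℂ) z)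
            = conj (∑ z : P, (χ : G → ℂ) z * conj ((ζ : P → ℂ) z)) := by
          rw [map_sum]
          refine Finset.sum_congr rfl fun z _ => ?_
          rw [map_mul, Complex.conj_conj, mul_comm]
        rw [h5, h4, map_zero, mul_zero]
      · simp only [if_neg hχ, Finset.sum_const_zero]
    rw [Finset.sum_congr rfl (fun χ _ => e2 χ), Finset.sum_const_zero, mul_zero]
  rw [h2] at h1
  obtain ⟨χ₀, rfl⟩ := hB
  have hχ₀ : χ₀ ∈ blockOf M (χ₀ : G → ℂ) := mem_blockOf_self hM.ne_top χ₀
  have hb1 : blockCoeff (blockOf M (χ₀ : G → ℂ)) 1 ≠ 0 := by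
    rw [blockCoeff_eq_sum]
    apply mul_ne_zero (inv_ne_zero hG0)
    have e3 : ∑ χ : IrrCharacter G, (if χ ∈ blockOf M (χ₀ : G → ℂ)
          then (χ : G → ℂ) 1 * conj ((χ : G → ℂ) 1) else 0)
        = ((∑ χ : IrrCharacter G, (if χ ∈ blockOf M (χ₀ : G → ℂ)
          then charDegree (χ : G → ℂ) ^ 2 else 0) : ℕ) : ℂ) := by
      rw [Nat.cast_sum]
      refine Finset.sum_congr rfl fun χ _ => ?_
      rw [irr_one_conj, irr_one_eq_degree χ]
      split_ifs
      · push_cast
        ring
      · simp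
    rw [e3]
    apply Nat.cast_ne_zero.2
    have hle : (if χ₀ ∈ blockOf M (χ₀ : G → ℂ) then charDegree (χ₀ : G → ℂ) ^ 2 else 0)
        ≤ ∑ χ : IrrCharacter G, (if χ ∈ blockOf M (χ₀ : G → ℂ)
          then charDegree (χ : G → ℂ) ^ 2 else 0) :=
      Finset.single_le_sum (f := fun χ : IrrCharacter G => if χ ∈ blockOf M (χ₀ : G → ℂ)
          then charDegree (χ : G → ℂ) ^ 2 else 0) (fun _ _ => Nat.zero_le _) (Finset.mem_univ χ₀)
    rw [if_pos hχ₀] at hle
    have hpos : 0 < charDegree (χ₀ : G → ℂ) ^ 2 :=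
      pow_pos (Nat.pos_of_ne_zero (charDegree_irr_ne_zero χ₀)) 2
    omega
  rcases mul_eq_zero.1 h1.symm with h6 | h6
  · exact irr_one_ne_zero' ζ h6
  · exact hb1 h6

/-- If the constituents on a normal `p`-subgroup `P` of `χ` have degree divisible by `p`, then
`χ` is in the local ideal at every element centralizing `P`. -/
theorem char_mem_localIdeal_of_nonlinear (hpM : IsPModular p M) (P : Subgroup G) [P.Normal]
    [Fintype P] (χ : IrrCharacter G) (ζ₀ : IrrCharacter P)
    (hζ₀ : classInner (fun d : P => (χ : G → ℂ) d) (ζ₀ : P → ℂ) ≠ 0)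
    (hp0 : p ∣ charDegree (ζ₀ : P → ℂ)) (k : G) (hk : ∀ x ∈ P, x * k = k * x) :
    MemLocalIdeal M ((χ : G → ℂ) k) := by
  classical
  have hM := hpM.2.1.isPrime
  obtain ⟨K, hK⟩ : ∃ K : Subgroup G, K = Subgroup.centralizer ({k} : Set G) := ⟨_, rfl⟩
  have hPK : P ≤ K := by
    intro x hx
    rw [hK, Subgroup.mem_centralizer_iff]
    intro h hh
    rw [Set.mem_singleton_iff] at hh
    rw [hh]
    exact (hk x hx).symm
  have hkK : k ∈ K := by
    rw [hK, Subgroup.mem_centralizer_iff]
    intro h hh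
    rw [Set.mem_singleton_iff] at hh
    rw [hh]
  have : Fintype K := Fintype.ofFinite _
  have := Helper24.finite_irrCharacter (G := K)
  have : Fintype (IrrCharacter K) := Fintype.ofFinite _
  have : Fintype (P.subgroupOf K) := Fintype.ofFinite _
  have := Helper24.finite_irrCharacter (G := P.subgroupOf K)
  have : Fintype (IrrCharacter (P.subgroupOf K)) := Fintype.ofFinite _
  obtain ⟨e₀, F, -, hFconj, -, -, -, hFall, -⟩ := Helper6.clifford_finset P χ.2 ζ₀.2 hζ₀
  have hχK : IsCharacter K (fun x : K => (χ : G → ℂ) x) :=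
    Helper24.isCharacter_restrict K (Helper24.isCharacter_of_irr χ.2)
  -- Claim A
  have hA : ∀ ψ' : IrrCharacter (P.subgroupOf K),
      classInner (fun d : P.subgroupOf K => (χ : G → ℂ) ((d : K) : G))
        (ψ' : P.subgroupOf K → ℂ) ≠ 0 → p ∣ charDegree (ψ' : P.subgroupOf K → ℂ) := by
    intro ψ' hψ'
    have hlam : IsIrrCharacter P ((ψ' : P.subgroupOf K → ℂ)
        ∘ (Subgroup.subgroupOfEquivOfLe hPK).symm) :=
      Helper6.isIrrCharacter_comp_mulEquiv (Subgroup.subgroupOfEquivOfLe hPK).symm ψ'.2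
    have hin : classInner (fun d : P => (χ : G → ℂ) d) ((ψ' : P.subgroupOf K → ℂ)
        ∘ (Subgroup.subgroupOfEquivOfLe hPK).symm)
        = classInner (fun d : P.subgroupOf K => (χ : G → ℂ) ((d : K) : G))
          (ψ' : P.subgroupOf K → ℂ) := by
      unfold classInner
      rw [Nat.card_congr (Subgroup.subgroupOfEquivOfLe hPK).toEquiv]
      congr 1
      refine Fintype.sum_equiv (Subgroup.subgroupOfEquivOfLe hPK).symm.toEquiv _ _ (fun d => ?_)
      simp
    have hmem := hFall _ hlam (by rw [hin]; exact hψ')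
    obtain ⟨g, hg⟩ := hFconj _ hmem
    have h1 : ((ψ' : P.subgroupOf K → ℂ) ∘ (Subgroup.subgroupOfEquivOfLe hPK).symm) 1
        = (ζ₀ : P → ℂ) 1 := by
      rw [hg, Helper6.conjFun_one_apply]
    have h2 : (ψ' : P.subgroupOf K → ℂ) 1 = (ζ₀ : P → ℂ) 1 := by
      rw [← h1, Function.comp_apply, map_one]
    have h3 : charDegree (ψ' : P.subgroupOf K → ℂ) = charDegree (ζ₀ : P → ℂ) := by
      unfold charDegree
      rw [h2]
    rw [h3]
    exact hp0
  -- Claim B
  have hBc : ∀ η : IrrCharacter K, classInner (fun x : K => (χ : G → ℂ) x) (η : K → ℂ) ≠ 0 →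
      p ∣ charDegree (η : K → ℂ) := by
    intro η hη
    have hres : IsCharacter (P.subgroupOf K) (fun d : P.subgroupOf K => (η : K → ℂ) d) :=
      Helper24.isCharacter_restrict _ (Helper24.isCharacter_of_irr η.2)
    have hgen := Cfsg.Agent.Helper10.isGeneralizedCharacter_of_char hres
    have hexp := congrFun (Cfsg.Agent.Helper10.gen_expansion hgen) 1
    simp only [Finset.sum_apply, Pi.smul_apply, smul_eq_mul] at hexp
    have hterm : ∀ ψ' : IrrCharacter (P.subgroupOf K),
        (p : ℤ) ∣ Cfsg.Agent.Helper10.irrCoeff (fun d : P.subgroupOf K => (η : K → ℂ) d)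
          (ψ' : P.subgroupOf K → ℂ) * (charDegree (ψ' : P.subgroupOf K → ℂ) : ℤ) := by
      intro ψ'
      by_cases h0 : Cfsg.Agent.Helper10.irrCoeff (fun d : P.subgroupOf K => (η : K → ℂ) d)
          (ψ' : P.subgroupOf K → ℂ) = 0
      · rw [h0, zero_mul]
        exact dvd_zero _
      · apply Dvd.dvd.mul_left
        rw [Int.natCast_dvd_natCast]
        apply hA
        have hspec := Cfsg.Agent.Helper10.irrCoeff_spec hgen ψ'.2
        have hne : classInner (fun d : P.subgroupOf K => (η : K → ℂ) d)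
            (ψ' : P.subgroupOf K → ℂ) ≠ 0 := by
          rw [hspec]
          exact Int.cast_ne_zero.2 h0
        have hexp2 := Helper6.classInner_res_expand (G := K) (H := P.subgroupOf K)
          (Θ := fun x : K => (χ : G → ℂ) x)
          (Helper2.IsCharacter.isClassFunction hχK) (ψ' : P.subgroupOf K → ℂ)
        intro hzero
        rw [hzero] at hexp2
        have hnat : ∀ η' ∈ (Finset.univ : Finset (IrrCharacter K)), ∃ m : ℕ,
            classInner (fun x : K => (χ : G → ℂ) x) (η' : K → ℂ)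
              * classInner (fun h : P.subgroupOf K => (η' : K → ℂ) h)
                (ψ' : P.subgroupOf K → ℂ) = (m : ℂ) := by
          intro η' _
          obtain ⟨m1, hm1⟩ := Helper2.classInner_char_nat hχK
            (Helper24.isCharacter_of_irr η'.2)
          obtain ⟨m2, hm2⟩ := Helper2.classInner_char_nat
            (Helper24.isCharacter_restrict (P.subgroupOf K) (Helper24.isCharacter_of_irr η'.2))
            (Helper24.isCharacter_of_irr ψ'.2)
          exact ⟨m1 * m2, by rw [hm1, hm2]; push_cast; ring⟩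
        have hz := Helper6.sum_nat_eq_zero _ _ hnat hexp2.symm η (Finset.mem_univ _)
        rcases mul_eq_zero.1 hz with h7 | h7
        · exact hη h7
        · exact hne h7
    have hsum : ((charDegree (η : K → ℂ) : ℤ) : ℂ)
        = ((∑ ψ' : IrrCharacter (P.subgroupOf K),
          Cfsg.Agent.Helper10.irrCoeff (fun d : P.subgroupOf K => (η : K → ℂ) d)
            (ψ' : P.subgroupOf K → ℂ) * (charDegree (ψ' : P.subgroupOf K → ℂ) : ℤ) : ℤ) : ℂ) := by
      push_cast
      rw [← irr_one_eq_degree η]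
      rw [Subgroup.coe_one] at hexp
      rw [hexp]
      refine Finset.sum_congr rfl fun ψ' _ => ?_
      rw [irr_one_eq_degree ψ']
    have hsum' : (charDegree (η : K → ℂ) : ℤ)
        = ∑ ψ' : IrrCharacter (P.subgroupOf K),
          Cfsg.Agent.Helper10.irrCoeff (fun d : P.subgroupOf K => (η : K → ℂ) d)
            (ψ' : P.subgroupOf K → ℂ) * (charDegree (ψ' : P.subgroupOf K → ℂ) : ℤ) := by
      exact_mod_cast hsum
    rw [← Int.natCast_dvd_natCast, hsum']
    exact Finset.dvd_sum (fun ψ' _ => hterm ψ')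
  -- expansion of χ at k
  have hgenK := Cfsg.Agent.Helper10.isGeneralizedCharacter_of_char hχK
  have hexpK := congrFun (Cfsg.Agent.Helper10.gen_expansion hgenK) ⟨k, hkK⟩
  simp only [Finset.sum_apply, Pi.smul_apply, smul_eq_mul] at hexpK
  rw [hexpK]
  apply memLocalIdeal_sum hM
  intro η _
  by_cases h0 : Cfsg.Agent.Helper10.irrCoeff (fun x : K => (χ : G → ℂ) x) (η : K → ℂ) = 0
  · rw [h0, Int.cast_zero, zero_mul]
    exact (memLocalIdeal_natCast_iff hpM 0).2 (dvd_zero p) |> fun h => by simpa using h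
  · have hne : classInner (fun x : K => (χ : G → ℂ) x) (η : K → ℂ) ≠ 0 := by
      rw [Cfsg.Agent.Helper10.irrCoeff_spec hgenK η.2]
      exact Int.cast_ne_zero.2 h0
    have hpη := hBc η hne
    have hkc : (⟨k, hkK⟩ : K) ∈ Subgroup.center K := by
      rw [Subgroup.mem_center_iff]
      intro y
      apply Subtype.ext
      have hy : (y : G) ∈ Subgroup.centralizer ({k} : Set G) := by
        rw [← hK]
        exact y.2
      rw [Subgroup.mem_centralizer_iff] at hy
      exact (hy k rfl).symm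
    obtain ⟨c, hc, hval⟩ := central_value_eq (⟨k, hkK⟩ : K) hkc η
    rw [hval, irr_one_eq_degree η]
    apply MemLocalIdeal.mul_left hM
      (memLocalRing_of_isIntegral hM.ne_top (isIntegral_intCast_complex _))
    apply MemLocalIdeal.mul_left hM (memLocalRing_of_isIntegral hM.ne_top hc)
    exact (memLocalIdeal_natCast_iff hpM _).2 hpη

end Reynolds

end Cfsg.Agent.Helper25
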