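import Cfsg.Agent.Helper25.PairCalc

set_option autoImplicit false
set_option linter.unusedSectionVars false

/-!
# Blocks of subgroups between `Q C_G(Q)` and the stabilizer of a Brauer pair (helper25)
-/

namespace Cfsg.Agent.Helper25

open Cfsg
open scoped ComplexConjugate

section StabX

variable {G : Type*} [Group G] [Fintype G] {p : ℕ} {M : Ideal AlgInt}

theorem brauerOmega_sub_eq (X : Subgroup G) (γ : X → ℂ) (β : G → ℂ)
    (hγ : ∀ t : X, γ t = β (t : G)) (S' : Subgroup X) (R : Subgroup G)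
    (ι : Subgroup.centralizer (S' : Set X) ≃* Subgroup.centralizer (R : Set G))
    (hι : ∀ c : Subgroup.centralizer (S' : Set X),
      ((ι c : Subgroup.centralizer (R : Set G)) : G) = ((c : X) : G))
    (ξ : IrrCharacter (Subgroup.centralizer (R : Set G))) :
    brauerOmega S' γ
        ((irrCongr ι ξ : IrrCharacter (Subgroup.centralizer (S' : Set X))) :
          Subgroup.centralizer (S' : Set X) → ℂ)
      = brauerOmega R β (ξ : Subgroup.centralizer (R : Set G) → ℂ) := by
  classical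
  have : Fintype X := Fintype.ofFinite _
  have : Fintype (Subgroup.centralizer (R : Set G)) := Fintype.ofFinite _
  have : Fintype (Subgroup.centralizer (S' : Set X)) := Fintype.ofFinite _
  rw [brauerOmega_eq_sum, brauerOmega_eq_sum, ← Equiv.sum_comp ι.toEquiv]
  refine Finset.sum_congr rfl fun c _ => ?_
  rw [irrCongr_apply, irrCongr_apply, map_one]
  show γ (c : X) * _ = β ((ι c : Subgroup.centralizer (R : Set G)) : G) * _
  rw [hι, hγ]
  rfl

theorem subgroupBlockCoeff_sub_eq (hM : M.IsPrime) (X : Subgroup G) (A' : Subgroup X)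
    (A : Subgroup G)
    (ιA : Subgroup.centralizer (A' : Set X) ≃* Subgroup.centralizer (A : Set G))
    (hιA : ∀ c : Subgroup.centralizer (A' : Set X),
      ((ιA c : Subgroup.centralizer (A : Set G)) : G) = ((c : X) : G))
    (g' : Set (IrrCharacter (Subgroup.centralizer (A' : Set X))))
    (g : Set (IrrCharacter (Subgroup.centralizer (A : Set G)))) (hg : IsPBlock M g)
    (hgg : ∀ ξ : IrrCharacter (Subgroup.centralizer (A : Set G)), irrCongr ιA ξ ∈ g' ↔ ξ ∈ g)
    (t : X) :
    subgroupBlockCoeff (Subgroup.centralizer (A' : Set X)) g' t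
      = subgroupBlockCoeff (Subgroup.centralizer (A : Set G)) g (t : G) := by
  classical
  have : Fintype X := Fintype.ofFinite _
  have : Fintype (Subgroup.centralizer (A : Set G)) := Fintype.ofFinite _
  have : Fintype (Subgroup.centralizer (A' : Set X)) := Fintype.ofFinite _
  have hg'eq : g' = {ψ | (irrCongr ιA).symm ψ ∈ g} := by
    ext ψ
    have h := hgg ((irrCongr ιA).symm ψ)
    rw [Equiv.apply_symm_apply] at h
    exact h
  have hbc : ∀ k : Subgroup.centralizer (A' : Set X), blockCoeff g' k = blockCoeff g (ιA k) := by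
    rw [hg'eq]
    exact (irrCongr_preimage_props hM ιA g hg).2
  have hmem : t ∈ Subgroup.centralizer (A' : Set X)
      ↔ (t : G) ∈ Subgroup.centralizer (A : Set G) := by
    constructor
    · intro ht
      have h1 := (ιA ⟨t, ht⟩).2
      rw [hιA] at h1
      exact h1
    · intro ht
      have h1 := (ιA.symm ⟨(t : G), ht⟩).2
      have e : ((ιA.symm ⟨(t : G), ht⟩ : Subgroup.centralizer (A' : Set X)) : X) = t := by
        apply Subtype.ext
        rw [← hιA, MulEquiv.apply_symm_apply]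
      rwa [e] at h1
  unfold subgroupBlockCoeff
  by_cases ht : t ∈ Subgroup.centralizer (A' : Set X)
  · rw [dif_pos ht, dif_pos (hmem.1 ht), hbc]
    congr 1
    exact Subtype.ext (hιA _)
  · rw [dif_neg ht, dif_neg (fun h => ht (hmem.2 h))]

/-- The block of a subgroup `X` between `Q C_G(Q)` and the stabilizer of `(Q, f)` with the
idempotent of `f`, and the index of its defect groups. -/
theorem stabX_block [Fact p.Prime] (hpM : IsPModular p M) (Q : Subgroup G) (hQ : IsPGroup p Q)
    (f : Set (IrrCharacter (Subgroup.centralizer (Q : Set G)))) (hf : IsPBlock M f) (X : Subgroup G)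
    (hQX : Q ≤ X) (hCX : (Subgroup.centralizer (Q : Set G)) ≤ X) (hXN : X ≤ (Subgroup.normalizer (Q : Set G))) (hXs : ∀ x ∈ X, StabilizesBlock (Subgroup.centralizer (Q : Set G)) f x) :
    ∃ F : Set (IrrCharacter X), IsPBlock M F ∧
      (∀ t : X, blockCoeff F t = subgroupBlockCoeff (Subgroup.centralizer (Q : Set G)) f (t : G)) ∧
      ∀ D : Subgroup X, IsDefectGroup p M F D → ¬ p ∣ (D ⊔ (Subgroup.centralizer (Q : Set G)).subgroupOf X).index := by
  classical
  have hM := hpM.2.1.isPrime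
  have : Fintype X := Fintype.ofFinite _
  have := Helper24.finite_irrCharacter (G := X)
  have : Fintype (IrrCharacter X) := Fintype.ofFinite _
  have : Fintype (Subgroup.centralizer (Q : Set G)) := Fintype.ofFinite _
  have := Helper24.finite_irrCharacter (G := (Subgroup.centralizer (Q : Set G)))
  have : Fintype (IrrCharacter (Subgroup.centralizer (Q : Set G))) := Fintype.ofFinite _
  have hQn : (Q.subgroupOf X).Normal := Subgroup.normal_subgroupOf_of_le_normalizer hXN
  have hQ' : IsPGroup p (Q.subgroupOf X) := hQ.comap_subtype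
  have hCn0 : (Subgroup.centralizer ((Q.subgroupOf X : Subgroup X) : Set X)).Normal :=
    inferInstance
  obtain ⟨C'', hCdef⟩ : ∃ C'' : Subgroup X,
      C'' = Subgroup.centralizer ((Q.subgroupOf X : Subgroup X) : Set X) := ⟨_, rfl⟩
  have hCn : C''.Normal := by
    rw [hCdef]
    exact hCn0
  have hCmem : ∀ t : X, t ∈ C'' ↔ (t : G) ∈ (Subgroup.centralizer (Q : Set G)) := by
    intro t
    rw [hCdef]
    exact mem_centralizer_subgroupOf Q X hQX t
  have : Fintype C'' := Fintype.ofFinite _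
  have := Helper24.finite_irrCharacter (G := C'')
  have : Fintype (IrrCharacter C'') := Fintype.ofFinite _
  obtain ⟨φ, hφ⟩ := exists_centIso Q X hCX C'' hCmem
  obtain ⟨b, hbdef⟩ : ∃ b : Set (IrrCharacter C''), b = {ψ | (irrCongr φ).symm ψ ∈ f} :=
    ⟨_, rfl⟩
  have hbmem : ∀ θ : IrrCharacter (Subgroup.centralizer (Q : Set G)), irrCongr φ θ ∈ b ↔ θ ∈ f := by
    intro θ
    rw [hbdef]
    simp
  have hb : IsPBlock M b := by
    rw [hbdef]
    exact (irrCongr_preimage_props hM φ f hf).1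
  have hbc : ∀ k : C'', blockCoeff b k = blockCoeff f (φ k) := by
    rw [hbdef]
    exact (irrCongr_preimage_props hM φ f hf).2
  have hTst : ∀ g : X, g ∈ (⊤ : Subgroup X) ↔ ∀ θ ∈ b, conjIrr C'' g θ ∈ b := by
    intro g
    refine ⟨fun _ θ hθ => ?_, fun _ => Subgroup.mem_top g⟩
    obtain ⟨χ, rfl⟩ := (irrCongr φ).surjective θ
    have hχ : χ ∈ f := (hbmem χ).1 hθ
    obtain ⟨-, hst⟩ := hXs ((g⁻¹ : X) : G) (g⁻¹ : X).2
    obtain ⟨χ', hχ', hconj⟩ := hst χ hχ
    have h1 : conjIrr C'' g (irrCongr φ χ) = irrCongr φ χ' := by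
      apply Subtype.ext
      funext c
      rw [conjIrr_coe, Helper6.conjFun_apply, irrCongr_apply, irrCongr_apply]
      refine (hconj _ _ ?_).symm
      rw [hφ, hφ]
      show ((c : X) : G)
        = ((g⁻¹ : X) : G) * ((g : G) * ((c : X) : G) * (g : G)⁻¹) * ((g⁻¹ : X) : G)⁻¹
      rw [Subgroup.coe_inv]
      group
    rw [h1]
    exact (hbmem χ').2 hχ'
  have : Fintype (⊤ : Subgroup X) := Fintype.ofFinite _
  obtain ⟨-, F, hF, hFmem, hFcoef, -⟩ :=
    normalP_blocks C'' b ⊤ hpM (Q.subgroupOf X) hQ' hCdef hb hTst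
  have hFc : ∀ t : X, blockCoeff F t = subgroupBlockCoeff (Subgroup.centralizer (Q : Set G)) f (t : G) := by
    intro t
    rw [hFcoef t]
    have h1 : ∀ x : X, subgroupBlockCoeff C'' b (x⁻¹ * t * x) = subgroupBlockCoeff C'' b t :=
      fun x => subgroupBlockCoeff_conj_stab C'' b ⊤ hTst x (Subgroup.mem_top x) t
    have hcard : (Nat.card (⊤ : Subgroup X) : ℂ) ≠ 0 := by
      have h0 : 0 < Nat.card (⊤ : Subgroup X) := Nat.card_pos
      exact_mod_cast h0.ne'
    rw [Finset.sum_congr rfl (fun x _ => h1 x), Finset.sum_const, Finset.card_univ,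
      ← Nat.card_eq_fintype_card, ← Subgroup.card_top (G := X), nsmul_eq_mul, ← mul_assoc,
      inv_mul_cancel₀ hcard, one_mul]
    unfold subgroupBlockCoeff
    by_cases ht : t ∈ C''
    · rw [dif_pos ht, dif_pos ((hCmem t).1 ht), hbc]
      congr 1
      exact Subtype.ext (hφ _)
    · rw [dif_neg ht, dif_neg (fun h => ht ((hCmem t).2 h))]
  refine ⟨F, hF, hFc, fun D hD => ?_⟩
  have hinv0 : ∀ g : X, ∀ θ ∈ b, ∀ θ' : IrrCharacter C'',
      (∀ n : C'', (θ' : C'' → ℂ) n = (θ : C'' → ℂ) ⟨g * n * g⁻¹, hCn.conj_mem n n.2 g⟩)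
        → θ' ∈ b := by
    intro g θ hθ θ' hθ'
    have h1 := (hTst g).1 (Subgroup.mem_top g) θ hθ
    have e1 : θ' = conjIrr C'' g θ := by
      apply Subtype.ext
      funext n
      rw [hθ' n, conjIrr_coe]
      rfl
    rw [e1]
    exact h1
  have hcov : ∃ χ ∈ F, ∃ θ ∈ b,
      classInner (fun n : C'' => (χ : X → ℂ) n) (θ : C'' → ℂ) ≠ 0 := by
    obtain ⟨χ, hχ⟩ := block_nonempty hM hF
    exact ⟨χ, hχ, (hFmem χ).1 hχ⟩
  have hmaxd : ∀ B' : Set (IrrCharacter X), IsPBlock M B' →
      (∃ χ ∈ B', ∃ θ ∈ b, classInner (fun n : C'' => (χ : X → ℂ) n) (θ : C'' → ℂ) ≠ 0) →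
      blockDefect p B' ≤ blockDefect p F := by
    rintro B' hB' ⟨χ, hχ, hcov'⟩
    have hχF : χ ∈ F := (hFmem χ).2 hcov'
    have e1 : B' = F := by
      rw [block_eq_blockOf_of_mem hM hB' hχ, block_eq_blockOf_of_mem hM hF hχF]
    rw [e1]
  have h1 := (fong_max_defect hpM C'' b hb hinv0 F hF hcov hmaxd D hD).1
  have e2 : C'' = (Subgroup.centralizer (Q : Set G)).subgroupOf X := by
    ext t
    rw [hCmem, Subgroup.mem_subgroupOf]
  rw [e2] at h1
  exact h1

/-- A normal superpair of `(Q, f)` inside `X` gives a Brauer pair of the block of `X`. -/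
theorem stabX_pair_of_normal (hM : M.IsPrime) (Q : Subgroup G) (f : Set (IrrCharacter (Subgroup.centralizer (Q : Set G))))
    (X : Subgroup G) (F : Set (IrrCharacter X)) (hF : IsPBlock M F)
    (hFc : ∀ t : X, blockCoeff F t = subgroupBlockCoeff (Subgroup.centralizer (Q : Set G)) f (t : G))
    (K : Subgroup G) (g : Set (IrrCharacter (Subgroup.centralizer (K : Set G))))
    (hn : IsNormalSubpair p M Q f K g) (K' : Subgroup X) (hK' : IsPGroup p K')
    (ι : Subgroup.centralizer (K' : Set X) ≃* Subgroup.centralizer (K : Set G))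
    (hι : ∀ c : Subgroup.centralizer (K' : Set X),
      ((ι c : Subgroup.centralizer (K : Set G)) : G) = ((c : X) : G))
    (g' : Set (IrrCharacter (Subgroup.centralizer (K' : Set X))))
    (hgg : ∀ ξ : IrrCharacter (Subgroup.centralizer (K : Set G)), irrCongr ι ξ ∈ g' ↔ ξ ∈ g) :
    IsBrauerPairOf p M F K' g' := by
  classical
  have : Fintype X := Fintype.ofFinite _
  have : Fintype (Subgroup.centralizer (K : Set G)) := Fintype.ofFinite _
  have : Fintype (Subgroup.centralizer (K' : Set X)) := Fintype.ofFinite _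
  refine ⟨⟨hK', (isPBlock_irrCongr_iff hM ι g' g hgg).2 hn.2.1.2⟩, hF, ?_⟩
  intro ξ' hξ'
  obtain ⟨ξ, rfl⟩ := (irrCongr ι).surjective ξ'
  have hξ : ξ ∈ g := (hgg ξ).1 hξ'
  rw [brauerOmega_sub_eq X (blockCoeff F) (subgroupBlockCoeff (Subgroup.centralizer (Q : Set G)) f) hFc K' K ι hι ξ]
  exact hn.2.2.2.2.2 ξ hξ

/-- A Brauer pair of the block of `X` containing `Q` gives a normal superpair of `(Q, f)`. -/
theorem stabX_normal_of_pair (hM : M.IsPrime) (Q : Subgroup G) (f : Set (IrrCharacter (Subgroup.centralizer (Q : Set G))))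
    (hQf : IsBrauerPair p M Q f) (X : Subgroup G) (hXN : X ≤ (Subgroup.normalizer (Q : Set G)))
    (hXs : ∀ x ∈ X, StabilizesBlock (Subgroup.centralizer (Q : Set G)) f x) (F : Set (IrrCharacter X))
    (hFc : ∀ t : X, blockCoeff F t = subgroupBlockCoeff (Subgroup.centralizer (Q : Set G)) f (t : G))
    (K' : Subgroup X) (K : Subgroup G) (hK : K = K'.map X.subtype) (hQK : Q ≤ K)
    (ι : Subgroup.centralizer (K' : Set X) ≃* Subgroup.centralizer (K : Set G))
    (hι : ∀ c : Subgroup.centralizer (K' : Set X),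
      ((ι c : Subgroup.centralizer (K : Set G)) : G) = ((c : X) : G))
    (g' : Set (IrrCharacter (Subgroup.centralizer (K' : Set X))))
    (g : Set (IrrCharacter (Subgroup.centralizer (K : Set G))))
    (hgg : ∀ ξ : IrrCharacter (Subgroup.centralizer (K : Set G)), irrCongr ι ξ ∈ g' ↔ ξ ∈ g)
    (hp : IsBrauerPairOf p M F K' g') : IsNormalSubpair p M Q f K g := by
  classical
  have : Fintype X := Fintype.ofFinite _
  have : Fintype (Subgroup.centralizer (K : Set G)) := Fintype.ofFinite _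
  have : Fintype (Subgroup.centralizer (K' : Set X)) := Fintype.ofFinite _
  have hKX : K ≤ X := by
    rw [hK]
    rintro _ ⟨k, -, rfl⟩
    exact k.2
  refine ⟨hQf, ⟨?_, (isPBlock_irrCongr_iff hM ι g' g hgg).1 hp.1.2⟩, hQK, hKX.trans hXN,
    fun x hx => hXs x (hKX hx), ?_⟩
  · rw [hK]
    exact hp.1.1.map _
  · intro ξ hξ
    have h1 := hp.2.2 (irrCongr ι ξ) ((hgg ξ).2 hξ)
    rw [brauerOmega_sub_eq X (blockCoeff F) (subgroupBlockCoeff (Subgroup.centralizer (Q : Set G)) f) hFc K' K ι hι ξ] at h1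
    exact h1

/-- Normal inclusion of Brauer pairs of a subgroup `X` gives normal inclusion in `G`, when the
centralizers agree. -/
theorem normalSubpair_up (hM : M.IsPrime) (X : Subgroup G) (A' C' : Subgroup X)
    (A C : Subgroup G) (hA : A = A'.map X.subtype) (hC : C = C'.map X.subtype)
    (ιA : Subgroup.centralizer (A' : Set X) ≃* Subgroup.centralizer (A : Set G))
    (hιA : ∀ c : Subgroup.centralizer (A' : Set X),
      ((ιA c : Subgroup.centralizer (A : Set G)) : G) = ((c : X) : G))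
    (ιC : Subgroup.centralizer (C' : Set X) ≃* Subgroup.centralizer (C : Set G))
    (hιC : ∀ c : Subgroup.centralizer (C' : Set X),
      ((ιC c : Subgroup.centralizer (C : Set G)) : G) = ((c : X) : G))
    (g' : Set (IrrCharacter (Subgroup.centralizer (A' : Set X))))
    (g : Set (IrrCharacter (Subgroup.centralizer (A : Set G))))
    (h' : Set (IrrCharacter (Subgroup.centralizer (C' : Set X))))
    (h : Set (IrrCharacter (Subgroup.centralizer (C : Set G))))
    (hgg : ∀ ξ : IrrCharacter (Subgroup.centralizer (A : Set G)), irrCongr ιA ξ ∈ g' ↔ ξ ∈ g)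
    (hhh : ∀ ξ : IrrCharacter (Subgroup.centralizer (C : Set G)), irrCongr ιC ξ ∈ h' ↔ ξ ∈ h)
    (hn : IsNormalSubpair p M A' g' C' h') : IsNormalSubpair p M A g C h := by
  classical
  obtain ⟨⟨hA'p, hg'⟩, ⟨hC'p, hh'⟩, hAC', hCN', hst', hom'⟩ := hn
  have : Fintype X := Fintype.ofFinite _
  have : Fintype (Subgroup.centralizer (A : Set G)) := Fintype.ofFinite _
  have : Fintype (Subgroup.centralizer (A' : Set X)) := Fintype.ofFinite _
  have : Fintype (Subgroup.centralizer (C : Set G)) := Fintype.ofFinite _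
  have : Fintype (Subgroup.centralizer (C' : Set X)) := Fintype.ofFinite _
  have hg : IsPBlock M g := (isPBlock_irrCongr_iff hM ιA g' g hgg).1 hg'
  have hh : IsPBlock M h := (isPBlock_irrCongr_iff hM ιC h' h hhh).1 hh'
  have hAmem : ∀ u : G, u ∈ A ↔ ∃ u' ∈ A', ((u' : X) : G) = u := by
    intro u
    rw [hA]
    exact Subgroup.mem_map
  have hCmem : ∀ u : G, u ∈ C ↔ ∃ u' ∈ C', ((u' : X) : G) = u := by
    intro u
    rw [hC]
    exact Subgroup.mem_map
  have hCNG : C ≤ Subgroup.normalizer (A : Set G) := by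
    intro y hy
    obtain ⟨y', hy', rfl⟩ := (hCmem y).1 hy
    refine mem_normalizer_of_map_conj_le' A ?_
    intro v hv
    obtain ⟨u, hu, rfl⟩ := Subgroup.mem_map.1 hv
    obtain ⟨u', hu', rfl⟩ := (hAmem u).1 hu
    exact (hAmem _).2 ⟨y' * u' * y'⁻¹, (Subgroup.mem_normalizer_iff.1 (hCN' hy') u').1 hu', rfl⟩
  refine ⟨⟨?_, hg⟩, ⟨?_, hh⟩, ?_, hCNG, ?_, ?_⟩
  · rw [hA]
    exact hA'p.map _
  · rw [hC]
    exact hC'p.map _
  · rw [hA, hC]
    exact Subgroup.map_mono hAC'
  · intro x hx
    obtain ⟨x', hx', rfl⟩ := (hCmem x).1 hx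
    obtain ⟨hxn', hxc'⟩ := hst' x' hx'
    refine ⟨normalizer_le_normalizer_centralizer' A (hCNG hx), fun χ hχ => ?_⟩
    obtain ⟨χ'', hχ'', hconj⟩ := hxc' (irrCongr ιA χ) ((hgg χ).2 hχ)
    obtain ⟨χ₁, rfl⟩ := (irrCongr ιA).surjective χ''
    refine ⟨χ₁, (hgg χ₁).1 hχ'', fun k k₁ hk => ?_⟩
    have h1 := hconj (ιA.symm k) (ιA.symm k₁) (by
      apply Subtype.ext
      rw [Subgroup.coe_mul, Subgroup.coe_mul, Subgroup.coe_inv, ← hιA, ← hιA,
        MulEquiv.apply_symm_apply, MulEquiv.apply_symm_apply]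
      exact hk)
    rw [irrCongr_apply, irrCongr_apply, MulEquiv.apply_symm_apply,
      MulEquiv.apply_symm_apply] at h1
    exact h1
  · intro ξ hξ
    have h1 := hom' (irrCongr ιC ξ) ((hhh ξ).2 hξ)
    rw [brauerOmega_sub_eq X _ (subgroupBlockCoeff (Subgroup.centralizer (A : Set G)) g)
      (subgroupBlockCoeff_sub_eq hM X A' A ιA hιA g' g hg hgg) C' C ιC hιC ξ] at h1
    exact h1

theorem mem_centralizer_map_subtype (X : Subgroup G) (A' : Subgroup X) (t : X) :
    t ∈ Subgroup.centralizer (A' : Set X)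
      ↔ (t : G) ∈ Subgroup.centralizer ((A'.map X.subtype : Subgroup G) : Set G) := by
  rw [Subgroup.mem_centralizer_iff, Subgroup.mem_centralizer_iff]
  constructor
  · intro h u hu
    obtain ⟨u', hu', rfl⟩ := Subgroup.mem_map.1 hu
    exact congrArg Subtype.val (h u' hu')
  · intro h u' hu'
    exact Subtype.ext (h (u' : G) (Subgroup.mem_map.2 ⟨u', hu', rfl⟩))

/-- The Brauer pair of `G` attached to a Brauer pair of the subgroup `X`. -/
def pushPair (X : Subgroup G) (a : BrauerPairIdx X) : BrauerPairIdx G :=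
  ⟨a.1.map X.subtype,
    {ξ | ∃ ψ ∈ a.2, ∀ (c : Subgroup.centralizer ((a.1.map X.subtype : Subgroup G) : Set G))
      (c' : Subgroup.centralizer (a.1 : Set X)), ((c' : X) : G) = (c : G) →
        (ξ : Subgroup.centralizer ((a.1.map X.subtype : Subgroup G) : Set G) → ℂ) c
          = (ψ : Subgroup.centralizer (a.1 : Set X) → ℂ) c'}⟩

theorem pushPair_mem_iff (X : Subgroup G) (a : BrauerPairIdx X)
    (ι : Subgroup.centralizer (a.1 : Set X)
      ≃* Subgroup.centralizer ((a.1.map X.subtype : Subgroup G) : Set G))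
    (hι : ∀ c : Subgroup.centralizer (a.1 : Set X),
      ((ι c : Subgroup.centralizer ((a.1.map X.subtype : Subgroup G) : Set G)) : G)
        = ((c : X) : G))
    (ξ : IrrCharacter (Subgroup.centralizer ((a.1.map X.subtype : Subgroup G) : Set G))) :
    irrCongr ι ξ ∈ a.2 ↔ ξ ∈ (pushPair X a).2 := by
  constructor
  · intro h
    refine ⟨irrCongr ι ξ, h, fun c c' hcc => ?_⟩
    rw [irrCongr_apply]
    refine congrArg
      (ξ : Subgroup.centralizer ((a.1.map X.subtype : Subgroup G) : Set G) → ℂ) (Subtype.ext ?_)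
    rw [hι, hcc]
  · rintro ⟨ψ, hψ, hc⟩
    have e : irrCongr ι ξ = ψ := by
      apply Subtype.ext
      funext c'
      rw [irrCongr_apply]
      exact hc (ι c') c' (hι c').symm
    rw [e]
    exact hψ

/-- Inclusion of Brauer pairs of `X` containing `Q` gives inclusion in `G`. -/
theorem pushPair_le (hM : M.IsPrime) (X : Subgroup G) (Q : Subgroup G) (hCX : (Subgroup.centralizer (Q : Set G)) ≤ X)
    (a₀ : BrauerPairIdx X) (hQa : Q ≤ a₀.1.map X.subtype) {b : BrauerPairIdx X}
    (h : Relation.ReflTransGen (NormalSubpairRel p M) a₀ b) :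
    Relation.ReflTransGen (NormalSubpairRel p M) (pushPair X a₀) (pushPair X b) := by
  classical
  have : Fintype X := Fintype.ofFinite _
  induction h with
  | refl => exact Relation.ReflTransGen.refl
  | @tail b c hab hbc ih =>
    refine Relation.ReflTransGen.tail ih ?_
    have hQb : Q ≤ b.1.map X.subtype := hQa.trans (Subgroup.map_mono (subpairLE_le hab))
    have hQc : Q ≤ c.1.map X.subtype := hQb.trans (Subgroup.map_mono hbc.2.2.1)
    obtain ⟨ιb, hιb⟩ := exists_centIso (b.1.map X.subtype) X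
      ((Subgroup.centralizer_le (SetLike.coe_subset_coe.2 hQb)).trans hCX)
      (Subgroup.centralizer (b.1 : Set X)) (mem_centralizer_map_subtype X b.1)
    obtain ⟨ιc, hιc⟩ := exists_centIso (c.1.map X.subtype) X
      ((Subgroup.centralizer_le (SetLike.coe_subset_coe.2 hQc)).trans hCX)
      (Subgroup.centralizer (c.1 : Set X)) (mem_centralizer_map_subtype X c.1)
    exact normalSubpair_up hM X b.1 c.1 _ _ rfl rfl ιb hιb ιc hιc b.2 _ c.2 _
      (pushPair_mem_iff X b ιb hιb) (pushPair_mem_iff X c ιc hιc) hbc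

end StabX

end Cfsg.Agent.Helper25
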