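import Cfsg.Agent.Helper25.NilLocal
import Cfsg.Agent.S4654

set_option autoImplicit false
set_option linter.unusedSectionVars false

namespace Cfsg.Agent.Helper25

open Cfsg Cfsg.FusionSystem
open scoped ComplexConjugate

section StabX2

variable {G : Type*} [Group G] [Fintype G] {p : ℕ} {M : Ideal AlgInt}

theorem stabX_block2 [Fact p.Prime] (hpM : IsPModular p M) (Q : Subgroup G) (hQ : IsPGroup p Q)
    (f : Set (IrrCharacter (Subgroup.centralizer (Q : Set G)))) (hf : IsPBlock M f) (X : Subgroup G)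
    (hQX : Q ≤ X) (hCX : (Subgroup.centralizer (Q : Set G)) ≤ X) (hXN : X ≤ (Subgroup.normalizer (Q : Set G))) (hXs : ∀ x ∈ X, StabilizesBlock (Subgroup.centralizer (Q : Set G)) f x) :
    ∃ F : Set (IrrCharacter X), IsPBlock M F ∧
      (∀ t : X, blockCoeff F t = subgroupBlockCoeff (Subgroup.centralizer (Q : Set G)) f (t : G)) ∧
      ∀ D : Subgroup X, IsDefectGroup p M F D → (¬ p ∣ (D ⊔ (Subgroup.centralizer (Q : Set G)).subgroupOf X).index ∧
        blockDefect p F = blockDefect p f + ((Subgroup.centralizer (Q : Set G)).subgroupOf X).index.factorization p) := by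
  classical
  have hM := hpM.2.1.isPrime
  have : Fintype X := Fintype.ofFinite _
  have := Helper24.finite_irrCharacter (G := X)
  have : Fintype (IrrCharacter X) := Fintype.ofFinite _
  have : Fintype (Subgroup.centralizer (Q : Set G)) := Fintype.ofFinite _
  have := Helper24.finite_irrCharacter (G := (Subgroup.centralizer (Q : Set G)))
  have : Fintype (IrrCharacter (Subgroup.centralizer (Q : Set G))) := Fintype.ofFinite _
  have hQn : (Q.subgroupOf X).Normal := Subgroup.normal_subgroupOf_of_le_normalizer hXN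
  have hQ' : IsPGroup p (Q.subgroupOf X) := hQ.comap_subtype
  have hCn0 : (Subgroup.centralizer ((Q.subgroupOf X : Subgroup X) : Set X)).Normal :=
    inferInstance
  obtain ⟨C'', hCdef⟩ : ∃ C'' : Subgroup X,
      C'' = Subgroup.centralizer ((Q.subgroupOf X : Subgroup X) : Set X) := ⟨_, rfl⟩
  have hCn : C''.Normal := by
    rw [hCdef]
    exact hCn0
  have hCmem : ∀ t : X, t ∈ C'' ↔ (t : G) ∈ (Subgroup.centralizer (Q : Set G)) := by
    intro t
    rw [hCdef]
    exact mem_centralizer_subgroupOf Q X hQX t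
  have : Fintype C'' := Fintype.ofFinite _
  have := Helper24.finite_irrCharacter (G := C'')
  have : Fintype (IrrCharacter C'') := Fintype.ofFinite _
  obtain ⟨φ, hφ⟩ := exists_centIso Q X hCX C'' hCmem
  obtain ⟨b, hbdef⟩ : ∃ b : Set (IrrCharacter C''), b = {ψ | (irrCongr φ).symm ψ ∈ f} :=
    ⟨_, rfl⟩
  have hbmem : ∀ θ : IrrCharacter (Subgroup.centralizer (Q : Set G)), irrCongr φ θ ∈ b ↔ θ ∈ f := by
    intro θ
    rw [hbdef]
    simp
  have hb : IsPBlock M b := by
    rw [hbdef]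
    exact (irrCongr_preimage_props hM φ f hf).1
  have hbc : ∀ k : C'', blockCoeff b k = blockCoeff f (φ k) := by
    rw [hbdef]
    exact (irrCongr_preimage_props hM φ f hf).2
  have hTst : ∀ g : X, g ∈ (⊤ : Subgroup X) ↔ ∀ θ ∈ b, conjIrr C'' g θ ∈ b := by
    intro g
    refine ⟨fun _ θ hθ => ?_, fun _ => Subgroup.mem_top g⟩
    obtain ⟨χ, rfl⟩ := (irrCongr φ).surjective θ
    have hχ : χ ∈ f := (hbmem χ).1 hθ
    obtain ⟨-, hst⟩ := hXs ((g⁻¹ : X) : G) (g⁻¹ : X).2
    obtain ⟨χ', hχ', hconj⟩ := hst χ hχ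
    have h1 : conjIrr C'' g (irrCongr φ χ) = irrCongr φ χ' := by
      apply Subtype.ext
      funext c
      rw [conjIrr_coe, Helper6.conjFun_apply, irrCongr_apply, irrCongr_apply]
      refine (hconj _ _ ?_).symm
      rw [hφ, hφ]
      show ((c : X) : G)
        = ((g⁻¹ : X) : G) * ((g : G) * ((c : X) : G) * (g : G)⁻¹) * ((g⁻¹ : X) : G)⁻¹
      rw [Subgroup.coe_inv]
      group
    rw [h1]
    exact (hbmem χ').2 hχ'
  have : Fintype (⊤ : Subgroup X) := Fintype.ofFinite _
  obtain ⟨-, F, hF, hFmem, hFcoef, -⟩ :=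
    normalP_blocks C'' b ⊤ hpM (Q.subgroupOf X) hQ' hCdef hb hTst
  have hFc : ∀ t : X, blockCoeff F t = subgroupBlockCoeff (Subgroup.centralizer (Q : Set G)) f (t : G) := by
    intro t
    rw [hFcoef t]
    have h1 : ∀ x : X, subgroupBlockCoeff C'' b (x⁻¹ * t * x) = subgroupBlockCoeff C'' b t :=
      fun x => subgroupBlockCoeff_conj_stab C'' b ⊤ hTst x (Subgroup.mem_top x) t
    have hcard : (Nat.card (⊤ : Subgroup X) : ℂ) ≠ 0 := by
      have h0 : 0 < Nat.card (⊤ : Subgroup X) := Nat.card_pos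
      exact_mod_cast h0.ne'
    rw [Finset.sum_congr rfl (fun x _ => h1 x), Finset.sum_const, Finset.card_univ,
      ← Nat.card_eq_fintype_card, ← Subgroup.card_top (G := X), nsmul_eq_mul, ← mul_assoc,
      inv_mul_cancel₀ hcard, one_mul]
    unfold subgroupBlockCoeff
    by_cases ht : t ∈ C''
    · rw [dif_pos ht, dif_pos ((hCmem t).1 ht), hbc]
      congr 1
      exact Subtype.ext (hφ _)
    · rw [dif_neg ht, dif_neg (fun h => ht ((hCmem t).2 h))]
  refine ⟨F, hF, hFc, fun D hD => ?_⟩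
  have hinv0 : ∀ g : X, ∀ θ ∈ b, ∀ θ' : IrrCharacter C'',
      (∀ n : C'', (θ' : C'' → ℂ) n = (θ : C'' → ℂ) ⟨g * n * g⁻¹, hCn.conj_mem n n.2 g⟩)
        → θ' ∈ b := by
    intro g θ hθ θ' hθ'
    have h1 := (hTst g).1 (Subgroup.mem_top g) θ hθ
    have e1 : θ' = conjIrr C'' g θ := by
      apply Subtype.ext
      funext n
      rw [hθ' n, conjIrr_coe]
      rfl
    rw [e1]
    exact h1
  have hcov : ∃ χ ∈ F, ∃ θ ∈ b,
      classInner (fun n : C'' => (χ : X → ℂ) n) (θ : C'' → ℂ) ≠ 0 := by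
    obtain ⟨χ, hχ⟩ := block_nonempty hM hF
    exact ⟨χ, hχ, (hFmem χ).1 hχ⟩
  have hmaxd : ∀ B' : Set (IrrCharacter X), IsPBlock M B' →
      (∃ χ ∈ B', ∃ θ ∈ b, classInner (fun n : C'' => (χ : X → ℂ) n) (θ : C'' → ℂ) ≠ 0) →
      blockDefect p B' ≤ blockDefect p F := by
    rintro B' hB' ⟨χ, hχ, hcov'⟩
    have hχF : χ ∈ F := (hFmem χ).2 hcov'
    have e1 : B' = F := by
      rw [block_eq_blockOf_of_mem hM hB' hχ, block_eq_blockOf_of_mem hM hF hχF]
    rw [e1]
  have h0 := fong_max_defect hpM C'' b hb hinv0 F hF hcov hmaxd D hD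
  have e2 : C'' = (Subgroup.centralizer (Q : Set G)).subgroupOf X := by
    ext t
    rw [hCmem, Subgroup.mem_subgroupOf]
  have e3 : blockDefect p b = blockDefect p f := blockDefect_irrCongr (p := p) φ b f hbmem
  have h1 := h0.1
  have h3 := h0.2.2
  rw [e3] at h3
  rw [e2] at h1 h3
  exact ⟨h1, h3⟩

theorem pow_card_mem_centralizer_of_mem_sup (Q : Subgroup G) [hQn : Q.Normal] (x : G)
    (hx : x ∈ Q ⊔ (Subgroup.centralizer (Q : Set G))) : x ^ Nat.card Q ∈ (Subgroup.centralizer (Q : Set G)) := by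
  have hx' : x ∈ ((Q ⊔ (Subgroup.centralizer (Q : Set G)) : Subgroup G) : Set G) := hx
  rw [Subgroup.mul_normal] at hx'
  obtain ⟨q, hq, c, hc, rfl⟩ := Set.mem_mul.1 hx'
  have h1 : (QuotientGroup.mk' (Subgroup.centralizer (Q : Set G))) ((q * c) ^ Nat.card Q) = 1 := by
    rw [map_pow, map_mul]
    have h2 : (QuotientGroup.mk' (Subgroup.centralizer (Q : Set G))) c = 1 := (QuotientGroup.eq_one_iff c).2 hc
    rw [h2, mul_one, ← map_pow]
    have h3 : q ^ Nat.card Q = 1 := by
      have h4 : (⟨q, hq⟩ : Q) ^ Nat.card Q = 1 := pow_card_eq_one'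
      exact congrArg Subtype.val h4
    rw [h3, map_one]
  exact (QuotientGroup.eq_one_iff _).1 h1

theorem centric_normal_nilpotent [Fact p.Prime] (hpM : IsPModular p M) (B : Set (IrrCharacter G))
    (P : Subgroup G) (e : Set (IrrCharacter (Subgroup.centralizer (P : Set G)))) (hmax : IsMaximalBrauerPair p M B P e)
    (F : FusionSystem P) (hF : IsBlockFusionSystemOn p M B P e F) (Q : Subgroup G)
    (f : Set (IrrCharacter (Subgroup.centralizer (Q : Set G)))) (hQP : Q ≤ P) (hf : IsPBlock M f)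
    (hle : SubpairLE p M Q f P e) (hcen : F.IsCentric Q)
    (hG : ∀ x : G, x ∈ (Subgroup.normalizer (Q : Set G)) ∧ StabilizesBlock (Subgroup.centralizer (Q : Set G)) f x) :
    (∀ g : G, MemLocalIdeal M (blockCoeff B g - subgroupBlockCoeff (Subgroup.centralizer (Q : Set G)) f g)) ∧
      ∃ F' : Set (IrrCharacter ↥(Q ⊔ (Subgroup.centralizer (Q : Set G)))), IsPBlock M F' ∧
        (∀ t : ↥(Q ⊔ (Subgroup.centralizer (Q : Set G))), blockCoeff F' t = subgroupBlockCoeff (Subgroup.centralizer (Q : Set G)) f (t : G)) ∧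
        IsNilpotentBlock p M F' := by
  classical
  have hp : p.Prime := Fact.out
  have hMp := hpM.2.1.isPrime
  have hBe := hmax.1
  have hQ : IsPGroup p Q := hBe.1.1.to_le hQP
  have hQf : IsBrauerPairOf p M B Q f := subpairLE_brauerPairOf hpM B hle hBe
  have hQn : Q.Normal := by
    refine ⟨fun n hn g => ?_⟩
    exact (Subgroup.mem_normalizer_iff.1 (hG g).1 n).1 hn
  have : Fintype (Subgroup.centralizer (Q : Set G)) := Fintype.ofFinite _
  constructor
  · -- the idempotents agree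
    have hT : ∀ x : G, x ∈ (⊤ : Subgroup G) ↔ StabilizesBlock (Subgroup.centralizer (Q : Set G)) f x :=
      fun x => ⟨fun _ => (hG x).2, fun _ => Subgroup.mem_top x⟩
    have hS := (Cfsg.Agent.S4654.result p M hpM Q hQ B f hQf ⊤ hT).2
    have hTst : ∀ g : G, g ∈ (⊤ : Subgroup G) ↔ ∀ θ ∈ f, conjIrr (Subgroup.centralizer (Q : Set G)) g θ ∈ f := by
      intro g
      refine ⟨fun _ θ hθ => ?_, fun _ => Subgroup.mem_top g⟩
      obtain ⟨-, hst⟩ := (hG g⁻¹).2
      obtain ⟨χ', hχ', hconj⟩ := hst θ hθ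
      have h1 : conjIrr (Subgroup.centralizer (Q : Set G)) g θ = χ' := by
        apply Subtype.ext
        funext c
        rw [conjIrr_coe, Helper6.conjFun_apply]
        refine (hconj _ _ ?_).symm
        show (c : G) = g⁻¹ * (g * (c : G) * g⁻¹) * g⁻¹⁻¹
        group
      rw [h1]
      exact hχ'
    intro g
    have h1 : ∀ x : G, subgroupBlockCoeff (Subgroup.centralizer (Q : Set G)) f (x⁻¹ * g * x) = subgroupBlockCoeff (Subgroup.centralizer (Q : Set G)) f g :=
      fun x => subgroupBlockCoeff_conj_stab (Subgroup.centralizer (Q : Set G)) f ⊤ hTst x (Subgroup.mem_top x) g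
    have hcard : (Nat.card (⊤ : Subgroup G) : ℂ) ≠ 0 := by
      have h0 : 0 < Nat.card (⊤ : Subgroup G) := Nat.card_pos
      exact_mod_cast h0.ne'
    have h2 : blockCoeff B g = subgroupBlockCoeff (Subgroup.centralizer (Q : Set G)) f g := by
      rw [hS g, Finset.sum_congr rfl (fun x _ => h1 x), Finset.sum_const, Finset.card_univ,
        ← Nat.card_eq_fintype_card, ← Subgroup.card_top (G := G), nsmul_eq_mul, ← mul_assoc,
        inv_mul_cancel₀ hcard, one_mul]
    rw [h2, sub_self]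
    exact MemLocalIdeal.zero hMp.ne_top
  · -- the block of Q C_G(Q)
    obtain ⟨X, hXdef⟩ : ∃ X : Subgroup G, X = Q ⊔ (Subgroup.centralizer (Q : Set G)) := ⟨_, rfl⟩
    rw [← hXdef]
    have hQX : Q ≤ X := by rw [hXdef]; exact le_sup_left
    have hCX : (Subgroup.centralizer (Q : Set G)) ≤ X := by rw [hXdef]; exact le_sup_right
    have hXN : X ≤ (Subgroup.normalizer (Q : Set G)) := fun x _ => (hG x).1
    have hXs : ∀ x ∈ X, StabilizesBlock (Subgroup.centralizer (Q : Set G)) f x := fun x _ => (hG x).2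
    have : Fintype X := Fintype.ofFinite _
    obtain ⟨F', hF', hF'c, hF'D⟩ := stabX_block2 hpM Q hQ f hf X hQX hCX hXN hXs
    refine ⟨F', hF', hF'c, hF', fun R φ hRφ x hxN hxs hreg => ?_⟩
    obtain ⟨D, hD, hRD, -⟩ := pair_le_defect hpM F' R φ hRφ
    obtain ⟨-, hdef⟩ := hF'D D hD
    have hQ'n : (Q.subgroupOf X).Normal := Subgroup.normal_subgroupOf_of_le_normalizer hXN
    have hQ'D : Q.subgroupOf X ≤ D :=
      normal_pgroup_le_defectGroup hpM (Q.subgroupOf X) hQ.comap_subtype hF' hD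
    -- the order of D
    have hcen' := (centric_iff hpM B P e hmax F hF Q f hQP hle).1 hcen
    have hc1 := card_defectGroup hpM hf _ hcen'
    have hc2 : Nat.card ((Q ⊓ (Subgroup.centralizer (Q : Set G))).subgroupOf (Subgroup.centralizer (Q : Set G))) = Nat.card (Q ⊓ (Subgroup.centralizer (Q : Set G)) : Subgroup G) :=
      Nat.card_congr (Subgroup.subgroupOfEquivOfLe (inf_le_right : Q ⊓ (Subgroup.centralizer (Q : Set G)) ≤ (Subgroup.centralizer (Q : Set G)))).toEquiv
    have hc3 := card_defectGroup hpM hF' D hD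
    have hidx : ((Subgroup.centralizer (Q : Set G)).subgroupOf X).index = (Q ⊓ (Subgroup.centralizer (Q : Set G))).relIndex Q := by
      have h1 : ((Subgroup.centralizer (Q : Set G)).subgroupOf X).index = (Subgroup.centralizer (Q : Set G)).relIndex (Q ⊔ (Subgroup.centralizer (Q : Set G))) := by
        rw [hXdef]
        rfl
      rw [h1, Subgroup.relIndex_sup_right, inf_comm, Subgroup.inf_relIndex_right]
    have hmul : Nat.card (Q ⊓ (Subgroup.centralizer (Q : Set G)) : Subgroup G) * (Q ⊓ (Subgroup.centralizer (Q : Set G))).relIndex Q = Nat.card Q := by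
      have h1 := Subgroup.relIndex_mul_relIndex (⊥ : Subgroup G) (Q ⊓ (Subgroup.centralizer (Q : Set G))) Q bot_le inf_le_left
      rw [Subgroup.relIndex_bot_left, Subgroup.relIndex_bot_left] at h1
      exact h1
    obtain ⟨a, ha⟩ := IsPGroup.iff_card.1 hQ
    have hdvd : (Q ⊓ (Subgroup.centralizer (Q : Set G))).relIndex Q ∣ p ^ a := by
      rw [← ha, ← hmul]
      exact dvd_mul_left _ _
    obtain ⟨j, -, hj⟩ := (Nat.dvd_prime_pow hp).1 hdvd
    have hfac : (((Subgroup.centralizer (Q : Set G)).subgroupOf X).index).factorization p = j := by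
      rw [hidx, hj, hp.factorization_pow, Finsupp.single_eq_same]
    have hcardD : Nat.card D = Nat.card Q := by
      rw [hc3, hdef, hfac, pow_add, ← hc1, hc2, ← hj, hmul]
    have hcardQ' : Nat.card (Q.subgroupOf X) = Nat.card Q :=
      Nat.card_congr (Subgroup.subgroupOfEquivOfLe hQX).toEquiv
    have hDQ : Q.subgroupOf X = D :=
      Subgroup.eq_of_le_of_card_ge hQ'D (by rw [hcardD, hcardQ'])
    -- x centralizes Q
    have hxX : (x : G) ∈ Q ⊔ (Subgroup.centralizer (Q : Set G)) := by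
      rw [← hXdef]
      exact x.2
    have h1 : (x : G) ^ Nat.card Q ∈ (Subgroup.centralizer (Q : Set G)) := pow_card_mem_centralizer_of_mem_sup Q (x : G) hxX
    have h3 : (x : G) ^ orderOf (x : G) ∈ (Subgroup.centralizer (Q : Set G)) := by
      rw [pow_orderOf_eq_one]
      exact Subgroup.one_mem _
    have hreg' : ¬ p ∣ orderOf (x : G) := by
      rw [Subgroup.orderOf_coe]
      exact hreg
    have hcop : Nat.Coprime (Nat.card Q) (orderOf (x : G)) := by
      rw [ha]
      exact Nat.Coprime.pow_left _ ((Nat.Prime.coprime_iff_not_dvd hp).2 hreg')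
    obtain ⟨s, t, hst⟩ := Nat.isCoprime_iff_coprime.2 hcop
    have hx1 : (x : G) = ((x : G) ^ Nat.card Q) ^ s * ((x : G) ^ orderOf (x : G)) ^ t := by
      rw [← zpow_natCast (x : G) (Nat.card Q), ← zpow_natCast (x : G) (orderOf (x : G)),
        ← zpow_mul', ← zpow_mul', ← zpow_add, hst, zpow_one]
    have hxC : (x : G) ∈ (Subgroup.centralizer (Q : Set G)) := by
      rw [hx1]
      exact Subgroup.mul_mem _ (Subgroup.zpow_mem _ h1 s) (Subgroup.zpow_mem _ h3 t)
    rw [Subgroup.mem_centralizer_iff]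
    intro r hr
    have hrD : r ∈ D := hRD hr
    rw [← hDQ] at hrD
    have hrQ : (r : G) ∈ Q := Subgroup.mem_subgroupOf.1 hrD
    have h5 := (Subgroup.mem_centralizer_iff.1 hxC) (r : G) hrQ
    exact Subtype.ext h5

end StabX2

end Cfsg.Agent.Helper25
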