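import Cfsg.Agent.Helper25.Frobenius
import Cfsg.Agent.Helper2.ConjClass

set_option autoImplicit false

namespace Cfsg.Agent.Helper25

open Cfsg Cfsg.Agent.Helper24

/-- The kernel of an irreducible character is closed under multiplication. -/
theorem irr_ker_mul {G : Type*} [Group G] [Finite G] {ψ : G → ℂ} (hψ : IsIrrCharacter G ψ)
    {g h : G} (hg : ψ g = ψ 1) (hh : ψ h = ψ 1) : ψ (g * h) = ψ 1 := by
  classical
  have := Fintype.ofFinite G
  have hchar := isCharacter_of_irr hψ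
  have hd := charDegree_spec hchar
  have h1ne := irr_one_ne_zero hψ
  have key := irr_sum_conj_mul hψ g h
  rw [hg, hh] at key
  have hsum : ∑ y : G, ψ (y * g * y⁻¹ * h) = (Nat.card G : ℂ) * ψ 1 := by
    apply mul_left_cancel₀ h1ne
    rw [key]; ring
  have hre : ∑ y : G, (ψ (y * g * y⁻¹ * h)).re = ∑ _y : G, (charDegree ψ : ℝ) := by
    rw [← Complex.re_sum, hsum, hd, Finset.sum_const, Finset.card_univ, Nat.card_eq_fintype_card]
    simp
  have hle : ∀ y ∈ (Finset.univ : Finset G), (ψ (y * g * y⁻¹ * h)).re ≤ (charDegree ψ : ℝ) := by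
    intro y _
    have h2 := char_norm_le hchar (y * g * y⁻¹ * h)
    rw [hd, Complex.norm_natCast] at h2
    exact (Complex.re_le_norm _).trans h2
  have heq := (Finset.sum_eq_sum_iff_of_le hle).mp hre 1 (Finset.mem_univ _)
  simp only [one_mul, inv_one, mul_one] at heq
  have h3 := char_norm_le hchar (g * h)
  rw [hd, Complex.norm_natCast] at h3
  have him : (ψ (g * h)).im = 0 := by
    have h4 : ‖ψ (g * h)‖ ^ 2 = (ψ (g * h)).re ^ 2 + (ψ (g * h)).im ^ 2 := by
      rw [Complex.sq_norm, Complex.normSq_apply]; ring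
    have h5 : ‖ψ (g * h)‖ ^ 2 ≤ (charDegree ψ : ℝ) ^ 2 := pow_le_pow_left₀ (norm_nonneg _) h3 2
    rw [h4, heq] at h5
    have h6 : (ψ (g * h)).im ^ 2 ≤ 0 := by linarith
    exact pow_eq_zero_iff (two_ne_zero) |>.mp (le_antisymm h6 (sq_nonneg _))
  rw [hd]
  apply Complex.ext
  · rw [heq]; simp
  · rw [him]; simp

/-- The kernel of an irreducible character is closed under inversion. -/
theorem irr_ker_inv {G : Type*} [Group G] [Finite G] {ψ : G → ℂ} (hψ : IsIrrCharacter G ψ)
    {g : G} (hg : ψ g = ψ 1) : ψ g⁻¹ = ψ 1 := by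
  have hchar := isCharacter_of_irr hψ
  rw [char_inv hchar, hg, charDegree_spec hchar, Complex.conj_natCast]

/-- The kernel of an irreducible character, as a subgroup. -/
def irrKer {G : Type*} [Group G] [Finite G] (ψ : G → ℂ) (hψ : IsIrrCharacter G ψ) :
    Subgroup G where
  carrier := {g | ψ g = ψ 1}
  mul_mem' := fun hg hh => irr_ker_mul hψ hg hh
  one_mem' := rfl
  inv_mem' := fun hg => irr_ker_inv hψ hg

theorem mem_irrKer {G : Type*} [Group G] [Finite G] (ψ : G → ℂ) (hψ : IsIrrCharacter G ψ)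
    (g : G) : g ∈ irrKer ψ hψ ↔ ψ g = ψ 1 := Iff.rfl

/-- Gagola's setup: an irreducible character nonzero on exactly two classes. -/
theorem two_class_setup {G : Type*} [Group G] [Finite G] (hG : 2 < Nat.card G)
    (χ : IrrCharacter G)
    (hχ : Nat.card {C : ConjClasses G // ∃ g ∈ C.carrier, (χ : G → ℂ) g ≠ 0} = 2) :
    ∃ c : G, c ≠ 1 ∧ (χ : G → ℂ) c ≠ 0 ∧
      (∀ g : G, (χ : G → ℂ) g ≠ 0 → g = 1 ∨ IsConj g c) ∧
      (χ : G → ℂ) c ≠ (χ : G → ℂ) 1 ∧
      (∀ ψ : IrrCharacter G, ψ ≠ χ → (ψ : G → ℂ) c = (ψ : G → ℂ) 1) ∧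
      (χ : G → ℂ) 1 + (Nat.card {x : G // IsConj x c} : ℂ) * (χ : G → ℂ) c = 0 := by
  classical
  have := Fintype.ofFinite G
  have hχ1 : (χ : G → ℂ) 1 ≠ 0 := irr_one_ne_zero χ.2
  obtain ⟨c, hc1, hχc, hsupp⟩ : ∃ c : G, c ≠ 1 ∧ (χ : G → ℂ) c ≠ 0 ∧
      ∀ g : G, (χ : G → ℂ) g ≠ 0 → g = 1 ∨ IsConj g c := by
    have h1 := (Nat.card_eq_two_iff' (⟨ConjClasses.mk 1, 1, ConjClasses.mem_carrier_mk, hχ1⟩ :
      {C : ConjClasses G // ∃ g ∈ C.carrier, (χ : G → ℂ) g ≠ 0})).mp hχ
    obtain ⟨⟨D, c, hcD, hχc⟩, hDne, hDuniq⟩ := h1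
    have hDc : ConjClasses.mk c = D := ConjClasses.mem_carrier_iff_mk_eq.mp hcD
    refine ⟨c, ?_, hχc, ?_⟩
    · rintro rfl
      apply hDne
      exact Subtype.ext hDc.symm
    · intro g hg
      by_cases hg1 : ConjClasses.mk g = ConjClasses.mk 1
      · left
        exact isConj_one_left.mp (ConjClasses.mk_eq_mk_iff_isConj.mp hg1)
      · right
        have h2 := hDuniq ⟨ConjClasses.mk g, g, ConjClasses.mem_carrier_mk, hg⟩
          (fun h => hg1 (congrArg Subtype.val h))
        have h3 : ConjClasses.mk g = D := congrArg Subtype.val h2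
        rw [← hDc] at h3
        exact ConjClasses.mk_eq_mk_iff_isConj.mp h3
  refine ⟨c, hc1, hχc, hsupp, ?_⟩
  have hχcf : IsClassFunction G (χ : G → ℂ) := Helper2.IsIrrCharacter.isClassFunction χ.2
  have hsplit : ∀ F : G → ℂ, IsClassFunction G F →
      ∑ g : G, (χ : G → ℂ) g * F g = (χ : G → ℂ) 1 * F 1
        + (Nat.card {x : G // IsConj x c} : ℂ) * ((χ : G → ℂ) c * F c) := by
    intro F hF
    have hcf : IsClassFunction G (fun g => (χ : G → ℂ) g * F g) := by
      intro x h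
      show (χ : G → ℂ) (h * x * h⁻¹) * F (h * x * h⁻¹) = (χ : G → ℂ) x * F x
      rw [hχcf x h, hF x h]
    have hpt : ∀ g : G, (χ : G → ℂ) g * F g = (if g = 1 then (χ : G → ℂ) 1 * F 1 else 0)
        + (if IsConj g c then (χ : G → ℂ) g * F g else 0) := by
      intro g
      by_cases hg1 : g = 1
      · subst hg1
        have hnc : ¬ IsConj 1 c := fun h => hc1 (isConj_one_right.mp h)
        rw [if_pos rfl, if_neg hnc, add_zero]
      · by_cases hgc : IsConj g c
        · rw [if_neg hg1, if_pos hgc, zero_add]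
        · have h0 : (χ : G → ℂ) g = 0 := by
            by_contra h0
            rcases hsupp g h0 with h | h
            · exact hg1 h
            · exact hgc h
          rw [if_neg hg1, if_neg hgc, h0, zero_mul, add_zero]
    rw [Finset.sum_congr rfl (fun g _ => hpt g), Finset.sum_add_distrib, Finset.sum_ite_eq',
      if_pos (Finset.mem_univ _)]
    congr 1
    exact Helper2.sum_ite_isConj (fun g => (χ : G → ℂ) g * F g) hcf c
  have hχtriv : (χ : G → ℂ) ≠ fun _ => (1 : ℂ) := by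
    intro htriv
    have hcount := hsplit (fun _ => 1) (fun _ _ => rfl)
    rw [htriv] at hcount
    simp only [mul_one, Finset.sum_const, Finset.card_univ, nsmul_eq_mul] at hcount
    have hcount' : Fintype.card G = 1 + Nat.card {x : G // IsConj x c} := by
      exact_mod_cast hcount
    have hdiv := Helper2.card_conj_mul_card_centralizer c
    rw [Nat.card_eq_fintype_card (α := G), hcount'] at hdiv
    rw [Nat.card_eq_fintype_card (α := G), hcount'] at hG
    have hz : 2 ≤ Nat.card (Subgroup.centralizer ({c} : Set G)) := by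
      by_contra hlt
      have hz1 : Nat.card (Subgroup.centralizer ({c} : Set G)) = 1 := by
        have := Nat.card_pos (α := Subgroup.centralizer ({c} : Set G))
        omega
      rw [hz1] at hdiv
      omega
    have h2 := Nat.mul_le_mul_left (Nat.card {x : G // IsConj x c}) hz
    omega
  have horth : ∀ ψ : IrrCharacter G, ψ ≠ χ → (χ : G → ℂ) 1 * (ψ : G → ℂ) 1
      + (Nat.card {x : G // IsConj x c} : ℂ) * ((χ : G → ℂ) c * (ψ : G → ℂ) c⁻¹) = 0 := by
    intro ψ hψ
    have h1 := irr_orthonormal χ.2 ψ.2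
    rw [if_neg (fun h => hψ (Subtype.ext h).symm)] at h1
    have hn : (Nat.card G : ℂ) ≠ 0 := by exact_mod_cast Nat.card_pos.ne'
    have h2 : ∑ g : G, (χ : G → ℂ) g * (ψ : G → ℂ) g⁻¹ = 0 :=
      (mul_eq_zero.mp h1).resolve_left (inv_ne_zero hn)
    have hF : IsClassFunction G (fun g => (ψ : G → ℂ) g⁻¹) := by
      intro x h
      show (ψ : G → ℂ) (h * x * h⁻¹)⁻¹ = (ψ : G → ℂ) x⁻¹
      have h3 := char_conj_invariant (isCharacter_of_irr ψ.2) x⁻¹ h
      rw [← h3]
      congr 1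
      group
    have h3 := hsplit (fun g => (ψ : G → ℂ) g⁻¹) hF
    rw [h2] at h3
    simp only [inv_one] at h3
    exact h3.symm
  have h0 := horth ⟨fun _ => 1, isIrrCharacter_one⟩
    (fun h => hχtriv (congrArg Subtype.val h).symm)
  simp only [mul_one] at h0
  refine ⟨?_, ?_, h0⟩
  · intro h
    rw [h] at h0
    have h1 : (χ : G → ℂ) 1 * ((1 + Nat.card {x : G // IsConj x c} : ℕ) : ℂ) = 0 := by
      push_cast
      linear_combination h0
    rcases mul_eq_zero.mp h1 with h' | h'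
    · exact hχ1 h'
    · exact absurd h' (Nat.cast_ne_zero.mpr (by omega))
  · intro ψ hψ
    have h1 := horth ψ hψ
    have h2 : (χ : G → ℂ) 1 * ((ψ : G → ℂ) c⁻¹ - (ψ : G → ℂ) 1) = 0 := by
      linear_combination (ψ : G → ℂ) c⁻¹ * h0 - h1
    have h3 : (ψ : G → ℂ) c⁻¹ = (ψ : G → ℂ) 1 :=
      sub_eq_zero.mp ((mul_eq_zero.mp h2).resolve_left hχ1)
    have h4 := irr_ker_inv ψ.2 h3
    rwa [inv_inv] at h4

end Cfsg.Agent.Helper25
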