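import Cfsg.Agent.Helper25.TwoClass

set_option autoImplicit false

namespace Cfsg.Agent.Helper25

open Cfsg Cfsg.Agent.Helper24

/-- Splitting a sum weighted by a character supported on `{1} ∪ class(c)`. -/
theorem two_class_split {G : Type*} [Group G] [Fintype G] (χ : IrrCharacter G) (c : G)
    (hc1 : c ≠ 1) (hsupp : ∀ g : G, (χ : G → ℂ) g ≠ 0 → g = 1 ∨ IsConj g c)
    (F : G → ℂ) (hF : IsClassFunction G F) :
    ∑ g : G, (χ : G → ℂ) g * F g = (χ : G → ℂ) 1 * F 1
      + (Nat.card {x : G // IsConj x c} : ℂ) * ((χ : G → ℂ) c * F c) := by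
  classical
  have hχcf : IsClassFunction G (χ : G → ℂ) := Helper2.IsIrrCharacter.isClassFunction χ.2
  have hcf : IsClassFunction G (fun g => (χ : G → ℂ) g * F g) := by
    intro x h
    show (χ : G → ℂ) (h * x * h⁻¹) * F (h * x * h⁻¹) = (χ : G → ℂ) x * F x
    rw [hχcf x h, hF x h]
  have hpt : ∀ g : G, (χ : G → ℂ) g * F g = (if g = 1 then (χ : G → ℂ) 1 * F 1 else 0)
      + (if IsConj g c then (χ : G → ℂ) g * F g else 0) := by
    intro g
    by_cases hg1 : g = 1
    · subst hg1
      have hnc : ¬ IsConj 1 c := fun h => hc1 (isConj_one_right.mp h)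
      rw [if_pos rfl, if_neg hnc, add_zero]
    · by_cases hgc : IsConj g c
      · rw [if_neg hg1, if_pos hgc, zero_add]
      · have h0 : (χ : G → ℂ) g = 0 := by
          by_contra h0
          rcases hsupp g h0 with h | h
          · exact hg1 h
          · exact hgc h
        rw [if_neg hg1, if_neg hgc, h0, zero_mul, add_zero]
  rw [Finset.sum_congr rfl (fun g _ => hpt g), Finset.sum_add_distrib, Finset.sum_ite_eq',
    if_pos (Finset.mem_univ _)]
  congr 1
  exact Helper2.sum_ite_isConj (fun g => (χ : G → ℂ) g * F g) hcf c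

/-- The degree equation `|G| m = χ(1)² (m + 1)` where `m` is the size of the second class. -/
theorem two_class_norm {G : Type*} [Group G] [Finite G] (χ : IrrCharacter G) (c : G)
    (hc1 : c ≠ 1) (hsupp : ∀ g : G, (χ : G → ℂ) g ≠ 0 → g = 1 ∨ IsConj g c)
    (h0 : (χ : G → ℂ) 1 + (Nat.card {x : G // IsConj x c} : ℂ) * (χ : G → ℂ) c = 0) :
    Nat.card G * Nat.card {x : G // IsConj x c}
      = (charDegree (χ : G → ℂ)) ^ 2 * (Nat.card {x : G // IsConj x c} + 1) := by
  classical
  have := Fintype.ofFinite G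
  have hchar := isCharacter_of_irr χ.2
  have hd := charDegree_spec hchar
  have hF : IsClassFunction G (fun g => (χ : G → ℂ) g⁻¹) := by
    intro x h
    show (χ : G → ℂ) (h * x * h⁻¹)⁻¹ = (χ : G → ℂ) x⁻¹
    have h3 := char_conj_invariant hchar x⁻¹ h
    rw [← h3]
    congr 1
    group
  have hsplit := two_class_split χ c hc1 hsupp (fun g => (χ : G → ℂ) g⁻¹) hF
  have h6 := irr_orthonormal χ.2 χ.2
  rw [if_pos rfl] at h6
  have hne : (Nat.card G : ℂ) ≠ 0 := by exact_mod_cast Nat.card_pos.ne'
  rw [inv_mul_eq_iff_eq_mul₀ hne, mul_one] at h6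
  rw [h6] at hsplit
  simp only [inv_one] at hsplit
  have hmpos : 0 < Nat.card {x : G // IsConj x c} :=
    Nat.card_pos_iff.mpr ⟨⟨⟨c, IsConj.refl c⟩⟩, inferInstance⟩
  have hm0 : (Nat.card {x : G // IsConj x c} : ℂ) ≠ 0 := by exact_mod_cast hmpos.ne'
  rw [hd] at h0 hsplit
  have hX : (χ : G → ℂ) c
      = -(charDegree (χ : G → ℂ) : ℂ) / (Nat.card {x : G // IsConj x c} : ℂ) := by
    rw [eq_div_iff hm0]
    linear_combination h0
  have hXc : (χ : G → ℂ) c⁻¹ = (χ : G → ℂ) c := by
    rw [char_inv hchar, hX]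
    simp only [map_div₀, map_neg, Complex.conj_natCast]
  rw [hXc] at hsplit
  have hC : (Nat.card G : ℂ) * (Nat.card {x : G // IsConj x c} : ℂ)
      = (charDegree (χ : G → ℂ) : ℂ) ^ 2 * ((Nat.card {x : G // IsConj x c} : ℂ) + 1) := by
    linear_combination (Nat.card {x : G // IsConj x c} : ℂ) * hsplit
      + ((Nat.card {x : G // IsConj x c} : ℂ) * (χ : G → ℂ) c
        - (charDegree (χ : G → ℂ) : ℂ)) * h0
  exact_mod_cast hC

/-- `|N| = 1 + m` for the support `N` of a two-class character. -/
theorem two_class_card {G : Type*} [Group G] [Finite G] (χ : IrrCharacter G) (N : Subgroup G)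
    (hN : ∀ g : G, g ∈ N ↔ (χ : G → ℂ) g ≠ 0) (c : G) (hc1 : c ≠ 1)
    (hχc : (χ : G → ℂ) c ≠ 0)
    (hsupp : ∀ g : G, (χ : G → ℂ) g ≠ 0 → g = 1 ∨ IsConj g c) :
    Nat.card N = 1 + Nat.card {x : G // IsConj x c} := by
  have h1 : (N : Set G) = {1} ∪ {x | IsConj x c} := by
    ext g
    simp only [SetLike.mem_coe, Set.mem_union, Set.mem_singleton_iff, Set.mem_ofPred_eq]
    constructor
    · intro hg
      exact hsupp g ((hN g).mp hg)
    · rintro (h | h)
      · rw [h]
        exact N.one_mem
      · rw [hN, Helper2.IsClassFunction.apply_eq_of_isConj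
          (Helper2.IsIrrCharacter.isClassFunction χ.2) h]
        exact hχc
  have h2 : Disjoint ({1} : Set G) {x | IsConj x c} := by
    rw [Set.disjoint_singleton_left]
    intro h
    exact hc1 (isConj_one_right.mp h)
  calc Nat.card N = (N : Set G).ncard := (Nat.card_coe_set_eq _)
    _ = ({1} ∪ {x | IsConj x c} : Set G).ncard := by rw [h1]
    _ = 1 + {x : G | IsConj x c}.ncard := by
        rw [Set.ncard_union_eq h2 (Set.toFinite _) (Set.toFinite _), Set.ncard_singleton]
    _ = 1 + Nat.card {x : G // IsConj x c} := by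
        rw [← Nat.card_coe_set_eq]
        rfl

/-- The arithmetic behind "centralizers are Sylow". -/
theorem gagola_arith (p : ℕ) (hp : p.Prime) (n m z d j : ℕ) (hA : m * z = n)
    (hB : n * m = d ^ 2 * (m + 1)) (hC : m + 1 = p ^ j) (hm : 0 < m) (hn : 0 < n)
    (hD : ∀ q : ℕ, q.Prime → q ≠ p → q ^ (n.factorization q) ∣ d) :
    z = p ^ (n.factorization p) := by
  have hz0 : z ≠ 0 := by
    rintro rfl
    rw [mul_zero] at hA
    omega
  have hm0 : m ≠ 0 := hm.ne'
  have hd0 : d ≠ 0 := by
    rintro rfl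
    have h1 : 0 < n * m := Nat.mul_pos hn hm
    rw [hB] at h1
    simp at h1
  have hj : j ≠ 0 := by
    rintro rfl
    rw [pow_zero] at hC
    omega
  have hpm : ¬ p ∣ m := by
    intro h
    have h1 : p ∣ m + 1 := by
      rw [hC]
      exact dvd_pow_self p hj
    have h2 := (Nat.dvd_add_right h).mp h1
    exact hp.one_lt.ne' (Nat.dvd_one.mp h2)
  have hE : d ^ 2 * (m + 1) = m ^ 2 * z := by
    rw [← hB, ← hA]
    ring
  apply Nat.eq_of_factorization_eq hz0 (pow_ne_zero _ hp.ne_zero)
  intro q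
  rw [hp.factorization_pow, Finsupp.single_apply]
  have hfA : n.factorization q = m.factorization q + z.factorization q := by
    rw [← hA, Nat.factorization_mul hm0 hz0]
    rfl
  by_cases hq : q.Prime
  · by_cases hqp : p = q
    · subst hqp
      rw [if_pos rfl, hfA, Nat.factorization_eq_zero_of_not_dvd hpm, zero_add]
    · rw [if_neg hqp]
      have hfE := congrArg (fun t => t.factorization q) hE
      simp only [Nat.factorization_mul (pow_ne_zero 2 hd0) (Nat.succ_ne_zero m),
        Nat.factorization_mul (pow_ne_zero 2 hm0) hz0, Nat.factorization_pow,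
        Finsupp.add_apply, Finsupp.smul_apply, smul_eq_mul] at hfE
      have h1 : (m + 1).factorization q = 0 := by
        rw [hC, hp.factorization_pow, Finsupp.single_apply, if_neg hqp]
      have hD' := (hq.pow_dvd_iff_le_factorization hd0).mp (hD q hq (Ne.symm hqp))
      omega
  · rw [Nat.factorization_eq_zero_of_not_prime _ hq]
    split_ifs with h
    · exact absurd (h ▸ hp) hq
    · rfl

/-- Composing an irreducible representation with a surjective homomorphism keeps it
irreducible. -/
theorem isIrreducible_comp_surjective {G H V : Type*} [Group G] [Group H] [AddCommGroup V]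
    [Module ℂ V] (ρ : Representation ℂ G V) [hρ : ρ.IsIrreducible] (φ : H →* G)
    (hφ : Function.Surjective φ) : Representation.IsIrreducible (ρ.comp φ) := by
  have hnt : Nontrivial (Subrepresentation ρ) := hρ.toNontrivial
  refine { exists_pair_ne := ⟨⊥, ⊤, ?_⟩, eq_bot_or_eq_top := ?_ }
  · intro h
    have h2 : (⊥ : Submodule ℂ V) = ⊤ := congrArg Subrepresentation.toSubmodule h
    have h3 : (⊥ : Subrepresentation ρ) = ⊤ := Subrepresentation.toSubmodule_injective h2
    exact bot_ne_top h3
  · intro τ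
    rcases hρ.eq_bot_or_eq_top
      ({ toSubmodule := τ.toSubmodule
         apply_mem_toSubmodule := fun g v hv => by
          obtain ⟨h, rfl⟩ := hφ g
          exact τ.apply_mem_toSubmodule h hv } : Subrepresentation ρ) with h | h
    · left
      apply Subrepresentation.toSubmodule_injective
      have h' := congrArg Subrepresentation.toSubmodule h
      exact h'
    · right
      apply Subrepresentation.toSubmodule_injective
      have h' := congrArg Subrepresentation.toSubmodule h
      exact h'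

/-- Twisting an irreducible character by an automorphism gives an irreducible character. -/
theorem irr_comp_equiv {N : Type*} [Group N] {μ : N → ℂ} (hμ : IsIrrCharacter N μ)
    (φ : N ≃* N) : IsIrrCharacter N (fun n => μ (φ n)) := by
  obtain ⟨k, ρ, hirr, rfl⟩ := hμ
  have := hirr
  exact ⟨k, ρ.comp φ.toMonoidHom, isIrreducible_comp_surjective ρ _ φ.surjective, rfl⟩

/-- A non-principal irreducible character sums to zero. -/
theorem irr_sum_eq_zero_of_ne_one {N : Type*} [Group N] [Fintype N] {μ : N → ℂ}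
    (hμ : IsIrrCharacter N μ) (hμ1 : μ ≠ fun _ => (1 : ℂ)) : ∑ n : N, μ n = 0 := by
  have h1 := irr_orthonormal hμ (isIrrCharacter_one (G := N))
  rw [if_neg hμ1] at h1
  have hn : (Nat.card N : ℂ) ≠ 0 := by exact_mod_cast Nat.card_pos.ne'
  have h2 := (mul_eq_zero.mp h1).resolve_left (inv_ne_zero hn)
  simpa using h2

/-- Irreducible characters of a commutative group are linear. -/
theorem irr_one_eq_one_of_comm {N : Type*} [Group N] [IsMulCommutative N] {μ : N → ℂ}
    (hμ : IsIrrCharacter N μ) : μ 1 = 1 := by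
  obtain ⟨k, ρ, hirr, rfl⟩ := hμ
  have := hirr
  have h1 := Representation.IsIrreducible.finrank_eq_one_of_isMulCommutative ρ
  rw [Representation.char_one, h1]
  simp

/-- If `G` is transitive on the non-identity elements of the normal subgroup `N`, the inertia
group of a non-principal linear character of `N` has index `|N| - 1`. -/
theorem inertia_card {G : Type*} [Group G] [Finite G] (N : Subgroup G) [N.Normal] (μ : N → ℂ)
    (hμ : IsIrrCharacter N μ) (hμ1 : μ ≠ fun _ => (1 : ℂ)) (hlin : μ 1 = 1) (c : N)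
    (htrans : ∀ n : N, n ≠ 1 → ∃ t : G, n = MulAut.conjNormal t c) :
    Nat.card {g : G // ∀ n : N, μ (MulAut.conjNormal g n) = μ n} * (Nat.card N - 1)
      = Nat.card G := by
  classical
  have := Fintype.ofFinite G
  have := Fintype.ofFinite N
  have hane : (Nat.card N : ℂ) ≠ 0 := by exact_mod_cast Nat.card_pos.ne'
  have hsum0 : ∑ n : N, μ n = 0 := irr_sum_eq_zero_of_ne_one hμ hμ1
  have hsum0' : ∑ n : N, μ n⁻¹ = 0 := by
    rw [← hsum0]
    exact Fintype.sum_equiv (Equiv.inv N) _ _ (fun n => rfl)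
  obtain ⟨Φ, hΦ⟩ : ∃ Φ : N → ℂ, ∀ n, Φ n = ∑ g : G, μ (MulAut.conjNormal g⁻¹ n) :=
    ⟨_, fun _ => rfl⟩
  have hΦ1 : Φ 1 = (Nat.card G : ℂ) := by
    rw [hΦ]
    simp only [map_one, hlin, Finset.sum_const, Finset.card_univ, nsmul_eq_mul, mul_one,
      Nat.card_eq_fintype_card]
  have hΦconj : ∀ (h : G) (n : N), Φ (MulAut.conjNormal h n) = Φ n := by
    intro h n
    rw [hΦ, hΦ]
    apply Fintype.sum_equiv (Equiv.mulLeft h⁻¹)
    intro g
    congr 1
    apply Subtype.ext
    simp only [MulAut.conjNormal_apply, Equiv.coe_mulLeft]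
    group
  have hΦc : ∀ n : N, n ≠ 1 → Φ n = Φ c := by
    intro n hn
    obtain ⟨t, ht⟩ := htrans n hn
    rw [ht, hΦconj]
  have hΦsum : ∑ n : N, Φ n = 0 := by
    simp only [hΦ]
    rw [Finset.sum_comm]
    apply Finset.sum_eq_zero
    intro g _
    rw [← hsum0]
    exact Fintype.sum_equiv (MulAut.conjNormal g⁻¹ : N ≃* N).toEquiv _ _ (fun n => rfl)
  have hΦpt : ∀ n : N, Φ n = Φ c + (if n = 1 then Φ 1 - Φ c else 0) := by
    intro n
    by_cases hn : n = 1
    · rw [if_pos hn, hn]
      ring
    · rw [if_neg hn, hΦc n hn, add_zero]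
  have h1 : ((Nat.card N : ℂ) - 1) * Φ c = -(Nat.card G : ℂ) := by
    have h2 := hΦsum
    rw [Finset.sum_congr rfl (fun n _ => hΦpt n), Finset.sum_add_distrib, Finset.sum_const,
      Finset.card_univ, Finset.sum_ite_eq', if_pos (Finset.mem_univ _), hΦ1, nsmul_eq_mul,
      ← Nat.card_eq_fintype_card] at h2
    linear_combination h2
  have h3 : ∑ n : N, μ n⁻¹ * Φ n = (Nat.card G : ℂ) - Φ c := by
    have hpt : ∀ n : N, μ n⁻¹ * Φ n
        = Φ c * μ n⁻¹ + (if n = 1 then (Nat.card G : ℂ) - Φ c else 0) := by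
      intro n
      by_cases hn : n = 1
      · rw [if_pos hn, hn, inv_one, hlin, hΦ1]
        ring
      · rw [if_neg hn, hΦc n hn]
        ring
    rw [Finset.sum_congr rfl (fun n _ => hpt n), Finset.sum_add_distrib, ← Finset.mul_sum,
      hsum0', Finset.sum_ite_eq', if_pos (Finset.mem_univ _)]
    ring
  have hcancel : ∀ (g : G) (n : N), MulAut.conjNormal g (MulAut.conjNormal g⁻¹ n) = n := by
    intro g n
    apply Subtype.ext
    simp only [MulAut.conjNormal_apply]
    group
  have hcancel' : ∀ (g : G) (n : N), MulAut.conjNormal g⁻¹ (MulAut.conjNormal g n) = n := by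
    intro g n
    apply Subtype.ext
    simp only [MulAut.conjNormal_apply]
    group
  have horth : ∀ g : G, ∑ n : N, μ (MulAut.conjNormal g⁻¹ n) * μ n⁻¹
      = if (∀ n : N, μ (MulAut.conjNormal g n) = μ n) then (Nat.card N : ℂ) else 0 := by
    intro g
    have hirr : IsIrrCharacter N (fun n => μ (MulAut.conjNormal g⁻¹ n)) :=
      irr_comp_equiv hμ (MulAut.conjNormal g⁻¹)
    have h4 := irr_orthonormal hirr hμ
    rw [inv_mul_eq_iff_eq_mul₀ hane] at h4
    rw [h4]
    by_cases hI : ∀ n : N, μ (MulAut.conjNormal g n) = μ n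
    · rw [if_pos hI, if_pos, mul_one]
      funext n
      have h5 := hI (MulAut.conjNormal g⁻¹ n)
      rw [hcancel] at h5
      exact h5.symm
    · rw [if_neg hI, if_neg, mul_zero]
      intro heq
      apply hI
      intro n
      have h5 := congrFun heq (MulAut.conjNormal g n)
      simp only [hcancel'] at h5
      exact h5.symm
  have h5 : ∑ g : G, ∑ n : N, μ (MulAut.conjNormal g⁻¹ n) * μ n⁻¹ = ∑ n : N, μ n⁻¹ * Φ n := by
    rw [Finset.sum_comm]
    refine Finset.sum_congr rfl fun n _ => ?_
    rw [hΦ, Finset.mul_sum]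
    exact Finset.sum_congr rfl fun g _ => mul_comm _ _
  rw [Finset.sum_congr rfl (fun g _ => horth g), ← Finset.sum_filter, Finset.sum_const,
    nsmul_eq_mul, h3] at h5
  have hcf : (Nat.card {g : G // ∀ n : N, μ (MulAut.conjNormal g n) = μ n} : ℂ)
      = ((Finset.univ.filter (fun g : G => ∀ n : N, μ (MulAut.conjNormal g n) = μ n)).card : ℂ) := by
    rw [Nat.card_eq_fintype_card, Fintype.card_subtype]
  have hNpos : 1 ≤ Nat.card N := Nat.card_pos
  have hfin : (Nat.card N : ℂ)
      * ((Nat.card {g : G // ∀ n : N, μ (MulAut.conjNormal g n) = μ n} : ℂ)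
          * ((Nat.card N : ℂ) - 1)) = (Nat.card N : ℂ) * (Nat.card G : ℂ) := by
    rw [hcf]
    linear_combination ((Nat.card N : ℂ) - 1) * h5 - h1
  have hfin2 := mul_left_cancel₀ hane hfin
  have hfin3 : ((Nat.card {g : G // ∀ n : N, μ (MulAut.conjNormal g n) = μ n}
      * (Nat.card N - 1) : ℕ) : ℂ) = ((Nat.card G : ℕ) : ℂ) := by
    rw [Nat.cast_mul, Nat.cast_sub hNpos, Nat.cast_one]
    exact hfin2
  exact_mod_cast hfin3

end Cfsg.Agent.Helper25
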